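import Cfsg.Agent.MinDeg.SUFinish
import Cfsg.Agent.Weights.SL
import Cfsg.Agent.Weights.Sp

/-!
The minimal degree of `SU_(2m+r)(q)`, `r ≤ 1`.
-/

namespace Cfsg.Agent.MinDeg.SUni

open Matrix Cfsg.Agent.Weights Cfsg.Agent.Classical.U

variable {F : Type*} [Field F] {k r : ℕ} {φ : F →+* F}

theorem leviOK_of_SL (g : SpecialLinearGroup (Fin k) F) : LeviOK φ r g.1 := by
  refine ⟨(g⁻¹).1, 1, WordLaws.coe_mul_coe_inv g, ?_, ?_⟩
  · rw [Matrix.transpose_one, Matrix.map_one φ φ.map_zero φ.map_one, Matrix.one_mul]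
  · rw [g.2, (g⁻¹).2, map_one, det_one, one_mul, one_mul]

theorem leviOK_scalar (hφ2 : ∀ x, φ (φ x) = x) {c : F} (hc : c ≠ 0) :
    LeviOK (m := 1) φ 1 (c • 1) := by
  have h : φ c ≠ 0 := (map_ne_zero φ).2 hc
  refine ⟨c⁻¹ • 1, (φ c / c) • 1, ?_, ?_, ?_⟩
  · rw [Matrix.smul_mul, Matrix.one_mul, smul_smul, mul_inv_cancel₀ hc, one_smul]
  · ext i j
    obtain rfl : i = 0 := Subsingleton.elim _ _
    obtain rfl : j = 0 := Subsingleton.elim _ _
    simp [Matrix.mul_apply, map_div₀, hφ2]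
    field_simp
  · simp [Matrix.det_unique, map_inv₀]
    field_simp

variable [Fintype F] {m n q : ℕ}

theorem su_min_degree (hr : r = 1 ∨ r = 0 ∧ 2 ≤ m) (hr1 : 1 ≤ m) (hn : m + m + r = n)
    (hex : ¬ (n = 3 ∧ q = 2)) (hF : Fintype.card F = q ^ 2) {V : Type*} [AddCommGroup V]
    [Module ℂ V] [FiniteDimensional ℂ V] (R : Cfsg.SU n F q →* Module.End ℂ V)
    (hR : ∃ g, R g ≠ 1) : (q ^ (2 * m) - 1) * q ^ r ≤ Module.finrank ℂ V * (q + 1) := by
  classical
  have hq := sqField_of_fintype hF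
  obtain ⟨p, j, hp, hc, hj⟩ := hq.exists_char
  have : Fact p.Prime := ⟨hp⟩
  let φ : F →+* F := iterateFrobenius F p j
  have hφ : ∀ x, φ x = x ^ q := fun x => by rw [hj]; exact iterateFrobenius_def p j x
  have hφ2 : ∀ x, φ (φ x) = x := fun x => by rw [hφ, hφ, hq.pow_pow]
  obtain ⟨z, hz⟩ := hq.exists_norm (c := (-1 : F)) (by rw [hq.neg_pow, one_pow])
  obtain ⟨t, ht⟩ := hq.exists_trace (c := (-1 : F)) (by rw [hq.neg_pow, one_pow])
  rw [pow_succ', ← hφ] at hz
  rw [← hφ] at ht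
  obtain ⟨D⟩ := nonempty_model (m := m) (r := r) (q := q) hφ2 hφ hz ht hn
  obtain ⟨k, rfl⟩ : ∃ k, m = k + 1 := ⟨m - 1, by omega⟩
  obtain ⟨M₀, hM₀⟩ : ∃ M, R (D.siegel (D.phi_phi hF) M) ≠ 1 := by
    by_contra! hall
    obtain ⟨g, hg⟩ := hR
    exact hg (su_trivial D (by omega) (by omega) hex hF R hall g)
  refine su_weights D hF (fun x hx => ?_) (fun s => ?_) R M₀ hM₀ (q ^ r) (fun Φ x s hΦ hs => ?_)
  · by_cases hk : 1 ≤ k
    · obtain ⟨g, hg⟩ := exists_sl_apply_single (F := F) (show 2 ≤ k + 1 by omega) x hx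
      change g.1 *ᵥ Pi.single 0 1 = x at hg
      refine ⟨(g⁻¹).1, leviOK_of_SL _, ?_⟩
      rw [← hg, Matrix.mulVec_mulVec, WordLaws.coe_inv_mul_coe, Matrix.one_mulVec]
    · obtain rfl : k = 0 := by omega
      obtain rfl : r = 1 := by omega
      have hx0 : x 0 ≠ 0 := fun h => hx (funext fun i => by rw [Fin.fin_one_eq_zero i, h]; rfl)
      refine ⟨(x 0)⁻¹ • 1, leviOK_scalar hφ2 (inv_ne_zero hx0), funext fun i => ?_⟩
      rw [Fin.fin_one_eq_zero i, Matrix.smul_mulVec, Matrix.one_mulVec]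
      simp [hx0]
  · by_cases hk : 1 ≤ k
    · refine ⟨fun j => spScale hk s j.succ, fun j => spScale_ne_zero hk s _,
        fun w => ⟨(spShift hk s w).1, leviOK_of_SL _, ?_, fun j => ?_⟩⟩
      · ext i
        rw [spShift_mulVec]
        rcases eq_or_ne i 0 with rfl | hi
        · simp [spScale]
        · simp [hi]
      · ext i
        rw [spShift_mulVec]
        rcases eq_or_ne i 0 with rfl | hi
        · simp [(Fin.succ_ne_zero j).symm, mul_comm]
        · simp [hi, Pi.single_apply, mul_comm]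
    · obtain rfl : k = 0 := by omega
      obtain rfl : r = 1 := by omega
      refine ⟨fun j => 1, fun j => one_ne_zero, fun w => ⟨(s : F) • 1, leviOK_scalar hφ2 s.ne_zero,
        by rw [Matrix.smul_mulVec, Matrix.one_mulVec], fun j => j.elim0⟩⟩
  · rcases hr with rfl | ⟨rfl, -⟩
    · rw [pow_one]
      exact su_weightSpace_ge D hF R Φ x s hΦ hs
    · rw [pow_zero]
      obtain ⟨v, hv⟩ := hΦ
      exact Submodule.one_le_finrank_iff.2 ((Submodule.ne_bot_iff _).2
        ⟨v, mem_weightSpace.2 hv.2, hv.1⟩)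

/-- an irreducible representation of degree at least two is non-trivial -/
theorem exists_ne_one_of_irreducible {G : Type*} [Monoid G] {K : Type*} [Field K] {d : ℕ}
    (ρ : Representation K G (Fin d → K)) (hρ : ρ.IsIrreducible) (hd : 2 ≤ d) : ∃ g, ρ g ≠ 1 := by
  by_contra! htriv
  let x₀ : Fin d → K := Pi.single ⟨0, by omega⟩ 1
  let W : Subrepresentation ρ :=
    { toSubmodule := Submodule.span K {x₀}
      apply_mem_toSubmodule := fun g v hv => by rwa [htriv, Module.End.one_apply] }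
  rcases hρ.eq_bot_or_eq_top W with hW | hW
  · have : x₀ ∈ (⊥ : Submodule K (Fin d → K)) := by
      have h1 : Submodule.span K {x₀} = ⊥ := congrArg Subrepresentation.toSubmodule hW
      rw [← h1]
      exact Submodule.mem_span_singleton_self x₀
    simp [x₀] at this
  · have h1 : Submodule.span K {x₀} = ⊤ := congrArg Subrepresentation.toSubmodule hW
    have := finrank_span_singleton (K := K) (show x₀ ≠ 0 by simp [x₀])
    rw [h1, finrank_top, Module.finrank_fin_fun] at this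
    omega

end Cfsg.Agent.MinDeg.SUni
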