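import Cfsg.Agent.MinDeg.OrthLine
import Cfsg.Agent.MinDeg.SUMin

/-!
The degree bound for `Ω` from the weights of the centre of the Siegel radical, the case of equality,
and the passage from the matrix groups.
-/

set_option autoImplicit false
set_option linter.unusedSectionVars false

namespace Cfsg.Agent.MinDeg.Orth

open QuadraticMap Cfsg.Agent.Classical Matrix Cfsg.Agent.Weights Module

universe u w v

variable {F : Type u} [Field F] [Fintype F] {n : ℕ} {W : Type w} [AddCommGroup W] [Module F W]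
  [FiniteDimensional F W] {Q₀ : QuadraticForm F W}
  {V : Type v} [AddCommGroup V] [Module ℂ V] [FiniteDimensional ℂ V]
  (R : Om Q₀ n →* Module.End ℂ V)

theorem finrank_sum_le {ψ : AddChar F ℂ} (hψ : ψ.IsPrimitive) :
    finrank ℂ (fixZ R) + ∑ B ∈ wedges F n, finrank ℂ (ws R ψ B) ≤ finrank ℂ V := by
  classical
  rw [← ws_zero R (ψ := ψ), ← Finset.sum_insert (f := fun B => finrank ℂ (ws R ψ B)) zero_not_mem_wedges]
  exact sum_ws_le R hψ _

variable (hn : 3 ≤ n) (hB : BNondeg Q₀)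
include hn hB

theorem exists_zE_ne (hnt : ∃ g, R g ≠ 1) : ∃ M, R (zE Q₀ M) ≠ 1 := by
  by_contra! h
  obtain ⟨g, hg⟩ := hnt
  exact hg (eq_one_of_zE Q₀ hB hn R h g)

theorem card_W_mul_le {ψ : AddChar F ℂ} (hψ : ψ.IsPrimitive) (hs : Small R)
    (hq : 4 ≤ Fintype.card F) (hnt : ∃ g, R g ≠ 1) :
    Nat.card W * (wedges F n).card ≤ ∑ B ∈ wedges F n, finrank ℂ (ws R ψ B) := by
  rw [mul_comm, ← smul_eq_mul, ← Finset.sum_const]
  refine Finset.sum_le_sum fun B hB' => ?_
  obtain ⟨a, b, h, rfl⟩ := mem_wedges.1 hB'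
  exact card_W_le_ws_wedge R hn hB hψ hs (fun _ => hq) (exists_zE_ne R hn hB hnt) h

/-- the degree bound -/
theorem degree_ge (hq : 4 ≤ Fintype.card F) (hex : (n, Fintype.card F) ≠ (3, 4))
    (hnt : ∃ g, R g ≠ 1) :
    Nat.card W * (wedges F n).card + geo (Fintype.card F) n ≤ finrank ℂ V + 1 := by
  by_contra h
  rw [not_le] at h
  have hs : Small R := by unfold Small; omega
  obtain ⟨ψ, hψ⟩ := SLMin.exists_primitive F
  have h1 := geo_le_fixZ_of_small R hn hB hψ hs hq hex hnt
  have h2 := card_W_mul_le R hn hB hψ hs hq hnt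
  have h3 := finrank_sum_le R hψ
  omega

/-- equality in the bound -/
theorem tight (hq : 4 ≤ Fintype.card F) (hex : (n, Fintype.card F) ≠ (3, 4))
    (hnt : ∃ g, R g ≠ 1) {ψ : AddChar F ℂ} (hψ : ψ.IsPrimitive)
    (heq : finrank ℂ V + 1 = Nat.card W * (wedges F n).card + geo (Fintype.card F) n) :
    Small R ∧ finrank ℂ (fixZ R) + 1 = geo (Fintype.card F) n ∧
      (∀ B ∈ wedges F n, finrank ℂ (ws R ψ B) = Nat.card W) ∧
      finrank ℂ (fixZ R) + ∑ B ∈ wedges F n, finrank ℂ (ws R ψ B) = finrank ℂ V := by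
  have hs : Small R := by unfold Small; omega
  have h1 := geo_le_fixZ_of_small R hn hB hψ hs hq hex hnt
  have h2 := card_W_mul_le R hn hB hψ hs hq hnt
  have h3 := finrank_sum_le R hψ
  refine ⟨hs, by omega, fun B hB' => le_antisymm ?_ ?_, by omega⟩
  · by_contra hlt
    rw [not_le] at hlt
    have h4 : ∑ _B ∈ wedges F n, Nat.card W < ∑ B ∈ wedges F n, finrank ℂ (ws R ψ B) :=
      Finset.sum_lt_sum (fun C hC => by
        obtain ⟨a, b, h, rfl⟩ := mem_wedges.1 hC
        exact card_W_le_ws_wedge R hn hB hψ hs (fun _ => hq) (exists_zE_ne R hn hB hnt) h)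
        ⟨B, hB', hlt⟩
    rw [Finset.sum_const, smul_eq_mul, mul_comm] at h4
    omega
  · obtain ⟨a, b, h, rfl⟩ := mem_wedges.1 hB'
    exact card_W_le_ws_wedge R hn hB hψ hs (fun _ => hq) (exists_zE_ne R hn hB hnt) h

omit hn hB

/-- irreducibility passes along an isomorphism -/
theorem isIrreducible_comp_equiv {G H : Type*} [Monoid G] [Monoid H] {X : Type*} [AddCommGroup X]
    [Module ℂ X] (ρ : Representation ℂ G X) (hρ : ρ.IsIrreducible) (e : H ≃* G) :
    Representation.IsIrreducible (ρ.comp e.toMonoidHom : Representation ℂ H X) := by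
  let σ : Representation ℂ H X := ρ.comp e.toMonoidHom
  let f : Subrepresentation σ ≃o Subrepresentation ρ :=
    { toFun := fun S => ⟨S.toSubmodule, fun g v hv => by
        have := S.apply_mem_toSubmodule (e.symm g) hv
        simpa [σ] using this⟩
      invFun := fun S => ⟨S.toSubmodule, fun g v hv => S.apply_mem_toSubmodule (e g) hv⟩
      left_inv := fun S => rfl
      right_inv := fun S => rfl
      map_rel_iff' := Iff.rfl }
  exact f.isSimpleOrder_iff.mpr hρ

/-- a representation of the matrix group gives one of the model group -/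
theorem exists_rep {ι : Type} [Fintype ι] [DecidableEq ι] (f : (ι → F) → F)
    (Qf : QuadraticForm F (ι → F)) (hQf : ∀ v, Qf v = f v) (e : (ι → F) ≃ₗ[F] HypSpace F n W)
    (he : ∀ v, hypExt n Q₀ (e v) = Qf v) (hn : 3 ≤ n) (hB : BNondeg Q₀)
    {k : ℕ} (ρ : Representation ℂ (Cfsg.Omega F f) (Fin k → ℂ)) (hρ : ρ.IsIrreducible)
    (hk : 2 ≤ k) :
    ∃ σ : Representation ℂ (Om Q₀ n) (Fin k → ℂ), Representation.IsIrreducible σ ∧ ∃ g, σ g ≠ 1 := by
  let Φ := (isometryGroupEquiv f Qf hQf).trans (OQCongr e he)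
  have hmap : (Cfsg.Omega F f).map Φ.toMonoidHom = Om Q₀ n := by
    rw [← commutator_eq Q₀ hB (by omega)]
    exact map_commutator_top_of_equiv Φ
  let E : Cfsg.Omega F f ≃* Om Q₀ n := (Φ.subgroupMap _).trans (MulEquiv.subgroupCongr hmap)
  refine ⟨ρ.comp E.symm.toMonoidHom, isIrreducible_comp_equiv ρ hρ E.symm, ?_⟩
  exact SUni.exists_ne_one_of_irreducible _ (isIrreducible_comp_equiv ρ hρ E.symm) hk

end Cfsg.Agent.MinDeg.Orth
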