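import Cfsg.Agent.MinDeg.SLLevel

/-!
Alternating matrices as characters of the additive group of matrices: the forms of rank two
(wedges of pairs, with the sizes of the fibres) and a lower bound on the number of forms congruent
to one of rank at least four.
-/

set_option autoImplicit false
set_option linter.unusedSectionVars false

namespace Cfsg.Agent.MinDeg.Orth

open Matrix

universe u

variable {F : Type u} [Field F] {n : ℕ}

/-- zero diagonal, antisymmetric -/
structure IsAlt (B : Matrix (Fin n) (Fin n) F) : Prop where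
  diag : ∀ l, B l l = 0
  anti : ∀ l m, B l m = -B m l

/-- the wedge of two vectors -/
def wedge (a b : Fin n → F) : Matrix (Fin n) (Fin n) F :=
  Matrix.of fun i j => a i * b j - a j * b i

@[simp] theorem wedge_apply (a b : Fin n → F) (i j : Fin n) :
    wedge a b i j = a i * b j - a j * b i := rfl

theorem wedge_isAlt (a b : Fin n → F) : IsAlt (wedge a b) :=
  ⟨fun l => sub_self _, fun l m => by simp only [wedge_apply]; ring⟩

theorem wedge_combo (u v : Fin n → F) (α β γ δ : F) :
    wedge (α • u + β • v) (γ • u + δ • v) = (α * δ - β * γ) • wedge u v := by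
  ext i j
  simp only [wedge_apply, Pi.add_apply, Pi.smul_apply, smul_eq_mul, Matrix.smul_apply]
  ring

theorem bform_apply (B : Matrix (Fin n) (Fin n) F) (H : Matrix (Fin n) (Fin n) F) (l m : Fin n) :
    (Hᵀ * B * H) l m = (fun i => H i l) ⬝ᵥ (B *ᵥ fun i => H i m) := by
  rw [Matrix.mul_assoc, Matrix.mul_apply]
  rfl

theorem IsAlt.congr {B : Matrix (Fin n) (Fin n) F} (hB : IsAlt B) (H : Matrix (Fin n) (Fin n) F) :
    IsAlt (Hᵀ * B * H) := by
  have hT : Bᵀ = -B := by ext l m; exact hB.anti m l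
  have key : ∀ v : Fin n → F, v ⬝ᵥ (B *ᵥ v) = 0 := by
    intro v
    simp only [dotProduct, Matrix.mulVec, Finset.mul_sum]
    rw [← Finset.sum_product']
    refine Finset.sum_involution (fun x _ => (x.2, x.1)) ?_ ?_ (fun _ _ => by simp) (fun _ _ => by simp)
    · rintro ⟨x, y⟩ -
      dsimp only
      rw [hB.anti y x]; ring
    · rintro ⟨x, y⟩ - hne he
      simp only [Prod.mk.injEq] at he
      apply hne
      rw [he.1, hB.diag]
      ring
  refine ⟨fun l => ?_, fun l m => ?_⟩
  · rw [bform_apply]; exact key _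
  · have h := congrFun (congrFun (show (Hᵀ * B * H)ᵀ = -(Hᵀ * B * H) by
      rw [Matrix.transpose_mul, Matrix.transpose_mul, Matrix.transpose_transpose, hT,
        Matrix.neg_mul, Matrix.mul_neg, Matrix.mul_assoc]) m) l
    simpa using h

theorem congr_wedge (H : Matrix (Fin n) (Fin n) F) (a b : Fin n → F) :
    Hᵀ * wedge a b * H = wedge (Hᵀ *ᵥ a) (Hᵀ *ᵥ b) := by
  have e : ∀ a b : Fin n → F, wedge a b = vecMulVec a b - vecMulVec b a := fun a b => by
    ext i j
    simp [vecMulVec_apply, mul_comm]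
  rw [e, e, Matrix.mul_sub, Matrix.sub_mul, Matrix.mul_vecMulVec, Matrix.mul_vecMulVec,
    Matrix.vecMulVec_mul, Matrix.vecMulVec_mul, ← Matrix.mulVec_transpose, ← Matrix.mulVec_transpose]

/-! ### unitriangular congruences -/

theorem det_one_add_supported (S : Finset (Fin n)) (K : Matrix (Fin n) (Fin n) F)
    (hK : ∀ x y, K x y ≠ 0 → x ∈ S ∧ y ∉ S) : (1 + K).det = 1 := by
  have hz : ∀ x y, (y ∈ S ∨ x ∉ S) → K x y = 0 := fun x y h => by
    by_contra h0
    obtain ⟨h1, h2⟩ := hK x y h0
    exact h.elim h2 (fun h3 => h3 h1)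
  rw [Matrix.twoBlockTriangular_det (1 + K) (fun x => x ∈ S) fun x hx y hy => by
    rw [Matrix.add_apply, Matrix.one_apply_ne (fun h : x = y => hx (h ▸ hy)), zero_add,
      hz x y (Or.inl hy)]]
  have h1 : (1 + K).toSquareBlockProp (fun x => x ∈ S) = 1 := by
    ext x y
    simp only [Matrix.toSquareBlockProp_def, Matrix.of_apply, Matrix.add_apply, hz x.1 y.1 (Or.inl y.2), add_zero, Matrix.one_apply, Subtype.ext_iff]
  have h2 : (1 + K).toSquareBlockProp (fun x => ¬ x ∈ S) = 1 := by
    ext x y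
    simp only [Matrix.toSquareBlockProp_def, Matrix.of_apply, Matrix.add_apply, hz x.1 y.1 (Or.inr x.2), add_zero, Matrix.one_apply, Subtype.ext_iff]
  rw [h1, h2]
  simp

theorem IsAlt.clearPair {B : Matrix (Fin n) (Fin n) F} (hB : IsAlt B) {p s : Fin n}
    (ha : B p s ≠ 0) (T : Finset (Fin n)) (hp : p ∉ T) (hs : s ∉ T) :
    ∃ H : Matrix (Fin n) (Fin n) F, H.det = 1 ∧ IsAlt (Hᵀ * B * H) ∧
      (∀ x y, x ∉ T → y ∉ T → (Hᵀ * B * H) x y = B x y) ∧
      (∀ l ∈ T, (Hᵀ * B * H) p l = 0 ∧ (Hᵀ * B * H) s l = 0) ∧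
      ∀ x l, x ∉ T → l ∈ T → B x p = 0 → B x s = 0 → (Hᵀ * B * H) x l = B x l := by
  have hps : p ≠ s := fun h => ha (h ▸ hB.diag p)
  set K : Matrix (Fin n) (Fin n) F := Matrix.of fun x y =>
    if y ∈ T then (if x = p then B s y / B p s else if x = s then -(B p y) / B p s else 0) else 0
    with hK
  have hcol : ∀ l, l ∈ T → (fun x => (1 + K) x l) =
      Pi.single l 1 + (B s l / B p s) • Pi.single p 1 + (-(B p l) / B p s) • Pi.single s 1 := by
    intro l hl
    funext x
    simp only [hK, Matrix.add_apply, Matrix.of_apply, if_pos hl, Matrix.one_apply, Pi.add_apply,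
      Pi.smul_apply, Pi.single_apply, smul_eq_mul, mul_ite, mul_one, mul_zero]
    rcases eq_or_ne x p with rfl | h1
    · simp [hps, add_assoc]
    · rcases eq_or_ne x s with rfl | h2
      · simp [h1]
      · simp [h1, h2]
  have hcol0 : ∀ l, l ∉ T → (fun x => (1 + K) x l) = Pi.single l 1 := by
    intro l hl
    funext x
    simp [hK, hl, Matrix.one_apply, Pi.single_apply]
  refine ⟨1 + K, det_one_add_supported ({p, s} : Finset (Fin n)) K ?_, hB.congr _, ?_, ?_, ?_⟩
  · intro x y h
    simp only [hK, Matrix.of_apply] at h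
    by_cases hy : y ∈ T
    · refine ⟨?_, ?_⟩
      · rw [if_pos hy] at h
        by_contra hx
        simp only [Finset.mem_insert, Finset.mem_singleton, not_or] at hx
        simp [hx.1, hx.2] at h
      · simp only [Finset.mem_insert, Finset.mem_singleton, not_or]
        exact ⟨fun e => hp (e ▸ hy), fun e => hs (e ▸ hy)⟩
    · simp [hy] at h
  · intro x y hx hy
    rw [bform_apply, hcol0 x hx, hcol0 y hy]
    simp
  · intro l hl
    constructor
    · rw [bform_apply, hcol0 p hp, hcol l hl]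
      simp [Matrix.mulVec_add, Matrix.mulVec_smul, hB.diag]
      field_simp
      ring
    · rw [bform_apply, hcol0 s hs, hcol l hl]
      simp [Matrix.mulVec_add, Matrix.mulVec_smul, hB.diag, hB.anti s p]
      field_simp
      ring
  · intro x l hx hl h1 h2
    rw [bform_apply, hcol0 x hx, hcol l hl]
    simp [Matrix.mulVec_add, Matrix.mulVec_smul, h1, h2]

/-- a form that is not a wedge contains two orthogonal hyperbolic pairs after a congruence -/
theorem IsAlt.exists_four {B : Matrix (Fin n) (Fin n) F} (hB : IsAlt B)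
    (hw : ∀ a b, B ≠ wedge a b) :
    ∃ (H : Matrix (Fin n) (Fin n) F) (p s i j : Fin n), H.det = 1 ∧
      (p ≠ s ∧ p ≠ i ∧ p ≠ j ∧ s ≠ i ∧ s ≠ j ∧ i ≠ j) ∧
      IsAlt (Hᵀ * B * H) ∧ (Hᵀ * B * H) p s ≠ 0 ∧ (Hᵀ * B * H) i j ≠ 0 ∧
      (Hᵀ * B * H) p i = 0 ∧ (Hᵀ * B * H) p j = 0 ∧ (Hᵀ * B * H) s i = 0 ∧
      (Hᵀ * B * H) s j = 0 ∧
      ∀ l, l ≠ p → l ≠ s → l ≠ i → l ≠ j → ∀ x, x = p ∨ x = s ∨ x = i ∨ x = j →
        (Hᵀ * B * H) x l = 0 := by
  classical
  obtain ⟨p, s, ha⟩ : ∃ p s, B p s ≠ 0 := by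
    by_contra! h
    exact hw 0 0 (by ext l m; simp [h])
  have hps : p ≠ s := fun h => ha (h ▸ hB.diag p)
  obtain ⟨H₁, hd₁, hA₁, hsame, hclr, -⟩ := hB.clearPair ha (Finset.univ \ {p, s}) (by simp) (by simp)
  set B₁ := H₁ᵀ * B * H₁ with hB₁
  have hmem : ∀ l, l ∈ Finset.univ \ ({p, s} : Finset (Fin n)) ↔ l ≠ p ∧ l ≠ s := by simp
  have hps' : B₁ p s = B p s := hsame p s (by simp) (by simp)
  obtain ⟨i, j, hip, his, hjp, hjs, hc⟩ :
      ∃ i j, i ≠ p ∧ i ≠ s ∧ j ≠ p ∧ j ≠ s ∧ B₁ i j ≠ 0 := by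
    by_contra! h
    have e : B₁ = wedge (B p s • Pi.single p 1) (Pi.single s 1) := by
      ext l m
      rcases eq_or_ne l p with rfl | hlp
      · rcases eq_or_ne m s with rfl | hms
        · simp [hps', hps]
        · rcases eq_or_ne m l with rfl | hmp
          · simp [hA₁.diag]
          · simp [(hclr m ((hmem m).2 ⟨hmp, hms⟩)).1, hms, hps, hmp]
      · rcases eq_or_ne l s with rfl | hls
        · rcases eq_or_ne m p with rfl | hmp
          · simp [hA₁.anti l m, hps', hps, hps.symm]
          · rcases eq_or_ne m l with rfl | hms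
            · simp [hA₁.diag]
            · simp [(hclr m ((hmem m).2 ⟨hmp, hms⟩)).2, hlp, hmp]
        · rcases eq_or_ne m p with rfl | hmp
          · simp [hA₁.anti l m, (hclr l ((hmem l).2 ⟨hlp, hls⟩)).1, hls, hlp, hps]
          · rcases eq_or_ne m s with rfl | hms
            · simp [hA₁.anti l m, (hclr l ((hmem l).2 ⟨hlp, hls⟩)).2, hls, hlp]
            · simp [h l m hlp hls hmp hms, hlp, hls]
    have hu : IsUnit H₁.det := by rw [hd₁]; exact isUnit_one
    refine hw ((H₁⁻¹)ᵀ *ᵥ (B p s • Pi.single p 1)) ((H₁⁻¹)ᵀ *ᵥ Pi.single s 1) ?_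
    rw [← congr_wedge, ← e, hB₁, ← Matrix.mul_assoc, ← Matrix.mul_assoc, ← Matrix.transpose_mul,
      Matrix.mul_nonsing_inv H₁ hu, Matrix.transpose_one, Matrix.one_mul, Matrix.mul_assoc,
      Matrix.mul_nonsing_inv H₁ hu, Matrix.mul_one]
  have hij : i ≠ j := fun h => hc (h ▸ hA₁.diag i)
  have hpi := (hclr i ((hmem i).2 ⟨hip, his⟩)).1
  have hpj := (hclr j ((hmem j).2 ⟨hjp, hjs⟩)).1
  have hsi := (hclr i ((hmem i).2 ⟨hip, his⟩)).2
  have hsj := (hclr j ((hmem j).2 ⟨hjp, hjs⟩)).2
  set T : Finset (Fin n) := Finset.univ \ {p, s, i, j}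
  obtain ⟨H₂, hd₂, hA₂, hsame₂, hclr₂, hkeep⟩ :=
    hA₁.clearPair hc T (by simp [T]) (by simp [T])
  have hassoc : (H₁ * H₂)ᵀ * B * (H₁ * H₂) = H₂ᵀ * B₁ * H₂ := by
    simp only [hB₁, Matrix.transpose_mul, Matrix.mul_assoc]
  refine ⟨H₁ * H₂, p, s, i, j, by rw [Matrix.det_mul, hd₁, hd₂, one_mul],
    ⟨hps, hip.symm, hjp.symm, his.symm, hjs.symm, hij⟩, ?_⟩
  rw [hassoc]
  refine ⟨hA₂, ?_, ?_, ?_, ?_, ?_, ?_, ?_⟩
  · rw [hsame₂ p s (by simp [T]) (by simp [T]), hps']; exact ha
  · rw [hsame₂ i j (by simp [T]) (by simp [T])]; exact hc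
  · rw [hsame₂ p i (by simp [T]) (by simp [T]), hpi]
  · rw [hsame₂ p j (by simp [T]) (by simp [T]), hpj]
  · rw [hsame₂ s i (by simp [T]) (by simp [T]), hsi]
  · rw [hsame₂ s j (by simp [T]) (by simp [T]), hsj]
  · intro l h1 h2 h3 h4 x hx
    have hlT : l ∈ T := by simp [T, h1, h2, h3, h4]
    rcases hx with rfl | rfl | rfl | rfl
    · rw [hkeep x l (by simp [T]) hlT hpi hpj, (hclr l ((hmem l).2 ⟨h1, h2⟩)).1]
    · rw [hkeep x l (by simp [T]) hlT hsi hsj, (hclr l ((hmem l).2 ⟨h1, h2⟩)).2]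
    · exact (hclr₂ l hlT).1
    · exact (hclr₂ l hlT).2

variable [Fintype F] [DecidableEq F]

/-- many forms congruent to a form that is not a wedge -/
theorem IsAlt.exists_many {B : Matrix (Fin n) (Fin n) F} (hB : IsAlt B)
    (hw : ∀ a b, B ≠ wedge a b) (Δ : Finset Fˣ) :
    ∃ S : Finset (Matrix (Fin n) (Fin n) F),
      Fintype.card F ^ (4 * (n - 4)) * (Δ.card * ((Fintype.card F - 1) * Fintype.card F ^ 4)) ≤
        S.card ∧
      ∀ B' ∈ S, ∃ H : Matrix (Fin n) (Fin n) F, (∃ δ ∈ Δ, H.det = (δ : Fˣ)) ∧ B' = Hᵀ * B * H := by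
  classical
  obtain ⟨H₀, p, s, i, j, hd₀, ⟨hps, hpi, hpj, hsi, hsj, hij⟩, hA, ha, hc, epi, epj, esi, esj,
    hclr⟩ := hB.exists_four hw
  set B₀ := H₀ᵀ * B * H₀ with hB₀
  set T : Finset (Fin n) := Finset.univ \ {p, s, i, j}
  let four : Fin 4 → Fin n := ![p, s, i, j]
  let K4 : (T → Fin 4 → F) → Matrix (Fin n) (Fin n) F := fun d => Matrix.of fun x y =>
    if h : y ∈ T then ∑ r, (if x = four r then d ⟨y, h⟩ r else 0) else 0
  let D : Fˣ → Fˣ → Matrix (Fin n) (Fin n) F := fun t u => Matrix.diagonal fun x =>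
    if x = p then (t : F) else if x = j then (u : F) else 1
  let K2 : (Fin 4 → F) → Matrix (Fin n) (Fin n) F := fun c =>
    Matrix.single p i (c 0) + Matrix.single s i (c 1) + Matrix.single p j (c 2) +
      Matrix.single s j (c 3)
  have hK4det : ∀ d, (1 + K4 d).det = 1 := fun d =>
    det_one_add_supported ({p, s, i, j} : Finset (Fin n)) (K4 d) fun x y h => by
      simp only [K4, Matrix.of_apply] at h
      by_cases hy : y ∈ T
      · refine ⟨?_, by simpa [T] using hy⟩
        by_contra hx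
        simp only [Finset.mem_insert, Finset.mem_singleton, not_or] at hx
        simp [hy, four, Fin.sum_univ_four, hx.1, hx.2.1, hx.2.2.1, hx.2.2.2] at h
      · simp [hy] at h
  have hK2det : ∀ c, (1 + K2 c).det = 1 := fun c =>
    det_one_add_supported ({p, s} : Finset (Fin n)) (K2 c) fun x y h => by
      by_contra hxy
      apply h
      simp only [Finset.mem_insert, Finset.mem_singleton] at hxy
      rcases eq_or_ne y i with rfl | hyi
      · have : ¬(x = p ∨ x = s) := fun hx => hxy ⟨hx, by simp [hpi.symm, hsi.symm]⟩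
        simp only [not_or] at this
        simp [K2, Matrix.single_apply, Ne.symm this.1, Ne.symm this.2]
      · rcases eq_or_ne y j with rfl | hyj
        · have : ¬(x = p ∨ x = s) := fun hx => hxy ⟨hx, by simp [hpj.symm, hsj.symm]⟩
          simp only [not_or] at this
          simp [K2, Matrix.single_apply, Ne.symm this.1, Ne.symm this.2]
        · simp [K2, Matrix.single_apply, hyi.symm, hyj.symm]
  have hDdet : ∀ t u, (D t u).det = (t : F) * u := fun t u => by
    simp only [D, Matrix.det_diagonal]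
    rw [← Finset.mul_prod_erase _ _ (Finset.mem_univ p), ← Finset.mul_prod_erase _ _
      (show j ∈ Finset.univ.erase p by simp [hpj.symm])]
    rw [Finset.prod_eq_one fun x hx => by
      simp only [Finset.mem_erase] at hx
      simp [hx.1, hx.2.1]]
    simp [hpj.symm]
  let Hm : ((T → Fin 4 → F) × Δ) × (Fˣ × (Fin 4 → F)) → Matrix (Fin n) (Fin n) F := fun P =>
    (1 + K4 P.1.1) * (D P.2.1 (P.1.2.1 / P.2.1) * (1 + K2 P.2.2))
  let f : ((T → Fin 4 → F) × Δ) × (Fˣ × (Fin 4 → F)) → Matrix (Fin n) (Fin n) F := fun P =>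
    (H₀ * Hm P)ᵀ * B * (H₀ * Hm P)
  have hf : ∀ P, f P = (D P.2.1 (P.1.2.1 / P.2.1) * (1 + K2 P.2.2))ᵀ *
      ((1 + K4 P.1.1)ᵀ * B₀ * (1 + K4 P.1.1)) * (D P.2.1 (P.1.2.1 / P.2.1) * (1 + K2 P.2.2)) :=
    fun P => by
      simp only [f, Hm, hB₀, Matrix.transpose_mul, Matrix.mul_assoc]
  -- the block inside the four indices
  have hc4 : ∀ (d : T → Fin 4 → F) (x : Fin n), x ∉ T → (fun l => (1 + K4 d) l x) = Pi.single x 1 := fun d x hx => by
    funext l
    simp [K4, hx, Matrix.one_apply, Pi.single_apply]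
  have hin : ∀ x, x ∉ T ↔ x = p ∨ x = s ∨ x = i ∨ x = j := fun x => by
    simp only [T, Finset.mem_sdiff, Finset.mem_univ, true_and, not_not, Finset.mem_insert,
      Finset.mem_singleton]
  have hblock : ∀ (d : T → Fin 4 → F) (x y : Fin n), x ∉ T → y ∉ T →
      (((1 + K4 d : Matrix (Fin n) (Fin n) F))ᵀ * B₀ * (1 + K4 d)) x y = B₀ x y := fun d x y hx hy => by
    rw [bform_apply, hc4 d x hx, hc4 d y hy]
    simp
  have hout : ∀ (d : T → Fin 4 → F) (x l : Fin n) (hl : l ∈ T), x ∉ T → (((1 + K4 d : Matrix (Fin n) (Fin n) F))ᵀ * B₀ * (1 + K4 d)) x l =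
      ∑ r, d ⟨l, hl⟩ r * B₀ x (four r) := fun d x l hl hx => by
    rw [bform_apply, hc4 d x hx,
      show (fun m => (1 + K4 d) m l) = Pi.single l 1 + ∑ r, d ⟨l, hl⟩ r • Pi.single (four r) 1 by
        funext m
        simp [K4, hl, Matrix.one_apply, Pi.single_apply, Finset.sum_apply]]
    have hz : B₀ x l = 0 := by
      simp only [T, Finset.mem_sdiff, Finset.mem_insert, Finset.mem_singleton, not_or] at hl
      exact hclr l hl.2.1 hl.2.2.1 hl.2.2.2.1 hl.2.2.2.2 x ((hin x).1 hx)
    simp [Matrix.mulVec_add, Matrix.mulVec_sum, Matrix.mulVec_smul, hz]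
  -- the columns of the small factor
  have hcD : ∀ (t u : Fˣ) (c : Fin 4 → F),
      ((fun m => (D t u * (1 + K2 c)) m p) = (t : F) • Pi.single p 1) ∧
      ((fun m => (D t u * (1 + K2 c)) m s) = Pi.single s 1) ∧
      ((fun m => (D t u * (1 + K2 c)) m i) =
        Pi.single i 1 + ((t : F) * c 0) • Pi.single p 1 + c 1 • Pi.single s 1) ∧
      ((fun m => (D t u * (1 + K2 c)) m j) =
        (u : F) • Pi.single j 1 + ((t : F) * c 2) • Pi.single p 1 + c 3 • Pi.single s 1) := by
    intro t u c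
    refine ⟨?_, ?_, ?_, ?_⟩ <;>
    · funext m
      simp only [D, Matrix.diagonal_mul, Matrix.add_apply, Matrix.one_apply, K2, Matrix.single_apply,
        Pi.add_apply, Pi.smul_apply, Pi.single_apply, smul_eq_mul]
      rcases eq_or_ne m p with rfl | h1
      · simp [hps, hpi, hpj, hps.symm, hpi.symm, hpj.symm, hsi, hsj, hsi.symm, hsj.symm, hij, hij.symm]
      · rcases eq_or_ne m s with rfl | h2
        · simp [hps, hps.symm, hpi.symm, hpj.symm, hsi, hsj, hsi.symm, hsj.symm, hij, hij.symm]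
        · rcases eq_or_ne m j with rfl | h3
          · simp [hpj.symm, hsj.symm, hij, hij.symm, h1, h2, h1.symm, h2.symm, hps, hps.symm, hpi,
              hpi.symm, hsi, hsi.symm]
          · simp [h1, h2, h3, h1.symm, h2.symm, h3.symm, hps, hps.symm, hpi, hpi.symm, hpj,
              hpj.symm, hsi, hsi.symm, hsj, hsj.symm, hij, hij.symm]
  have hval : ∀ (d : T → Fin 4 → F) (t u : Fˣ) (c : Fin 4 → F),
      let M := (D t u * (1 + K2 c))ᵀ * ((1 + K4 d)ᵀ * B₀ * (1 + K4 d)) * (D t u * (1 + K2 c))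
      M p s = t * B₀ p s ∧ M p i = t * (c 1 * B₀ p s) ∧ M s i = -(t * c 0 * B₀ p s) ∧
      M p j = t * (c 3 * B₀ p s) ∧ M s j = -(t * c 2 * B₀ p s) ∧
      M i j = u * B₀ i j + (t * c 0 * c 3 - c 1 * (t * c 2)) * B₀ p s := by
    intro d t u c
    obtain ⟨e1, e2, e3, e4⟩ := hcD t u c
    intro M
    have b := hblock d
    simp only [M]
    generalize (1 + K4 d)ᵀ * B₀ * (1 + K4 d) = N at b ⊢
    have np : p ∉ T := (hin p).2 (Or.inl rfl)
    have ns : s ∉ T := (hin s).2 (Or.inr (Or.inl rfl))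
    have ni : i ∉ T := (hin i).2 (Or.inr (Or.inr (Or.inl rfl)))
    have nj : j ∉ T := (hin j).2 (Or.inr (Or.inr (Or.inr rfl)))
    refine ⟨?_, ?_, ?_, ?_, ?_, ?_⟩ <;>
    · simp only [bform_apply, e1, e2, e3, e4, Matrix.mulVec_add, Matrix.mulVec_smul,
        Matrix.mulVec_single_one, dotProduct_add, add_dotProduct, dotProduct_smul, smul_dotProduct,
        single_one_dotProduct, Matrix.col_apply, smul_eq_mul, b _ _ np np, b _ _ np ns, b _ _ np ni,
        b _ _ np nj, b _ _ ns np, b _ _ ns ns, b _ _ ns ni, b _ _ ns nj, b _ _ ni np, b _ _ ni ns,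
        b _ _ ni ni, b _ _ ni nj, hA.diag, epi, epj, esi, esj, hA.anti s p, hA.anti i p,
        hA.anti i s, neg_zero]
      try ring
  refine ⟨Finset.univ.image f, ?_, fun B' hB' => ?_⟩
  · rw [Finset.card_image_of_injective]
    · have hT : T.card = n - 4 := by
        rw [Finset.card_univ_diff, Fintype.card_fin, Finset.card_insert_of_notMem (by simp [hps, hpi, hpj]),
          Finset.card_insert_of_notMem (by simp [hsi, hsj]),
          Finset.card_insert_of_notMem (by simp [hij]), Finset.card_singleton]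
      rw [Finset.card_univ, Fintype.card_prod, Fintype.card_prod, Fintype.card_prod,
        Fintype.card_fun, Fintype.card_fun, Fintype.card_coe, Fintype.card_coe, Fintype.card_units,
        Fintype.card_fin, hT, ← pow_mul, mul_assoc]
    · rintro ⟨⟨d, δ⟩, t, c⟩ ⟨⟨d', δ'⟩, t', c'⟩ he
      rw [hf, hf] at he
      dsimp only at he
      obtain ⟨v1, v2, v3, v4, v5, v6⟩ := hval d t (δ.1 / t) c
      obtain ⟨w1, w2, w3, w4, w5, w6⟩ := hval d' t' (δ'.1 / t') c'
      rw [he] at v1 v2 v3 v4 v5 v6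
      obtain rfl : t = t' := Units.ext (mul_right_cancel₀ ha (v1.symm.trans w1))
      have ht : (t : F) ≠ 0 := t.ne_zero
      have c1 : c 1 = c' 1 :=
        mul_right_cancel₀ ha (mul_left_cancel₀ ht (v2.symm.trans w2))
      have c3 : c 3 = c' 3 :=
        mul_right_cancel₀ ha (mul_left_cancel₀ ht (v4.symm.trans w4))
      have c0 : c 0 = c' 0 :=
        mul_left_cancel₀ ht (mul_right_cancel₀ ha (neg_injective (v3.symm.trans w3)))
      have c2 : c 2 = c' 2 :=
        mul_left_cancel₀ ht (mul_right_cancel₀ ha (neg_injective (v5.symm.trans w5)))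
      obtain rfl : c = c' := funext fun r => by fin_cases r <;> assumption
      have hu : (((δ.1 / t : Fˣ) : F)) = ((δ'.1 / t : Fˣ) : F) :=
        mul_right_cancel₀ hc (add_right_cancel (v6.symm.trans w6))
      have hu' : δ.1 / t = δ'.1 / t := Units.ext hu
      obtain rfl : δ = δ' := Subtype.ext (div_left_injective hu')
      set E := D t (δ.1 / t) * (1 + K2 c)
      have hE : IsUnit E.det := by
        rw [Matrix.det_mul, hDdet, hK2det, mul_one]
        exact (ht.isUnit).mul (δ.1 / t).isUnit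
      have e' : (1 + K4 d)ᵀ * B₀ * (1 + K4 d) = (1 + K4 d')ᵀ * B₀ * (1 + K4 d') := by
        have hET : IsUnit Eᵀ.det := by rwa [Matrix.det_transpose]
        have := congrArg (fun M => Eᵀ⁻¹ * M * E⁻¹) he
        simpa [Matrix.mul_assoc, Matrix.mul_nonsing_inv E hE, Matrix.nonsing_inv_mul_cancel_left _ _ hET]
          using this
      suffices d = d' by rw [this]
      funext ⟨l, hl⟩
      have key : ∀ x, x ∉ T → ∑ r, d ⟨l, hl⟩ r * B₀ x (four r) =
          ∑ r, d' ⟨l, hl⟩ r * B₀ x (four r) := fun x hx => by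
        rw [← hout d x l hl hx, ← hout d' x l hl hx, e']
      have k1 := key p ((hin p).2 (Or.inl rfl))
      have k2 := key s ((hin s).2 (Or.inr (Or.inl rfl)))
      have k3 := key i ((hin i).2 (Or.inr (Or.inr (Or.inl rfl))))
      have k4 := key j ((hin j).2 (Or.inr (Or.inr (Or.inr rfl))))
      simp only [four, Fin.sum_univ_four, Matrix.cons_val, hA.diag, epi, epj, esi, esj, hA.anti s p,
        hA.anti i p, hA.anti i s, hA.anti j p, hA.anti j s, hA.anti j i, neg_zero, mul_zero,
        add_zero, zero_add, mul_neg, neg_inj] at k1 k2 k3 k4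
      funext r
      fin_cases r
      exacts [mul_right_cancel₀ ha k2, mul_right_cancel₀ ha k1, mul_right_cancel₀ hc k4,
        mul_right_cancel₀ hc k3]
  · obtain ⟨P, -, rfl⟩ := Finset.mem_image.1 hB'
    refine ⟨H₀ * Hm P, ⟨P.1.2.1, P.1.2.2, ?_⟩, rfl⟩
    simp only [Hm, Matrix.det_mul, hd₀, hK4det, hK2det, hDdet, one_mul, mul_one]
    rw [Units.val_div_eq_div_val, mul_div_cancel₀ _ P.2.1.ne_zero]

/-! ### wedges -/

omit [Fintype F] [DecidableEq F] in
theorem exists_minor {a b : Fin n → F} (h : wedge a b ≠ 0) :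
    ∃ i j, a i * b j - a j * b i ≠ 0 := by
  by_contra! hall
  exact h (by ext i j; simpa using hall i j)

omit [Fintype F] [DecidableEq F] in
theorem wedge_eq_zero_iff {a b : Fin n → F} :
    wedge a b = 0 ↔ a = 0 ∨ ∃ c : F, b = c • a := by
  constructor
  · intro h
    rcases eq_or_ne a 0 with ha | ha
    · exact Or.inl ha
    · obtain ⟨i, hi⟩ := Function.ne_iff.1 ha
      refine Or.inr ⟨b i / a i, funext fun j => ?_⟩
      have := congrFun (congrFun h i) j
      simp only [wedge_apply, Matrix.zero_apply, sub_eq_zero] at this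
      simp only [Pi.smul_apply, smul_eq_mul]
      field_simp [show a i ≠ 0 from hi]
      linear_combination this
  · rintro (rfl | ⟨c, rfl⟩) <;> ext i j <;> simp <;> ring

/-- the number of pairs of independent vectors -/
theorem card_indep_pairs (hn : 1 ≤ n) :
    (Finset.univ.filter fun ab : (Fin n → F) × (Fin n → F) => wedge ab.1 ab.2 ≠ 0).card =
      (Fintype.card F ^ n - 1) * (Fintype.card F ^ n - Fintype.card F) := by
  classical
  have hfib : ∀ a : Fin n → F, a ≠ 0 →
      (Finset.univ.filter fun b : Fin n → F => wedge a b ≠ 0).card =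
        Fintype.card F ^ n - Fintype.card F := by
    intro a ha
    have : (Finset.univ.filter fun b : Fin n → F => wedge a b ≠ 0) =
        Finset.univ \ (Finset.univ.image fun c : F => c • a) := by
      ext b
      simp only [Finset.mem_filter, Finset.mem_univ, true_and, Finset.mem_sdiff, Finset.mem_image,
        wedge_eq_zero_iff, ne_eq, not_or, ha, not_false_eq_true, not_exists]
      exact ⟨fun h c hc => h c hc.symm, fun h c hc => h c hc.symm⟩
    rw [this, Finset.card_univ_diff, Finset.card_image_of_injective _ (smul_left_injective F ha),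
      Finset.card_univ, Fintype.card_fun, Fintype.card_fin]
  rw [Finset.card_filter, Fintype.sum_prod_type, ← Finset.add_sum_erase _ _ (Finset.mem_univ 0)]
  rw [Finset.sum_congr rfl fun a ha => (Finset.card_filter _ _).symm.trans
    (hfib a (Finset.ne_of_mem_erase ha))]
  simp [wedge_eq_zero_iff, Finset.card_erase_of_mem, Fintype.card_fun]

omit [DecidableEq F] in
theorem card_det_eq {δ : F} (hδ : δ ≠ 0) :
    Nat.card {x : (F × F) × F × F // x.1.1 * x.2.2 - x.1.2 * x.2.1 = δ} =
      Fintype.card F * (Fintype.card F ^ 2 - 1) := by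
  classical
  rw [Nat.card_eq_fintype_card, Fintype.card_subtype, Finset.card_filter, Fintype.sum_prod_type,
    Fintype.sum_prod_type, ← Finset.add_sum_erase _ _ (Finset.mem_univ (0 : F))]
  have h1 : ∀ x ∈ (Finset.univ : Finset F).erase 0,
      (∑ y : F, ∑ zw : F × F, if x * zw.2 - y * zw.1 = δ then 1 else 0 : ℕ) =
        Fintype.card F * Fintype.card F := by
    intro x hx
    have hx0 := Finset.ne_of_mem_erase hx
    have : ∀ y z : F, (∑ w : F, if x * w - y * z = δ then 1 else 0 : ℕ) = 1 := by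
      intro y z
      rw [Finset.sum_eq_single ((δ + y * z) / x)]
      · rw [if_pos (by field_simp; ring)]
      · intro w _ hw
        rw [if_neg]
        intro h
        exact hw (by field_simp; linear_combination h)
      · simp
    simp only [Fintype.sum_prod_type, this, Finset.sum_const, Finset.card_univ, smul_eq_mul, mul_one]
  have h0 : (∑ y : F, ∑ zw : F × F, if (0 : F) * zw.2 - y * zw.1 = δ then 1 else 0 : ℕ) =
      (Fintype.card F - 1) * Fintype.card F := by
    have : ∀ y : F, (∑ z : F, if -(y * z) = δ then 1 else 0 : ℕ) = if y = 0 then 0 else 1 := by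
      intro y
      split_ifs with hy
      · simp [hy, hδ.symm]
      · rw [Finset.sum_eq_single (-δ / y)]
        · rw [if_pos (by field_simp)]
        · intro z _ hz
          rw [if_neg]
          intro h
          exact hz (by field_simp; linear_combination -h)
        · simp
    simp only [zero_mul, zero_sub, Fintype.sum_prod_type]
    rw [Finset.sum_congr rfl fun y _ => Finset.sum_comm]
    simp only [this, Finset.sum_const, smul_eq_mul, Finset.card_univ, ← Finset.mul_sum]
    rw [Finset.sum_ite, Finset.sum_const_zero, zero_add, Finset.sum_const, smul_eq_mul, mul_one,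
      Finset.filter_ne' , Finset.card_erase_of_mem (Finset.mem_univ _), Finset.card_univ, mul_comm]
  rw [h0, Finset.sum_congr rfl h1, Finset.sum_const, Finset.card_erase_of_mem (Finset.mem_univ _),
    Finset.card_univ, smul_eq_mul, Nat.sub_mul, Nat.sub_mul, one_mul, one_mul, Nat.mul_sub, mul_one]
  have h2 : Fintype.card F ≤ Fintype.card F * Fintype.card F := Nat.le_mul_self _
  have h3 : Fintype.card F * Fintype.card F ≤ Fintype.card F * (Fintype.card F * Fintype.card F) :=
    Nat.le_mul_of_pos_left _ Fintype.card_pos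
  rw [pow_two]
  omega

/-- every fibre of the wedge has the size of `SL_2` -/
theorem card_wedge_fibre {a b : Fin n → F} (h : wedge a b ≠ 0) :
    (Finset.univ.filter fun ab : (Fin n → F) × (Fin n → F) => wedge ab.1 ab.2 = wedge a b).card =
      Fintype.card F * (Fintype.card F ^ 2 - 1) := by
  classical
  obtain ⟨i, j, hD⟩ := exists_minor h
  set δ := a i * b j - a j * b i with hδ
  set B := wedge a b with hB
  set u : Fin n → F := fun l => B i l
  set v : Fin n → F := fun l => B j l
  have huv : wedge u v = δ • B := by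
    ext l m
    simp only [u, v, hB, hδ, wedge_apply, Matrix.smul_apply, smul_eq_mul]
    ring
  rw [← card_det_eq hD, Nat.card_eq_fintype_card, Fintype.card_subtype]
  refine Finset.card_nbij' (fun ab => ((ab.1 i, ab.1 j), ab.2 i, ab.2 j))
    (fun x => ((x.1.2 / δ) • u + (-x.1.1 / δ) • v, (x.2.2 / δ) • u + (-x.2.1 / δ) • v))
    ?_ ?_ ?_ ?_
  · rintro ⟨a', b'⟩ hab
    simp only [Finset.coe_filter, Finset.mem_univ, true_and, Set.mem_ofPred_eq] at hab ⊢
    have := congrFun (congrFun hab i) j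
    simpa [hδ, hB, mul_comm] using this
  · rintro ⟨⟨x, y⟩, z, w⟩ hx
    simp only [Finset.coe_filter, Finset.mem_univ, true_and, Set.mem_ofPred_eq] at hx ⊢
    rw [wedge_combo, huv, smul_smul]
    convert one_smul F B
    field_simp
    linear_combination hx
  · rintro ⟨a', b'⟩ hab
    simp only [Finset.coe_filter, Finset.mem_univ, true_and, Set.mem_ofPred_eq] at hab
    have hu : ∀ l, u l = a' i * b' l - a' l * b' i := fun l =>
      (congrFun (congrFun hab i) l).symm
    have hv : ∀ l, v l = a' j * b' l - a' l * b' j := fun l =>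
      (congrFun (congrFun hab j) l).symm
    have hd : δ = a' i * b' j - a' j * b' i := (congrFun (congrFun hab i) j).symm
    refine Prod.ext (funext fun l => ?_) (funext fun l => ?_) <;>
    · simp only [Pi.add_apply, Pi.smul_apply, smul_eq_mul, hu, hv]
      field_simp
      rw [hd]
      ring
  · rintro ⟨⟨x, y⟩, z, w⟩ -
    have e1 : u i = 0 := by simp [u, hB]
    have e2 : v j = 0 := by simp [v, hB]
    have e3 : u j = δ := rfl
    have e4 : v i = -δ := by simp only [v, hB, hδ, wedge_apply]; ring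
    simp [e1, e2, e3, e4, field]

/-! ### characters of the additive group of matrices -/

/-- the character of a matrix -/
def chiM (ψ : AddChar F ℂ) (B : Matrix (Fin n) (Fin n) F) :
    AddChar (Matrix (Fin n) (Fin n) F) ℂ where
  toFun M := ψ (∑ i, ∑ j, B i j * M i j)
  map_zero_eq_one' := by simp
  map_add_eq_mul' M N := by
    simp [mul_add, Finset.sum_add_distrib, AddChar.map_add_eq_mul]

omit [Fintype F] [DecidableEq F] in
theorem chiM_apply (ψ : AddChar F ℂ) (B M : Matrix (Fin n) (Fin n) F) :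
    chiM ψ B M = ψ (∑ i, ∑ j, B i j * M i j) := rfl

omit [Fintype F] [DecidableEq F] in
theorem sum_mul_eq_trace (B M : Matrix (Fin n) (Fin n) F) :
    ∑ i, ∑ j, B i j * M i j = (Bᵀ * M).trace := by
  simp only [Matrix.trace, Matrix.diag, Matrix.mul_apply, Matrix.transpose_apply]
  exact Finset.sum_comm

omit [Fintype F] [DecidableEq F] in
theorem chiM_congr (ψ : AddChar F ℂ) (B g M : Matrix (Fin n) (Fin n) F) :
    chiM ψ B (g * M * gᵀ) = chiM ψ (gᵀ * B * g) M := by
  rw [chiM_apply, chiM_apply, sum_mul_eq_trace, sum_mul_eq_trace]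
  congr 1
  rw [← Matrix.mul_assoc, Matrix.trace_mul_comm]
  simp only [Matrix.transpose_mul, Matrix.transpose_transpose, Matrix.mul_assoc]

omit [Fintype F] [DecidableEq F] in
theorem chiM_single (ψ : AddChar F ℂ) (B : Matrix (Fin n) (Fin n) F) (i j : Fin n) (c : F) :
    chiM ψ B (Matrix.single i j c) = ψ (B i j * c) := by
  rw [chiM_apply]
  simp [Matrix.single_apply, ite_and]

omit [DecidableEq F] in
theorem chiM_injective {ψ : AddChar F ℂ} (hψ : ψ.IsPrimitive) :
    Function.Injective (chiM (n := n) ψ) := by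
  intro B B' h
  ext i j
  suffices e : (fun _ : Fin 1 => B i j) = fun _ => B' i j from congrFun e 0
  refine SLMin.wchar_injective hψ (DFunLike.ext _ _ fun r => ?_)
  simp only [SLMin.wchar_apply]
  have := DFunLike.congr_fun h (Matrix.single i j (r 0))
  rw [chiM_single, chiM_single] at this
  simpa [dotProduct, mul_comm] using this

omit [DecidableEq F] in
theorem exists_chiM {ψ : AddChar F ℂ} (hψ : ψ.IsPrimitive)
    (χ : AddChar (Matrix (Fin n) (Fin n) F) ℂ) : ∃ B, χ = chiM ψ B := by
  classical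
  have hb : Function.Bijective (chiM (n := n) ψ) :=
    (Fintype.bijective_iff_injective_and_card _).2 ⟨chiM_injective hψ, AddChar.card_eq.symm⟩
  obtain ⟨B, hB⟩ := hb.2 χ
  exact ⟨B, hB.symm⟩

omit [DecidableEq F] in
theorem isAlt_of_chiM {ψ : AddChar F ℂ} (hψ : ψ.IsPrimitive) {B : Matrix (Fin n) (Fin n) F}
    (h : ∀ M, Mᵀ = M → chiM ψ B M = 1) : IsAlt B := by
  have key : ∀ c : F, (∀ x, ψ (c * x) = 1) → c = 0 := fun c hc => by
    by_contra h0
    exact hψ h0 (DFunLike.ext _ _ fun x => by simpa [AddChar.mulShift_apply] using hc x)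
  have hd : ∀ l, B l l = 0 := fun l => key _ fun x => by
    rw [← chiM_single]; exact h _ (Matrix.transpose_single _ _ _)
  refine ⟨hd, fun l m => eq_neg_of_add_eq_zero_left (key _ fun x => ?_)⟩
  rw [add_mul, AddChar.map_add_eq_mul, ← chiM_single ψ B l m, ← chiM_single ψ B m l,
    ← AddChar.map_add_eq_mul]
  exact h _ (by simp [Matrix.transpose_single, add_comm])

end Cfsg.Agent.MinDeg.Orth
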