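import Cfsg.Agent.MinDeg.OrthModel

/-!
The Siegel radical and the Levi elements as elements of `Ω`; a representation in which the centre
of the Siegel radical acts trivially is trivial.
-/

set_option autoImplicit false
set_option linter.unusedSectionVars false

namespace Cfsg.Agent.MinDeg.Orth

open QuadraticMap Cfsg.Agent.Classical Matrix
open scoped commutatorElement

universe u w

variable {F : Type u} [Field F] {n : ℕ} {W : Type w} [AddCommGroup W] [Module F W]
  (Q₀ : QuadraticForm F W)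

/-- the group: the Eichler subgroup of the model form -/
noncomputable abbrev Om (n : ℕ) : Subgroup (OQ (hypExt n Q₀)) := EQ (hypExt n Q₀)

theorem zS_mem (M : Matrix (Fin n) (Fin n) F) : zS Q₀ M ∈ Om Q₀ n := by
  induction M using Matrix.induction_on' with
  | h_zero => rw [zS_zero]; exact one_mem _
  | h_add A B hA hB => rw [zS_add]; exact mul_mem hA hB
  | h_std_basis i j c =>
    rcases eq_or_ne j i with rfl | hij
    · rw [zS_congr Q₀ (N := 0) (by simp [Matrix.transpose_single]), zS_zero]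
      exact one_mem _
    · rw [siegel_ee Q₀ j i hij c]
      exact siegel_mem_EQ _ _ _

theorem slHom_mem (hn : 2 ≤ n) (g : SpecialLinearGroup (Fin n) F) : slHom Q₀ g ∈ Om Q₀ n := by
  have : Nontrivial (Fin n) := Fin.nontrivial_iff_two_le.2 hn
  induction g using Linear.transvection_induction with
  | htransvec i j hij c => rw [siegel_ef Q₀ i j hij c]; exact siegel_mem_EQ _ _ _
  | hmul A B hA hB => rw [map_mul]; exact mul_mem hA hB

theorem sh_mem (i : Fin n) (k : W) : sh Q₀ i k ∈ Om Q₀ n := siegel_mem_EQ _ _ _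

/-- centre of the Siegel radical -/
noncomputable def zE (M : Matrix (Fin n) (Fin n) F) : Om Q₀ n := ⟨zS Q₀ M, zS_mem Q₀ M⟩

/-- the special linear Levi part -/
noncomputable def slE (hn : 2 ≤ n) : SpecialLinearGroup (Fin n) F →* Om Q₀ n :=
  (slHom Q₀).codRestrict _ (slHom_mem Q₀ hn)

/-- short radical element -/
noncomputable def shE (i : Fin n) (k : W) : Om Q₀ n := ⟨sh Q₀ i k, sh_mem Q₀ i k⟩

@[simp] theorem zE_coe (M : Matrix (Fin n) (Fin n) F) : (zE Q₀ M).1 = zS Q₀ M := rfl
@[simp] theorem slE_coe (hn : 2 ≤ n) (g : SpecialLinearGroup (Fin n) F) :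
    (slE Q₀ hn g).1 = slHom Q₀ g := rfl
@[simp] theorem shE_coe (i : Fin n) (k : W) : (shE Q₀ i k).1 = sh Q₀ i k := rfl

theorem zE_add (M N : Matrix (Fin n) (Fin n) F) : zE Q₀ (M + N) = zE Q₀ M * zE Q₀ N :=
  Subtype.ext (zS_add Q₀ M N)

theorem zE_congr {M N : Matrix (Fin n) (Fin n) F} (h : M - Mᵀ = N - Nᵀ) : zE Q₀ M = zE Q₀ N :=
  Subtype.ext (zS_congr Q₀ h)

theorem zE_zero : zE Q₀ (0 : Matrix (Fin n) (Fin n) F) = 1 := Subtype.ext (zS_zero Q₀)

theorem shE_add (i : Fin n) (k l : W) : shE Q₀ i (k + l) = shE Q₀ i k * shE Q₀ i l :=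
  Subtype.ext (sh_add Q₀ i k l)

theorem shE_zero (i : Fin n) : shE Q₀ i (0 : W) = 1 := Subtype.ext (sh_zero Q₀ i)

/-! ### diagonal elements -/

/-- diagonal element with one nontrivial entry -/
def dgi (i : Fin n) (c : Fˣ) : GL (Fin n) F where
  val := Matrix.diagonal (Function.update (1 : Fin n → F) i (c : F))
  inv := Matrix.diagonal (Function.update (1 : Fin n → F) i ((c⁻¹ : Fˣ) : F))
  val_inv := by
    rw [Matrix.diagonal_mul_diagonal, ← Matrix.diagonal_one]
    congr 1
    funext l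
    rcases eq_or_ne l i with rfl | h <;> simp [*]
  inv_val := by
    rw [Matrix.diagonal_mul_diagonal, ← Matrix.diagonal_one]
    congr 1
    funext l
    rcases eq_or_ne l i with rfl | h <;> simp [*]

theorem dgi_val (i : Fin n) (c : Fˣ) :
    (dgi i c).1 = Matrix.diagonal (Function.update (1 : Fin n → F) i (c : F)) := rfl

theorem dgi_inv (i : Fin n) (c : Fˣ) : (dgi i c)⁻¹ = dgi i c⁻¹ := Units.ext rfl

theorem det_dgi (i : Fin n) (c : Fˣ) : (dgi i c).1.det = c := by
  rw [dgi_val, Matrix.det_diagonal, ← Finset.mul_prod_erase _ _ (Finset.mem_univ i)]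
  rw [Finset.prod_eq_one fun l hl => by simp [Finset.ne_of_mem_erase hl]]
  simp

theorem levHom_dgi_apply (i : Fin n) (c : Fˣ) (v : HypSpace F n W) :
    (levHom Q₀ (dgi i c)).1 v = mk (fun l => Function.update (1 : Fin n → F) i (c : F) l * cx v l)
      (fun l => Function.update (1 : Fin n → F) i ((c⁻¹ : Fˣ) : F) l * cy v l) v.2 := by
  rw [levHom_apply, dgi_inv, dgi_val, dgi_val, Matrix.diagonal_transpose]
  ext l <;> simp [Matrix.mulVec_diagonal]

theorem levHom_dgi_sq (i : Fin n) (c : Fˣ) :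
    levHom Q₀ (dgi i (c * c)) = ⁅levHom Q₀ (dgi i c), sw Q₀ ({i} : Finset (Fin n))⁆ := by
  rw [commutatorElement_def, sw_inv, ← map_inv, dgi_inv]
  refine oq_ext Q₀ fun v => ?_
  simp only [Subgroup.coe_mul, LinearEquiv.mul_apply, levHom_dgi_apply, sw_apply,
    Finset.mem_singleton]
  ext l
  · rcases eq_or_ne l i with rfl | h <;> simp [*] <;> ring
  · rcases eq_or_ne l i with rfl | h <;> simp [*] <;> ring
  · simp

variable [Finite F] [FiniteDimensional F W]

theorem finiteDim (n : ℕ) : FiniteDimensional F (HypSpace F n W) := inferInstance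

variable (hB : BNondeg Q₀) (hdim : 5 ≤ 2 * n + Module.finrank F W)
include hB hdim

theorem commutator_eq : commutator (OQ (hypExt n Q₀)) = Om Q₀ n := by
  haveI : Finite W := Module.finite_of_finite F
  exact GeoClasses.commutator_eq_EQ (bNondeg_hypExt n hB) (by rw [finrank_HypSpace]; omega)

theorem commutator_mem (a b : OQ (hypExt n Q₀)) : ⁅a, b⁆ ∈ Om Q₀ n := by
  rw [← commutator_eq Q₀ hB hdim, commutator_def]
  exact Subgroup.commutator_mem_commutator (Subgroup.mem_top _) (Subgroup.mem_top _)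




theorem levHom_mem (hn : 2 ≤ n) (g : GL (Fin n) F) (hg : ∃ c : Fˣ, g.1.det = c * c) :
    levHom Q₀ g ∈ Om Q₀ n := by
  obtain ⟨c, hc⟩ := hg
  set i : Fin n := ⟨0, by omega⟩
  set h : GL (Fin n) F := (dgi i (c * c))⁻¹ * g
  have hh : h.1.det = 1 := by
    rw [Units.val_mul, Matrix.det_mul, dgi_inv, det_dgi, hc]
    simp [mul_assoc]
  have e : g = dgi i (c * c) * SpecialLinearGroup.toGL ⟨h.1, hh⟩ := by
    rw [show SpecialLinearGroup.toGL ⟨h.1, hh⟩ = h from Units.ext rfl]
    exact (mul_inv_cancel_left _ _).symm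
  rw [e, map_mul, levHom_dgi_sq]
  exact mul_mem (commutator_mem Q₀ hB hdim _ _) (slHom_mem Q₀ hn ⟨h.1, hh⟩)

omit hB hdim

/-- conjugation by an isometry, as an automorphism of `Ω` -/
noncomputable def conjE (τ : OQ (hypExt n Q₀)) : Om Q₀ n ≃* Om Q₀ n :=
  haveI := EQ_normal (hypExt n Q₀)
  MulAut.conjNormal τ

omit [Finite F] [FiniteDimensional F W] in
@[simp] theorem conjE_coe (τ : OQ (hypExt n Q₀)) (g : Om Q₀ n) :
    (conjE Q₀ τ g).1 = τ * g.1 * τ⁻¹ := rfl

include hB

/-- a representation trivial on the centre of the Siegel radical is trivial -/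
theorem eq_one_of_zE (hn : 3 ≤ n) {M : Type*} [Monoid M] (R : Om Q₀ n →* M)
    (h : ∀ A, R (zE Q₀ A) = 1) (g : Om Q₀ n) : R g = 1 := by
  classical
  haveI : Finite W := Module.finite_of_finite F
  obtain ⟨m, rfl⟩ : ∃ m, n = m + 2 + 1 := ⟨n - 3, by omega⟩
  set Q := hypExt (m + 2) Q₀
  set e : OQ (hypExt (m + 2 + 1) Q₀) ≃* OQ (hypAdd Q) :=
    OQCongr (hypSplit (m + 2)) (hypSplit_spec (m + 2) Q₀)
  have h1 : BNondeg Q := bNondeg_hypExt _ hB
  have h2 : HasTwoPairs Q := hasTwoPairs_hypExt m Q₀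
  have hd : 5 ≤ Module.finrank F ((F × F) × HypSpace F (m + 2) W) := by
    rw [← LinearEquiv.finrank_eq (hypSplit (m + 2)), finrank_HypSpace]; omega
  have hmap : (Om Q₀ (m + 2 + 1)).map e.toMonoidHom = EQ (hypAdd Q) := by
    rw [← commutator_eq Q₀ hB (by omega), ← GeoClasses.commutator_eq_EQ (bNondeg_hypAdd h1) hd]
    exact map_commutator_top_of_equiv e
  let Φ : Om Q₀ (m + 2 + 1) ≃* EQ (hypAdd Q) :=
    (e.subgroupMap _).trans (MulEquiv.subgroupCongr hmap)
  have htop := normal_eq_top_of_not_scalar h1 h2 (R.comp Φ.symm.toMonoidHom).ker inferInstance ?_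
  · have : Φ g ∈ (R.comp Φ.symm.toMonoidHom).ker := htop ▸ Subgroup.mem_top _
    simpa [MonoidHom.mem_ker] using this
  · set i : Fin (m + 2 + 1) := ⟨0, by omega⟩
    set j : Fin (m + 2 + 1) := ⟨1, by omega⟩
    have hij : i ≠ j := by simp [i, j, Fin.ext_iff]
    set M : Matrix (Fin (m + 2 + 1)) (Fin (m + 2 + 1)) F := Matrix.single i j 1
    refine ⟨Φ (zE Q₀ M), by simp [MonoidHom.mem_ker, h], ?_⟩
    rintro ⟨c, hc⟩
    have key : ∀ v, (zS Q₀ M).1 v = c • v := fun v => by
      have h' := hc (hypSplit (m + 2) v)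
      have e0 : (Φ (zE Q₀ M)).1 = e (zS Q₀ M) := rfl
      have e1 : (Φ (zE Q₀ M)).1.1 (hypSplit (m + 2) v) = hypSplit (m + 2) ((zS Q₀ M).1 v) := by
        rw [e0]
        simp [e, OQCongr]
      rw [e1, ← map_smul] at h'
      exact (hypSplit (m + 2)).injective h'
    have hy := congrArg cx (key (mk 0 (ev j) 0))
    have := congrFun hy i
    simp [zS_apply, M, Matrix.sub_mulVec, Matrix.transpose_single, Matrix.single_mulVec, hij,
      Pi.single_apply, hij.symm] at this

end Cfsg.Agent.MinDeg.Orth
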