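import Cfsg.Agent.MinDeg.OrthWeights

/-!
The weight line of a wedge fixed by short radical elements; exchanging one pair turns it into a
vector fixed by the centre of the Siegel radical and moved by `SL_n`.  The resulting degree bound.
-/

set_option autoImplicit false
set_option linter.unusedSectionVars false

namespace Cfsg.Agent.MinDeg.Orth

open QuadraticMap Cfsg.Agent.Classical Matrix Cfsg.Agent.Weights Module

universe u w v

variable {F : Type u} [Field F] [Fintype F] {n : ℕ} {W : Type w} [AddCommGroup W] [Module F W]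
  [FiniteDimensional F W] {Q₀ : QuadraticForm F W} {ψ : AddChar F ℂ}
  {V : Type v} [AddCommGroup V] [Module ℂ V] [FiniteDimensional ℂ V]
  (R : Om Q₀ n →* Module.End ℂ V) (hn : 3 ≤ n) (hB : BNondeg Q₀)

/-- the standard wedge -/
def std (p s : Fin n) : Matrix (Fin n) (Fin n) F := wedge (Pi.single p 1) (Pi.single s 1)

theorem std_apply {p s : Fin n} (hps : p ≠ s) :
    (std p s : Matrix (Fin n) (Fin n) F) p s = 1 ∧
      (std p s : Matrix (Fin n) (Fin n) F) s p = -1 := by
  simp [std, hps, hps.symm]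

theorem std_ne_zero {p s : Fin n} (hps : p ≠ s) :
    wedge (Pi.single p (1 : F)) (Pi.single s 1) ≠ 0 := fun h => by
  have := congrFun (congrFun h p) s
  simp [hps, hps.symm] at this

include hn hB

theorem slE_eq_lvE (g : SpecialLinearGroup (Fin n) F) :
    slE Q₀ (by omega) g = lvE hn hB (SpecialLinearGroup.toGL g) ⟨1, by simp⟩ := Subtype.ext rfl

omit hn in
theorem levHom_mul_sh_lvE (hn : 3 ≤ n) (g : GL (Fin n) F) (hg : ∃ c : Fˣ, g.1.det = c * c)
    {i : Fin n} {c : F} (hc : c ≠ 0) (he : g.1 *ᵥ ev i = c • ev i) (k : W) :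
    shE Q₀ i k * lvE hn hB g hg = lvE hn hB g hg * shE Q₀ i (c⁻¹ • k) := by
  refine Subtype.ext ?_
  change sh Q₀ i k * levHom Q₀ g = levHom Q₀ g * sh Q₀ i (c⁻¹ • k)
  rw [levHom_mul_sh Q₀ g he, smul_inv_smul₀ hc]

/-- a line in the weight space of a wedge, cut out by the short radical group at the first index -/
theorem exists_line (hψ : ψ.IsPrimitive) {p s : Fin n} (hps : p ≠ s)
    (hlt : finrank ℂ (ws R ψ (std p s)) < 2 * Nat.card W)
    (hpos : ws R ψ (std p s) ≠ ⊥) :
    ∃ e, e ∈ ws R ψ (std p s) ∧ e ≠ 0 ∧ (∀ l, R (shE Q₀ p l) e = e) ∧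
      ∀ v ∈ ws R ψ (std p s), (∀ l, R (shE Q₀ p l) v = v) → ∃ c : ℂ, v = c • e := by
  classical
  obtain ⟨heq, h0, hsum⟩ := shOp_eigen R hB hψ (B := std p s) hps
    (by rw [(std_apply hps).2]; exact neg_ne_zero.2 one_ne_zero)
  set E := weightSpace (shOp R ψ p (std p s)) fun l => ψ (std p s s p * polar Q₀ l (0 : W)) with hE
  have hmem : ∀ v : ws R ψ (std p s), v ∈ E ↔ ∀ l, R (shE Q₀ p l) v.1 = v.1 := fun v => by
    rw [hE, mem_weightSpace]
    refine forall_congr' fun l => ?_
    rw [polar_zero_right, mul_zero, AddChar.map_zero_eq_one, one_smul]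
    exact ⟨fun h => congrArg Subtype.val h, fun h => Subtype.ext h⟩
  have h1 : finrank ℂ E = 1 := by
    have ha := h0 hpos 0
    have hb : ¬ 2 ≤ finrank ℂ E := fun h2 => by
      have := hsum 2 fun k => by rw [heq k 0]; exact h2
      omega
    change finrank ℂ E = 1
    change 0 < finrank ℂ E at ha
    omega
  obtain ⟨e, he0, he⟩ := finrank_eq_one_iff'.1 h1
  refine ⟨e.1.1, e.1.2, fun h => he0 (Subtype.ext (Subtype.ext h)), (hmem e.1).1 e.2, ?_⟩
  intro v hv hfix
  obtain ⟨c, hc⟩ := he ⟨⟨v, hv⟩, (hmem ⟨v, hv⟩).2 hfix⟩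
  exact ⟨c, (congrArg (fun z : E => z.1.1) hc).symm⟩

/-- a Levi element fixing the wedge and the index acts on the line by a scalar -/
theorem line_scalar {p s : Fin n} {e : V} (hmem : e ∈ ws R ψ (std p s))
    (hfix : ∀ l, R (shE Q₀ p l) e = e)
    (huniq : ∀ v ∈ ws R ψ (std p s), (∀ l, R (shE Q₀ p l) v = v) → ∃ c : ℂ, v = c • e)
    (g : GL (Fin n) F) (hg : ∃ c : Fˣ, g.1.det = c * c)
    (hst : g.1ᵀ * std p s * g.1 = std p s) {c : F} (hc : c ≠ 0)
    (hgp : g.1 *ᵥ ev p = c • ev p) : ∃ γ : ℂ, R (lvE hn hB g hg) e = γ • e := by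
  refine huniq _ (lvE_mem_ws R hn hB hg (by rwa [hst])) fun l => ?_
  rw [← apply_mul, levHom_mul_sh_lvE hB hn g hg hc hgp, apply_mul, hfix]

/-- transvections into the second index fix the line -/
theorem line_fixed {p s : Fin n} (hps : p ≠ s) (hq : 4 ≤ Fintype.card F) {e : V}
    (hmem : e ∈ ws R ψ (std p s)) (he0 : e ≠ 0) (hfix : ∀ l, R (shE Q₀ p l) e = e)
    (huniq : ∀ v ∈ ws R ψ (std p s), (∀ l, R (shE Q₀ p l) v = v) → ∃ c : ℂ, v = c • e)
    {i : Fin n} (hi : i ≠ s) (a : F) :
    R (slE Q₀ (by omega) (SpecialLinearGroup.transvection hi a)) e = e := by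
  classical
  obtain ⟨c, hc0, hc1, hc2⟩ : ∃ c : F, c ≠ 0 ∧ c ≠ 1 ∧ c * c ≠ 1 := by
    obtain ⟨c, -, hc⟩ := Finset.exists_mem_notMem_of_card_lt_card (s := ({0, 1, -1} : Finset F))
      (t := Finset.univ) (lt_of_le_of_lt Finset.card_le_three (by rw [Finset.card_univ]; omega))
    simp only [Finset.mem_insert, Finset.mem_singleton, not_or] at hc
    refine ⟨c, hc.1, hc.2.1, fun h => ?_⟩
    rcases mul_self_eq_one_iff.1 h with h' | h'
    exacts [hc.2.1 h', hc.2.2 h']
  set d : Fin n → F := fun l => if l = p then c else if l = s then c⁻¹ else 1 with hd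
  have hdet : (Matrix.diagonal d).det = 1 := by
    rw [Matrix.det_diagonal, ← Finset.mul_prod_erase _ _ (Finset.mem_univ p),
      ← Finset.mul_prod_erase _ _ (show s ∈ Finset.univ.erase p by simp [hps.symm]),
      Finset.prod_eq_one fun l hl => by
        simp only [Finset.mem_erase] at hl
        simp [hd, hl.1, hl.2.1]]
    simp [hd, hps.symm, hc0]
  set h : SpecialLinearGroup (Fin n) F := ⟨Matrix.diagonal d, hdet⟩
  have hgen : ∀ g : SpecialLinearGroup (Fin n) F, g.1ᵀ * std p s * g.1 = std p s →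
      ∀ x : F, x ≠ 0 → g.1 *ᵥ ev p = x • ev p →
      ∃ γ : ℂ, R (slE Q₀ (by omega) g) e = γ • e := fun g hst x hx hp => by
    rw [slE_eq_lvE hn hB g]
    exact line_scalar R hn hB hmem hfix huniq _ _ hst hx hp
  have hωex : ∀ b : F,
      ∃ γ : ℂ, R (slE Q₀ (by omega) (SpecialLinearGroup.transvection hi b)) e = γ • e := by
    intro b
    refine hgen _ ?_ 1 one_ne_zero ?_
    · rw [std, congr_wedge]
      have e1 : (SpecialLinearGroup.transvection hi b).1ᵀ *ᵥ Pi.single s (1 : F) = Pi.single s 1 := by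
        ext l; simp [SpecialLinearGroup.transvection_coe, Matrix.one_apply, Matrix.single_apply, Pi.single_apply,
          eq_comm]; intro _ h2; exact absurd h2 hi.symm
      have e2 : (SpecialLinearGroup.transvection hi b).1ᵀ *ᵥ Pi.single p (1 : F) =
          Pi.single p 1 + (if i = p then b else 0) • Pi.single s 1 := by
        ext l
        rcases eq_or_ne l s with rfl | hl <;> rcases eq_or_ne i p with rfl | hip <;>
          simp [SpecialLinearGroup.transvection_coe, Matrix.one_apply, Matrix.single_apply,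
            Pi.single_apply, eq_comm, *] <;>
          (try split_ifs) <;> simp_all [Pi.single_apply, eq_comm]
      rw [e1, e2]
      ext x y
      simp only [wedge_apply, Pi.add_apply, Pi.smul_apply, smul_eq_mul]
      ring
    · ext l
      simp [SpecialLinearGroup.transvection_coe, Matrix.one_apply, Matrix.single_apply, Pi.single_apply, ev,
        hps.symm]
  choose ω hω using hωex
  obtain ⟨γ, hγ⟩ : ∃ γ : ℂ, R (slE Q₀ (by omega) h) e = γ • e := by
    refine hgen h ?_ c hc0 ?_
    · rw [std, congr_wedge]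
      change wedge ((Matrix.diagonal d)ᵀ *ᵥ _) ((Matrix.diagonal d)ᵀ *ᵥ _) = _
      simp only [Matrix.diagonal_transpose, Matrix.diagonal_mulVec_single, mul_one, hd, if_true,
        if_neg hps.symm]
      ext x y
      simp [Pi.single_apply]
      split_ifs <;> field_simp
    · change Matrix.diagonal d *ᵥ ev p = c • ev p
      simp only [ev, Matrix.diagonal_mulVec_single, mul_one, hd, if_true]
      rw [← Pi.single_smul]
      simp
  have hγ0 : γ ≠ 0 := fun h0 => he0 (R_injective R _ (by rw [hγ, h0, zero_smul, map_zero]))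
  have hω0 : ∀ b, ω b ≠ 0 := fun b h0 => he0 (R_injective R _ (by rw [hω b, h0, zero_smul, map_zero]))
  have hadd : ∀ b b', ω (b + b') = ω b * ω b' := fun b b' => smul_left_injective ℂ he0 (by
    have hx : (SpecialLinearGroup.transvection hi (b + b') : SpecialLinearGroup (Fin n) F) =
        SpecialLinearGroup.transvection hi b * SpecialLinearGroup.transvection hi b' := by
      apply Subtype.ext
      simp [SpecialLinearGroup.transvection_coe, add_mul, mul_add, Matrix.single_mul_single_of_ne,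
        hi.symm, Matrix.single_add]
      abel
    have h1 := hω (b + b')
    rw [hx, map_mul, apply_mul, hω, map_smul, hω, smul_smul] at h1
    dsimp only
    rw [← h1, mul_comm])
  have hscale : ∀ b, ω (d i * c * b) = ω b := fun b => smul_left_injective ℂ he0 (by
    have hx : h * SpecialLinearGroup.transvection hi b =
        SpecialLinearGroup.transvection hi (d i * c * b) * h := by
      apply Subtype.ext
      change Matrix.diagonal d * _ = _ * Matrix.diagonal d
      rw [SpecialLinearGroup.transvection_coe, SpecialLinearGroup.transvection_coe, mul_add,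
        add_mul, mul_one, one_mul]
      congr 1
      ext x y
      simp only [Matrix.diagonal_mul, Matrix.mul_diagonal, Matrix.single_apply]
      split_ifs with hxy
      · obtain ⟨rfl, rfl⟩ := hxy
        simp [hd, hps.symm]
        field_simp
      · simp
    have h1 := congrArg (fun g => R (slE Q₀ (by omega) g) e) hx
    simp only [map_mul, Module.End.mul_apply] at h1
    rw [hω, map_smul, hγ, map_smul, hω, smul_smul, smul_smul] at h1
    dsimp only
    have h2 : (ω b * γ - γ * ω (d i * c * b)) • e = 0 := by rw [sub_smul, h1, sub_self]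
    have h3 := (smul_eq_zero.1 h2).resolve_right he0
    rw [show ω (d i * c * b) = ω b from mul_left_cancel₀ hγ0 (by linear_combination -h3)])
  have hne : d i * c ≠ 1 := by
    simp only [hd, if_neg hi]
    split_ifs with h'
    · exact hc2
    · rwa [one_mul]
  have hne0 : d i * c - 1 ≠ 0 := sub_ne_zero.2 hne
  have h1 : ω a = 1 := by
    have h := hscale (a / (d i * c - 1))
    rw [show d i * c * (a / (d i * c - 1)) = a + a / (d i * c - 1) by field_simp; ring, hadd] at h
    exact mul_right_cancel₀ (hω0 _) (h.trans (one_mul _).symm)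
  rw [hω, h1, one_smul]

/-- `R` has a line in the weight space of a wedge fixed by the transvections into one index -/
def HasLine (R : Om Q₀ n →* Module.End ℂ V) (hn : 2 ≤ n) (ψ : AddChar F ℂ) (p s : Fin n) :
    Prop :=
  ∃ e : V, e ∈ ws R ψ (std p s) ∧ e ≠ 0 ∧
    ∀ (i : Fin n) (hi : i ≠ s) (a : F),
      R (slE Q₀ hn (SpecialLinearGroup.transvection hi a)) e = e

theorem hasLine (hψ : ψ.IsPrimitive) (hs : Small R) (hq : 4 ≤ Fintype.card F)
    (hnt : ∃ g, R g ≠ 1) {p s : Fin n} (hps : p ≠ s) : HasLine R (by omega) ψ p s := by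
  classical
  haveI : Finite W := Module.finite_of_finite F
  have hnt' : ∃ M, R (zE Q₀ M) ≠ 1 := by
    by_contra! h
    obtain ⟨g, hg⟩ := hnt
    exact hg (eq_one_of_zE Q₀ hB hn R h g)
  have hne := std_ne_zero (F := F) hps
  have hpos : ws R ψ (std p s) ≠ ⊥ := fun h0 => by
    have := card_W_le_ws_wedge R hn hB hψ hs (fun _ => hq) hnt' hne
    rw [show wedge (Pi.single p (1 : F)) (Pi.single s 1) = std p s from rfl, h0, finrank_bot] at this
    exact absurd Nat.card_pos (not_lt.2 this)
  obtain ⟨e, h1, h2, h3, h4⟩ := exists_line R hn hB hψ hps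
    (ws_wedge_lt R hn hB hψ hs hne) hpos
  exact ⟨e, h1, h2, fun i hi a => line_fixed R hn hB hps hq h1 h2 h3 h4 hi a⟩

omit hn hB

/-- conjugate representation -/
noncomputable def conjRep (τ : OQ (hypExt n Q₀)) : Om Q₀ n →* Module.End ℂ V :=
  R.comp (conjE Q₀ τ).toMonoidHom

include hn

theorem moved_fixZ (hψ : ψ.IsPrimitive) {p s : Fin n} (hps : p ≠ s)
    (hL : HasLine R (by omega) ψ p s) :
    ∃ v ∈ fixZ (conjRep R (sw Q₀ {s})),
      ∃ g, conjRep R (sw Q₀ {s}) (slE Q₀ (show 2 ≤ n by omega) g) v ≠ v := by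
  classical
  obtain ⟨e, he, he0, hfix⟩ := hL
  refine ⟨e, ?_, ?_⟩
  · rw [mem_fixZ]
    intro M
    induction M using Matrix.induction_on' with
    | h_zero => rw [zE_zero, map_one]; rfl
    | h_add A B hA hB' => rw [zE_add, apply_mul, hB', hA]
    | h_std_basis i j a =>
      change R (conjE Q₀ (sw Q₀ {s}) _) e = e
      rcases eq_or_ne j s with rfl | hj
      · rcases eq_or_ne i j with rfl | hi
        · rw [zE_congr_symm Q₀ (Matrix.transpose_single _ _ _), map_one, map_one]; rfl
        · rw [conjE_sw_zE Q₀ (show 2 ≤ n by omega) hi]; exact hfix i hi a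
      · rcases eq_or_ne i s with rfl | hi
        · rw [zE_congr Q₀ (N := Matrix.single j i (-a))
            (by rw [Matrix.transpose_single, Matrix.transpose_single, ← Matrix.single_neg,
              ← Matrix.single_neg]; abel),
            conjE_sw_zE Q₀ (show 2 ≤ n by omega) hj]
          exact hfix j hj _
        · rw [conjE_sw_zE_off Q₀ hi hj, (mem_ws R).1 he, chiM_single]
          simp [std, hi, hj]
  · obtain ⟨a, ha⟩ : ∃ a, ψ a ≠ 1 := by
      by_contra! hall
      exact hψ one_ne_zero (DFunLike.ext _ _ fun x => by simp [AddChar.mulShift_apply, hall])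
    refine ⟨SpecialLinearGroup.transvection hps a, fun h => ?_⟩
    change R (conjE Q₀ (sw Q₀ {s}) (slE Q₀ _ _)) e = e at h
    rw [← conjE_sw_zE Q₀ (show 2 ≤ n by omega) hps, conjE_sw_sw, (mem_ws R).1 he, chiM_single,
      (std_apply hps).1, one_mul] at h
    exact ha (smul_left_injective ℂ he0 (h.trans (one_smul ℂ e).symm))

include hB

/-- the special linear group on the fixed space -/
noncomputable def fixRep : SpecialLinearGroup (Fin n) F →* Module.End ℂ (fixZ R) where
  toFun g := (R (slE Q₀ (by omega) g)).restrict fun v hv => by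
    rw [slE_eq_lvE hn hB g]
    rw [← ws_zero R (ψ := (1 : AddChar F ℂ))] at hv ⊢
    exact lvE_mem_ws R hn hB _ (by simpa using hv)
  map_one' := LinearMap.ext fun v => Subtype.ext (by simp)
  map_mul' g h := LinearMap.ext fun v => Subtype.ext (by simp [Module.End.mul_apply])

theorem geo_le_fixZ (hex : (n, Fintype.card F) ≠ (3, 2) ∧ (n, Fintype.card F) ≠ (3, 4) ∧
      (n, Fintype.card F) ≠ (4, 2) ∧ (n, Fintype.card F) ≠ (4, 3))
    (hmv : ∃ v ∈ fixZ R, ∃ g, R (slE Q₀ (show 2 ≤ n by omega) g) v ≠ v) :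
    geo (Fintype.card F) n ≤ finrank ℂ (fixZ R) + 1 := by
  obtain ⟨v, hv, g, hg⟩ := hmv
  exact sl_degree hn hex (fixRep R hn hB) ⟨g, fun h => hg (by
    have := congrArg Subtype.val (LinearMap.congr_fun h ⟨v, hv⟩)
    simpa [fixRep] using this)⟩

/-- the fixed space of the centre of the Siegel radical is large -/
theorem geo_le_fixZ_of_small (hψ : ψ.IsPrimitive) (hs : Small R) (hq : 4 ≤ Fintype.card F)
    (hex : (n, Fintype.card F) ≠ (3, 4)) (hnt : ∃ g, R g ≠ 1) :
    geo (Fintype.card F) n ≤ finrank ℂ (fixZ R) + 1 := by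
  refine geo_le_fixZ R hn hB ⟨fun h => ?_, hex, fun h => ?_, fun h => ?_⟩ ?_
  · simp only [Prod.mk.injEq] at h; omega
  · simp only [Prod.mk.injEq] at h; omega
  · simp only [Prod.mk.injEq] at h; omega
  set p : Fin n := ⟨0, by omega⟩
  set s : Fin n := ⟨1, by omega⟩
  have hps : p ≠ s := by simp [p, s, Fin.ext_iff]
  have hs' : Small (conjRep R (sw Q₀ {s})) := hs
  have hnt' : ∃ g, conjRep R (sw Q₀ {s}) g ≠ 1 := by
    obtain ⟨g, hg⟩ := hnt
    exact ⟨conjE Q₀ (sw Q₀ {s}) g, by simpa [conjRep, conjE_sw_sw] using hg⟩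
  have hback : conjRep (conjRep R (sw Q₀ {s})) (sw Q₀ {s}) = R :=
    MonoidHom.ext fun g => congrArg R (conjE_sw_sw Q₀ _ g)
  have := moved_fixZ (conjRep R (sw Q₀ {s})) hn hψ hps (hasLine _ hn hB hψ hs' hq hnt' hps)
  rwa [hback] at this

end Cfsg.Agent.MinDeg.Orth
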