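import Cfsg.Agent.MinDeg.SLResult
import Cfsg.Agent.MinDeg.OrthForms

/-!
`SL_n` on pairs of vectors, the degree bound for a representation on any space, and the arithmetic
of the orbit sizes.
-/

set_option autoImplicit false
set_option linter.unusedSectionVars false

namespace Cfsg.Agent.MinDeg.Orth

open Matrix

universe u

variable {F : Type u} [Field F] [Fintype F] {n : ℕ}

/-- the number of points of projective space -/
def geo (q n : ℕ) : ℕ := ∑ i ∈ Finset.range n, q ^ i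

theorem geo_mul (q n : ℕ) (hq : 1 ≤ q) : (q - 1) * geo q n + 1 = q ^ n := by
  induction n with
  | zero => simp [geo]
  | succ n ih =>
    rw [geo, Finset.sum_range_succ, ← geo, Nat.mul_add, pow_succ']
    have : (q - 1) * q ^ n + q ^ n = q * q ^ n := by
      rw [← Nat.succ_mul]
      congr 1
      omega
    omega

/-- the degree of a non-trivial representation of `SL_n` -/
theorem sl_degree (hn : 3 ≤ n)
    (hex : (n, Fintype.card F) ≠ (3, 2) ∧ (n, Fintype.card F) ≠ (3, 4) ∧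
      (n, Fintype.card F) ≠ (4, 2) ∧ (n, Fintype.card F) ≠ (4, 3))
    {V : Type*} [AddCommGroup V] [Module ℂ V] [FiniteDimensional ℂ V]
    (σ : SpecialLinearGroup (Fin n) F →* Module.End ℂ V) (hnt : ∃ g, σ g ≠ 1) :
    geo (Fintype.card F) n ≤ Module.finrank ℂ V + 1 := by
  classical
  obtain ⟨m, rfl⟩ : ∃ m, n = m + 3 := ⟨n - 3, by omega⟩
  set d := Module.finrank ℂ V
  let e : V ≃ₗ[ℂ] (Fin d → ℂ) := (Module.finBasis ℂ V).equivFun
  let ρ : Representation ℂ (SpecialLinearGroup (Fin (m + 3)) F) (Fin d → ℂ) :=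
    e.conjRingEquiv.toMonoidHom.comp σ
  obtain ⟨R, hR, hker⟩ := SLMin.exists_unitary ρ
  obtain ⟨g, hg⟩ := hnt
  have hb := SLMin.degree_bound hR ⟨g, fun h => hg (by
    have := hker g h
    exact e.conjRingEquiv.injective (this.trans (map_one _).symm))⟩ hex
  have hq : 2 ≤ Fintype.card F := Fintype.one_lt_card
  have h : ((Fintype.card F - 1) * geo (Fintype.card F) (m + 3) : ℕ) ≤
      (Fintype.card F - 1) * (d + 1) := by
    have hgm := geo_mul (Fintype.card F) (m + 3) (by omega)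
    have : (((Fintype.card F - 1) * geo (Fintype.card F) (m + 3) : ℕ) : ℝ) ≤
        (((Fintype.card F - 1) * (d + 1) : ℕ) : ℝ) := by
      have hgm' : (((Fintype.card F - 1) * geo (Fintype.card F) (m + 3) : ℕ) : ℝ) + 1 =
          (Fintype.card F : ℝ) ^ (m + 3) := by exact_mod_cast hgm
      rw [Nat.cast_mul (Fintype.card F - 1) (d + 1), Nat.cast_sub (show 1 ≤ Fintype.card F by omega),
        Nat.cast_one, Nat.cast_add, Nat.cast_one]
      linarith
    exact_mod_cast this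
  exact Nat.le_of_mul_le_mul_left h (by omega)

/-- `SL_n` is transitive on pairs of independent vectors -/
theorem exists_sl_pair (hn : 3 ≤ n) {p s : Fin n} (hps : p ≠ s) {a b : Fin n → F}
    (h : wedge a b ≠ 0) :
    ∃ g : SpecialLinearGroup (Fin n) F, g.1 *ᵥ Pi.single p 1 = a ∧ g.1 *ᵥ Pi.single s 1 = b := by
  obtain ⟨m, rfl⟩ : ∃ m, n = m + 3 := ⟨n - 3, by omega⟩
  rw [ne_eq, wedge_eq_zero_iff, not_or, not_exists] at h
  obtain ⟨g, g0, g1⟩ := SLMin.exists_move_pair h.1 h.2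
  obtain ⟨g₀, h0, h1⟩ := SLMin.exists_move_pair (x := Pi.single p (1 : F)) (y := Pi.single s 1)
    (by simp) (fun c hc => by
      have := congrFun hc s
      simp [hps.symm] at this)
  refine ⟨g * g₀⁻¹, ?_, ?_⟩
  · rw [← h0, ← g0, SLMin.sl_mul_mulVec, SLMin.sl_inv_mulVec]
  · rw [← h1, ← g1, SLMin.sl_mul_mulVec, SLMin.sl_inv_mulVec]

section Counting

open Classical

/-- the non-zero wedges -/
noncomputable def wedges (F : Type u) [Field F] [Fintype F] (n : ℕ) :
    Finset (Matrix (Fin n) (Fin n) F) :=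
  (Finset.univ.filter fun ab : (Fin n → F) × (Fin n → F) => wedge ab.1 ab.2 ≠ 0).image
    fun ab => wedge ab.1 ab.2

theorem mem_wedges {B : Matrix (Fin n) (Fin n) F} :
    B ∈ wedges F n ↔ ∃ a b, wedge a b ≠ 0 ∧ wedge a b = B := by
  simp [wedges]

theorem zero_not_mem_wedges : (0 : Matrix (Fin n) (Fin n) F) ∉ wedges F n := fun h => by
  obtain ⟨a, b, h1, h2⟩ := mem_wedges.1 h
  exact h1 h2

theorem card_wedges_mul (hn : 1 ≤ n) :
    (wedges F n).card * (Fintype.card F * (Fintype.card F ^ 2 - 1)) =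
      (Fintype.card F ^ n - 1) * (Fintype.card F ^ n - Fintype.card F) := by
  rw [← card_indep_pairs hn, wedges, Finset.card_eq_sum_card_image
    (fun ab : (Fin n → F) × (Fin n → F) => wedge ab.1 ab.2)
    (Finset.univ.filter fun ab : (Fin n → F) × (Fin n → F) => wedge ab.1 ab.2 ≠ 0),
    Finset.sum_const_nat]
  intro B hB
  obtain ⟨⟨a, b⟩, hab, rfl⟩ := Finset.mem_image.1 hB
  simp only [Finset.mem_filter, Finset.mem_univ, true_and] at hab
  rw [← card_wedge_fibre hab, Finset.filter_filter]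
  congr 1
  refine Finset.filter_congr fun x _ => ?_
  exact ⟨fun h => h.2, fun h => ⟨by rw [h]; exact hab, h⟩⟩

theorem card_wedges_sq (hn : 1 ≤ n) :
    ((wedges F n).card : ℤ) * ((Fintype.card F : ℤ) ^ 2 - 1) =
      ((Fintype.card F : ℤ) ^ n - 1) * ((Fintype.card F : ℤ) ^ (n - 1) - 1) := by
  have h := card_wedges_mul (F := F) hn
  obtain ⟨m, rfl⟩ : ∃ m, n = m + 1 := ⟨n - 1, by omega⟩
  have hq : 2 ≤ Fintype.card F := Fintype.one_lt_card
  have e1 : 1 ≤ Fintype.card F ^ (m + 1) := Nat.one_le_pow _ _ (by omega)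
  have e2 : Fintype.card F ≤ Fintype.card F ^ (m + 1) := Nat.le_self_pow (by omega) _
  have e3 : 1 ≤ Fintype.card F ^ 2 := Nat.one_le_pow _ _ (by omega)
  zify [e1, e2, e3] at h
  rw [Nat.add_sub_cancel]
  apply mul_left_cancel₀ (show (Fintype.card F : ℤ) ≠ 0 by omega)
  linear_combination h

theorem geo_le_card_wedges (hn : 3 ≤ n) : geo (Fintype.card F) n ≤ (wedges F n).card := by
  have hq : (2 : ℤ) ≤ Fintype.card F := by exact_mod_cast Fintype.one_lt_card
  have hN := card_wedges_sq (F := F) (show 1 ≤ n by omega)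
  have hg := geo_mul (Fintype.card F) n (by omega)
  obtain ⟨m, rfl⟩ : ∃ m, n = m + 3 := ⟨n - 3, by omega⟩
  have hq1 : 1 ≤ Fintype.card F := Fintype.card_pos
  zify [hq1] at hg
  rw [show m + 3 - 1 = m + 2 from rfl] at hN
  set q : ℤ := (Fintype.card F : ℤ)
  have h2 : q + 2 ≤ q ^ (m + 2) := by
    have : q ^ 2 ≤ q ^ (m + 2) := pow_le_pow_right₀ (by omega) (by omega)
    nlinarith
  have key : ((geo (Fintype.card F) (m + 3) : ℕ) : ℤ) * (q ^ 2 - 1) ≤
      ((wedges F (m + 3)).card : ℤ) * (q ^ 2 - 1) := by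
    rw [hN]
    have e : q ^ (m + 3) - 1 = (q - 1) * (geo (Fintype.card F) (m + 3) : ℕ) := by linarith
    rw [e]
    have hgnn : (0 : ℤ) ≤ (geo (Fintype.card F) (m + 3) : ℕ) := Int.natCast_nonneg _
    nlinarith [mul_nonneg (mul_nonneg (show (0 : ℤ) ≤ q - 1 by omega) hgnn) (sub_nonneg.2 h2)]
  exact_mod_cast le_of_mul_le_mul_right key (by nlinarith)

/-- the bound on the forms that are not wedges beats the orbit of a wedge -/
theorem forms_arith {c : ℕ} (hn : 4 ≤ n) (hc : 1 ≤ c) (h4 : n = 4 → 2 ≤ c ∧ 3 ≤ Fintype.card F) :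
    (wedges F n).card + geo (Fintype.card F) n ≤
      Fintype.card F ^ (4 * (n - 4)) * (c * ((Fintype.card F - 1) * Fintype.card F ^ 4)) := by
  have hq : (2 : ℤ) ≤ Fintype.card F := by exact_mod_cast Fintype.one_lt_card
  have hN := card_wedges_sq (F := F) (show 1 ≤ n by omega)
  have hg := geo_mul (Fintype.card F) n (by omega)
  have hq1 : 1 ≤ Fintype.card F := Fintype.card_pos
  zify [hq1] at hg ⊢
  set q : ℤ := (Fintype.card F : ℤ)
  set N : ℤ := ((wedges F n).card : ℤ)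
  set g : ℤ := ((geo (Fintype.card F) n : ℕ) : ℤ)
  have hg0 : 0 ≤ g := Int.natCast_nonneg _
  have hN0 : 0 ≤ N := Int.natCast_nonneg _
  rcases Nat.lt_or_ge n 5 with h5 | h5
  · obtain rfl : n = 4 := by omega
    obtain ⟨hc2, hq3⟩ := h4 rfl
    have hq3' : (3 : ℤ) ≤ q := by simp only [q]; exact_mod_cast hq3
    have e1 : N = (q ^ 2 + 1) * (q ^ 3 - 1) :=
      mul_right_cancel₀ (show q ^ 2 - 1 ≠ 0 by nlinarith) (by rw [hN]; ring)
    have e2 : g = q ^ 3 + q ^ 2 + q + 1 :=
      mul_left_cancel₀ (show q - 1 ≠ 0 by omega) (by linear_combination hg)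
    have e3 : (2 : ℤ) ≤ c := by exact_mod_cast hc2
    have e4 : (0 : ℤ) ≤ (q - 1) * q ^ 4 := mul_nonneg (by omega) (by positivity)
    norm_num
    nlinarith [mul_le_mul_of_nonneg_right e3 e4, mul_nonneg (sub_nonneg.2 hq3')
      (pow_nonneg (show (0 : ℤ) ≤ q by omega) 4), mul_nonneg (sub_nonneg.2 hq3')
      (pow_nonneg (show (0 : ℤ) ≤ q by omega) 3)]
  · obtain ⟨m, rfl⟩ : ∃ m, n = m + 5 := ⟨n - 5, by omega⟩
    set A : ℤ := q ^ (2 * m + 8)
    have hA : 0 ≤ A := by positivity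
    have hprod : q ^ (m + 5) * q ^ (m + 5 - 1) = q * A := by
      rw [show m + 5 - 1 = m + 4 from rfl]
      simp only [A]; ring
    have b1 : 1 ≤ q ^ (m + 5) := one_le_pow₀ (by omega)
    have b2 : 1 ≤ q ^ (m + 5 - 1) := one_le_pow₀ (by omega)
    have hN' : 3 * N ≤ 2 * ((q - 1) * A) := by
      nlinarith [mul_nonneg hN0 (show 0 ≤ q ^ 2 - 4 by nlinarith),
        mul_nonneg (show 0 ≤ q - 2 by omega) hA]
    have hg' : 8 * g ≤ A := by
      have h1 : g ≤ q ^ (m + 5) := by nlinarith [mul_nonneg hg0 (show 0 ≤ q - 2 by omega)]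
      have h3 : (8 : ℤ) ≤ q ^ (m + 3) :=
        le_trans (by nlinarith : (8 : ℤ) ≤ q ^ 3) (pow_le_pow_right₀ (by omega) (by omega))
      have : A = q ^ (m + 3) * q ^ (m + 5) := by simp only [A]; ring
      nlinarith
    have hbig : A ≤ q ^ (4 * (m + 5 - 4)) * q ^ 4 := by
      rw [← pow_add]
      exact pow_le_pow_right₀ (by omega) (by omega)
    have hc' : (1 : ℤ) ≤ c := by exact_mod_cast hc
    have e4 : (0 : ℤ) ≤ q ^ (4 * (m + 5 - 4)) * q ^ 4 * (q - 1) :=
      mul_nonneg (by positivity) (by omega)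
    nlinarith [mul_le_mul_of_nonneg_right hbig (show 0 ≤ q - 1 by omega),
      mul_le_mul_of_nonneg_right hc' e4, mul_nonneg (show 0 ≤ q - 2 by omega) hA]

end Counting

end Cfsg.Agent.MinDeg.Orth
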