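import Cfsg.Agent.MinDeg.OrthSub
import Cfsg.Agent.MinDeg.OrthSL
import Cfsg.Agent.MinDeg.Orbit

/-!
The weights of the centre of the Siegel radical in a representation of `Ω`: multiplicities, the
orbit of the weights of rank two, and the fixed space.
-/

set_option autoImplicit false
set_option linter.unusedSectionVars false

namespace Cfsg.Agent.MinDeg.Orth

open QuadraticMap Cfsg.Agent.Classical Matrix Cfsg.Agent.Weights Module

universe u w v

variable {F : Type u} [Field F] {n : ℕ} {W : Type w} [AddCommGroup W] [Module F W]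
  {Q₀ : QuadraticForm F W} {ψ : AddChar F ℂ}
  {V : Type v} [AddCommGroup V] [Module ℂ V]
  (R : Om Q₀ n →* Module.End ℂ V)

/-- weight space of a matrix -/
noncomputable def ws (ψ : AddChar F ℂ) (B : Matrix (Fin n) (Fin n) F) : Submodule ℂ V :=
  weightSpace (fun M => R (zE Q₀ M)) ⇑(chiM ψ B)

/-- the vectors fixed by the centre of the Siegel radical -/
noncomputable def fixZ : Submodule ℂ V := weightSpace (fun M => R (zE Q₀ M)) (fun _ => 1)

theorem mem_ws {B : Matrix (Fin n) (Fin n) F} {v : V} :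
    v ∈ ws R ψ B ↔ ∀ M, R (zE Q₀ M) v = chiM ψ B M • v := mem_weightSpace

theorem mem_fixZ {v : V} : v ∈ fixZ R ↔ ∀ M, R (zE Q₀ M) v = v := by
  simp [fixZ, mem_weightSpace]

theorem apply_mul (g h : Om Q₀ n) (v : V) : R (g * h) v = R g (R h v) := by
  rw [map_mul]; rfl

theorem R_injective (g : Om Q₀ n) : Function.Injective (R g) := fun x y h => by
  have := congrArg (R g⁻¹) h
  rwa [← apply_mul, ← apply_mul, inv_mul_cancel, map_one] at this

theorem chiM_ne_zero (ψ : AddChar F ℂ) (B M : Matrix (Fin n) (Fin n) F) : chiM ψ B M ≠ 0 :=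
  (AddChar.val_isUnit (chiM ψ B) M).ne_zero

theorem ws_zero : ws R ψ (0 : Matrix (Fin n) (Fin n) F) = fixZ R := by
  have : ⇑(chiM (n := n) ψ (0 : Matrix (Fin n) (Fin n) F)) = fun _ => 1 := by
    funext M; simp [chiM_apply]
  rw [ws, fixZ, this]

variable [Fintype F] [FiniteDimensional F W] [FiniteDimensional ℂ V]
  (hn : 3 ≤ n) (hB : BNondeg Q₀) (hψ : ψ.IsPrimitive)

/-- a Levi element of square determinant -/
noncomputable def lvE (g : GL (Fin n) F) (hg : ∃ c : Fˣ, g.1.det = c * c) : Om Q₀ n :=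
  ⟨levHom Q₀ g, levHom_mem Q₀ hB (by omega) (by omega) g hg⟩

include hn hB

theorem lvE_mem_ws {g : GL (Fin n) F} (hg : ∃ c : Fˣ, g.1.det = c * c)
    {B : Matrix (Fin n) (Fin n) F} {v : V} (hv : v ∈ ws R ψ (g.1ᵀ * B * g.1)) :
    R (lvE hn hB g hg) v ∈ ws R ψ B := by
  rw [mem_ws] at hv ⊢
  intro M
  have e : zE Q₀ M * lvE hn hB g hg = lvE hn hB g hg *
      zE Q₀ ((g⁻¹ : GL (Fin n) F).1 * M * ((g⁻¹ : GL (Fin n) F).1)ᵀ) :=
    Subtype.ext (levHom_mul_zS' Q₀ g M)
  rw [← apply_mul, e, apply_mul, hv, map_smul]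
  congr 1
  rw [← chiM_congr]
  congr 1
  simp only [← Matrix.mul_assoc, g.mul_inv, Matrix.one_mul]
  rw [Matrix.mul_assoc, ← Matrix.transpose_mul, g.mul_inv, Matrix.transpose_one, Matrix.mul_one]

theorem finrank_ws_congr_le {g : GL (Fin n) F} (hg : ∃ c : Fˣ, g.1.det = c * c)
    (B : Matrix (Fin n) (Fin n) F) :
    finrank ℂ (ws R ψ (g.1ᵀ * B * g.1)) ≤ finrank ℂ (ws R ψ B) :=
  LinearMap.finrank_le_finrank_of_injective
    (f := (R (lvE hn hB g hg)).restrict fun _ hv => lvE_mem_ws R hn hB hg hv)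
    fun _ _ h => Subtype.ext (R_injective R _ (congrArg Subtype.val h))

theorem finrank_ws_congr {g : GL (Fin n) F} (hg : ∃ c : Fˣ, g.1.det = c * c)
    (B : Matrix (Fin n) (Fin n) F) :
    finrank ℂ (ws R ψ (g.1ᵀ * B * g.1)) = finrank ℂ (ws R ψ B) := by
  refine le_antisymm (finrank_ws_congr_le R hn hB hg B) ?_
  obtain ⟨c, hc⟩ := hg
  have hg' : ∃ d : Fˣ, ((g⁻¹ : GL (Fin n) F) : Matrix (Fin n) (Fin n) F).det = d * d := by
    refine ⟨c⁻¹, ?_⟩
    have h1 : ((g⁻¹ : GL (Fin n) F) : Matrix (Fin n) (Fin n) F).det * g.1.det = 1 := by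
      rw [← Matrix.det_mul, g.inv_mul, Matrix.det_one]
    rw [hc] at h1
    rw [eq_inv_of_mul_eq_one_left h1, mul_inv, Units.val_inv_eq_inv_val]
  have := finrank_ws_congr_le R hn hB hg' (ψ := ψ) (g.1ᵀ * B * g.1)
  rwa [show ((g⁻¹ : GL (Fin n) F).1)ᵀ * (g.1ᵀ * B * g.1) * (g⁻¹ : GL (Fin n) F).1 = B by
    simp only [← Matrix.mul_assoc]
    rw [← Matrix.transpose_mul, g.mul_inv, Matrix.transpose_one, Matrix.one_mul, Matrix.mul_assoc,
      g.mul_inv, Matrix.mul_one]] at this

theorem finrank_ws_congr_mat {H : Matrix (Fin n) (Fin n) F} (hH : ∃ c : Fˣ, H.det = c * c)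
    (B : Matrix (Fin n) (Fin n) F) :
    finrank ℂ (ws R ψ (Hᵀ * B * H)) = finrank ℂ (ws R ψ B) := by
  obtain ⟨c, hc⟩ := hH
  have h0 : H.det ≠ 0 := by rw [hc]; exact mul_ne_zero c.ne_zero c.ne_zero
  exact finrank_ws_congr R hn hB (g := Matrix.GeneralLinearGroup.mkOfDetNeZero H h0) ⟨c, hc⟩ B

/-! ### multiplicity -/

omit hn hB in
theorem shE_mem_ws (i : Fin n) (l : W) {B : Matrix (Fin n) (Fin n) F} {v : V}
    (hv : v ∈ ws R ψ B) : R (shE Q₀ i l) v ∈ ws R ψ B := by
  rw [mem_ws] at hv ⊢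
  intro M
  rw [← apply_mul, zE_mul_shE, apply_mul, hv, map_smul]

/-- the short radical group at one index on a weight space -/
noncomputable def shOp (ψ : AddChar F ℂ) (p : Fin n) (B : Matrix (Fin n) (Fin n) F) (l : W) :
    Module.End ℂ (ws R ψ B) :=
  (R (shE Q₀ p l)).restrict fun _ hv => shE_mem_ws R p l hv

omit hn hB in
theorem shOp_coe (p : Fin n) (B : Matrix (Fin n) (Fin n) F) (l : W) (v : ws R ψ B) :
    (shOp R ψ p B l v : V) = R (shE Q₀ p l) v.1 := rfl

omit hn in
theorem shOp_eigen_injective (hψ : ψ.IsPrimitive) {b : F} (hb : b ≠ 0) :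
    Function.Injective fun (k : W) (l : W) => ψ (b * polar Q₀ l k) := by
  intro k k' h
  rw [← sub_eq_zero]
  refine hB _ fun y => ?_
  by_contra h0
  refine hψ (mul_ne_zero hb h0) (DFunLike.ext _ _ fun x => ?_)
  have := congrFun h (x • y)
  simp only [polar_smul_left, smul_eq_mul] at this
  simp only [AddChar.mulShift_apply, AddChar.one_apply, polar_sub_left, polar_comm Q₀ k y,
    polar_comm Q₀ k' y]
  rw [show b * (polar Q₀ y k - polar Q₀ y k') * x =
    b * (x * polar Q₀ y k) - b * (x * polar Q₀ y k') by ring, AddChar.map_sub_eq_div, this,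
    div_self (AddChar.val_isUnit ψ _).ne_zero]

omit hn in
/-- all characters of the short radical group occur, equally often, in a weight space that does
not kill the pair of indices -/
theorem shOp_eigen (hψ : ψ.IsPrimitive) {B : Matrix (Fin n) (Fin n) F} {p s : Fin n}
    (hps : p ≠ s) (hb : B s p ≠ 0) :
    (∀ k k' : W, finrank ℂ (weightSpace (shOp R ψ p B) fun l => ψ (B s p * polar Q₀ l k)) =
      finrank ℂ (weightSpace (shOp R ψ p B) fun l => ψ (B s p * polar Q₀ l k'))) ∧
    (ws R ψ B ≠ ⊥ → ∀ k : W,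
      0 < finrank ℂ (weightSpace (shOp R ψ p B) fun l => ψ (B s p * polar Q₀ l k))) ∧
    ∀ d : ℕ, (∀ k : W, d ≤ finrank ℂ (weightSpace (shOp R ψ p B) fun l => ψ (B s p * polar Q₀ l k))) →
      d * Nat.card W ≤ finrank ℂ (ws R ψ B) := by
  classical
  haveI : Finite W := Module.finite_of_finite F
  letI := Fintype.ofFinite W
  set E := fun k : W => weightSpace (shOp R ψ p B) fun l => ψ (B s p * polar Q₀ l k)
    with hE
  have hle : ∀ k d : W, finrank ℂ (E k) ≤ finrank ℂ (E (k + d)) := by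
    intro k d
    have hmap : ∀ v : ws R ψ B, v ∈ E k →
        (R (shE Q₀ s d)).restrict (fun _ hv => shE_mem_ws R s d hv) v ∈ E (k + d) := by
      intro v hv
      simp only [hE, mem_weightSpace] at hv ⊢
      intro l
      apply Subtype.ext
      have hv' : R (shE Q₀ p l) v.1 = ψ (B s p * polar Q₀ l k) • v.1 :=
        congrArg Subtype.val (hv l)
      rw [shOp_coe, Submodule.coe_smul, LinearMap.restrict_coe_apply, ← apply_mul,
        shE_mul_shE Q₀ hps, apply_mul, apply_mul, hv', map_smul, map_smul,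
        (mem_ws R).1 (shE_mem_ws R s d v.2), smul_smul, chiM_single, ← AddChar.map_add_eq_mul,
        polar_add_right, mul_add]
    exact LinearMap.finrank_le_finrank_of_injective
      (f := ((R (shE Q₀ s d)).restrict fun _ hv => shE_mem_ws R s d hv).restrict hmap)
      fun x y h => Subtype.ext (Subtype.ext (R_injective R _
        (congrArg (fun z : E (k + d) => z.1.1) h)))
  have heq : ∀ k k' : W, finrank ℂ (E k) = finrank ℂ (E k') := fun k k' => by
    refine le_antisymm ?_ ?_
    · have h := hle k (k' - k)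
      rwa [add_sub_cancel] at h
    · have h := hle k' (k - k')
      rwa [add_sub_cancel] at h
  refine ⟨heq, fun hne k => ?_, fun d hd => ?_⟩
  · have hcomm : ∀ a b, shOp R ψ p B a * shOp R ψ p B b =
        shOp R ψ p B b * shOp R ψ p B a := fun a b => by
      refine LinearMap.ext fun v => Subtype.ext ?_
      change R (shE Q₀ p a) (R (shE Q₀ p b) v.1) = R (shE Q₀ p b) (R (shE Q₀ p a) v.1)
      rw [← apply_mul, ← apply_mul, sh_comm_same]
    haveI : Nontrivial (ws R ψ B) := Submodule.nontrivial_iff_ne_bot.2 hne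
    obtain ⟨W', -, hne', -, hsc⟩ := exists_common_eigen (shOp R ψ p B) hcomm ⊤ top_ne_bot
      (fun _ _ _ => Submodule.mem_top) (Finset.univ : Finset W).toList
    choose χ hχ using fun a => hsc a (Finset.mem_toList.2 (Finset.mem_univ a))
    obtain ⟨x, hx, hx0⟩ := (Submodule.ne_bot_iff _).1 hne'
    have hx' : ∀ a, R (shE Q₀ p a) x.1 = χ a • x.1 := fun a => congrArg Subtype.val (hχ a x hx)
    have hx0' : x.1 ≠ 0 := fun h => hx0 (Subtype.ext h)
    let ω : AddChar W ℂ :=
      { toFun := χ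
        map_zero_eq_one' := smul_left_injective ℂ hx0' (by
          simpa [shE_zero] using (hx' 0).symm)
        map_add_eq_mul' := fun a b => smul_left_injective ℂ hx0' (by
          have h := hx' (a + b)
          rw [shE_add, apply_mul, hx', map_smul, hx', smul_smul] at h
          dsimp only
          rw [← h, mul_comm]) }
    have hbij : Function.Bijective fun k : W => ({
        toFun := fun l => ψ (B s p * polar Q₀ l k)
        map_zero_eq_one' := by simp
        map_add_eq_mul' := fun a b => by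
          rw [polar_add_left, mul_add, AddChar.map_add_eq_mul] } : AddChar W ℂ) :=
      (Fintype.bijective_iff_injective_and_card _).2
        ⟨fun a b h => shOp_eigen_injective hB hψ hb (congrArg (⇑) h), AddChar.card_eq.symm⟩
    obtain ⟨k₀, hk₀⟩ := hbij.2 ω
    have : x ∈ E k₀ := mem_weightSpace.2 fun a => by
      rw [hχ a x hx]
      congr 1
      exact (DFunLike.congr_fun hk₀ a).symm
    rw [show finrank ℂ (weightSpace _ _) = finrank ℂ (E k₀) from heq k k₀]
    exact Module.finrank_pos_iff_exists_ne_zero.2 ⟨⟨x, this⟩, fun h => hx0 (congrArg Subtype.val h)⟩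
  · have := mul_card_le_finrank (shOp R ψ p B)
      (Finset.univ.image fun (k : W) (l : W) => ψ (B s p * polar Q₀ l k)) d fun χ hχ => by
        obtain ⟨k, -, rfl⟩ := Finset.mem_image.1 hχ
        exact hd k
    rw [Finset.card_image_of_injective _ (shOp_eigen_injective hB hψ hb), Finset.card_univ] at this
    rwa [Nat.card_eq_fintype_card, mul_comm]

omit hn in
/-- a weight of rank at least two has multiplicity at least `|W|` -/
theorem card_W_le_finrank_ws (hψ : ψ.IsPrimitive) {B : Matrix (Fin n) (Fin n) F} (hA : IsAlt B)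
    (hB0 : B ≠ 0) (hne : ws R ψ B ≠ ⊥) : Nat.card W ≤ finrank ℂ (ws R ψ B) := by
  obtain ⟨s, p, hb⟩ : ∃ s p, B s p ≠ 0 := by
    by_contra! h; exact hB0 (Matrix.ext h)
  have hps : p ≠ s := fun h => hb (by subst h; exact hA.diag p)
  obtain ⟨-, h2, h3⟩ := shOp_eigen R hB hψ hps hb
  simpa using h3 1 fun k => h2 hne k

/-! ### the weights -/

omit hn hB in
theorem exists_weight (hψ : ψ.IsPrimitive) (hnt : ∃ M, R (zE Q₀ M) ≠ 1) :
    ∃ B : Matrix (Fin n) (Fin n) F, IsAlt B ∧ B ≠ 0 ∧ ws R ψ B ≠ ⊥ := by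
  classical
  obtain ⟨M₀, hM₀⟩ := hnt
  have hpow : ∀ l : ℕ, zE Q₀ M₀ ^ l = zE Q₀ (l • M₀) := by
    intro l
    induction l with
    | zero => rw [pow_zero, zero_nsmul, zE_zero]
    | succ l ih => rw [pow_succ, ih, succ_nsmul, zE_add]
  have hp : ringChar F • M₀ = 0 := by
    rw [← Nat.cast_smul_eq_nsmul F, ringChar.Nat.cast_ringChar, zero_smul]
  obtain ⟨χ₀, hχ₀, hχ₀1⟩ := exists_weight_ne_one (fun M => R (zE Q₀ M))
    (fun a b => by rw [← map_mul, ← map_mul, zE_comm]) M₀ (ringChar F)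
    (Nat.cast_ne_zero.2 (CharP.char_is_prime F (ringChar F)).ne_zero)
    (by rw [← map_pow, hpow, hp, zE_zero, map_one]) hM₀
  obtain ⟨φ₀, rfl⟩ := weight_addChar R (zE Q₀) (zE_add Q₀) χ₀ hχ₀
  obtain ⟨B, rfl⟩ := exists_chiM hψ φ₀
  obtain ⟨v, hv0, hv⟩ := hχ₀
  refine ⟨B, isAlt_of_chiM hψ fun M hM => ?_, fun h0 => hχ₀1 (by simp [h0, chiM_apply]),
    (Submodule.ne_bot_iff _).2 ⟨v, (mem_ws R).2 hv, hv0⟩⟩
  have := hv M
  dsimp only at this
  rw [zE_congr_symm Q₀ hM, map_one, Module.End.one_apply] at this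
  exact (smul_left_injective ℂ hv0 (this.symm.trans (one_smul ℂ v).symm) :)

omit hn hB in
theorem sum_ws_le (hψ : ψ.IsPrimitive) (S : Finset (Matrix (Fin n) (Fin n) F)) :
    ∑ B ∈ S, finrank ℂ (ws R ψ B) ≤ finrank ℂ V := by
  classical
  have hinj : Function.Injective fun B => (⇑(chiM (n := n) ψ B) : _ → ℂ) :=
    fun a b h => chiM_injective hψ (DFunLike.coe_injective h)
  have h := sum_finrank_weightSpace_le (fun M => R (zE Q₀ M))
    (S.image fun B => (⇑(chiM ψ B) : _ → ℂ))
  rw [Finset.sum_image hinj.injOn] at h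
  exact h

/-- the dimension restriction under which the structure below is valid -/
def Small (R : Om Q₀ n →* Module.End ℂ V) : Prop :=
  finrank ℂ V < Nat.card W * (wedges F n).card + geo (Fintype.card F) n

/-- the weights are wedges -/
theorem wedge_of_ws (hψ : ψ.IsPrimitive) (hs : Small R)
    (hq : n = 4 → 4 ≤ Fintype.card F) {B : Matrix (Fin n) (Fin n) F} (hA : IsAlt B)
    (hne : ws R ψ B ≠ ⊥) : ∃ a b, B = wedge a b := by
  classical
  by_contra! hw
  haveI : Finite W := Module.finite_of_finite F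
  have hn4 : 4 ≤ n := by
    obtain ⟨H, p, s, i, j, -, ⟨a1, a2, a3, a4, a5, a6⟩, -⟩ := hA.exists_four hw
    have : ({p, s, i, j} : Finset (Fin n)).card = 4 := by
      rw [Finset.card_insert_of_notMem (by simp [a1, a2, a3]),
        Finset.card_insert_of_notMem (by simp [a4, a5]),
        Finset.card_insert_of_notMem (by simp [a6]), Finset.card_singleton]
    have h := Finset.card_le_univ ({p, s, i, j} : Finset (Fin n))
    rw [this, Fintype.card_fin] at h
    exact h
  set Δ : Finset Fˣ := Finset.univ.image fun c : Fˣ => c * c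
  obtain ⟨S, hScard, hS⟩ := hA.exists_many hw Δ
  have hW : 0 < Nat.card W := Nat.card_pos
  have hge : ∀ B' ∈ S, Nat.card W ≤ finrank ℂ (ws R ψ B') := by
    intro B' hB'
    obtain ⟨H, ⟨δ, hδ, hdet⟩, rfl⟩ := hS B' hB'
    obtain ⟨c, -, rfl⟩ := Finset.mem_image.1 hδ
    rw [finrank_ws_congr_mat R hn hB ⟨c, by rw [hdet, Units.val_mul]⟩]
    exact card_W_le_finrank_ws R hB hψ hA (fun h => hw 0 0 (by rw [h]; ext l m; simp)) hne
  have h1 : S.card * Nat.card W ≤ finrank ℂ V := by
    refine le_trans ?_ (sum_ws_le R hψ S)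
    rw [← smul_eq_mul, ← Finset.sum_const]
    exact Finset.sum_le_sum hge
  have hΔ : 1 ≤ Δ.card ∧ (n = 4 → 2 ≤ Δ.card ∧ 3 ≤ Fintype.card F) := by
    refine ⟨Finset.card_pos.2 ⟨1, Finset.mem_image.2 ⟨1, Finset.mem_univ _, one_mul 1⟩⟩,
      fun h4 => ⟨?_, by have := hq h4; omega⟩⟩
    obtain ⟨c, hc⟩ : ∃ c : Fˣ, c * c ≠ 1 := by
      by_contra! hall
      have hsub : (Finset.univ : Finset Fˣ).image (Units.val) ⊆ ({1, -1} : Finset F) := by
        intro x hx
        obtain ⟨c, -, rfl⟩ := Finset.mem_image.1 hx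
        have h2 : (c : F) * c = 1 := by rw [← Units.val_mul, hall c, Units.val_one]
        simpa using mul_self_eq_one_iff.1 h2
      have h3 := Finset.card_le_card hsub
      rw [Finset.card_image_of_injective _ Units.val_injective, Finset.card_univ, Fintype.card_units] at h3
      have h4' := hq h4
      have h5 : ({1, -1} : Finset F).card ≤ 2 := Finset.card_le_two
      omega
    exact Finset.one_lt_card.2 ⟨c * c, Finset.mem_image_of_mem _ (Finset.mem_univ _), 1,
      Finset.mem_image.2 ⟨1, Finset.mem_univ _, one_mul 1⟩, hc⟩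
  have hkey := (forms_arith (F := F) hn4 hΔ.1 hΔ.2).trans hScard
  have h2 := Nat.mul_le_mul_right (Nat.card W) hkey
  have h3 : geo (Fintype.card F) n ≤ geo (Fintype.card F) n * Nat.card W :=
    Nat.le_mul_of_pos_right _ hW
  unfold Small at hs
  rw [Nat.add_mul, mul_comm (wedges F n).card] at h2
  omega

/-- every wedge is a weight and the weight spaces of the wedges have the same dimension -/
theorem finrank_ws_wedge {a b a' b' : Fin n → F} (h : wedge a b ≠ 0) (h' : wedge a' b' ≠ 0) :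
    finrank ℂ (ws R ψ (wedge a b)) = finrank ℂ (ws R ψ (wedge a' b')) := by
  set p : Fin n := ⟨0, by omega⟩
  set s : Fin n := ⟨1, by omega⟩
  have hps : p ≠ s := by simp [p, s, Fin.ext_iff]
  have key : ∀ {a b : Fin n → F}, wedge a b ≠ 0 →
      finrank ℂ (ws R ψ (wedge a b)) =
        finrank ℂ (ws R ψ (wedge (Pi.single p 1) (Pi.single s 1))) := by
    intro a b h
    obtain ⟨g, ha, hb⟩ := exists_sl_pair hn hps h
    have e := congr_wedge g.1ᵀ (Pi.single p (1 : F)) (Pi.single s 1)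
    rw [Matrix.transpose_transpose, ha, hb] at e
    rw [← e, ← Matrix.transpose_transpose g.1]
    exact finrank_ws_congr_mat R hn hB ⟨1, by simp⟩ _
  rw [key h, key h']

/-- all wedges are weights of multiplicity at least `|W|` -/
theorem card_W_le_ws_wedge (hψ : ψ.IsPrimitive) (hs : Small R) (hq : n = 4 → 4 ≤ Fintype.card F)
    (hnt : ∃ M, R (zE Q₀ M) ≠ 1) {a b : Fin n → F} (h : wedge a b ≠ 0) :
    Nat.card W ≤ finrank ℂ (ws R ψ (wedge a b)) := by
  obtain ⟨B, hA, hB0, hne⟩ := exists_weight R hψ hnt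
  obtain ⟨a', b', rfl⟩ := wedge_of_ws R hn hB hψ hs hq hA hne
  rw [finrank_ws_wedge R hn hB h hB0]
  exact card_W_le_finrank_ws R hB hψ hA hB0 hne

/-- the weight spaces of wedges are small -/
theorem ws_wedge_lt (hψ : ψ.IsPrimitive) (hs : Small R) {a b : Fin n → F} (h : wedge a b ≠ 0) :
    finrank ℂ (ws R ψ (wedge a b)) < 2 * Nat.card W := by
  classical
  haveI : Finite W := Module.finite_of_finite F
  by_contra hge
  rw [not_lt] at hge
  have h1 : (wedges F n).card * (2 * Nat.card W) ≤ finrank ℂ V := by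
    refine le_trans ?_ (sum_ws_le R hψ (wedges F n))
    rw [← smul_eq_mul, ← Finset.sum_const]
    refine Finset.sum_le_sum fun B hB' => ?_
    obtain ⟨a', b', h', rfl⟩ := mem_wedges.1 hB'
    rw [finrank_ws_wedge R hn hB h' h]
    exact hge
  have h2 := geo_le_card_wedges (F := F) hn
  have h3 : (wedges F n).card ≤ (wedges F n).card * Nat.card W :=
    Nat.le_mul_of_pos_right _ Nat.card_pos
  unfold Small at hs
  rw [mul_left_comm] at h1
  rw [mul_comm (Nat.card W)] at hs
  omega

end Cfsg.Agent.MinDeg.Orth
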