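import Cfsg.Agent.MinDeg.OrthRel
import Cfsg.Agent.MinDeg.OrthWeights
import Cfsg.Agent.MinDeg.SLLevel

/-!
If the Siegel radical moves a vector fixed by its centre, all non-trivial characters of the natural
module occur in the fixed space of the centre.
-/

set_option autoImplicit false
set_option linter.unusedSectionVars false

namespace Cfsg.Agent.MinDeg.Orth

open QuadraticMap Cfsg.Agent.Classical Matrix Cfsg.Agent.Weights Module

universe u w v

variable {F : Type u} [Field F] [Fintype F] {n : ℕ} {W : Type w} [AddCommGroup W] [Module F W]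
  [FiniteDimensional F W] {Q₀ : QuadraticForm F W}
  {V : Type v} [AddCommGroup V] [Module ℂ V] [FiniteDimensional ℂ V]
  (R : Om Q₀ n →* Module.End ℂ V)

/-- the Siegel radical fixes what its centre fixes -/
def QTriv (R : Om Q₀ n →* Module.End ℂ V) : Prop :=
  ∀ v ∈ fixZ R, ∀ (i : Fin n) (l : W), R (shE Q₀ i l) v = v

theorem zS_mul_shv (M : Matrix (Fin n) (Fin n) F) (k : W) (a : Fin n → F) :
    zS Q₀ M * shv Q₀ k a = shv Q₀ k a * zS Q₀ M := oq_ext Q₀ fun v => by
  simp only [Subgroup.coe_mul, LinearEquiv.mul_apply]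
  simp only [zS_apply, shv_apply, cx_mk, cy_mk, snd_mk]
  ext <;> simp <;> ring

/-- short radical element at a vector, in `Ω` -/
noncomputable def shvE (Q₀ : QuadraticForm F W) (k : W) (a : Fin n → F) : Om Q₀ n :=
  ⟨shv Q₀ k a, shv_mem Q₀ k a⟩

theorem shvE_mem_fixZ (k : W) (a : Fin n → F) {v : V} (hv : v ∈ fixZ R) :
    R (shvE Q₀ k a) v ∈ fixZ R := by
  rw [mem_fixZ] at hv ⊢
  intro M
  rw [← apply_mul, show zE Q₀ M * shvE Q₀ k a = shvE Q₀ k a * zE Q₀ M from
    Subtype.ext (zS_mul_shv M k a), apply_mul, hv]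

theorem pow_card_le_fixZ (hn : 2 ≤ n) (h : ¬ QTriv R) :
    Fintype.card F ^ n ≤ finrank ℂ (fixZ R) + 1 := by
  classical
  simp only [QTriv, not_forall] at h
  obtain ⟨v₀, hv₀, i, k, hne⟩ := h
  set T : (Fin n → F) → Module.End ℂ (fixZ R) := fun a =>
    (R (shvE Q₀ k a)).restrict fun _ hv => shvE_mem_fixZ R k a hv with hT
  have hadd : ∀ a b, T (a + b) = T a * T b := fun a b => LinearMap.ext fun v => Subtype.ext <| by
    change R (shvE Q₀ k (a + b)) v.1 = R (shvE Q₀ k a) (R (shvE Q₀ k b) v.1)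
    rw [← apply_mul, show shvE Q₀ k a * shvE Q₀ k b =
      zE Q₀ (Q₀ k • Matrix.vecMulVec b a) * shvE Q₀ k (a + b) from Subtype.ext (shv_mul Q₀ k a b),
      apply_mul, (mem_fixZ R).1 (shvE_mem_fixZ R k _ v.2)]
  have hT0 : T 0 = 1 := LinearMap.ext fun v => Subtype.ext <| by
    change R (shvE Q₀ k 0) v.1 = v.1
    have e : shvE Q₀ k (0 : Fin n → F) = 1 := Subtype.ext (oq_ext Q₀ fun x => by
      change (shv Q₀ k 0).1 x = x
      rw [shv_apply]; ext <;> simp)
    rw [e, map_one]; rfl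
  have hpow : ∀ (a : Fin n → F) (l : ℕ), T a ^ l = T (l • a) := fun a l => by
    induction l with
    | zero => rw [pow_zero, zero_nsmul, hT0]
    | succ l ih => rw [pow_succ, ih, succ_nsmul, hadd]
  have hp : ringChar F • (ev i : Fin n → F) = 0 := by
    rw [← Nat.cast_smul_eq_nsmul F, ringChar.Nat.cast_ringChar, zero_smul]
  obtain ⟨χ, hχ, hχ1⟩ := exists_weight_ne_one T (fun a b => by rw [← hadd, ← hadd, add_comm]) (ev i)
    (ringChar F) (Nat.cast_ne_zero.2 (CharP.char_is_prime F (ringChar F)).ne_zero)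
    (by rw [hpow, hp, hT0]) (fun h1 => hne (congrArg Subtype.val
      (LinearMap.congr_fun h1 ⟨v₀, hv₀⟩)))
  obtain ⟨v, hv0, hv⟩ := id hχ
  let φ : AddChar (Fin n → F) ℂ :=
    { toFun := χ
      map_zero_eq_one' := smul_left_injective ℂ hv0 (by simpa [hT0] using (hv 0).symm)
      map_add_eq_mul' := fun a b => smul_left_injective ℂ hv0 (by
        have h1 := hv (a + b)
        rw [hadd, Module.End.mul_apply, hv, map_smul, hv, smul_smul] at h1
        dsimp only
        rw [← h1, mul_comm]) }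
  obtain ⟨ψ, hψ⟩ := SLMin.exists_primitive F
  obtain ⟨w, hw⟩ := ((Fintype.bijective_iff_injective_and_card _).2
    ⟨fun a b h => SLMin.wchar_injective (m := n) hψ h, AddChar.card_eq.symm⟩).2 φ
  have hw' : ∀ a, χ a = ψ (a ⬝ᵥ w) := fun a => (DFunLike.congr_fun hw a).symm
  have hw0 : w ≠ 0 := fun h0 => hχ1 (by rw [hw', h0, dotProduct_zero, AddChar.map_zero_eq_one])
  have hwt : ∀ w' : {x : Fin n → F // x ≠ 0}, IsWeight T fun a => ψ (a ⬝ᵥ w'.1) := by
    intro w'
    obtain ⟨g₁, hg₁⟩ := exists_sl_apply_single hn w hw0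
    obtain ⟨g₂, hg₂⟩ := exists_sl_apply_single hn w'.1 w'.2
    set h := g₂ * g₁⁻¹
    set g : SpecialLinearGroup (Fin n) F := (h.transpose)⁻¹ with hg
    have hfix : ∀ v ∈ fixZ R, R (slE Q₀ hn g) v ∈ fixZ R := fun v hv => by
      rw [mem_fixZ] at hv ⊢
      intro M
      rw [← apply_mul, show zE Q₀ M * slE Q₀ hn g = slE Q₀ hn g *
        zE Q₀ ((g⁻¹).1 * M * ((g⁻¹).1)ᵀ) from Subtype.ext (by
          change zS Q₀ M * slHom Q₀ g = slHom Q₀ g * zS Q₀ _
          rw [slHom_mul_zS]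
          congr 2
          simp only [← Matrix.mul_assoc]
          rw [show g.1 * (g⁻¹).1 = (g * g⁻¹).1 from rfl, mul_inv_cancel]
          rw [Matrix.mul_assoc, ← Matrix.transpose_mul,
            show g.1 * (g⁻¹).1 = (g * g⁻¹).1 from rfl, mul_inv_cancel]
          simp), apply_mul, hv]
    have := hχ.transport ((R (slE Q₀ hn g)).restrict hfix)
      (fun x y hxy => Subtype.ext (R_injective R _ (congrArg Subtype.val hxy)))
      (fun a => (g⁻¹).1 *ᵥ a) fun a => LinearMap.ext fun v => Subtype.ext <| by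
        change R (shvE Q₀ k a) (R (slE Q₀ hn g) v.1) =
          R (slE Q₀ hn g) (R (shvE Q₀ k ((g⁻¹).1 *ᵥ a)) v.1)
        rw [← apply_mul, ← apply_mul]
        congr 1
        refine congrArg R (Subtype.ext ?_)
        change shv Q₀ k a * slHom Q₀ g = slHom Q₀ g * shv Q₀ k _
        rw [slHom_mul_shv, Matrix.mulVec_mulVec,
          show g.1 * (g⁻¹).1 = (g * g⁻¹).1 from rfl, mul_inv_cancel]
        simp
    have e : (fun a => ψ (a ⬝ᵥ w'.1)) = χ ∘ fun a => (g⁻¹).1 *ᵥ a := by
      funext a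
      simp only [Function.comp_apply, hw', hg, inv_inv,
        Matrix.SpecialLinearGroup.coe_transpose]
      rw [Matrix.mulVec_transpose, ← Matrix.dotProduct_mulVec]
      congr 2
      change w'.1 = (g₂.1 * (g₁⁻¹).1) *ᵥ w
      rw [← hg₁, ← hg₂, Matrix.mulVec_mulVec, Matrix.mul_assoc,
        show (g₁⁻¹).1 * g₁.1 = (g₁⁻¹ * g₁).1 from rfl, inv_mul_cancel]
      simp
    rw [e]
    exact this
  have hc := card_weights_le T (fun (w' : {x : Fin n → F // x ≠ 0}) a => ψ (a ⬝ᵥ w'.1))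
    (fun a b h => Subtype.ext (SLMin.wchar_injective hψ (DFunLike.ext _ _ (congrFun h)))) hwt
  rw [Fintype.card_subtype_compl, Fintype.card_subtype_eq, Fintype.card_fun, Fintype.card_fin] at hc
  omega

end Cfsg.Agent.MinDeg.Orth
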