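import Cfsg.Agent.MinDeg.SLTop
import Cfsg.Agent.MinDeg.OrthSL

/-!
The lower bound for a module of `SL_n` with a line on which the row radical acts by a character
and the stabiliser of the character acts trivially.
-/

namespace Cfsg.Agent.MinDeg.SLMin

open Matrix Module

universe u

variable {F : Type*} [Field F] [Fintype F]

/-- unitarisation with an intertwiner -/
theorem exists_unitary_equiv {G : Type u} [Group G] [Fintype G] {n : ℕ}
    (ρ : Representation ℂ G (Fin n → ℂ)) :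
    ∃ (R : G →* Matrix (Fin n) (Fin n) ℂ) (Φ : (Fin n → ℂ) ≃ₗ[ℂ] (Fin n → ℂ)),
      (∀ g, (R g)ᴴ = R g⁻¹) ∧ ∀ g v, R g *ᵥ Φ v = Φ (ρ g v) := by
  classical
  let e := (WithLp.linearEquiv 2 ℂ (Fin n → ℂ)).symm
  let J : (Fin n → ℂ) →ₗ[ℂ] PiLp 2 (fun _ : G => EuclideanSpace ℂ (Fin n)) :=
    (WithLp.linearEquiv 2 ℂ (G → EuclideanSpace ℂ (Fin n))).symm.toLinearMap ∘ₗ
      LinearMap.pi fun g => e.toLinearMap ∘ₗ ρ g
  have hJ : ∀ v g, J v g = e (ρ g v) := fun v g => rfl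
  have hinj : Function.Injective J := fun v w h => by
    have h1 := congrArg (fun f : PiLp 2 (fun _ : G => EuclideanSpace ℂ (Fin n)) => f 1) h
    simpa [hJ] using h1
  let E := LinearEquiv.ofInjective J hinj
  let σ : Representation ℂ G (LinearMap.range J) := E.conjRingEquiv.toMonoidHom.comp ρ
  have hσ : ∀ g w, σ g (E w) = E (ρ g w) := fun g w => by
    simp [σ, LinearEquiv.conjRingEquiv]
  have hnorm : ∀ g v, ‖σ g v‖ = ‖v‖ := by
    intro g v
    obtain ⟨w, rfl⟩ := E.surjective v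
    rw [hσ, Submodule.coe_norm, Submodule.coe_norm]
    show ‖J (ρ g w)‖ = ‖J w‖
    rw [PiLp.norm_eq_of_L2, PiLp.norm_eq_of_L2]
    congr 1
    refine Fintype.sum_equiv (Equiv.mulRight g) _ _ fun x => ?_
    simp [hJ, map_mul, Module.End.mul_apply]
  obtain ⟨W, iW, iI, iF, E, σ, hσ, hnorm⟩ : ∃ (W : Type u) (_ : NormedAddCommGroup W)
      (_ : InnerProductSpace ℂ W) (_ : FiniteDimensional ℂ W) (E : (Fin n → ℂ) ≃ₗ[ℂ] W)
      (σ : Representation ℂ G W), (∀ g w, σ g (E w) = E (ρ g w)) ∧ ∀ g v, ‖σ g v‖ = ‖v‖ :=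
    ⟨↥(LinearMap.range J), inferInstance, inferInstance, inferInstance, E, σ, hσ, hnorm⟩
  have hdim : finrank ℂ W = n := by rw [← E.finrank_eq]; simp
  let b : OrthonormalBasis (Fin n) ℂ W := (stdOrthonormalBasis ℂ W).reindex (finCongr hdim)
  refine ⟨((LinearMap.toMatrixAlgEquiv b.toBasis).toRingEquiv.toRingHom.toMonoidHom).comp σ,
    E.trans b.toBasis.equivFun, fun g => ?_, fun g v => ?_⟩
  · have hadj : LinearMap.adjoint (σ g) = σ g⁻¹ := by
      rw [eq_comm, LinearMap.eq_adjoint_iff]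
      intro x y
      have h1 : ∀ a c, inner ℂ (σ g a) (σ g c) = inner ℂ a c :=
        ((LinearMap.norm_map_iff_inner_map_map (σ g)).1 (hnorm g))
      rw [← h1 (σ g⁻¹ x) y, ← Module.End.mul_apply, ← map_mul, mul_inv_cancel, map_one,
        Module.End.one_apply]
    change (LinearMap.toMatrix b.toBasis b.toBasis (σ g))ᴴ =
      LinearMap.toMatrix b.toBasis b.toBasis (σ g⁻¹)
    rw [← hadj, LinearMap.toMatrix_adjoint b b]
  · change LinearMap.toMatrix b.toBasis b.toBasis (σ g) *ᵥ b.toBasis.repr (E v) =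
      b.toBasis.repr (E (ρ g v))
    rw [LinearMap.toMatrix_mulVec_repr, hσ]

omit [Fintype F] in
theorem tv_split {m : ℕ} {y p : Fin (m + 1) → F} (hp0 : p 0 = 0) (hpy : p ⬝ᵥ y = 0) :
    tv y p = qEl (y 0 • Fin.tail p) * emb (tv (Fin.tail y) (Fin.tail p)) := by
  set χ := Fin.tail p
  have ep : p = Fin.cons 0 χ := by rw [← hp0, Fin.cons_self_tail]
  have hχ : χ ⬝ᵥ Fin.tail y = 0 := by
    rw [ep, ← Fin.cons_self_tail y, cons_dotProduct_cons, zero_mul, zero_add] at hpy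
    exact hpy
  rw [emb_tv _ _ hχ, ← ep, qEl, show (Fin.cons 0 (y 0 • χ) : Fin (m + 1) → F) = y 0 • p by
    funext i; refine Fin.cases ?_ (fun i => ?_) i <;> simp [ep], ← tv_smul, ← tv_add_left]
  · congr 1
    funext i
    refine Fin.cases ?_ (fun i => ?_) i <;> simp [Fin.tail]
  · rw [dotProduct_smul, dotProduct_single, hp0, zero_mul, smul_zero]
  · rw [ep, cons_dotProduct_cons, hχ, zero_mul, add_zero]

variable {k m : ℕ} {R : SpecialLinearGroup (Fin (m + 3)) F →* Matrix (Fin k) (Fin k) ℂ}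
  {ψ : AddChar F ℂ}

/-- the stabiliser of the weight fixes the line -/
theorem emb_fix {x : Fin k → ℂ}
    (hS : ∀ i j : Fin (m + 2), i ≠ j → j ≠ 0 → ∀ a, R (root i.succ j.succ a) *ᵥ x = x)
    {u φ : Fin (m + 2) → F} (hφ0 : φ 0 = 0) (h : φ ⬝ᵥ u = 0) :
    R (emb (tv u φ)) *ᵥ x = x := by
  have hmul : ∀ a b : SpecialLinearGroup (Fin (m + 3)) F, R a *ᵥ x = x → R b *ᵥ x = x →
      R (a * b) *ᵥ x = x := fun a b ha hb => by
    rw [map_mul, ← Matrix.mulVec_mulVec, hb, ha]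
  rw [tv_split hφ0 h, map_mul emb]
  refine hmul _ _ ?_ ?_
  · generalize u 0 • Fin.tail φ = r
    rw [pi_eq_sum_univ' r]
    induction (Finset.univ : Finset (Fin (m + 1))) using Finset.induction with
    | empty => rw [Finset.sum_empty, qEl_zero, map_one, map_one, Matrix.one_mulVec]
    | insert l s hl ih =>
      rw [Finset.sum_insert hl, qEl_add, map_mul emb]
      refine hmul _ _ ?_ ih
      rw [← Pi.single_smul, smul_eq_mul, mul_one, qEl, cons_single]
      change R (emb (root 0 l.succ (r l))) *ᵥ x = x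
      rw [emb_root (Fin.succ_ne_zero l).symm]
      exact hS _ _ (Fin.succ_ne_zero l).symm (Fin.succ_ne_zero l) _
  · generalize tv (Fin.tail u) (Fin.tail φ) = y
    cases m with
    | zero =>
      have : y = 1 := Subtype.ext (by
        ext i j
        have := y.2
        rw [Matrix.det_fin_one] at this
        obtain rfl : i = 0 := Fin.ext (by omega)
        obtain rfl : j = 0 := Fin.ext (by omega)
        simpa using this)
      rw [this, map_one, map_one, map_one, Matrix.one_mulVec]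
    | succ m =>
      induction y using sl_induction (show 2 ≤ m + 1 + 1 by omega) with
      | h i j hij a =>
        rw [emb_root hij, emb_root (fun h => hij (Fin.succ_injective _ h))]
        exact hS _ _ (fun h => hij (Fin.succ_injective _ h)) (Fin.succ_ne_zero j) a
      | hmul a b ha hb => rw [map_mul, map_mul]; exact hmul _ _ ha hb

/-- transvections fix the weight lines of their fixed weights -/
theorem fixes_of_line {x : Fin k → ℂ} (hx0 : x ≠ 0)
    (hA : ∀ r : Fin (m + 2) → F, R (qEl r) *ᵥ x = ψ (r 0) • x)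
    (hS : ∀ i j : Fin (m + 2), i ≠ j → j ≠ 0 → ∀ a, R (root i.succ j.succ a) *ᵥ x = x)
    (hR : IsU R) (h1 : ∀ w : Fin (m + 2) → F, w ≠ 0 → (wproj ψ R w).trace = 1)
    {u φ w : Fin (m + 2) → F} (h : φ ⬝ᵥ u = 0) (hw0 : w ≠ 0) (hw : φ ⬝ᵥ w = 0) :
    R (emb (tv u φ)) * wproj ψ R w = wproj ψ R w := by
  have hW0 : wproj ψ R (Pi.single 0 1) *ᵥ x = x := by
    rw [wproj, avgC, Matrix.smul_mulVec, Matrix.sum_mulVec]
    have e : ∀ r : Fin (m + 2) → F,
        (wchar ψ (Pi.single 0 1) (-r) • R (qEl r)) *ᵥ x = x := fun r => by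
      rw [Matrix.smul_mulVec, hA, smul_smul, wchar_apply, dotProduct_single, mul_one, Pi.neg_apply,
        ← AddChar.map_add_eq_mul, neg_add_cancel, AddChar.map_zero_eq_one, one_smul]
    simp only [e]
    rw [Finset.sum_const, Finset.card_univ, ← Nat.cast_smul_eq_nsmul ℂ, smul_smul,
      inv_mul_cancel₀ (Nat.cast_ne_zero.2 Fintype.card_ne_zero), one_smul]
  obtain ⟨A, hA'⟩ := Weights.exists_sl_apply_single (show 2 ≤ m + 2 by omega) w hw0
  replace hA' : A.1 *ᵥ Pi.single 0 1 = w := hA'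
  set x' := R (emb A) *ᵥ x with hx'
  have hWx : wproj ψ R w *ᵥ x' = x' := by
    rw [hx', Matrix.mulVec_mulVec, ← hA', ← wproj_conj, ← Matrix.mulVec_mulVec, hW0]
  have hback : (φ ᵥ* A.1) ᵥ* (A⁻¹).1 = φ := by
    rw [Matrix.vecMul_vecMul]
    change φ ᵥ* (A * A⁻¹).1 = φ
    rw [mul_inv_cancel]
    exact Matrix.vecMul_one φ
  have hu : A.1 *ᵥ ((A⁻¹).1 *ᵥ u) = u := by
    rw [← sl_mul_mulVec, mul_inv_cancel, sl_one_mulVec]
  have hφu : (φ ᵥ* A.1) ⬝ᵥ ((A⁻¹).1 *ᵥ u) = 0 := by rw [← Matrix.dotProduct_mulVec, hu, h]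
  have hφ0 : (φ ᵥ* A.1) 0 = 0 := by
    have : (φ ᵥ* A.1) ⬝ᵥ Pi.single 0 1 = 0 := by rw [← Matrix.dotProduct_mulVec, hA', hw]
    rwa [dotProduct_single, mul_one] at this
  have hT : R (emb (tv u φ)) *ᵥ x' = x' := by
    have e : A * tv ((A⁻¹).1 *ᵥ u) (φ ᵥ* A.1) = tv u φ * A := by rw [tv_conj A _ _ hφu, hu, hback]
    rw [hx', Matrix.mulVec_mulVec, ← map_mul, ← map_mul, ← e, map_mul, map_mul,
      ← Matrix.mulVec_mulVec, emb_fix hS hφ0 hφu]
  have hne : x' ≠ 0 := fun h0 => hx0 (by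
    have := congrArg (R (emb A)⁻¹ *ᵥ ·) h0
    simpa [hx', Matrix.mulVec_mulVec, ← map_mul] using this)
  have hPr : IsPr (wproj ψ R w) := avgC_isPr qEl_add hR _
  have hsc := scalar_of_comm hPr (h1 w hw0) (comm_of_fix (ψ := ψ) (R := R)
    (show (tv u φ).1 *ᵥ w = w by rw [tv_mulVec h, hw, zero_smul, add_zero]))
  set γ := (R (emb (tv u φ)) * wproj ψ R w).trace
  have hγ := congrArg (· *ᵥ x') hsc
  simp only [← Matrix.mulVec_mulVec, Matrix.smul_mulVec, hWx, hT] at hγ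
  have : γ = 1 := (smul_left_injective ℂ hne (hγ.symm.trans (one_smul ℂ x').symm) :)
  rw [hsc, this, one_smul]

/-- the bound -/
theorem geo_le_of_line {V : Type*} [AddCommGroup V] [Module ℂ V] [FiniteDimensional ℂ V]
    (σ : SpecialLinearGroup (Fin (m + 3)) F →* Module.End ℂ V) (hψ : ψ.IsPrimitive) {e : V}
    (he0 : e ≠ 0) (hA : ∀ r : Fin (m + 2) → F, σ (qEl r) e = ψ (r 0) • e)
    (hS : ∀ i j : Fin (m + 2), i ≠ j → j ≠ 0 → ∀ a, σ (root i.succ j.succ a) e = e) :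
    Orth.geo (Fintype.card F) (m + 3) ≤ finrank ℂ V + 1 := by
  classical
  set d := finrank ℂ V
  let b : V ≃ₗ[ℂ] (Fin d → ℂ) := (Module.finBasis ℂ V).equivFun
  let ρ : Representation ℂ (SpecialLinearGroup (Fin (m + 3)) F) (Fin d → ℂ) :=
    b.conjRingEquiv.toMonoidHom.comp σ
  have hρ : ∀ g v, ρ g (b v) = b (σ g v) := fun g v => by simp [ρ, LinearEquiv.conjRingEquiv]
  obtain ⟨R, Φ, hR, hint⟩ := exists_unitary_equiv ρ
  set x := Φ (b e)
  have hkey : ∀ g, R g *ᵥ x = Φ (b (σ g e)) := fun g => by rw [hint, hρ]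
  have hx0 : x ≠ 0 := fun h => he0 (b.injective (Φ.injective (by simpa [x] using h)))
  have hA' : ∀ r : Fin (m + 2) → F, R (qEl r) *ᵥ x = ψ (r 0) • x := fun r => by
    rw [hkey, hA, map_smul, map_smul]
  have hS' : ∀ i j : Fin (m + 2), i ≠ j → j ≠ 0 → ∀ a, R (root i.succ j.succ a) *ᵥ x = x :=
    fun i j hij hj a => by rw [hkey, hS i j hij hj]
  have hnt : ∃ g, R g ≠ 1 := by
    obtain ⟨a, ha⟩ : ∃ a, ψ a ≠ 1 := by
      by_contra! hall
      exact hψ one_ne_zero (DFunLike.ext _ _ fun y => by simp [AddChar.mulShift_apply, hall])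
    refine ⟨qEl (Pi.single 0 a), fun h => ha ?_⟩
    have := hA' (Pi.single 0 a)
    rw [h, Matrix.one_mulVec, Pi.single_eq_same] at this
    exact smul_left_injective ℂ hx0 (this.symm.trans (one_smul ℂ x).symm)
  have hb := degree_bound_of_fixes hR hnt hψ fun h1 _ _ _ h _ _ hw0 hw =>
    fixes_of_line hx0 hA' hS' hR h1 h hw0 hw
  have hq : 2 ≤ Fintype.card F := Fintype.one_lt_card
  have h : ((Fintype.card F - 1) * Orth.geo (Fintype.card F) (m + 3) : ℕ) ≤
      (Fintype.card F - 1) * (d + 1) := by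
    have hgm := Orth.geo_mul (Fintype.card F) (m + 3) (by omega)
    have : (((Fintype.card F - 1) * Orth.geo (Fintype.card F) (m + 3) : ℕ) : ℝ) ≤
        (((Fintype.card F - 1) * (d + 1) : ℕ) : ℝ) := by
      have hgm' : (((Fintype.card F - 1) * Orth.geo (Fintype.card F) (m + 3) : ℕ) : ℝ) + 1 =
          (Fintype.card F : ℝ) ^ (m + 3) := by exact_mod_cast hgm
      rw [Nat.cast_mul (Fintype.card F - 1) (d + 1), Nat.cast_sub (show 1 ≤ Fintype.card F by omega),
        Nat.cast_one, Nat.cast_add, Nat.cast_one]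
      linarith
    exact_mod_cast this
  exact Nat.le_of_mul_le_mul_left h (by omega)

end Cfsg.Agent.MinDeg.SLMin
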