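import Cfsg.Agent.MinDeg.OrthRot
import Cfsg.Agent.MinDeg.OrthQ
import Cfsg.Agent.MinDeg.OrthBound
import Cfsg.Agent.MinDeg.SLLine

/-!
The degree bound for `Ω` over every finite field, when the anisotropic part has a fixed-point-free
rotation in `Ω` and takes every value.
-/

set_option autoImplicit false
set_option linter.unusedSectionVars false

namespace Cfsg.Agent.MinDeg.Orth

open QuadraticMap Cfsg.Agent.Classical Matrix Cfsg.Agent.Weights Module

universe u w v

variable {F : Type u} [Field F] [Fintype F] {n : ℕ} {W : Type w} [AddCommGroup W] [Module F W]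
  [FiniteDimensional F W] {Q₀ : QuadraticForm F W} {ψ : AddChar F ℂ}
  {V : Type v} [AddCommGroup V] [Module ℂ V] [FiniteDimensional ℂ V]
  (R : Om Q₀ n →* Module.End ℂ V)

/-- transpose-inverse of a root element -/
theorem transpose_inv_root {i j : Fin n} (hij : i ≠ j) (c : F) :
    ((SLMin.root i j c).transpose)⁻¹ = SpecialLinearGroup.transvection hij.symm (-c) := by
  rw [← SLMin.transvection_eq_root hij,
    ← SpecialLinearGroup.transvection_inv hij.symm c]
  congr 1
  apply Subtype.ext
  simp [Matrix.SpecialLinearGroup.coe_transpose, SpecialLinearGroup.transvection_coe,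
    Matrix.transpose_single]

/-- the automorphism transpose-inverse -/
noncomputable def tinv (F : Type u) [Field F] (n : ℕ) :
    SpecialLinearGroup (Fin n) F →* SpecialLinearGroup (Fin n) F where
  toFun g := g.transpose⁻¹
  map_one' := by
    rw [inv_eq_one]; apply Subtype.ext; simp [Matrix.SpecialLinearGroup.coe_transpose]
  map_mul' a b := by
    have e : (a * b).transpose = b.transpose * a.transpose := by
      apply Subtype.ext
      simp [Matrix.SpecialLinearGroup.coe_transpose, Matrix.transpose_mul]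
    rw [e, _root_.mul_inv_rev]

variable (hn : 3 ≤ n) (hB : BNondeg Q₀)
include hn hB

set_option maxHeartbeats 1600000 in
theorem geo_le_fixZ_any (hψ : ψ.IsPrimitive) (hs : Small R) (hnt : ∃ g, R g ≠ 1)
    (hW : Fintype.card F ^ 2 ≤ Nat.card W) (hr : Rot Q₀ n)
    (hS : Function.Surjective fun k => Q₀ k) :
    geo (Fintype.card F) n ≤ finrank ℂ (fixZ R) + 1 := by
  classical
  by_cases hQ : QTriv R
  swap
  · refine le_trans ?_ (pow_card_le_fixZ R (by omega) hQ)
    rw [← geo_mul (Fintype.card F) n Fintype.card_pos]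
    have : 1 ≤ Fintype.card F - 1 := by
      have := Fintype.one_lt_card (α := F)
      omega
    nlinarith
  obtain ⟨m, rfl⟩ : ∃ m, n = m + 3 := ⟨n - 3, by omega⟩
  set s : Fin (m + 3) := 0 with hs0
  set p : Fin (m + 3) := Fin.succ (0 : Fin (m + 2)) with hp0
  have hps : p ≠ s := Fin.succ_ne_zero _
  set R' := conjRep R (sw Q₀ {s}) with hR'
  have hback : ∀ g, R g = R' (conjE Q₀ (sw Q₀ {s}) g) := fun g => by
    simp [hR', conjRep, conjE_sw_sw]
  have hnt' : ∃ g, R' g ≠ 1 := by
    obtain ⟨g, hg⟩ := hnt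
    exact ⟨conjE Q₀ (sw Q₀ {s}) g, by rwa [← hback]⟩
  have hs' : Small R' := hs
  have hwd := wedgy_of_small R' hn hB hψ hs' hW
  have hne := std_ne_zero (F := F) hps
  have hb : Blk (std p s : Matrix (Fin (m + 3)) (Fin (m + 3)) F) p s := std_blk hps
  have hpos : ws R' ψ (std p s) ≠ ⊥ := fun h0 => by
    haveI : Finite W := Module.finite_of_finite F
    have := card_W_le_ws_of_wedgy R' hn hB hψ hwd hnt' hne
    rw [show wedge (Pi.single p (1 : F)) (Pi.single s 1) = std p s from rfl, h0, finrank_bot] at this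
    exact absurd Nat.card_pos (not_lt.2 this)
  have hlt : finrank ℂ (ws R' ψ (std p s)) < 2 * Nat.card W := ws_wedge_lt R' hn hB hψ hs' hne
  obtain ⟨e, he⟩ := hb.exists_line R' hB hψ hlt hpos
  obtain ⟨e₂, he₂⟩ := hb.symm.exists_line R' hB hψ hlt hpos
  obtain ⟨d, hd⟩ := he.exists_shift R' hn hB hψ (hr.lineFix R') hS hb
  set ed := R' (shE Q₀ s d) e with hed
  have hedm : ed ∈ ws R' ψ (std p s) := shE_mem_ws R' s d he.1
  have h2 : 2 ≤ m + 3 := by omega
  have hfixed : ed ∈ fixZ R := by
    rw [mem_fixZ]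
    intro M
    induction M using Matrix.induction_on' with
    | h_zero => rw [zE_zero, map_one]; rfl
    | h_add A B hA hB' => rw [zE_add, apply_mul, hB', hA]
    | h_std_basis i j a =>
      rw [hback]
      rcases eq_or_ne j s with hj | hj
      · rw [hj]
        rcases eq_or_ne i s with hi | hi
        · rw [hi, zE_congr_symm Q₀ (Matrix.transpose_single _ _ _), map_one, map_one]; rfl
        · rw [conjE_sw_zE Q₀ h2 hi]; exact hd i hi a
      · rcases eq_or_ne i s with hi | hi
        · rw [hi, zE_congr Q₀ (N := Matrix.single j s (-a))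
            (by rw [Matrix.transpose_single, Matrix.transpose_single, ← Matrix.single_neg,
              ← Matrix.single_neg]; abel),
            conjE_sw_zE Q₀ h2 hj]
          exact hd j hj _
        · rw [conjE_sw_zE_off Q₀ hi hj, (mem_ws R').1 hedm, chiM_single]
          simp [std, hi, hj]
  obtain ⟨-, hchar, hzero⟩ := shE_two R' hB hψ hb he d
  have hed0 : ed ≠ 0 := fun h0 => he.2.1 (R_injective R' _ (h0.trans (map_zero _).symm))
  have hd0 : d = 0 := hzero fun y => by
    have h1 := hchar y
    have h2 : R' (shE Q₀ p y) ed = ed := by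
      rw [← conjE_sw_shE_off Q₀ hps y, ← hback]
      exact hQ ed hfixed p y
    exact (smul_left_injective ℂ hed0 (h1.symm.trans (h2.trans (one_smul ℂ ed).symm)) :)
  have hede : ed = e := by rw [hed, hd0, shE_zero, map_one]; rfl
  rw [hede] at hfixed hd
  set σ : SpecialLinearGroup (Fin (m + 3)) F →* Module.End ℂ (fixZ R) :=
    (fixRep R hn hB).comp (tinv F (m + 3)) with hσ
  have hσroot : ∀ {i j : Fin (m + 3)} (hij : i ≠ j) (c : F),
      (σ (SLMin.root i j c) ⟨e, hfixed⟩).1 = R (xE Q₀ h2 hij.symm (-c)) e := fun {i j} hij c => by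
    change R (slE Q₀ _ ((SLMin.root i j c).transpose)⁻¹) e = _
    rw [transpose_inv_root hij]; rfl
  have hneg : (AddChar.mulShift ψ (-1)).IsPrimitive := fun b hb' h => hψ (neg_ne_zero.2 hb')
    (DFunLike.ext _ _ fun x => by
      have := DFunLike.congr_fun h x
      simp only [AddChar.mulShift_apply] at this ⊢
      rwa [neg_one_mul, ← neg_mul] at this)
  have hroot : ∀ (j : Fin (m + 2)) (c : F), σ (SLMin.root 0 j.succ c) ⟨e, hfixed⟩ =
      AddChar.mulShift ψ (-1) (if j = 0 then c else 0) • (⟨e, hfixed⟩ : fixZ R) := fun j c => by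
    apply Subtype.ext
    rw [hσroot (Fin.succ_ne_zero j).symm, Submodule.coe_smul]
    rw [xE, ← conjE_sw_zE Q₀ h2 (Fin.succ_ne_zero j), hback, conjE_sw_sw, (mem_ws R').1 he.1,
      chiM_single]
    congr 1
    rcases eq_or_ne j 0 with rfl | hj
    · rw [if_pos rfl, (std_apply hps).1, AddChar.mulShift_apply]
      ring_nf
    · have : j.succ ≠ p := fun h => hj (Fin.succ_injective _ h)
      rw [(hb.off this (Fin.succ_ne_zero j) _).1, zero_mul, if_neg hj, AddChar.map_zero_eq_one,
        AddChar.map_zero_eq_one]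
  refine le_trans (SLMin.geo_le_of_line σ hneg (e := ⟨e, hfixed⟩)
    (fun h => he.2.1 (congrArg Subtype.val h)) (fun r => ?_) fun i j hij hj a => ?_) le_rfl
  · have key : ∀ t : Finset (Fin (m + 2)),
        σ (SLMin.qEl (∑ l ∈ t, Pi.single l (r l))) ⟨e, hfixed⟩ =
          AddChar.mulShift ψ (-1) (∑ l ∈ t, if l = 0 then r l else 0) • (⟨e, hfixed⟩ : fixZ R) := by
      intro t
      induction t using Finset.induction with
      | empty => simp [SLMin.qEl_zero]
      | insert l t hl ih =>
        rw [Finset.sum_insert hl, Finset.sum_insert hl, SLMin.qEl_add, map_mul, Module.End.mul_apply,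
          ih, map_smul, SLMin.qEl, SLMin.cons_single]
        change _ • σ (SLMin.root 0 l.succ (r l)) _ = _
        rw [hroot, smul_smul, AddChar.map_add_eq_mul, mul_comm]
    have := key Finset.univ
    rwa [Finset.univ_sum_single, Finset.sum_ite_eq', if_pos (Finset.mem_univ _)] at this
  · apply Subtype.ext
    rw [hσroot (fun h => hij (Fin.succ_injective _ h))]
    have hls : j.succ ≠ s := Fin.succ_ne_zero j
    have his : i.succ ≠ s := Fin.succ_ne_zero i
    have hlp : j.succ ≠ p := fun h => hj (Fin.succ_injective _ h)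
    have hne' : j.succ ≠ i.succ := fun h => hij (Fin.succ_injective _ h).symm
    rw [hback, conjE_sw_xE_off Q₀ h2 hne' hls his]
    rcases eq_or_ne i.succ p with hip | hip
    · revert hne'
      rw [hip]
      intro hne'
      exact he.x_fix_left R' hn hB hψ (hr.lineFix R') hb he₂ hlp hls _
    · exact he.x_fix_out R' hn hB hψ hb (fun c => hd p hps c) hlp hls hip his hne'
        (wedgy_of_small _ hn hB hψ hs hW) _

/-- the degree bound -/
theorem degree_ge_any (hW : Fintype.card F ^ 2 ≤ Nat.card W) (hr : Rot Q₀ n)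
    (hS : Function.Surjective fun k => Q₀ k) (hnt : ∃ g, R g ≠ 1) :
    Nat.card W * (wedges F n).card + geo (Fintype.card F) n ≤ finrank ℂ V + 1 := by
  by_contra h
  rw [not_le] at h
  have hs : Small R := by unfold Small; omega
  obtain ⟨ψ, hψ⟩ := SLMin.exists_primitive F
  have h1 := geo_le_fixZ_any R hn hB hψ hs hnt hW hr hS
  have hwd := wedgy_of_small R hn hB hψ hs hW
  have h2 : Nat.card W * (wedges F n).card ≤ ∑ B ∈ wedges F n, finrank ℂ (ws R ψ B) := by
    rw [mul_comm, ← smul_eq_mul, ← Finset.sum_const]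
    refine Finset.sum_le_sum fun B hB' => ?_
    obtain ⟨a, b, h', rfl⟩ := mem_wedges.1 hB'
    exact card_W_le_ws_of_wedgy R hn hB hψ hwd hnt h'
  have h3 := finrank_sum_le R hψ
  omega

end Cfsg.Agent.MinDeg.Orth
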