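import Cfsg.Agent.GeoClasses.OrthMaxBase
import Cfsg.Agent.Classical.OrthFinal
import Cfsg.Agent.Classical.OrthIndex
import Cfsg.Agent.Linear.Transvection

/-!
The isometry group of `x₁y₁ + ⋯ + xₙyₙ + Q₀` in coordinates: centre of the Siegel radical,
Levi elements, short radical elements, swaps, and a generation criterion for `Ω`.
-/

set_option autoImplicit false
set_option linter.unusedSectionVars false

namespace Cfsg.Agent.MinDeg.Orth

open QuadraticMap Cfsg.Agent.Classical Matrix

universe u w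

variable {F : Type u} [Field F] {n : ℕ} {W : Type w} [AddCommGroup W] [Module F W]

/-- coordinates -/
def mk (x y : Fin n → F) (k : W) : HypSpace F n W := (Sum.elim x y, k)

/-- first isotropic coordinates -/
def cx (v : HypSpace F n W) : Fin n → F := fun i => v.1 (.inl i)

/-- second isotropic coordinates -/
def cy (v : HypSpace F n W) : Fin n → F := fun i => v.1 (.inr i)

@[simp] theorem cx_mk (x y : Fin n → F) (k : W) : cx (mk x y k) = x := rfl
@[simp] theorem cy_mk (x y : Fin n → F) (k : W) : cy (mk x y k) = y := rfl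
@[simp] theorem snd_mk (x y : Fin n → F) (k : W) : (mk x y k).2 = k := rfl

theorem mk_eta (v : HypSpace F n W) : mk (cx v) (cy v) v.2 = v := by
  refine Prod.ext ?_ rfl
  funext i
  rcases i with i | i <;> rfl

@[ext]
theorem hyp_ext {v v' : HypSpace F n W} (h1 : cx v = cx v') (h2 : cy v = cy v')
    (h3 : v.2 = v'.2) : v = v' := by
  rw [← mk_eta v, ← mk_eta v', h1, h2, h3]

@[simp] theorem cx_add (v v' : HypSpace F n W) : cx (v + v') = cx v + cx v' := rfl
@[simp] theorem cy_add (v v' : HypSpace F n W) : cy (v + v') = cy v + cy v' := rfl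
@[simp] theorem cx_sub (v v' : HypSpace F n W) : cx (v - v') = cx v - cx v' := rfl
@[simp] theorem cy_sub (v v' : HypSpace F n W) : cy (v - v') = cy v - cy v' := rfl
@[simp] theorem cx_smul (c : F) (v : HypSpace F n W) : cx (c • v) = c • cx v := rfl
@[simp] theorem cy_smul (c : F) (v : HypSpace F n W) : cy (c • v) = c • cy v := rfl
@[simp] theorem cx_neg (v : HypSpace F n W) : cx (-v) = -cx v := rfl
@[simp] theorem cy_neg (v : HypSpace F n W) : cy (-v) = -cy v := rfl
@[simp] theorem cx_zero : cx (0 : HypSpace F n W) = 0 := rfl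
@[simp] theorem cy_zero : cy (0 : HypSpace F n W) = 0 := rfl

theorem mk_add (x y x' y' : Fin n → F) (k k' : W) :
    mk x y k + mk x' y' k' = mk (x + x') (y + y') (k + k') := by
  ext <;> simp

variable (Q₀ : QuadraticForm F W)

theorem hypExt_eq (v : HypSpace F n W) : hypExt n Q₀ v = cx v ⬝ᵥ cy v + Q₀ v.2 := by
  rw [hypExt_apply]; rfl

theorem polar_hypExt (v v' : HypSpace F n W) :
    polar (hypExt n Q₀) v v' = cx v ⬝ᵥ cy v' + cx v' ⬝ᵥ cy v + polar Q₀ v.2 v'.2 := by
  simp only [polar, hypExt_eq, cx_add, cy_add, Prod.snd_add, add_dotProduct, dotProduct_add]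
  ring

/-- the isometry with given coordinate maps -/
noncomputable def ofLin (f g : HypSpace F n W →ₗ[F] HypSpace F n W)
    (h1 : ∀ v, f (g v) = v) (h2 : ∀ v, g (f v) = v)
    (hQ : ∀ v, hypExt n Q₀ (f v) = hypExt n Q₀ v) : OQ (hypExt n Q₀) :=
  ⟨LinearEquiv.ofLinearMap f g (LinearMap.ext h1) (LinearMap.ext h2), hQ⟩

theorem oq_ext {g g' : OQ (hypExt n Q₀)} (h : ∀ v, g.1 v = g'.1 v) : g = g' :=
  Subtype.ext (LinearEquiv.ext h)

/-! ### Levi elements -/

/-- the linear map of a Levi element -/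
def leviLin (A B : Matrix (Fin n) (Fin n) F) : HypSpace F n W →ₗ[F] HypSpace F n W where
  toFun v := mk (A *ᵥ cx v) (B *ᵥ cy v) v.2
  map_add' v v' := by ext <;> simp [Matrix.mulVec_add]
  map_smul' c v := by ext <;> simp [Matrix.mulVec_smul]

theorem leviLin_apply (A B : Matrix (Fin n) (Fin n) F) (v : HypSpace F n W) :
    leviLin A B v = mk (A *ᵥ cx v) (B *ᵥ cy v) v.2 := rfl

theorem leviLin_comp (A B A' B' : Matrix (Fin n) (Fin n) F) (v : HypSpace F n W) :
    leviLin A B (leviLin A' B' v) = leviLin (A * A') (B * B') v := by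
  ext <;> simp [leviLin_apply, Matrix.mulVec_mulVec]

theorem leviLin_one (v : HypSpace F n W) : leviLin (1 : Matrix (Fin n) (Fin n) F) 1 v = v := by
  ext <;> simp [leviLin_apply]

/-- Levi element of a unit -/
noncomputable def levG (g : GL (Fin n) F) : OQ (hypExt n Q₀) :=
  ofLin Q₀ (leviLin g.1 ((g⁻¹ : GL (Fin n) F).1)ᵀ) (leviLin (g⁻¹ : GL (Fin n) F).1 g.1ᵀ)
    (fun v => by
      rw [leviLin_comp, ← Matrix.transpose_mul, g.mul_inv, Matrix.transpose_one, leviLin_one])
    (fun v => by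
      rw [leviLin_comp, ← Matrix.transpose_mul, g.inv_mul, Matrix.transpose_one, leviLin_one])
    (fun v => by
      simp only [hypExt_eq, leviLin_apply, cx_mk, cy_mk, snd_mk]
      rw [Matrix.dotProduct_mulVec, ← Matrix.vecMul_transpose, Matrix.vecMul_vecMul,
        ← Matrix.transpose_mul, g.inv_mul, Matrix.transpose_one, Matrix.vecMul_one])

theorem levG_apply (g : GL (Fin n) F) (v : HypSpace F n W) :
    (levG Q₀ g).1 v = mk (g.1 *ᵥ cx v) (((g⁻¹ : GL (Fin n) F).1)ᵀ *ᵥ cy v) v.2 := rfl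

/-- the Levi homomorphism -/
noncomputable def levHom : GL (Fin n) F →* OQ (hypExt n Q₀) where
  toFun := levG Q₀
  map_one' := oq_ext Q₀ fun v => by
    rw [levG_apply]
    ext <;> simp
  map_mul' g h := oq_ext Q₀ fun v => by
    change _ = (levG Q₀ g).1 ((levG Q₀ h).1 v)
    simp only [levG_apply, cx_mk, cy_mk, snd_mk, Matrix.mulVec_mulVec, _root_.mul_inv_rev,
      Units.val_mul, Matrix.transpose_mul]

theorem levHom_apply (g : GL (Fin n) F) (v : HypSpace F n W) :
    (levHom Q₀ g).1 v = mk (g.1 *ᵥ cx v) (((g⁻¹ : GL (Fin n) F).1)ᵀ *ᵥ cy v) v.2 := rfl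

/-- the special linear Levi homomorphism -/
noncomputable def slHom : SpecialLinearGroup (Fin n) F →* OQ (hypExt n Q₀) :=
  (levHom Q₀).comp SpecialLinearGroup.toGL

theorem slHom_apply (g : SpecialLinearGroup (Fin n) F) (v : HypSpace F n W) :
    (slHom Q₀ g).1 v = mk (g.1 *ᵥ cx v) ((g⁻¹).1ᵀ *ᵥ cy v) v.2 := by
  rw [slHom, MonoidHom.comp_apply, levHom_apply, ← map_inv]
  rfl

/-! ### centre of the Siegel radical -/

/-- the linear map of a radical element -/
def zLin (S : Matrix (Fin n) (Fin n) F) : HypSpace F n W →ₗ[F] HypSpace F n W where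
  toFun v := mk (cx v + S *ᵥ cy v) (cy v) v.2
  map_add' v v' := by ext <;> simp [Matrix.mulVec_add] <;> ring
  map_smul' c v := by ext <;> simp [Matrix.mulVec_smul] <;> ring

theorem zLin_apply (S : Matrix (Fin n) (Fin n) F) (v : HypSpace F n W) :
    zLin S v = mk (cx v + S *ᵥ cy v) (cy v) v.2 := rfl

theorem dot_alt (M : Matrix (Fin n) (Fin n) F) (y : Fin n → F) :
    ((M - Mᵀ) *ᵥ y) ⬝ᵥ y = 0 := by
  rw [Matrix.sub_mulVec, sub_dotProduct, Matrix.mulVec_transpose,
    ← Matrix.dotProduct_mulVec y M y, dotProduct_comm y, sub_self]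

/-- element of the centre of the Siegel radical attached to a matrix -/
noncomputable def zS (M : Matrix (Fin n) (Fin n) F) : OQ (hypExt n Q₀) :=
  ofLin Q₀ (zLin (M - Mᵀ)) (zLin (-(M - Mᵀ)))
    (fun v => by ext <;> simp [zLin_apply, Matrix.sub_mulVec] <;> ring)
    (fun v => by ext <;> simp [zLin_apply, Matrix.sub_mulVec] <;> ring)
    (fun v => by
      simp only [hypExt_eq, zLin_apply, cx_mk, cy_mk, snd_mk, add_dotProduct, dot_alt, add_zero])

theorem zS_apply (M : Matrix (Fin n) (Fin n) F) (v : HypSpace F n W) :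
    (zS Q₀ M).1 v = mk (cx v + (M - Mᵀ) *ᵥ cy v) (cy v) v.2 := rfl

theorem zS_add (M N : Matrix (Fin n) (Fin n) F) :
    zS Q₀ (M + N) = zS Q₀ M * zS Q₀ N := oq_ext Q₀ fun v => by
  change _ = (zS Q₀ M).1 ((zS Q₀ N).1 v)
  simp only [zS_apply, cx_mk, cy_mk, snd_mk, Matrix.transpose_add]
  rw [show M + N - (Mᵀ + Nᵀ) = (N - Nᵀ) + (M - Mᵀ) by abel, Matrix.add_mulVec, add_assoc]

theorem zS_congr {M N : Matrix (Fin n) (Fin n) F} (h : M - Mᵀ = N - Nᵀ) :
    zS Q₀ M = zS Q₀ N := oq_ext Q₀ fun v => by rw [zS_apply, zS_apply, h]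

theorem zS_zero : zS Q₀ (0 : Matrix (Fin n) (Fin n) F) = 1 := oq_ext Q₀ fun v => by
  rw [zS_apply]
  ext <;> simp

theorem levHom_mul_zS (g : GL (Fin n) F) (M : Matrix (Fin n) (Fin n) F) :
    levHom Q₀ g * zS Q₀ M = zS Q₀ (g.1 * M * g.1ᵀ) * levHom Q₀ g := oq_ext Q₀ fun v => by
  change (levHom Q₀ g).1 ((zS Q₀ M).1 v) = (zS Q₀ _).1 ((levHom Q₀ g).1 v)
  simp only [levHom_apply, zS_apply, cx_mk, cy_mk, snd_mk]
  congr 1
  rw [Matrix.mulVec_add, Matrix.mulVec_mulVec, Matrix.mulVec_mulVec]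
  congr 2
  simp only [Matrix.transpose_mul, Matrix.transpose_transpose, ← Matrix.mul_assoc, ← Matrix.sub_mul,
    ← Matrix.mul_sub]
  rw [Matrix.mul_assoc (g.1 * (M - Mᵀ)), ← Matrix.transpose_mul, g.inv_mul, Matrix.transpose_one,
    Matrix.mul_one]

theorem slHom_mul_zS (g : SpecialLinearGroup (Fin n) F) (M : Matrix (Fin n) (Fin n) F) :
    slHom Q₀ g * zS Q₀ M = zS Q₀ (g.1 * M * g.1ᵀ) * slHom Q₀ g :=
  levHom_mul_zS Q₀ _ M

/-! ### short radical elements -/

/-- unit vector -/
abbrev ev (i : Fin n) : Fin n → F := Pi.single i 1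

theorem sh_singular (i : Fin n) : hypExt n Q₀ (mk (ev i) 0 0) = 0 := by
  simp [hypExt_eq]

theorem sh_orth (i : Fin n) (k : W) : polar (hypExt n Q₀) (mk (ev i) 0 0) (mk 0 0 k) = 0 := by
  simp [polar_hypExt]

/-- short radical element -/
noncomputable def sh (i : Fin n) (k : W) : OQ (hypExt n Q₀) :=
  siegel (hypExt n Q₀) (sh_singular Q₀ i) (sh_orth Q₀ i k)

theorem sh_apply (i : Fin n) (k : W) (v : HypSpace F n W) :
    (sh Q₀ i k).1 v =
      mk (cx v - (polar Q₀ k v.2 + Q₀ k * cy v i) • ev i) (cy v) (v.2 + cy v i • k) := by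
  rw [sh, siegel_apply]
  simp only [polar_hypExt, hypExt_eq, cx_mk, cy_mk, snd_mk, dotProduct_zero, zero_dotProduct,
    single_one_dotProduct, add_zero, zero_add, map_zero, polar_zero_left]
  ext <;> simp [sub_sub, add_mul] <;> ring

theorem sh_add (i : Fin n) (k l : W) : sh Q₀ i (k + l) = sh Q₀ i k * sh Q₀ i l := by
  rw [sh, sh, sh, siegel_mul]
  exact siegel_congr _ _ _ _ _ rfl (by rw [mk_add]; simp)

theorem sh_zero (i : Fin n) : sh Q₀ i (0 : W) = 1 := oq_ext Q₀ fun v => by
  rw [sh_apply]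
  ext <;> simp

/-! ### swaps -/

/-- exchange of the two coordinates at the marked indices -/
def swLin (s : Finset (Fin n)) : HypSpace F n W →ₗ[F] HypSpace F n W where
  toFun v := mk (fun i => if i ∈ s then cy v i else cx v i)
    (fun i => if i ∈ s then cx v i else cy v i) v.2
  map_add' v v' := by ext i <;> simp <;> split_ifs <;> rfl
  map_smul' c v := by ext i <;> simp <;> split_ifs <;> rfl

theorem swLin_swLin (s : Finset (Fin n)) (v : HypSpace F n W) : swLin s (swLin s v) = v := by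
  ext i <;> simp [swLin] <;> split_ifs <;> rfl

/-- exchange of the two coordinates at the marked indices, as an isometry -/
noncomputable def sw (s : Finset (Fin n)) : OQ (hypExt n Q₀) :=
  ofLin Q₀ (swLin s) (swLin s) (swLin_swLin s) (swLin_swLin s) (fun v => by
    simp only [hypExt_eq, swLin, LinearMap.coe_mk, AddHom.coe_mk, cx_mk, cy_mk, snd_mk, dotProduct]
    congr 1
    refine Finset.sum_congr rfl fun i _ => ?_
    split_ifs
    · ring
    · rfl)

theorem sw_apply (s : Finset (Fin n)) (v : HypSpace F n W) :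
    (sw Q₀ s).1 v = mk (fun i => if i ∈ s then cy v i else cx v i)
      (fun i => if i ∈ s then cx v i else cy v i) v.2 := rfl

theorem sw_mul_self (s : Finset (Fin n)) : sw Q₀ s * sw Q₀ s = 1 :=
  oq_ext Q₀ (swLin_swLin (W := W) s)

theorem sw_inv (s : Finset (Fin n)) : (sw Q₀ s)⁻¹ = sw Q₀ s :=
  inv_eq_of_mul_eq_one_right (sw_mul_self Q₀ s)

/-! ### the standard root elements as Eichler transformations -/

theorem siegel_ee (i j : Fin n) (hij : i ≠ j) (c : F) :
    zS Q₀ (Matrix.single j i c) = siegel (hypExt n Q₀) (sh_singular Q₀ i)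
      (show polar (hypExt n Q₀) (mk (ev i) 0 0) (mk (c • ev j) 0 (0 : W)) = 0 by
        simp [polar_hypExt]) := oq_ext Q₀ fun v => by
  rw [siegel_apply, zS_apply, Matrix.transpose_single, Matrix.sub_mulVec]
  simp only [polar_hypExt, hypExt_eq, cx_mk, cy_mk, snd_mk, dotProduct_zero, smul_dotProduct,
    single_one_dotProduct, add_zero, zero_add, map_zero, polar_zero_left, smul_eq_mul, zero_mul,
    zero_smul, sub_zero]
  ext l
  · simp only [cx_mk, cx_sub, cx_add, cx_smul, Pi.add_apply, Pi.sub_apply, Pi.smul_apply,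
      smul_eq_mul, Matrix.single_mulVec]
    simp [Pi.single_apply, Function.update_apply]
    split_ifs <;> ring
  · simp
  · simp

theorem siegel_ef (i j : Fin n) (hij : i ≠ j) (c : F) :
    slHom Q₀ (SpecialLinearGroup.transvection hij c) = siegel (hypExt n Q₀) (sh_singular Q₀ i)
      (show polar (hypExt n Q₀) (mk (ev i) 0 0) (mk 0 ((-c) • ev j) (0 : W)) = 0 by
        simp [polar_hypExt, ev, Pi.single_apply, hij, Ne.symm hij]) := oq_ext Q₀ fun v => by
  rw [siegel_apply, slHom_apply, SpecialLinearGroup.transvection_inv hij c]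
  simp only [polar_hypExt, hypExt_eq, cx_mk, cy_mk, snd_mk, dotProduct_zero, zero_dotProduct,
    smul_dotProduct, dotProduct_smul, single_one_dotProduct, dotProduct_single_one,
    add_zero, zero_add, map_zero, polar_zero_left, smul_eq_mul, zero_mul, zero_smul, sub_zero]
  ext l
  · simp [SpecialLinearGroup.transvection_coe, Matrix.add_mulVec, Matrix.single_mulVec,
      Pi.single_apply, Function.update_apply]
  · simp [SpecialLinearGroup.transvection_coe, Matrix.add_mulVec, Matrix.single_mulVec,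
      Matrix.transpose_single, Pi.single_apply, Function.update_apply]
    split_ifs <;> ring
  · simp

end Cfsg.Agent.MinDeg.Orth
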