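import Cfsg.Agent.MinDeg.SLHecke
import Cfsg.Agent.MinDeg.SLLine

/-!
A tame representation of `SL_n` of degree `(q^n - 1) / (q - 1) - 1` has a vector fixed by the upper
unitriangular group which is not moved to `RFix` by `h + 1` for a torus element `h` of the first
two indices.
-/

namespace Cfsg.Agent.MinDeg.SLMin

open Matrix

variable {k : ℕ} {F : Type*} [Field F] {m : ℕ}

theorem root_comm {i j l : Fin m} (hij : i ≠ j) (hjl : j ≠ l) (hil : i ≠ l) (a b : F) :
    root i l a * root l j b * root i l (-a) * root l j (-b) = root i j (a * b) := by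
  apply sl_ext; intro x; funext p
  simp only [sl_mul_mulVec]
  by_cases h1 : p = i
  · subst h1
    simp [-Matrix.mulVec_mulVec, root_mulVec hij, root_mulVec hjl.symm, root_mulVec hil, hij, hil,
      hjl, hij.symm, hil.symm, hjl.symm]
    ring
  · by_cases h2 : p = l
    · subst h2
      simp [-Matrix.mulVec_mulVec, root_mulVec hij, root_mulVec hjl.symm, root_mulVec hil, hij, hil,
        hjl, hij.symm, hil.symm, hjl.symm]
    · simp [-Matrix.mulVec_mulVec, root_mulVec hij, root_mulVec hjl.symm, root_mulVec hil, h1, h2]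

variable {R : SpecialLinearGroup (Fin m) F →* Matrix (Fin k) (Fin k) ℂ} {v : Fin k → ℂ}

theorem fix_mul {a b : SpecialLinearGroup (Fin m) F} (ha : R a *ᵥ v = v) (hb : R b *ᵥ v = v) :
    R (a * b) *ᵥ v = v := by
  rw [map_mul, ← Matrix.mulVec_mulVec, hb, ha]

/-- above a threshold, the adjacent lower root groups give all root groups -/
theorem rfix_above (hv : UFix R v) (t : ℕ)
    (h : ∀ i j : Fin m, t ≤ i.1 → j.1 = i.1 + 1 → RFix R j i v) {i j : Fin m} (hi : t ≤ i.1)
    (hj : t ≤ j.1) (hij : i ≠ j) : RFix R i j v := by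
  rcases lt_or_gt_of_ne hij with hlt | hlt
  · exact hv.rfix hlt
  · have key : ∀ d (i j : Fin m), t ≤ j.1 → i.1 = j.1 + d + 1 → RFix R i j v := by
      intro d
      induction d with
      | zero => exact fun i j hj e => h j i hj e
      | succ d ih =>
        intro i j hj e a
        set l : Fin m := ⟨j.1 + 1, by have := i.2; omega⟩ with hl
        have hl' : l.1 = j.1 + 1 := rfl
        have h1 := ih i l (by omega) (by omega)
        have h2 := h j l hj hl'
        have e' := root_comm (F := F) (i := i) (j := j) (l := l)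
          (fun c => by rw [c] at e; omega) (fun c => by rw [← c] at hl'; omega)
          (fun c => by rw [c] at e; omega) a 1
        rw [mul_one] at e'
        rw [← e']
        exact fix_mul (fix_mul (fix_mul (h1 _) (h2 _)) (h1 _)) (h2 _)
    rw [Fin.lt_def] at hlt
    exact key (i.1 - j.1 - 1) i j hj (by omega)

theorem hE_trans {i j l : Fin m} (hij : i ≠ j) (hjl : j ≠ l) (hil : i ≠ l) {c : F} (hc : c ≠ 0) :
    hE i j c * hE j l c = hE i l c := by
  refine IsDiag.ext ((isDiag_hE hij hc).mul (isDiag_hE hjl hc)) ?_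
  convert isDiag_hE hil hc using 1
  funext p
  simp only [hd]
  rcases eq_or_ne p i with rfl | h1
  · simp [hij, hil]
  · rcases eq_or_ne p j with rfl | h2
    · simp [h1, hjl, hc]
    · simp [h1, h2]

/-- joint eigenvector of the diagonal elements `hE p r g`, with signs `c p * c r` -/
def Eig (R : SpecialLinearGroup (Fin m) F →* Matrix (Fin k) (Fin k) ℂ) (g : F) (c : Fin m → ℂ)
    (v : Fin k → ℂ) : Prop :=
  ∀ p r, p ≠ r → R (hE p r g) *ᵥ v = (c p * c r) • v

theorem eig_of_adjacent {g : F} (hg : g ≠ 0) {c : Fin m → ℂ} (hc : ∀ p, c p * c p = 1)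
    (h : ∀ i j : Fin m, j.1 = i.1 + 1 → R (hE i j g) *ᵥ v = (c i * c j) • v) : Eig R g c v := by
  have key : ∀ d (i j : Fin m), j.1 = i.1 + d + 1 → R (hE i j g) *ᵥ v = (c i * c j) • v := by
    intro d
    induction d with
    | zero => exact h
    | succ d ih =>
      intro i j e
      set l : Fin m := ⟨i.1 + d + 1, by have := j.2; omega⟩ with hl
      have hl' : l.1 = i.1 + d + 1 := rfl
      rw [← hE_trans (j := l) (fun x => by rw [← x] at hl'; omega)
        (fun x => by rw [← x] at e; omega) (fun x => by rw [x] at e; omega) hg, map_mul,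
        ← Matrix.mulVec_mulVec, h l j (by omega), Matrix.mulVec_smul, ih i l hl', smul_smul]
      congr 1
      linear_combination c i * c j * hc l
  intro p r hpr
  rcases lt_or_gt_of_ne hpr with hlt | hlt <;> rw [Fin.lt_def] at hlt
  · exact key (r.1 - p.1 - 1) p r (by omega)
  · have h1 := key (p.1 - r.1 - 1) r p (by omega)
    have h2 := congrArg (R (hE p r g) *ᵥ ·) h1
    simp only [Matrix.mulVec_mulVec, ← map_mul, Matrix.mulVec_smul] at h2
    rw [← hE_swap hpr.symm hg, inv_mul_cancel, map_one, Matrix.one_mulVec] at h2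
    have h3 := congrArg ((c r * c p) • ·) h2
    simp only [smul_smul] at h3
    rw [hE_swap hpr.symm hg, show c r * c p * (c r * c p) = 1 by
      linear_combination (c p * c p) * hc r + hc p, one_smul] at h3
    rw [← h3, mul_comm]

variable [Fintype F]

/-- the step between adjacent indices -/
theorem rfix_step (hR : IsU R) {g : F} (hg : g ≠ 0) {i j l : Fin m} (hij : j.1 = i.1 + 1)
    (hjl : l.1 = j.1 + 1) (h : ∀ v, UFix R v → RFix R j i (R (hE i j g) *ᵥ v + v))
    (hv : UFix R v) : RFix R l j (R (hE j l g) *ᵥ v + v) := by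
  have nij : i ≠ j := fun e => by rw [e] at hij; omega
  have njl : j ≠ l := fun e => by rw [e] at hjl; omega
  have nil : i ≠ l := fun e => by rw [e] at hij; omega
  set u := R (hE j l g) *ᵥ v + v
  have hu : UFix R u := (hv.diag (isDiag_hE njl hg)).add hv
  set y := Tw R j l (Tw R i j v)
  have hy : UFix R y := (hv.tw hij).tw hjl
  have e1 : Tw R j l (Tw R i j u) = R (hE i j g) *ᵥ y + y := by
    simp only [u, y, Tw_add]
    congr 1
    rw [hE_Tw njl nij hg, Equiv.swap_apply_of_ne_of_ne nij nil, Equiv.swap_apply_left,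
      hE_Tw nij nil hg, Equiv.swap_apply_left, Equiv.swap_apply_of_ne_of_ne nil.symm njl.symm]
  set T := Tw R j l u - (Fintype.card F : ℂ) • u
  have hT : UFix R T := (hu.tw hjl).sub (hu.smul _)
  have e2 : Tw R i j (Tw R j l (Tw R i j u)) = (Fintype.card F : ℂ) • Tw R j l (Tw R i j u) := by
    rw [e1]
    exact Tw_of_fix (((hy.diag (isDiag_hE nij hg)).add hy).rfix (by rw [Fin.lt_def]; omega)) (h y hy)
  have e3 : Tw R j l (Tw R i j T) = 0 := by
    simp only [T, Tw_sub, Tw_smul]
    rw [← Tw_braid nij njl nil, e2, sub_self]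
  have e4 := eq_zero_of_Tw hR njl ((hT.tw hij).rfix (by rw [Fin.lt_def]; omega)) e3
  have e5 := eq_zero_of_Tw hR nij (hT.rfix (by rw [Fin.lt_def]; omega)) e4
  exact rfix_opp_of_Tw hR njl (hu.rfix (by rw [Fin.lt_def]; omega)) (sub_eq_zero.1 e5)

theorem Eig.tw {g : F} (hg : g ≠ 0) {c : Fin m → ℂ} (h : Eig R g c v) {i j : Fin m} (hij : i ≠ j) :
    Eig R g (fun l => c (Equiv.swap i j l)) (Tw R i j v) := fun p r hpr => by
  rw [hE_Tw hij hpr hg, h _ _ fun e => hpr ((Equiv.swap i j).injective e), Tw_smul]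

/-! ### levels -/

omit [Fintype F] in
theorem Upper.eq_qEl_mul_emb {g : SpecialLinearGroup (Fin (m + 1)) F} (hg : Upper g) :
    ∃ r A, Upper A ∧ g = qEl r * emb A := by
  set B : Matrix (Fin m) (Fin m) F := g.1.submatrix Fin.succ Fin.succ
  have hB : B.det = 1 := by
    rw [Matrix.det_of_upperTriangular (fun i j (h : j < i) => hg.1 i.succ j.succ (by simpa using h))]
    exact Finset.prod_eq_one fun i _ => hg.2 i.succ
  set A : SpecialLinearGroup (Fin m) F := ⟨B, hB⟩
  refine ⟨(fun l => g.1 0 l.succ) ᵥ* (A⁻¹).1, A,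
    ⟨fun i j h => hg.1 i.succ j.succ (by simpa using h), fun i => hg.2 i.succ⟩, ?_⟩
  apply sl_ext
  intro x
  funext i
  rw [sl_mul_mulVec, qEl, tv_mulVec (qEl_ok _), emb_mulVec, cons_dotProduct_cons, zero_mul, zero_add,
    ← Matrix.dotProduct_mulVec, sl_inv_mulVec]
  refine Fin.cases ?_ (fun i => ?_) i
  · simp [Matrix.mulVec, dotProduct, Fin.sum_univ_succ, hg.2, Fin.tail]
  · simp [Matrix.mulVec, dotProduct, Fin.sum_univ_succ, hg.1 i.succ 0 (Fin.succ_pos i), Fin.tail, A, B]

theorem Lev.ufix_of_sub {L : Lev k F (m + 1)} (hE : L.sub.E *ᵥ v = v) (hU : UFix L.sub.R v) :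
    L.E *ᵥ v = v ∧ UFix L.R v := by
  obtain ⟨hE', h0⟩ := (L.sub_fix v).1 hE
  refine ⟨hE', fun g hg => ?_⟩
  obtain ⟨r, A, hA, rfl⟩ := hg.eq_qEl_mul_emb
  exact fix_mul ((pointProj_fix_iff _ v).1 h0 _ (qEl_ok r)) (hU A hA)

theorem Lev.Tame.exists_ufix : ∀ {m : ℕ} {L : Lev k F (m + 3)}, L.Tame →
    ∃ v, v ≠ 0 ∧ L.E *ᵥ v = v ∧ UFix L.R v
  | 0, L, hC => by
    obtain ⟨i, hi⟩ : ∃ i, L.sub.sub.E *ᵥ Pi.single i 1 ≠ 0 := by
      by_contra! h
      apply Lev.Tame.one_le_three hC
      rw [show L.sub.sub.E = 0 from Matrix.ext_of_mulVec_single fun i => by rw [h, Matrix.zero_mulVec]]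
      simp
    set v := L.sub.sub.E *ᵥ Pi.single i 1
    have hfix : L.sub.sub.E *ᵥ v = v := by rw [Matrix.mulVec_mulVec, L.sub.sub.hE.2]
    obtain ⟨h1, h2⟩ := L.sub.ufix_of_sub hfix fun g _ => by
      have : g = 1 := Subtype.ext (by
        ext a b
        have := g.2
        rw [Matrix.det_fin_one] at this
        obtain rfl : a = 0 := Fin.ext (by omega)
        obtain rfl : b = 0 := Fin.ext (by omega)
        simpa using this)
      rw [this, map_one, Matrix.one_mulVec]
    exact ⟨v, hi, L.ufix_of_sub h1 h2⟩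
  | m + 1, L, hC => by
    obtain ⟨v, hv, h1, h2⟩ := Lev.Tame.exists_ufix (hC.sub (by omega))
    exact ⟨v, hv, L.ufix_of_sub h1 h2⟩

section Top

variable {R : SpecialLinearGroup (Fin (m + 3)) F →* Matrix (Fin k) (Fin k) ℂ} {ψ : AddChar F ℂ}

/-- a nonzero vector fixed by the whole group forces a larger degree -/
theorem false_of_fixed (hR : IsU R) (hC : (topLev R hR).Tame)
    (hk : k + 1 = Orth.geo (Fintype.card F) (m + 3)) (hv0 : v ≠ 0) (hv : ∀ g, R g *ᵥ v = v) :
    False := by
  have hb := hC.noFix.bound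
  obtain ⟨d, hd, hd'⟩ := (fixProj_isPr hR).trace_nat
  have hd1 : 1 ≤ d := by
    by_contra h
    have h0 : d = 0 := by omega
    subst h0
    have := (fixProj_isPr hR).nsq_eq
    rw [hd, Nat.cast_zero, Complex.ofReal_eq_zero] at this
    apply hv0
    rw [← fixProj_mulVec hv, eq_zero_of_nsq _ this, Matrix.zero_mulVec]
  have e : (topLev R hR).noFix.E.trace.re = (k : ℝ) - d := by
    change ((1 : Matrix (Fin k) (Fin k) ℂ) * (1 - fixProj R)).trace.re = _
    rw [Matrix.one_mul, Matrix.trace_sub, hd, Matrix.trace_one, Fintype.card_fin]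
    simp
  rw [e] at hb
  have hq : (2 : ℝ) ≤ Fintype.card F := by exact_mod_cast Fintype.one_lt_card
  have hg := Orth.geo_mul (Fintype.card F) (m + 3) Fintype.card_pos
  rw [← hk] at hg
  have hg' : ((Fintype.card F : ℝ) - 1) * ((k : ℝ) + 1) + 1 = (Fintype.card F : ℝ) ^ (m + 3) := by
    rw [← Nat.cast_one (R := ℝ), ← Nat.cast_sub Fintype.card_pos]
    exact_mod_cast hg
  have : (1 : ℝ) ≤ d := by exact_mod_cast hd1
  nlinarith

/-- all diagonal signs equal -/
theorem false_of_allEqual (hR : IsU R) (hC : (topLev R hR).Tame)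
    (hk : k + 1 = Orth.geo (Fintype.card F) (m + 3)) (hv0 : v ≠ 0) (hv : UFix R v)
    (hlow : ∀ i j : Fin (m + 3), j.1 = i.1 + 1 → RFix R j i v) : False :=
  false_of_fixed hR hC hk hv0 fun g => sl_induction (by omega) (fun g => R g *ᵥ v = v)
    (fun _ _ hij c => rfix_above hv 0 (fun i j _ => hlow i j) (Nat.zero_le _) (Nat.zero_le _) hij c)
    (fun _ _ ha hb => fix_mul ha hb) g

/-- the first sign differs from the others -/
theorem false_of_single (hR : IsU R) (hk : k + 1 = Orth.geo (Fintype.card F) (m + 3))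
    {g : F} (hg : g ≠ 0) (hv0 : v ≠ 0) (hv : UFix R v)
    (hlow : ∀ i j : Fin (m + 3), 1 ≤ i.1 → j.1 = i.1 + 1 → RFix R j i v)
    (h02 : R (hE 0 2 g) *ᵥ v = -v) (h12 : R (hE 1 2 g) *ᵥ v = v) : False := by
  classical
  obtain ⟨n01, n12, n02⟩ := fin3_ne m
  have hstab : ∀ s : SpecialLinearGroup (Fin (m + 3)) F,
      s.1 *ᵥ Pi.single 0 1 = Pi.single 0 1 → R s *ᵥ v = v := by
    intro s hs
    have hcol : ∀ i, s.1 i 0 = (Pi.single 0 1 : Fin (m + 3) → F) i := fun i => by
      have := congrFun hs i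
      rwa [Matrix.mulVec_single_one] at this
    have hB : (s.1.submatrix Fin.succ Fin.succ).det = 1 := by
      have := s.2
      rw [Matrix.det_succ_column_zero, Finset.sum_eq_single 0] at this
      · simpa [hcol] using this
      · intro i _ hi; simp [hcol, hi]
      · simp
    set A : SpecialLinearGroup (Fin (m + 2)) F := ⟨_, hB⟩
    have e : s = qEl ((fun l => s.1 0 l.succ) ᵥ* (A⁻¹).1) * emb A := by
      apply sl_ext
      intro x
      funext i
      rw [sl_mul_mulVec, qEl, tv_mulVec (qEl_ok _), emb_mulVec, cons_dotProduct_cons, zero_mul,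
        zero_add, ← Matrix.dotProduct_mulVec, sl_inv_mulVec]
      refine Fin.cases ?_ (fun i => ?_) i
      · simp [Matrix.mulVec, dotProduct, Fin.sum_univ_succ, hcol, Fin.tail]
      · simp [Matrix.mulVec, dotProduct, Fin.sum_univ_succ, hcol, Fin.tail, A]
    rw [e]
    refine fix_mul (hv _ ?_) ?_
    · generalize (fun l => s.1 0 l.succ) ᵥ* (A⁻¹).1 = r
      have h : ∀ a b, (qEl r).1 a b = (if a = b then 1 else 0) + if a = 0 then (Fin.cons 0 r : Fin (m + 3) → F) b else 0 :=
        fun a b => by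
          have h := congrFun (tv_mulVec (qEl_ok r) (Pi.single b 1)) a
          rw [Matrix.mulVec_single_one] at h
          refine h.trans ?_
          simp [Pi.single_apply, dotProduct_single]
      refine ⟨fun a b hba => ?_, fun a => ?_⟩
      · rw [h, if_neg hba.ne', if_neg (fun e => by rw [e] at hba; exact Fin.not_lt_zero _ hba),
          add_zero]
      · rw [h, if_pos rfl]
        split_ifs with ha
        · subst ha; simp
        · simp
    · refine sl_induction (show 2 ≤ m + 2 by omega) (fun A => R (emb A) *ᵥ v = v)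
        (fun i j hij c => ?_) (fun a b ha hb => by rw [map_mul emb]; exact fix_mul ha hb) A
      rw [emb_root hij]
      exact rfix_above hv 1 hlow (by simp) (by simp) (fun h => hij (Fin.succ_injective _ h)) c
  have horth : star v ⬝ᵥ R (sE 0 1) *ᵥ v = 0 := by
    have e : (sE 0 1)⁻¹ * hE 0 2 g * sE 0 1 = hE (1 : Fin (m + 3)) 2 g := by
      refine IsDiag.ext ((isDiag_hE n02 hg).mul_sE n01) ?_
      convert isDiag_hE n12 hg using 1
      funext l
      simp only [hd, Equiv.swap_apply_eq_iff, Equiv.swap_apply_left,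
        Equiv.swap_apply_of_ne_of_ne n02.symm n12.symm]
    have e1 : R (hE 0 2 g) *ᵥ R (sE 0 1) *ᵥ v = R (sE 0 1) *ᵥ v := by
      rw [Matrix.mulVec_mulVec, ← map_mul, show hE 0 2 g * sE 0 1 = sE 0 1 * hE 1 2 g by
        rw [← e]; simp only [← mul_assoc, mul_inv_cancel, one_mul], map_mul, ← Matrix.mulVec_mulVec,
        h12]
    have e2 : star (R (hE 0 2 g) *ᵥ v) ⬝ᵥ R (hE 0 2 g) *ᵥ R (sE 0 1) *ᵥ v =
        star v ⬝ᵥ R (sE 0 1) *ᵥ v := by
      rw [hR.dot, Matrix.mulVec_mulVec, ← map_mul, inv_mul_cancel, map_one, Matrix.one_mulVec]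
    rw [e1, h02, star_neg, neg_dotProduct] at e2
    exact neg_eq_self.1 e2
  have hmove : ∀ h : SpecialLinearGroup (Fin (m + 3)) F,
      (∀ c : F, h.1 *ᵥ Pi.single 0 1 ≠ c • Pi.single 0 1) → star v ⬝ᵥ R h *ᵥ v = 0 := by
    intro h hc
    obtain ⟨s, hs0, hs1⟩ := exists_move_pair (x := (Pi.single 0 1 : Fin (m + 3) → F))
      (y := -(h.1 *ᵥ Pi.single 0 1)) (by simp) (fun c e => hc (-c) (by rw [neg_smul, ← e, neg_neg]))
    have e0 : (s * sE 0 1).1 *ᵥ Pi.single 0 1 = h.1 *ᵥ Pi.single 0 1 := by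
      rw [sl_mul_mulVec, show (sE (F := F) 0 1).1 *ᵥ Pi.single 0 1 = -Pi.single (1 : Fin (m + 3)) 1 by
        funext l
        rw [sE_mulVec n01]
        rcases eq_or_ne l 0 with rfl | h0
        · simp [n01, n01.symm]
        · rcases eq_or_ne l 1 with rfl | h1
          · simp [n01.symm]
          · simp [h0, h1], Matrix.mulVec_neg, hs1, neg_neg]
    have hfix : R ((s * sE 0 1)⁻¹ * h) *ᵥ v = v := hstab _ (by
      rw [sl_mul_mulVec, ← e0, sl_inv_mulVec])
    rw [← mul_inv_cancel_left (s * sE 0 1) h, map_mul, ← Matrix.mulVec_mulVec, hfix, map_mul,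
      ← Matrix.mulVec_mulVec, dot_fix hR _ (hstab s hs0), horth]
  set ι := Σ i : Fin (m + 3), (Fin i.1 → F)
  set pt : ι → Fin (m + 3) → F := fun x l =>
    if h : l.1 < x.1.1 then x.2 ⟨l.1, h⟩ else if l = x.1 then 1 else 0 with hpt
  have hptne : ∀ x, pt x ≠ 0 := fun x h0 => by
    have := congrFun h0 x.1
    simp [hpt] at this
  choose γ hγ using fun x : ι => Weights.exists_sl_apply_single (show 2 ≤ m + 3 by omega) _ (hptne x)
  replace hγ : ∀ x, (γ x).1 *ᵥ Pi.single 0 1 = pt x := hγ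
  have hinj : ∀ (x y : ι) (c : F), pt x = c • pt y → x = y := by
    rintro ⟨i, a⟩ ⟨i', a'⟩ c hxy
    have hc : c ≠ 0 := fun h0 => hptne ⟨i, a⟩ (by rw [hxy, h0, zero_smul])
    obtain rfl : i = i' := by
      by_contra hne
      rcases lt_or_gt_of_ne hne with hlt | hlt <;> rw [Fin.lt_def] at hlt
      · have := congrFun hxy i'
        simp only [hpt, Pi.smul_apply, smul_eq_mul, dif_neg (show ¬i'.1 < i.1 by omega),
          dif_neg (lt_irrefl i'.1), if_neg (Ne.symm hne), if_pos, mul_one] at this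
        exact hc this.symm
      · have := congrFun hxy i
        simp only [hpt, Pi.smul_apply, smul_eq_mul, dif_neg (show ¬i.1 < i'.1 by omega),
          dif_neg (lt_irrefl i.1), if_neg hne, if_pos, mul_zero] at this
        exact one_ne_zero this
    have h1 := congrFun hxy i
    simp [hpt] at h1
    rw [← h1, one_smul] at hxy
    congr 1
    funext l
    have := congrFun hxy ⟨l.1, l.2.trans i.2⟩
    simp only [hpt, dif_pos l.2] at this
    exact this
  set w : ι → Fin k → ℂ := fun x => R (γ x) *ᵥ v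
  have hw : ∀ x y, x ≠ y → star (w x) ⬝ᵥ w y = 0 := fun x y hxy => by
    rw [hR.dot, Matrix.mulVec_mulVec, ← map_mul]
    refine hmove _ fun c e => hxy (hinj y x c ?_).symm
    rw [← hγ, ← hγ, ← Matrix.mulVec_smul, ← e, ← sl_mul_mulVec, mul_inv_cancel_left]
  have hww : ∀ x, star (w x) ⬝ᵥ w x = star v ⬝ᵥ v := fun x => by
    rw [hR.dot, Matrix.mulVec_mulVec, ← map_mul, inv_mul_cancel, map_one, Matrix.one_mulVec]
  have hli : LinearIndependent ℂ w := by
    rw [Fintype.linearIndependent_iff]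
    intro f hf x
    have := congrArg (star (w x) ⬝ᵥ ·) hf
    simp only [dotProduct_sum, dotProduct_smul, dotProduct_zero] at this
    rw [Finset.sum_eq_single x (fun y _ hy => by rw [hw x y hy.symm, smul_zero]) (by simp), hww,
      smul_eq_mul] at this
    exact (mul_eq_zero.1 this).resolve_right fun h => hv0 (eq_zero_of_dot h)
  have hcard := hli.fintype_card_le_finrank
  simp only [ι, Fintype.card_sigma, Fintype.card_pi_const, Module.finrank_fintype_fun_eq_card,
    Fintype.card_fin, Fin.sum_univ_eq_sum_range (fun i => Fintype.card F ^ i)] at hcard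
  change Orth.geo _ _ ≤ k at hcard
  omega

/-- two disjoint sign changes -/
theorem false_of_double (hR : IsU R) (hC : (topLev R hR).Tame) (hψ : ψ.IsPrimitive) {g : F}
    (hg : g ≠ 0) (hv0 : v ≠ 0) (hv : UFix R v) {c : Fin (m + 3) → ℂ} (he : Eig R g c v)
    (hc : ∀ l, c l * c l = 1) (h01 : c 0 * c 1 = -1) {p r : Fin (m + 3)} (hp0 : p ≠ 0) (hp1 : p ≠ 1) (hr0 : r ≠ 0)
    (hr1 : r ≠ 1) (hpr : c p * c r = -1) : False := by
  obtain ⟨n01, -, -⟩ := fin3_ne m
  have npr : p ≠ r := fun h => by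
    subst h
    rcases mul_self_eq_one_iff.1 (hc p) with h1 | h1 <;> rw [h1] at hpr <;> norm_num at hpr
  set y := R (sE 0 1) *ᵥ v
  have hy10 : RFix R 1 0 y := fun a => by
    simp only [y]
    rw [← map_mulVec_mul, ← neg_neg a, ← sE_mul_root n01, map_mulVec_mul, hv.rfix (by simp)]
  have hy0l : ∀ l : Fin (m + 3), l ≠ 0 → l ≠ 1 → RFix R 0 l y := fun l h0 h1 a => by
    have e : sE 0 1 * root 1 l a = root 0 l a * sE 0 1 := by
      apply sl_ext; intro x; funext q
      simp only [sl_mul_mulVec]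
      by_cases a1 : q = 0
      · subst a1
        simp [-Matrix.mulVec_mulVec, root_mulVec h1.symm, root_mulVec h0.symm, sE_mulVec n01, n01,
          n01.symm, h0, h1]
      · by_cases a2 : q = 1
        · subst a2
          simp [-Matrix.mulVec_mulVec, root_mulVec h1.symm, root_mulVec h0.symm, sE_mulVec n01,
            n01, n01.symm]
        · simp [-Matrix.mulVec_mulVec, root_mulVec h1.symm, root_mulVec h0.symm, sE_mulVec n01,
            a1, a2]
    simp only [y]
    rw [← map_mulVec_mul, ← e, map_mulVec_mul, hv.rfix (by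
      rw [Fin.lt_def]
      have h0' := Fin.val_ne_iff.2 h0
      have h1' := Fin.val_ne_iff.2 h1
      rw [Fin.val_zero] at h0'
      rw [Fin.val_one] at h1' ⊢
      omega)]
  have hyh : ∀ {a b : Fin (m + 3)}, a ≠ b →
      c (Equiv.swap 0 1 a) * c (Equiv.swap 0 1 b) = -1 → R (hE a b g) *ᵥ y = -y := by
    intro a b hab hc
    have e : (sE 0 1)⁻¹ * hE a b g * sE 0 1 =
        hE (Equiv.swap (0 : Fin (m + 3)) 1 a) (Equiv.swap 0 1 b) g := by
      refine IsDiag.ext ((isDiag_hE hab hg).mul_sE n01) ?_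
      convert isDiag_hE (fun h => hab ((Equiv.swap (0 : Fin (m + 3)) 1).injective h)) hg using 1
      funext l
      simp only [hd, Equiv.swap_apply_eq_iff, Equiv.symm_swap]
    simp only [y]
    rw [← map_mulVec_mul, show hE a b g * sE 0 1 = sE 0 1 * ((sE 0 1)⁻¹ * hE a b g * sE 0 1) by
      simp only [← mul_assoc, mul_inv_cancel, one_mul], e, map_mulVec_mul,
      he _ _ (fun h => hab ((Equiv.swap (0 : Fin (m + 3)) 1).injective h)), hc, neg_one_smul,
      Matrix.mulVec_neg]
  have hy01 : R (hE 0 1 g) *ᵥ y = -y := hyh n01 (by simp [mul_comm, h01])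
  have hypr : R (hE p r g) *ᵥ y = -y := hyh npr (by
    rw [Equiv.swap_apply_of_ne_of_ne hp0 hp1, Equiv.swap_apply_of_ne_of_ne hr0 hr1, hpr])
  have hne : ∀ w : Fin (m + 2) → F, w ≠ 0 → wproj ψ R w *ᵥ y = 0 := by
    intro w hw
    by_cases hl : ∃ l, l ≠ 0 ∧ w l ≠ 0
    · obtain ⟨l, hl0, hwl⟩ := hl
      obtain ⟨a, ha⟩ : ∃ a, ψ (a * w l) ≠ 1 := by
        by_contra! h
        exact hψ hwl (DFunLike.ext _ _ fun s => by rw [AddChar.mulShift_apply, mul_comm, h]; rfl)
      have e : qEl (Pi.single l a) = root 0 l.succ a := by rw [qEl, cons_single, root]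
      have h := congrArg (wproj ψ R w *ᵥ ·) (hy0l l.succ (Fin.succ_ne_zero l) (fun h => hl0 (by
        rw [← Fin.succ_zero_eq_one] at h; exact Fin.succ_injective _ h)) a)
      simp only [← e, Matrix.mulVec_mulVec, wproj, avgC_mul (R := R) (t := (qEl : (Fin (m + 2) → F) → _)) qEl_add, Matrix.smul_mulVec,
        wchar_apply, single_dotProduct] at h
      by_contra h0
      change avgC R qEl (wchar ψ w) *ᵥ y ≠ 0 at h0
      exact ha (smul_left_injective ℂ h0 (h.trans (one_smul ℂ _).symm))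
    · push Not at hl
      set W := wproj ψ R w
      have hW : IsPr W := avgC_isPr qEl_add hR _
      have hroot : ∀ (i j : Fin (m + 3)), i ≠ j → i ≠ 0 → j ≠ 0 → j ≠ 1 → ∀ a,
          R (root i j a) * W = W := by
        intro i j hij hi hj hj1 a
        obtain ⟨i, rfl⟩ := Fin.exists_succ_eq.2 hi
        obtain ⟨j, rfl⟩ := Fin.exists_succ_eq.2 hj
        have hij' : i ≠ j := fun h => hij (by rw [h])
        rcases eq_or_ne a 0 with rfl | ha
        · rw [root_zero hij, map_one, Matrix.one_mul]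
        have h := (topLev R hR).fixes_weight hC hψ (root_ok hij' a) (by simp) (by simpa using ha)
          hw (by rw [single_dotProduct, hl j fun h => hj1 (by rw [h, Fin.succ_zero_eq_one]),
            mul_zero])
        rw [← emb_root hij']
        simpa [topLev, root, W] using h
      have hmulW : ∀ x y, R x * W = W → R y * W = W → R (x * y) * W = W := fun x y hx hy => by
        rw [map_mul, Matrix.mul_assoc, hy, hx]
      have hwE : ∀ b, R (wE p r b) * W = W := fun b =>
        hmulW _ _ (hmulW _ _ (hroot p r npr hp0 hr0 hr1 _) (hroot r p npr.symm hr0 hp0 hp1 _))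
          (hroot p r npr hp0 hr0 hr1 _)
      have hh := congrArg Matrix.conjTranspose (hmulW _ _ (hwE g) (hwE (-1)))
      rw [Matrix.conjTranspose_mul, hR, hW.1] at hh
      have h2 := congrArg (· * R (hE p r g)) hh
      simp only [Matrix.mul_assoc, ← map_mul, hE, inv_mul_cancel, map_one, Matrix.mul_one] at h2
      have h3 : W *ᵥ y = -(W *ᵥ y) := by
        conv_lhs => rw [h2]
        rw [← Matrix.mulVec_mulVec, ← hE, hypr, Matrix.mulVec_neg]
      exact self_eq_neg.1 h3
  have hy0 : wproj ψ R 0 *ᵥ y = y := by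
    have h := congrArg (· *ᵥ y) (sum_wproj (R' := R) hψ)
    rw [Matrix.one_mulVec, Matrix.sum_mulVec, Finset.sum_eq_single 0 (fun w _ hw => hne w hw)
      (by simp)] at h
    exact h
  have hy01' : RFix R 0 1 y := fun a => by
    rw [← hy0, Matrix.mulVec_mulVec, ← Fin.succ_zero_eq_one,
      show root 0 (Fin.succ (0 : Fin (m + 2))) a = qEl (Pi.single 0 a) by rw [qEl, cons_single, root],
      wproj, mul_avgC qEl_add, wchar_apply, dotProduct_zero, AddChar.map_zero_eq_one, one_smul]
  have h := hE_fix hy01' hy10 g hg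
  rw [hy01, neg_eq_self] at h
  apply hv0
  have := congrArg (R (sE 0 1)⁻¹ *ᵥ ·) h
  simpa [y, Matrix.mulVec_mulVec, ← map_mul] using this

/-- no representation of the degree `geo - 1` with the property `hP` -/
theorem no_gap (hR : IsU R) (hC : (topLev R hR).Tame)
    (hk : k + 1 = Orth.geo (Fintype.card F) (m + 3)) {g : F} (hg : g ≠ 0)
    (hP : ∀ v, UFix R v → RFix R 1 0 (R (hE 0 1 g) *ᵥ v + v)) : False := by
  classical
  obtain ⟨ψ, hψ⟩ := exists_primitive F
  have hP' : ∀ i j : Fin (m + 3), j.1 = i.1 + 1 → ∀ v, UFix R v →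
      RFix R j i (R (hE i j g) *ᵥ v + v) := by
    have key : ∀ d, ∀ i j : Fin (m + 3), i.1 = d → j.1 = i.1 + 1 → ∀ v, UFix R v →
        RFix R j i (R (hE i j g) *ᵥ v + v) := by
      intro d
      induction d with
      | zero =>
        intro i j hi hj
        obtain rfl : i = 0 := Fin.ext (by simpa using hi)
        obtain rfl : j = 1 := Fin.ext (by simpa using hj)
        exact hP
      | succ d ih =>
        intro i j hi hj v hv
        exact rfix_step hR hg (i := ⟨d, by omega⟩) (j := i) (l := j) hi hj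
          (ih ⟨d, by omega⟩ i rfl hi) hv
    exact fun i j => key i.1 i j rfl
  have hsq : ∀ i j : Fin (m + 3), j.1 = i.1 + 1 → ∀ v, UFix R v →
      R (hE i j g) *ᵥ R (hE i j g) *ᵥ v = v := fun i j hij v hv => by
    have hne : i ≠ j := fun e => by rw [e] at hij; omega
    have h := hE_fix (((hv.diag (isDiag_hE hne hg)).add hv).rfix
      (show i < j by rw [Fin.lt_def]; omega)) (hP' i j hij v hv) g hg
    rw [Matrix.mulVec_add, add_comm] at h
    exact add_left_cancel h
  have hlow : ∀ i j : Fin (m + 3), j.1 = i.1 + 1 → ∀ v, UFix R v → R (hE i j g) *ᵥ v = v →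
      RFix R j i v := fun i j hij v hv h a => by
    have h2 := hP' i j hij v hv a
    rw [h, ← two_smul ℂ v, Matrix.mulVec_smul] at h2
    exact smul_right_injective _ two_ne_zero h2
  obtain ⟨v₀, hv₀, ε, hε, hεv⟩ : ∃ v, (v ≠ 0 ∧ UFix R v) ∧ ∃ ε : ℕ → ℂ,
      (∀ i, ε i * ε i = 1) ∧ ∀ i j : Fin (m + 3), j.1 = i.1 + 1 →
        R (hE i j g) *ᵥ v = ε i.1 • v := by
    suffices ∀ N, ∃ v, (v ≠ 0 ∧ UFix R v) ∧ ∃ ε : ℕ → ℂ, (∀ i, ε i * ε i = 1) ∧
        ∀ i j : Fin (m + 3), i.1 < N → j.1 = i.1 + 1 → R (hE i j g) *ᵥ v = ε i.1 • v by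
      obtain ⟨v, h, ε, h1, h2⟩ := this (m + 3)
      exact ⟨v, h, ε, h1, fun i j => h2 i j i.2⟩
    intro N
    induction N with
    | zero =>
      obtain ⟨v, h0, -, h⟩ := hC.exists_ufix
      exact ⟨v, ⟨h0, h⟩, fun _ => 1, fun _ => one_mul 1, fun _ _ h => absurd h (Nat.not_lt_zero _)⟩
    | succ N ih =>
      obtain ⟨v, ⟨h0, hv⟩, ε, hε, h⟩ := ih
      by_cases hN : N + 1 < m + 3
      swap
      · exact ⟨v, ⟨h0, hv⟩, ε, hε, fun i j hi hj => h i j (by have := j.2; omega) hj⟩
      set a : Fin (m + 3) := ⟨N, by omega⟩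
      set b : Fin (m + 3) := ⟨N + 1, hN⟩
      have hab : a ≠ b := by simp [a, b, Fin.ext_iff]
      by_cases hz : R (hE a b g) *ᵥ v + v = 0
      · refine ⟨v, ⟨h0, hv⟩, fun i => if i = N then -1 else ε i, fun i => ?_, fun i j hi hj => ?_⟩
        · dsimp only; split_ifs <;> [norm_num; exact hε i]
        · dsimp only
          split_ifs with hiN
          · obtain rfl : i = a := Fin.ext hiN
            obtain rfl : j = b := Fin.ext (by simpa [a] using hj)
            rw [neg_one_smul]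
            exact eq_neg_of_add_eq_zero_left hz
          · exact h i j (by omega) hj
      · refine ⟨_, ⟨hz, (hv.diag (isDiag_hE hab hg)).add hv⟩, fun i => if i = N then 1 else ε i,
          fun i => ?_, fun i j hi hj => ?_⟩
        · dsimp only; split_ifs <;> [norm_num; exact hε i]
        · dsimp only
          split_ifs with hiN
          · obtain rfl : i = a := Fin.ext hiN
            obtain rfl : j = b := Fin.ext (by simpa [a] using hj)
            rw [one_smul, Matrix.mulVec_add, hsq a b rfl v hv, add_comm]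
          · have hij : i ≠ j := fun e => by rw [e] at hj; omega
            rw [Matrix.mulVec_add, Matrix.mulVec_mulVec, ← map_mul,
              (isDiag_hE hij hg).comm (isDiag_hE hab hg), map_mul, ← Matrix.mulVec_mulVec,
              h i j (by omega) hj, Matrix.mulVec_smul, smul_add]
  set c₀ : Fin (m + 3) → ℂ := fun l => ∏ i ∈ Finset.range l.1, ε i with hc₀
  have hc : ∀ l, c₀ l * c₀ l = 1 := fun l => by
    rw [hc₀, ← Finset.prod_mul_distrib]
    exact Finset.prod_eq_one fun i _ => hε i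
  have heig : Eig R g c₀ v₀ := eig_of_adjacent hg hc fun i j hij => by
    rw [hεv i j hij]
    congr 1
    simp only [hc₀]
    rw [hij, Finset.prod_range_succ, ← mul_assoc]
    exact (mul_left_eq_self₀.2 (Or.inl (hc i))).symm
  have hperm : ∀ σ : Equiv.Perm (Fin (m + 3)), ∀ (c : Fin (m + 3) → ℂ) (v : Fin k → ℂ),
      v ≠ 0 ∧ UFix R v → Eig R g c v → ∃ w, (w ≠ 0 ∧ UFix R w) ∧ Eig R g (fun l => c (σ l)) w := by
    intro σ
    have hσ : σ ∈ Submonoid.closure
        (Set.range fun i : Fin (m + 2) => Equiv.swap i.castSucc i.succ) := by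
      rw [Equiv.Perm.mclosure_swap_castSucc_succ]; trivial
    induction hσ using Submonoid.closure_induction with
    | mem x hx =>
      obtain ⟨i, rfl⟩ := hx
      intro c v hv he
      have hij : i.castSucc ≠ i.succ := Fin.castSucc_lt_succ.ne
      exact ⟨_, ⟨fun h => hv.1 (eq_zero_of_Tw hR hij (hv.2.rfix Fin.castSucc_lt_succ) h),
        hv.2.tw (by simp)⟩, he.tw hg hij⟩
    | one => exact fun c v hv he => ⟨v, hv, he⟩
    | mul x y _ _ hx hy =>
      intro c v hv he
      obtain ⟨w, hw, hew⟩ := hx c v hv he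
      exact hy _ w hw hew
  by_cases hconst : ∀ p r, c₀ p = c₀ r
  · exact false_of_allEqual hR hC hk hv₀.1 hv₀.2 fun i j hij => hlow i j hij v₀ hv₀.2 (by
      rw [heig i j fun e => by rw [e] at hij; omega, hconst j i, hc, one_smul])
  push Not at hconst
  obtain ⟨p, r, hpr⟩ := hconst
  have hpm : ∀ x y, c₀ x ≠ c₀ y → c₀ x * c₀ y = -1 := fun x y h => by
    rcases mul_self_eq_one_iff.1 (hc x) with h1 | h1 <;>
      rcases mul_self_eq_one_iff.1 (hc y) with h2 | h2 <;> rw [h1, h2] at h ⊢ <;>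
      first | exact absurd rfl h | norm_num
  have hsame : ∀ {a x y}, c₀ x ≠ c₀ a → c₀ y ≠ c₀ a → c₀ x * c₀ y = 1 := fun {a x y} hx hy => by
    linear_combination (c₀ x * c₀ y) * -hc a + (c₀ y * c₀ a) * hpm x a hx - hpm y a hy
  have hsingle : ∀ s, (∀ x, x ≠ s → c₀ x ≠ c₀ s) → False := fun s hs => by
    obtain ⟨v, ⟨h0, hv⟩, he⟩ := hperm (Equiv.swap 0 s) c₀ v₀ hv₀ heig
    have hne : ∀ x : Fin (m + 3), x ≠ 0 → c₀ (Equiv.swap 0 s x) ≠ c₀ s := fun x hx =>
      hs _ fun h => hx ((Equiv.swap_apply_eq_iff.1 h).trans (Equiv.swap_apply_right 0 s))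
    obtain ⟨n01, n12, n02⟩ := fin3_ne m
    refine false_of_single hR hk hg h0 hv (fun i j hi hij => hlow i j hij v hv ?_) ?_ ?_
    · rw [he i j fun e => by rw [e] at hij; omega]
      rw [hsame (hne i fun e => by rw [e] at hi; simp at hi)
        (hne j fun e => by rw [e] at hij; simp at hij), one_smul]
    · rw [he 0 2 n02]
      dsimp only
      rw [Equiv.swap_apply_left, hpm _ _ (hne 2 n02.symm).symm, neg_one_smul]
    · rw [he 1 2 n12, hsame (hne 1 n01.symm) (hne 2 n02.symm), one_smul]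
  by_cases h1 : ∀ x, x ≠ p → c₀ x ≠ c₀ p
  · exact hsingle p h1
  by_cases h2 : ∀ x, x ≠ r → c₀ x ≠ c₀ r
  · exact hsingle r h2
  push Not at h1 h2
  obtain ⟨x, hx, hxp⟩ := h1
  obtain ⟨y, hy, hyr⟩ := h2
  have hpr' : p ≠ r := fun e => hpr (congrArg c₀ e)
  set r' := Equiv.swap 0 p r with hr'
  set σ := Equiv.swap 0 p * Equiv.swap 1 r' with hσ
  have hr'0 : r' ≠ 0 := fun h => hpr' (by
    have := (Equiv.swap_apply_eq_iff.1 h).trans (Equiv.swap_apply_left 0 p)
    exact this.symm)
  have hσ0 : σ 0 = p := by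
    rw [hσ, Equiv.Perm.mul_apply, Equiv.swap_apply_of_ne_of_ne (fin3_ne m).1 hr'0.symm,
      Equiv.swap_apply_left]
  have hσ1 : σ 1 = r := by
    rw [hσ, Equiv.Perm.mul_apply, Equiv.swap_apply_left, hr', Equiv.swap_apply_self]
  obtain ⟨v, ⟨h0, hv⟩, he⟩ := hperm σ c₀ v₀ hv₀ heig
  refine false_of_double hR hC hψ hg h0 hv he (fun l => hc _) (by rw [hσ0, hσ1, hpm p r hpr])
    (p := σ.symm x) (r := σ.symm y) ?_ ?_ ?_ ?_ (by
      simp only [Equiv.apply_symm_apply]
      rw [hxp, hyr, hpm p r hpr]) <;> intro h <;>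
    have h' := (Equiv.symm_apply_eq σ).1 h
  · exact hx (h'.trans hσ0)
  · exact hpr (by rw [← hxp, h', hσ1])
  · exact hpr (by rw [← hyr, h', hσ0])
  · exact hy (h'.trans hσ1)

end Top

/-- a module with such a line and the property of the torus has dimension at least the number of
points -/
theorem geo_le_finrank {V : Type*} [AddCommGroup V] [Module ℂ V] [FiniteDimensional ℂ V]
    (σ : SpecialLinearGroup (Fin (m + 3)) F →* Module.End ℂ V) (hq : 3 ≤ Fintype.card F)
    {ψ : AddChar F ℂ} (hψ : ψ.IsPrimitive) {e : V}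
    (he0 : e ≠ 0) (hA : ∀ r : Fin (m + 2) → F, σ (qEl r) e = ψ (r 0) • e)
    (hS : ∀ i j : Fin (m + 2), i ≠ j → j ≠ 0 → ∀ a, σ (root i.succ j.succ a) e = e)
    {g : F} (hg : g ≠ 0)
    (hP : ∀ v, (∀ u, Upper u → σ u v = v) →
      ∀ a, σ (root 1 0 a) (σ (hE 0 1 g) v + v) = σ (hE 0 1 g) v + v) :
    Orth.geo (Fintype.card F) (m + 3) ≤ Module.finrank ℂ V := by
  classical
  rcases eq_or_lt_of_le (geo_le_of_line σ hψ he0 hA hS) with heq | hlt
  swap
  · omega
  exfalso
  set d := Module.finrank ℂ V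
  let b : V ≃ₗ[ℂ] (Fin d → ℂ) := (Module.finBasis ℂ V).equivFun
  let ρ : Representation ℂ (SpecialLinearGroup (Fin (m + 3)) F) (Fin d → ℂ) :=
    b.conjRingEquiv.toMonoidHom.comp σ
  have hρ : ∀ g v, ρ g (b v) = b (σ g v) := fun g v => by simp [ρ, LinearEquiv.conjRingEquiv]
  obtain ⟨R, Φ, hR, hint⟩ := exists_unitary_equiv ρ
  have hkey : ∀ g w, R g *ᵥ Φ (b w) = Φ (b (σ g w)) := fun g w => by rw [hint, hρ]
  have hx0 : Φ (b e) ≠ 0 := fun h => he0 (b.injective (Φ.injective (by simpa using h)))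
  have hA' : ∀ r : Fin (m + 2) → F, R (qEl r) *ᵥ Φ (b e) = ψ (r 0) • Φ (b e) := fun r => by
    rw [hkey, hA, map_smul, map_smul]
  have hS' : ∀ i j : Fin (m + 2), i ≠ j → j ≠ 0 → ∀ a,
      R (root i.succ j.succ a) *ᵥ Φ (b e) = Φ (b e) :=
    fun i j hij hj a => by rw [hkey, hS i j hij hj]
  have hnt : ∃ g, R g ≠ 1 := by
    obtain ⟨a, ha⟩ : ∃ a, ψ a ≠ 1 := by
      by_contra! hall
      exact hψ one_ne_zero (DFunLike.ext _ _ fun y => by simp [AddChar.mulShift_apply, hall])
    refine ⟨qEl (Pi.single 0 a), fun h => ha ?_⟩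
    have := hA' (Pi.single 0 a)
    rw [h, Matrix.one_mulVec, Pi.single_eq_same] at this
    exact smul_left_injective ℂ hx0 (this.symm.trans (one_smul ℂ _).symm)
  rcases tame_or_large hR hnt hψ (fun h1 _ _ _ h _ _ hw0 hw =>
    fixes_of_line hx0 hA' hS' hR h1 h hw0 hw) with hC | hbig
  · refine no_gap hR hC heq.symm hg fun v hv => ?_
    obtain ⟨w, rfl⟩ : ∃ w, Φ (b w) = v := ⟨b.symm (Φ.symm v), by simp⟩
    intro a
    simp only [hkey, ← map_add]
    rw [hP w (fun u hu => b.injective (Φ.injective ((hkey u w).symm.trans (hv u hu)))) a]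
  · have hgm := Orth.geo_mul (Fintype.card F) (m + 3) Fintype.card_pos
    rw [heq] at hgm
    have hgm' : ((Fintype.card F : ℝ) - 1) * ((d : ℝ) + 1) + 1 = (Fintype.card F : ℝ) ^ (m + 3) := by
      rw [← Nat.cast_one (R := ℝ), ← Nat.cast_sub Fintype.card_pos]
      exact_mod_cast hgm
    have h3 : (3 : ℝ) ≤ Fintype.card F := by exact_mod_cast hq
    have hp : (3 : ℝ) ≤ (Fintype.card F : ℝ) ^ (m + 2) :=
      h3.trans (le_self_pow₀ (by linarith) (by omega))
    rw [pow_succ'] at hgm'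
    nlinarith [mul_le_mul_of_nonneg_left hbig (show (0 : ℝ) ≤ (Fintype.card F : ℝ) - 1 by linarith),
      mul_nonneg (sub_nonneg.2 h3) (show (0 : ℝ) ≤ (Fintype.card F : ℝ) ^ (m + 2) - 1 by linarith)]

end Cfsg.Agent.MinDeg.SLMin
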