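import Cfsg.Agent.MinDeg.OrthOddLine
import Cfsg.Agent.MinDeg.SLNoGap
import Cfsg.Agent.Classical.OrthFinal

/-!
The case of equality does not occur in odd dimension.
-/

set_option autoImplicit false
set_option linter.unusedSectionVars false

namespace Cfsg.Agent.MinDeg.Orth

open QuadraticMap Cfsg.Agent.Classical Matrix Cfsg.Agent.Weights Module

universe u w v

variable {F : Type u} [Field F] [Fintype F] {n : ℕ} {ψ : AddChar F ℂ}
  {V : Type v} [AddCommGroup V] [Module ℂ V] [FiniteDimensional ℂ V]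

section General

variable {W : Type w} [AddCommGroup W] [Module F W] [FiniteDimensional F W]
  {Q₀ : QuadraticForm F W} (R : Om Q₀ n →* Module.End ℂ V) (hn : 3 ≤ n) (hB : BNondeg Q₀)

theorem geo_lt_pow (q : ℕ) (hq : 3 ≤ q) (hn : 1 ≤ n) : geo q n < q ^ n := by
  have h := geo_mul q n (by omega)
  have h1 : 2 * geo q n ≤ (q - 1) * geo q n := Nat.mul_le_mul_right _ (by omega)
  have h2 : 1 ≤ q ^ n := Nat.one_le_pow _ _ (by omega)
  omega

include hn hB in
theorem wedgy_of_card (hψ : ψ.IsPrimitive) (hs : Small R) (hq : 4 ≤ Fintype.card F) : Wedgy R ψ :=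
  fun _ hA hne => wedge_of_ws R hn hB hψ hs (fun _ => hq) hA hne

theorem sw_comm (a b : Fin n) : sw Q₀ {a} * sw Q₀ {b} = sw Q₀ {b} * sw Q₀ {a} :=
  oq_ext Q₀ fun v => by
    simp only [Subgroup.coe_mul, LinearEquiv.mul_apply, sw_apply, cx_mk, cy_mk, snd_mk,
      Finset.mem_singleton]
    ext i
    · simp only [cx_mk]; split_ifs <;> rfl
    · simp only [cy_mk]; split_ifs <;> rfl
    · rfl

theorem conjE_mul (a b : OQ (hypExt n Q₀)) (g : Om Q₀ n) :
    conjE Q₀ (a * b) g = conjE Q₀ a (conjE Q₀ b g) :=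
  Subtype.ext (by simp only [conjE_coe, _root_.mul_inv_rev, mul_assoc])

/-- the exchange of two pairs inverts a diagonal element of these indices -/
theorem conjE_sw_sw_hE (hn : 2 ≤ n) {a b : Fin n} (hab : a ≠ b) {c : F} (hc : c ≠ 0) :
    conjE Q₀ (sw Q₀ {a} * sw Q₀ {b}) (slE Q₀ hn (SLMin.hE a b c)) =
      slE Q₀ hn (SLMin.hE a b c⁻¹) := by
  apply Subtype.ext
  rw [conjE_coe, _root_.mul_inv_rev, sw_inv, sw_inv, slE_coe, slE_coe]
  refine oq_ext Q₀ fun v => ?_
  simp only [Subgroup.coe_mul, LinearEquiv.mul_apply, slHom_apply, sw_apply, cx_mk, cy_mk, snd_mk,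
    Finset.mem_singleton, SLMin.hE_inv hab hc, SLMin.hE_inv hab (inv_ne_zero hc), inv_inv]
  have h1 := SLMin.isDiag_hE hab hc
  have h2 := SLMin.isDiag_hE hab (inv_ne_zero hc)
  unfold SLMin.IsDiag at h1 h2
  simp only [h1, h2, Matrix.diagonal_transpose]
  ext i
  · simp only [cx_mk, Matrix.mulVec_diagonal, SLMin.hd]
    rcases eq_or_ne i a with rfl | hia
    · simp [hab, hab.symm]
    · rcases eq_or_ne i b with rfl | hib
      · simp [hab, hab.symm]
      · simp [hia, hib]
  · simp only [cy_mk, Matrix.mulVec_diagonal, SLMin.hd]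
    rcases eq_or_ne i a with rfl | hia
    · simp [hab, hab.symm]
    · rcases eq_or_ne i b with rfl | hib
      · simp [hab, hab.symm]
      · simp [hia, hib]
  · rfl

theorem eq_of_char_sums (hψ : ψ.IsPrimitive) (T : F → Module.End ℂ V) (hT0 : T 0 = 1) {v : V}
    (h : ∀ l : F, l ≠ 0 → ∑ a, ψ (-(l * a)) • T a v = 0) (b : F) : T b v = v := by
  classical
  set S : F → V := fun l => ∑ a, ψ (-(l * a)) • T a v
  have key : ∀ b : F, ∑ l, ψ (l * b) • S l = (Fintype.card F : ℂ) • T b v := fun b => by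
    simp only [S, Finset.smul_sum, smul_smul, ← AddChar.map_add_eq_mul]
    rw [Finset.sum_comm]
    simp only [← Finset.sum_smul, ← mul_neg, ← mul_add, AddChar.sum_mulShift _ hψ]
    rw [Finset.sum_eq_single b]
    · simp
    · intro a _ hab
      rw [if_neg (fun e => hab (by linear_combination -e)), Nat.cast_zero, zero_smul]
    · simp
  have hS : ∀ b : F, ∑ l, ψ (l * b) • S l = S 0 := fun b => by
    rw [Finset.sum_eq_single 0 (fun l _ hl => by rw [show S l = 0 from h l hl, smul_zero]) (by simp)]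
    simp
  have e := (key b).symm.trans ((hS b).trans ((hS 0).symm.trans (key 0)))
  rw [hT0] at e
  exact smul_right_injective _ (Nat.cast_ne_zero.2 Fintype.card_ne_zero) e

end General

section Sq

variable {R : Om (QuadraticMap.sq : QuadraticForm F F) n →* Module.End ℂ V}
  (hn : 3 ≤ n) (h2 : (2 : F) ≠ 0) (hq : 4 ≤ Fintype.card F)

local notation "Q₁" => (QuadraticMap.sq : QuadraticForm F F)

variable {B : Matrix (Fin n) (Fin n) F} {p s : Fin n} {e : V}
include hn h2 hq

/-- a vector of the weight space fixed by the transvections into the second index lies on the line -/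
theorem eq_smul_of_fixed (hψ : ψ.IsPrimitive) (hb : Blk B p s) (he : IsLine R ψ B p e)
    (hdim : finrank ℂ (ws R ψ B) = Nat.card F) {u : V} (hu : u ∈ ws R ψ B)
    (hfix : ∀ a, R (xE Q₁ (show 2 ≤ n by omega) hb.1 a) u = u) : ∃ c : ℂ, u = c • e := by
  classical
  have hB := (goodCore_sq h2).nondeg
  obtain ⟨b, hb'⟩ := he.exists_basis R hB hψ hb hdim
  have hx : ∀ a d : F, R (xE Q₁ (show 2 ≤ n by omega) hb.1 a) (b d).1 =
      ψ (B s p * (a * (d * d))) • (b d).1 := fun a d => by
    rw [hb', ← apply_mul, xE_mul_shE]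
    simp only [apply_mul, he.x_ps_fix R hn hB hq hb, he.2.2.1]
    rw [zE_single_apply R (shE_mem_ws R s d he.1), QuadraticMap.sq_apply]
  set c : F →₀ ℂ := b.repr ⟨u, hu⟩
  have hcu : ∑ d, c d • (b d).1 = u := by
    have := congrArg Subtype.val (b.sum_repr ⟨u, hu⟩)
    rw [Submodule.coe_sum] at this
    simpa only [Submodule.coe_smul, c] using this
  refine ⟨c 0, ?_⟩
  rw [← hcu, Finset.sum_eq_single 0]
  · rw [hb', shE_zero, map_one]; rfl
  · intro d _ hd
    obtain ⟨a, ha⟩ : ∃ a, ψ (B s p * (a * (d * d))) ≠ 1 := by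
      by_contra! hall
      refine hψ (mul_ne_zero hb.sp_ne (mul_ne_zero hd hd)) (DFunLike.ext _ _ fun x => ?_)
      rw [AddChar.mulShift_apply, AddChar.one_apply, ← hall x]
      congr 1; ring
    have h1 : ∑ d, (c d * (ψ (B s p * (a * (d * d))) - 1)) • b d = 0 := by
      apply Subtype.ext
      have h := hfix a
      rw [← hcu] at h
      simp only [map_sum, map_smul, hx, smul_smul] at h
      simp only [mul_sub, mul_one, sub_smul, Finset.sum_sub_distrib, Submodule.coe_sub,
        Submodule.coe_sum, Submodule.coe_smul, h, sub_self, Submodule.coe_zero]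
    have h3 := Fintype.linearIndependent_iff.1 b.linearIndependent _ h1 d
    rw [(mul_eq_zero.1 h3).resolve_right (sub_ne_zero.2 ha), zero_smul]
  · simp

omit hn h2 hq in
theorem sign_mulLeft₀ [DecidableEq F] {γ : Fˣ} (hγ : ∀ x, x ∈ Subgroup.zpowers γ) (hγ1 : γ ≠ 1)
    (hodd : Odd (Fintype.card F)) :
    Equiv.Perm.sign (Equiv.mulLeft₀ (γ : F) γ.ne_zero) = -1 := by
  set σ := Equiv.mulLeft₀ (γ : F) γ.ne_zero
  have hσ1 : (γ : F) ≠ 1 := fun h => hγ1 (Units.ext h)
  have hpow : ∀ i : ℕ, (σ ^ i) 1 = (γ : F) ^ i := fun i => by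
    induction i with
    | zero => simp
    | succ i ih => rw [pow_succ', Equiv.Perm.mul_apply, ih, pow_succ']; rfl
  have hmov : ∀ y : F, σ y ≠ y ↔ y ≠ 0 := fun y => by
    change (γ : F) * y ≠ y ↔ y ≠ 0
    rw [ne_eq, mul_left_eq_self₀, not_or]
    exact ⟨fun h => h.2, fun h => ⟨hσ1, h⟩⟩
  have hcyc : σ.IsCycle := by
    refine ⟨1, (hmov 1).2 one_ne_zero, fun y hy => ?_⟩
    have hy0 := (hmov y).1 hy
    obtain ⟨i, hi⟩ := mem_powers_iff_mem_zpowers.2 (hγ (Units.mk0 y hy0))
    refine ⟨i, ?_⟩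
    rw [zpow_natCast, hpow, ← Units.val_pow_eq_pow_val]
    exact congrArg Units.val hi
  rw [hcyc.sign, show σ.support = Finset.univ.erase 0 by ext y; simp [Equiv.Perm.mem_support, hmov],
    Finset.card_erase_of_mem (Finset.mem_univ _), Finset.card_univ, Even.neg_one_pow
      (Nat.Odd.sub_odd hodd odd_one)]

omit h2 in
/-- the torus element of a generator acts on the line by `-1` -/
theorem hE_line_eq_neg (h2 : (2 : F) ≠ 0) (hψ : ψ.IsPrimitive) {γ : Fˣ}
    (hγ : ∀ x, x ∈ Subgroup.zpowers γ) (hb : Blk B p s) (he : IsLine R ψ B p e)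
    (hdim : finrank ℂ (ws R ψ B) = Nat.card F) (hodd : Odd (Fintype.card F)) :
    R (slE Q₁ (show 2 ≤ n by omega) (SLMin.hE p s ((γ⁻¹ : Fˣ) : F))) e = -e := by
  classical
  have hB := (goodCore_sq h2).nondeg
  set g : F := ((γ⁻¹ : Fˣ) : F)
  have hg : g ≠ 0 := Units.ne_zero _
  have hgγ : g⁻¹ = (γ : F) := by simp [g]
  obtain ⟨ω, -, hω⟩ := he.hE_scal R hn hB hb hg
  obtain ⟨b, hb'⟩ := he.exists_basis R hB hψ hb hdim
  set h := SLMin.hE p s g
  set f : ws R ψ B →ₗ[ℂ] ws R ψ B := (R (slE Q₁ (show 2 ≤ n by omega) h)).restrict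
    fun _ hv => slE_mem_ws R hn hB (hE_stab hb hg) hv
  set σ := Equiv.mulLeft₀ (γ : F) γ.ne_zero
  have hfb : ∀ d, f (b d) = ω • b (σ d) := fun d => Subtype.ext (by
    rw [Submodule.coe_smul, LinearMap.restrict_coe_apply, hb', hb', ← apply_mul,
      slE_mul_shE (show 2 ≤ n by omega) h (c := g⁻¹) (by
        rw [diag_mulVec_ev (SLMin.isDiag_hE hb.1 hg)]; simp [SLMin.hd, hb.1.symm]) d,
      apply_mul, hω, map_smul, hgγ]
    rfl)
  have hdet : LinearMap.det f = 1 := det_hE R hn hB hq hb hg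
  have hM : LinearMap.toMatrix b b f = ω • (σ⁻¹).permMatrix ℂ := by
    ext i j
    rw [LinearMap.toMatrix_apply, hfb, map_smul, Basis.repr_self, Finsupp.smul_apply,
      Matrix.smul_apply, Finsupp.single_apply]
    congr 1
    simp [Equiv.Perm.permMatrix, PEquiv.toMatrix_apply, Equiv.toPEquiv_apply, Equiv.eq_symm_apply,
      eq_comm]
  rw [← LinearMap.det_toMatrix b, hM, Matrix.det_smul, Matrix.det_permutation, map_inv] at hdet
  have hγ1 : γ ≠ 1 := fun h1 => by
    subst h1
    have : ∀ x : Fˣ, x = 1 := fun x => by simpa [Subgroup.zpowers_one_eq_bot] using hγ x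
    have h3 : Fintype.card Fˣ ≤ 1 := Fintype.card_le_one_iff.2 fun a b => by rw [this a, this b]
    rw [Fintype.card_units] at h3
    omega
  rw [sign_mulLeft₀ hγ hγ1 hodd] at hdet
  have hpow : ∀ k : ℕ, R (slE Q₁ (show 2 ≤ n by omega) (SLMin.hE p s (g ^ k))) e = ω ^ k • e := by
    intro k
    induction k with
    | zero => rw [pow_zero, pow_zero, one_smul, SLMin.hE_one hb.1, map_one, map_one]; rfl
    | succ k ih =>
      rw [pow_succ' g, ← SLMin.hE_mul hb.1 hg (pow_ne_zero k hg), map_mul, apply_mul, ih, map_smul,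
        hω, smul_smul, ← pow_succ]
  have h1 := hpow (Fintype.card F - 1)
  rw [FiniteField.pow_card_sub_one_eq_one g hg, SLMin.hE_one hb.1, map_one, map_one,
    Module.End.one_apply] at h1
  have h1' : ω ^ (Fintype.card F - 1) = 1 :=
    smul_left_injective ℂ he.2.1 ((h1.symm.trans (one_smul ℂ e).symm))
  have hω1 : ω = -1 := by
    have e1 : ω ^ Fintype.card F = ω := by
      conv_lhs => rw [show Fintype.card F = Fintype.card F - 1 + 1 by omega]
      rw [pow_succ, h1', one_mul]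
    simp only [e1, Units.val_neg, Units.val_one, inv_neg, inv_one, Int.cast_neg, Int.cast_one,
      mul_neg, mul_one] at hdet
    linear_combination -hdet
  rw [hω, hω1, neg_one_smul]

end Sq

omit [Fintype F] in
/-- a diagonal element of two indices past the centre -/
theorem zE_mul_hE {W : Type w} [AddCommGroup W] [Module F W] (Q₀ : QuadraticForm F W) {n : ℕ}
    (hn : 2 ≤ n) {a b : Fin n} (hab : a ≠ b) {g : F} (hg : g ≠ 0) (M : Matrix (Fin n) (Fin n) F) :
    ∃ M' : Matrix (Fin n) (Fin n) F, M' a b - M' b a = M a b - M b a ∧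
      zE Q₀ M * slE Q₀ hn (SLMin.hE a b g) = slE Q₀ hn (SLMin.hE a b g) * zE Q₀ M' := by
  set h := SLMin.hE a b g
  refine ⟨(h⁻¹).1 * M * ((h⁻¹).1)ᵀ, ?_, Subtype.ext ?_⟩
  · rw [SLMin.hE_inv hab hg, SLMin.isDiag_hE hab (inv_ne_zero hg), Matrix.diagonal_transpose]
    simp only [Matrix.mul_diagonal, Matrix.diagonal_mul, SLMin.hd, if_pos, if_neg hab.symm]
    field_simp
  · have e := levHom_mul_zS' Q₀ (SpecialLinearGroup.toGL h) M
    rwa [← map_inv] at e

omit [Fintype F] in
/-- a diagonal element of two indices commutes with the centre at these indices -/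
theorem hE_mul_zE_single {W : Type w} [AddCommGroup W] [Module F W] (Q₀ : QuadraticForm F W) {n : ℕ}
    (hn : 2 ≤ n) {a b : Fin n} (hab : a ≠ b) {g : F} (hg : g ≠ 0) (x : F) :
    slE Q₀ hn (SLMin.hE a b g) * zE Q₀ (Matrix.single a b x) =
      zE Q₀ (Matrix.single a b x) * slE Q₀ hn (SLMin.hE a b g) := by
  have e : (SLMin.hE a b g).1 * Matrix.single a b x * ((SLMin.hE a b g).1)ᵀ = Matrix.single a b x := by
    rw [SLMin.isDiag_hE hab hg, Matrix.diagonal_transpose]
    ext i j
    rw [Matrix.mul_diagonal, Matrix.diagonal_mul, Matrix.single_apply]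
    split_ifs with hij
    · obtain ⟨rfl, rfl⟩ := hij
      simp only [SLMin.hd, if_pos, if_neg hab.symm]
      field_simp
    · simp
  apply Subtype.ext
  change slHom Q₀ _ * zS Q₀ _ = zS Q₀ _ * slHom Q₀ _
  rw [slHom_mul_zS, e]

section Sq2

variable {m : ℕ} (R : Om (QuadraticMap.sq : QuadraticForm F F) (m + 3) →* Module.End ℂ V)

local notation "Q₁" => (QuadraticMap.sq : QuadraticForm F F)

set_option maxHeartbeats 1000000 in
/-- the centre after exchanging two pairs acts on a vector fixed by the upper transvections through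
one entry -/
theorem zE_two_sw (hn2 : 2 ≤ m + 3) {v : V} (hv : v ∈ fixZ R)
    (hup : ∀ {i j : Fin (m + 3)} (hij : i ≠ j), j < i → ∀ a, R (xE Q₁ hn2 hij a) v = v)
    (M : Matrix (Fin (m + 3)) (Fin (m + 3)) F) :
    conjRep R (sw Q₁ {0} * sw Q₁ {1}) (zE Q₁ M) v =
      conjRep R (sw Q₁ {0} * sw Q₁ {1}) (zE Q₁ (Matrix.single 0 1 (M 0 1 - M 1 0))) v := by
  have n01 : (0 : Fin (m + 3)) ≠ 1 := (SLMin.fin3_ne m).1
  set R'' := conjRep R (sw Q₁ {0} * sw Q₁ {1})
  have hR1 : ∀ x, R'' x = R (conjE Q₁ (sw Q₁ {0}) (conjE Q₁ (sw Q₁ {1}) x)) := fun x => by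
    change R (conjE Q₁ (sw Q₁ {0} * sw Q₁ {1}) x) = _
    rw [conjE_mul]
  have hR2 : ∀ x, R'' x = R (conjE Q₁ (sw Q₁ {1}) (conjE Q₁ (sw Q₁ {0}) x)) := fun x => by
    change R (conjE Q₁ (sw Q₁ {0} * sw Q₁ {1}) x) = _
    rw [sw_comm, conjE_mul]
  set T : F → Module.End ℂ V := fun x => R'' (zE Q₁ (Matrix.single 0 1 x)) with hT
  have hTadd : ∀ x y, T (x + y) = T x * T y := fun x y => by
    simp only [T, Matrix.single_add, zE_add, map_mul]
  have hT0 : T 0 = 1 := by simp only [T, Matrix.single_zero, zE_zero, map_one]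
  change R'' (zE Q₁ M) v = T (M 0 1 - M 1 0) v
  induction M using Matrix.induction_on' with
  | h_zero => simp [zE_zero, hT0]
  | h_add A B hA hB' =>
    rw [zE_add, apply_mul, hB']
    have hcomm : R'' (zE Q₁ A) (T (B 0 1 - B 1 0) v) =
        T (B 0 1 - B 1 0) (R'' (zE Q₁ A) v) := by
      simp only [T, ← apply_mul, zE_comm]
    rw [hcomm, hA, ← Module.End.mul_apply, ← hTadd]
    simp only [Matrix.add_apply]
    ring_nf
  | h_std_basis i j c =>
    have hne1 : ∀ {l : Fin (m + 3)}, l ≠ 0 → l ≠ 1 → (1 : Fin (m + 3)) < l := fun {l} a b => by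
      rw [Fin.lt_def, Fin.val_one]
      have h1 := Fin.val_ne_iff.2 a
      have h2 := Fin.val_ne_iff.2 b
      rw [Fin.val_zero] at h1
      rw [Fin.val_one] at h2
      omega
    have hoff : ∀ (l : Fin (m + 3)) (j : Fin (m + 3)), l ≠ 0 → l ≠ 1 → (j = 0 ∨ j = 1) →
        ∀ c, R'' (zE Q₁ (Matrix.single l j c)) v = v := by
      rintro l j hl0 hl1 (rfl | rfl) c
      · rw [hR2, conjE_sw_zE Q₁ hn2 hl0]
        change R (conjE Q₁ _ (xE Q₁ hn2 hl0 c)) v = _
        rw [conjE_sw_xE_off Q₁ hn2 hl0 hl1 n01]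
        exact hup hl0 (lt_trans (by rw [Fin.lt_def]; simp) (hne1 hl0 hl1)) c
      · rw [hR1, conjE_sw_zE Q₁ hn2 hl1]
        change R (conjE Q₁ _ (xE Q₁ hn2 hl1 c)) v = _
        rw [conjE_sw_xE_off Q₁ hn2 hl1 hl0 n01.symm]
        exact hup hl1 (hne1 hl0 hl1) c
    have htr : ∀ a b : Fin (m + 3), zE Q₁ (Matrix.single a b c) = zE Q₁ (Matrix.single b a (-c)) :=
      fun a b => zE_congr Q₁ (by rw [Matrix.transpose_single, Matrix.transpose_single,
        ← Matrix.single_neg, ← Matrix.single_neg]; abel)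
    by_cases hi : i = 0 ∨ i = 1
    · by_cases hj : j = 0 ∨ j = 1
      · rcases hi with rfl | rfl <;> rcases hj with rfl | rfl
        · rw [zE_congr_symm Q₁ (Matrix.transpose_single _ _ _), map_one]
          simp [n01, n01.symm, hT0]
        · simp [T, n01, n01.symm]
        · rw [htr]; simp [T, n01, n01.symm]
        · rw [zE_congr_symm Q₁ (Matrix.transpose_single _ _ _), map_one]
          simp [n01, n01.symm, hT0]
      · rw [not_or] at hj
        rw [htr, hoff j i hj.1 hj.2 hi, Matrix.single_apply_of_col_ne _ _ hj.2,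
          Matrix.single_apply_of_col_ne _ _ hj.1, sub_zero, hT0]
        rfl
    · rw [not_or] at hi
      rw [Matrix.single_apply_of_row_ne hi.1, Matrix.single_apply_of_row_ne hi.2, sub_zero, hT0,
        Module.End.one_apply]
      by_cases hj : j = 0 ∨ j = 1
      · exact hoff i j hi.1 hi.2 hj c
      · rw [not_or] at hj
        rw [hR1, conjE_sw_zE_off Q₁ hi.2 hj.2, conjE_sw_zE_off Q₁ hi.1 hj.1]
        exact (mem_fixZ R).1 hv _

set_option maxHeartbeats 2000000 in
/-- the property of the torus element of a generator -/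
theorem torus_property (h2 : (2 : F) ≠ 0) (hq : 4 ≤ Fintype.card F) (hodd : Odd (Fintype.card F))
    (hn2 : 2 ≤ m + 3) (hψ : ψ.IsPrimitive) (hQ : QTriv R)
    (hQc : ∀ t, QTriv (conjRep R t))
    (hdimc : ∀ t (B : Matrix (Fin (m + 3)) (Fin (m + 3)) F) (p s : Fin (m + 3)), Blk B p s →
      finrank ℂ (ws (conjRep R t) ψ B) = Nat.card F)
    (hline : ∀ t (B : Matrix (Fin (m + 3)) (Fin (m + 3)) F) (p s : Fin (m + 3)), Blk B p s →
      ∃ e, IsLine (conjRep R t) ψ B p e)
    {γ : Fˣ} (hγ : ∀ x, x ∈ Subgroup.zpowers γ) {g : F} (hg' : g = ((γ⁻¹ : Fˣ) : F))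
    {v : V} (hv : v ∈ fixZ R)
    (hup : ∀ {i j : Fin (m + 3)} (hij : i ≠ j), j < i → ∀ a, R (xE Q₁ hn2 hij a) v = v)
    (hwm : R (slE Q₁ hn2 (SLMin.hE 0 1 g⁻¹)) v + v ∈ fixZ R) (a : F) :
    R (xE Q₁ hn2 (SLMin.fin3_ne m).1 a) (R (slE Q₁ hn2 (SLMin.hE 0 1 g⁻¹)) v + v) =
      R (slE Q₁ hn2 (SLMin.hE 0 1 g⁻¹)) v + v := by
  have hn : 3 ≤ m + 3 := by omega
  have hg : g ≠ 0 := hg' ▸ Units.ne_zero _
  have n01 : (0 : Fin (m + 3)) ≠ 1 := (SLMin.fin3_ne m).1
  set R'' := conjRep R (sw Q₁ {0} * sw Q₁ {1}) with hR''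
  set τ := sw Q₁ {(0 : Fin (m + 3))} * sw Q₁ {(1 : Fin (m + 3))}
  have hR1 : ∀ x, R'' x = R (conjE Q₁ (sw Q₁ {0}) (conjE Q₁ (sw Q₁ {1}) x)) := fun x => by
    change R (conjE Q₁ τ x) = _
    rw [conjE_mul]
  have hR2 : ∀ x, R'' x = R (conjE Q₁ (sw Q₁ {1}) (conjE Q₁ (sw Q₁ {0}) x)) := fun x => by
    change R (conjE Q₁ τ x) = _
    rw [show τ = sw Q₁ {1} * sw Q₁ {0} from sw_comm _ _, conjE_mul]
  set T : F → Module.End ℂ V := fun x => R'' (zE Q₁ (Matrix.single 0 1 x)) with hT
  have hTadd : ∀ x y, T (x + y) = T x * T y := fun x y => by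
    simp only [T, Matrix.single_add, zE_add, map_mul]
  have hT0 : T 0 = 1 := by simp only [T, Matrix.single_zero, zE_zero, map_one]
  have hzv : ∀ M, R'' (zE Q₁ M) v = T (M 0 1 - M 1 0) v := zE_two_sw R hn2 hv hup
  set hh := slE Q₁ hn2 (SLMin.hE (0 : Fin (m + 3)) 1 g)
  have hhR : R'' hh = R (slE Q₁ hn2 (SLMin.hE (0 : Fin (m + 3)) 1 g⁻¹)) := by
    change R (conjE Q₁ τ hh) = _
    rw [conjE_sw_sw_hE hn2 n01 hg]
  rw [← hhR] at hwm ⊢
  have hcomm : ∀ x, hh * zE Q₁ (Matrix.single 0 1 x) = zE Q₁ (Matrix.single 0 1 x) * hh :=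
    hE_mul_zE_single Q₁ hn2 n01 hg
  have hx01 : ∀ x, R'' (xE Q₁ hn2 n01 x) v = v := fun x => by
    rw [hR1, xE, ← conjE_sw_zE Q₁ hn2 n01, conjE_sw_sw,
      zE_congr Q₁ (N := Matrix.single 1 0 (-x)) (by
        rw [Matrix.transpose_single, Matrix.transpose_single, ← Matrix.single_neg,
          ← Matrix.single_neg]; abel), conjE_sw_zE Q₁ hn2 n01.symm]
    exact hup n01.symm (by rw [Fin.lt_def]; simp) _
  have hxT : ∀ x y, R'' (xE Q₁ hn2 n01 x) (T y v) = T y v := fun x y => by
    simp only [T]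
    rw [← apply_mul, show xE Q₁ hn2 n01 x * zE Q₁ (Matrix.single 0 1 y) =
      zE Q₁ (Matrix.single 0 1 y) * xE Q₁ hn2 n01 x from Subtype.ext (by
        change slHom Q₁ _ * zS Q₁ _ = zS Q₁ _ * slHom Q₁ _
        rw [slHom_mul_zS]
        congr 1
        apply zS_congr
        simp only [SpecialLinearGroup.transvection_coe, Matrix.transpose_add, Matrix.transpose_one,
          Matrix.transpose_single, add_mul, mul_add, one_mul, mul_one,
          Matrix.single_mul_single_same, Matrix.single_mul_single_of_ne _ _ _ _ n01,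
          Matrix.single_mul_single_of_ne _ _ _ _ n01.symm, Matrix.transpose_zero, zero_mul,
          add_zero]
        abel), apply_mul, hx01]
  have hneg' : ∀ l : F, l ≠ 0 → ∑ x, ψ (-(l * x)) • T x (R'' hh v + v) = 0 := by
    intro l hl
    have hbl : Blk (l • std (0 : Fin (m + 3)) 1 : Matrix (Fin (m + 3)) (Fin (m + 3)) F) 0 1 :=
      ⟨n01, l, hl, rfl⟩
    set u := ∑ x, ψ (-(l * x)) • T x v with hu
    have hum : u ∈ ws R'' ψ (l • std (0 : Fin (m + 3)) 1) := by
      rw [mem_ws]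
      intro M
      have hchi : chiM ψ (l • std (0 : Fin (m + 3)) 1) M = ψ (l * (M 0 1 - M 1 0)) := by
        rw [chiM_apply]
        congr 1
        simp [std, Pi.single_apply, mul_sub, sub_mul, Finset.sum_sub_distrib, ite_and]
      rw [hchi, hu, map_sum, Finset.smul_sum]
      refine Fintype.sum_equiv (Equiv.addLeft (M 0 1 - M 1 0)) _ _ fun x => ?_
      rw [map_smul, show R'' (zE Q₁ M) (T x v) = T x (R'' (zE Q₁ M) v) by
        simp only [T, ← apply_mul, zE_comm], hzv, ← Module.End.mul_apply, ← hTadd, smul_smul,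
        ← AddChar.map_add_eq_mul, Equiv.coe_addLeft, add_comm x]
      congr 2
      ring
    obtain ⟨el, hel⟩ := hline τ _ 0 1 hbl
    obtain ⟨c, hc⟩ := eq_smul_of_fixed hn h2 hq hψ hbl hel (hdimc τ _ 0 1 hbl) hum fun x => by
      rw [hu, map_sum]
      exact Finset.sum_congr rfl fun y _ => by rw [map_smul]; exact congrArg _ (hxT x y)
    have hneg1 := hE_line_eq_neg (R := R'') hn hq h2 hψ hγ hbl hel (hdimc τ _ 0 1 hbl) hodd
    rw [← hg'] at hneg1
    have h1 : R'' hh u = -u := by rw [hc, map_smul, hneg1, smul_neg]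
    have h2' : ∑ x, ψ (-(l * x)) • T x (R'' hh v) = R'' hh u := by
      rw [hu, map_sum]
      refine Finset.sum_congr rfl fun x _ => ?_
      rw [map_smul]
      simp only [T, ← apply_mul, hcomm]
    simp only [map_add, smul_add, Finset.sum_add_distrib, h2', h1, ← hu, neg_add_cancel]
  set w := R'' hh v + v with hw
  have hw2 : w ∈ fixZ R'' := by
    rw [mem_fixZ]
    intro M
    set x := M 0 1 - M 1 0
    have e1 : R'' (zE Q₁ M) (R'' hh v) = R'' hh (T x v) := by
      obtain ⟨M', hM', e⟩ := zE_mul_hE Q₁ hn2 n01 hg M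
      rw [← apply_mul, e, apply_mul, hzv, hM']
    have e2 : R'' hh (T x v) = T x (R'' hh v) := by
      simp only [T]
      rw [← apply_mul, hcomm, apply_mul]
    rw [hw, map_add, e1, e2, hzv M, ← map_add]
    exact eq_of_char_sums hψ T hT0 hneg' x

  have hS : ∀ y, R'' (shE Q₁ 1 y) w = w := fun y => hQc τ w hw2 1 y
  have hS0 : ∀ y, R (shE Q₁ 0 y) w = w := fun y => hQ w (hwm) 0 y
  have key : ∀ k l : F, R (xE Q₁ hn2 n01 (-(2 * (k * l)))) w = w := fun k l => by
    have h := congrArg (fun x => R (conjE Q₁ (sw Q₁ {1}) x) w) (shE_mul_shE Q₁ n01 k l)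
    simp only [map_mul, Module.End.mul_apply, conjE_sw_shE_off Q₁ n01] at h
    have hl : R (conjE Q₁ (sw Q₁ {1}) (shE Q₁ 1 l)) w = w := by
      have h' := hS l
      rwa [hR2, conjE_sw_shE_off Q₁ n01.symm] at h'
    rw [hl, hS0, hl] at h
    rw [zE_congr Q₁ (N := Matrix.single 0 1 (-(polar Q₁ k l))) (by
        rw [Matrix.transpose_single, Matrix.transpose_single, ← Matrix.single_neg,
          ← Matrix.single_neg]; abel), conjE_sw_zE Q₁ hn2 n01] at h
    rw [show -(2 * (k * l)) = -(polar Q₁ k l) by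
      simp only [polar, QuadraticMap.sq_apply]; ring]
    exact h.symm
  have := key (-a / 2) 1
  rwa [mul_one, mul_div_cancel₀ _ h2, neg_neg] at this

end Sq2

section Main

local notation "Q₁" => (QuadraticMap.sq : QuadraticForm F F)

set_option maxHeartbeats 2000000 in
/-- the case of equality does not occur in odd dimension -/
theorem odd_not_tight {m : ℕ} (h2 : (2 : F) ≠ 0) (hq : 4 ≤ Fintype.card F)
    (hodd : Odd (Fintype.card F))
    (R : Om (QuadraticMap.sq : QuadraticForm F F) (m + 3) →* Module.End ℂ V)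
    (hnt : ∃ g, R g ≠ 1)
    (heq : finrank ℂ V + 1 =
      Nat.card F * (wedges F (m + 3)).card + geo (Fintype.card F) (m + 3)) : False := by
  classical
  have hn : 3 ≤ m + 3 := by omega
  have hn2 : 2 ≤ m + 3 := by omega
  have hB : BNondeg Q₁ := (goodCore_sq h2).nondeg
  have hex : (m + 3, Fintype.card F) ≠ (3, 4) := fun h => by
    simp only [Prod.mk.injEq] at h
    rw [h.2] at hodd
    exact absurd hodd (by decide)
  obtain ⟨ψ, hψ⟩ := SLMin.exists_primitive F
  have hntc : ∀ t, ∃ g, conjRep R t g ≠ 1 := fun t => by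
    obtain ⟨g, hg⟩ := hnt
    exact ⟨(conjE Q₁ t).symm g, fun h => hg (by simpa [conjRep] using h)⟩
  have htight := fun t => tight (conjRep R t) hn hB hq hex (hntc t) hψ heq
  have hQc : ∀ t, QTriv (conjRep R t) := fun t => by
    by_contra hQ
    have := pow_card_le_fixZ (conjRep R t) hn2 hQ
    rw [(htight t).2.1] at this
    exact absurd this (not_le.2 (geo_lt_pow _ (by omega) (by omega)))
  obtain ⟨hs, hfz, hdim, -⟩ := tight R hn hB hq hex hnt hψ heq
  have hQ : QTriv R := by
    by_contra hQ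
    have := pow_card_le_fixZ R hn2 hQ
    rw [hfz] at this
    exact absurd this (not_le.2 (geo_lt_pow _ (by omega) (by omega)))
  have hdimc : ∀ t (B : Matrix (Fin (m + 3)) (Fin (m + 3)) F) (p s : Fin (m + 3)), Blk B p s →
      finrank ℂ (ws (conjRep R t) ψ B) = Nat.card F := fun t B p s hb => by
    obtain ⟨a, b, hab, rfl⟩ := hb.wedge_eq
    exact (htight t).2.2.1 _ (mem_wedges.2 ⟨a, b, hab, rfl⟩)
  have hline : ∀ t (B : Matrix (Fin (m + 3)) (Fin (m + 3)) F) (p s : Fin (m + 3)), Blk B p s →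
      ∃ e, IsLine (conjRep R t) ψ B p e := fun t B p s hb => by
    refine hb.exists_line (conjRep R t) hB hψ ?_ fun h0 => ?_
    · rw [hdimc t B p s hb]
      have : 0 < Nat.card F := Nat.card_pos
      omega
    · have := hdimc t B p s hb
      rw [h0, finrank_bot] at this
      exact Nat.card_pos.ne this
  -- the line
  set s : Fin (m + 3) := 0 with hs0
  set p : Fin (m + 3) := Fin.succ (0 : Fin (m + 2)) with hp0
  have hp1 : p = 1 := Fin.succ_zero_eq_one
  have hps : p ≠ s := Fin.succ_ne_zero _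
  set R' := conjRep R (sw Q₁ {s}) with hR'
  have hback : ∀ g, R g = R' (conjE Q₁ (sw Q₁ {s}) g) := fun g => by
    simp [hR', conjRep, conjE_sw_sw]
  have hb : Blk (std p s : Matrix (Fin (m + 3)) (Fin (m + 3)) F) p s := std_blk hps
  obtain ⟨e, he⟩ := hline (sw Q₁ {s}) _ p s hb
  obtain ⟨e₂, he₂⟩ := hline (sw Q₁ {s}) _ s p hb.symm
  have hd : ∀ (i : Fin (m + 3)) (hi : i ≠ s) (a : F), R' (xE Q₁ hn2 hi a) e = e :=
    fun i hi a => line_fixed R' hn hB hps hq he.1 he.2.1 he.2.2.1 he.2.2.2 hi a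
  have hfixed : e ∈ fixZ R := by
    rw [mem_fixZ]
    intro M
    induction M using Matrix.induction_on' with
    | h_zero => rw [zE_zero, map_one]; rfl
    | h_add A B hA hB' => rw [zE_add, apply_mul, hB', hA]
    | h_std_basis i j a =>
      rw [hback]
      rcases eq_or_ne j s with hj | hj
      · rw [hj]
        rcases eq_or_ne i s with hi | hi
        · rw [hi, zE_congr_symm Q₁ (Matrix.transpose_single _ _ _), map_one, map_one]; rfl
        · rw [conjE_sw_zE Q₁ hn2 hi]; exact hd i hi a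
      · rcases eq_or_ne i s with hi | hi
        · rw [hi, zE_congr Q₁ (N := Matrix.single j s (-a))
            (by rw [Matrix.transpose_single, Matrix.transpose_single, ← Matrix.single_neg,
              ← Matrix.single_neg]; abel),
            conjE_sw_zE Q₁ hn2 hj]
          exact hd j hj _
        · rw [conjE_sw_zE_off Q₁ hi hj, (mem_ws R').1 he.1, chiM_single]
          simp [std, hi, hj]
  set σ : SpecialLinearGroup (Fin (m + 3)) F →* Module.End ℂ (fixZ R) :=
    (fixRep R hn hB).comp (tinv F (m + 3)) with hσ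
  have hσroot : ∀ (x : fixZ R) {i j : Fin (m + 3)} (hij : i ≠ j) (c : F),
      (σ (SLMin.root i j c) x).1 = R (xE Q₁ hn2 hij.symm (-c)) x.1 := fun x {i j} hij c => by
    change R (slE Q₁ _ ((SLMin.root i j c).transpose)⁻¹) x.1 = _
    rw [transpose_inv_root hij]; rfl
  have hneg : (AddChar.mulShift ψ (-1)).IsPrimitive := fun b hb' h => hψ (neg_ne_zero.2 hb')
    (DFunLike.ext _ _ fun x => by
      have := DFunLike.congr_fun h x
      simp only [AddChar.mulShift_apply] at this ⊢
      rwa [neg_one_mul, ← neg_mul] at this)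
  have hroot : ∀ (j : Fin (m + 2)) (c : F), σ (SLMin.root 0 j.succ c) ⟨e, hfixed⟩ =
      AddChar.mulShift ψ (-1) (if j = 0 then c else 0) • (⟨e, hfixed⟩ : fixZ R) := fun j c => by
    apply Subtype.ext
    rw [hσroot _ (Fin.succ_ne_zero j).symm, Submodule.coe_smul]
    rw [xE, ← conjE_sw_zE Q₁ hn2 (Fin.succ_ne_zero j), hback, conjE_sw_sw, (mem_ws R').1 he.1,
      chiM_single]
    congr 1
    rcases eq_or_ne j 0 with rfl | hj
    · rw [if_pos rfl, (std_apply hps).1, AddChar.mulShift_apply]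
      ring_nf
    · have : j.succ ≠ p := fun h => hj (Fin.succ_injective _ h)
      rw [(hb.off this (Fin.succ_ne_zero j) _).1, zero_mul, if_neg hj, AddChar.map_zero_eq_one,
        AddChar.map_zero_eq_one]
  -- a generator
  obtain ⟨γ, hγ⟩ := IsCyclic.exists_generator (α := Fˣ)
  set g : F := ((γ⁻¹ : Fˣ) : F) with hg'
  have hg : g ≠ 0 := Units.ne_zero _
  have hgeo : geo (Fintype.card F) (m + 3) ≤ finrank ℂ (fixZ R) := by
    refine SLMin.geo_le_finrank σ (by omega) hneg (e := ⟨e, hfixed⟩)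
      (fun h => he.2.1 (congrArg Subtype.val h)) (fun r => ?_) (fun i j hij hj a => ?_) hg ?_
    · have key : ∀ t : Finset (Fin (m + 2)),
          σ (SLMin.qEl (∑ l ∈ t, Pi.single l (r l))) ⟨e, hfixed⟩ =
            AddChar.mulShift ψ (-1) (∑ l ∈ t, if l = 0 then r l else 0) • (⟨e, hfixed⟩ : fixZ R) := by
        intro t
        induction t using Finset.induction with
        | empty => simp [SLMin.qEl_zero]
        | insert l t hl ih =>
          rw [Finset.sum_insert hl, Finset.sum_insert hl, SLMin.qEl_add, map_mul,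
            Module.End.mul_apply, ih, map_smul, SLMin.qEl, SLMin.cons_single]
          change _ • σ (SLMin.root 0 l.succ (r l)) _ = _
          rw [hroot, smul_smul, AddChar.map_add_eq_mul, mul_comm]
      have := key Finset.univ
      rwa [Finset.univ_sum_single, Finset.sum_ite_eq', if_pos (Finset.mem_univ _)] at this
    · apply Subtype.ext
      rw [hσroot _ (fun h => hij (Fin.succ_injective _ h))]
      have hls : j.succ ≠ s := Fin.succ_ne_zero j
      have his : i.succ ≠ s := Fin.succ_ne_zero i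
      have hlp : j.succ ≠ p := fun h => hj (Fin.succ_injective _ h)
      have hne' : j.succ ≠ i.succ := fun h => hij (Fin.succ_injective _ h).symm
      rw [hback, conjE_sw_xE_off Q₁ hn2 hne' hls his]
      rcases eq_or_ne i.succ p with hip | hip
      · revert hne'
        rw [hip]
        intro hne'
        exact he.x_fix_left R' hn hB hψ (lineFix_of_card R' hn hB hq) hb he₂ hlp hls _
      · refine he.x_fix_out R' hn hB hψ hb (fun c => hd p hps c) hlp hls hip his hne' ?_ _
        exact wedgy_of_card _ hn hB hψ hs hq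
    -- the property of the torus
    · intro v hv a
      have hup : ∀ {i j : Fin (m + 3)} (hij : i ≠ j), j < i → ∀ a, R (xE Q₁ hn2 hij a) v.1 = v.1 :=
        fun {i j} hij hlt a => by
          have h := congrArg Subtype.val (hv _ (SLMin.upper_root hlt (-a)))
          rwa [hσroot _ hij.symm, neg_neg] at h
      have n01 : (0 : Fin (m + 3)) ≠ 1 := (SLMin.fin3_ne m).1
      have hw1 : ((σ (SLMin.hE 0 1 g) v + v : fixZ R) : V) =
          R (slE Q₁ hn2 (SLMin.hE 0 1 g⁻¹)) v.1 + v.1 := by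
        rw [Submodule.coe_add]
        congr 1
        change R (slE Q₁ _ ((SLMin.hE 0 1 g).transpose)⁻¹) v.1 = _
        rw [show (SLMin.hE (0 : Fin (m + 3)) 1 g).transpose = SLMin.hE 0 1 g from Subtype.ext (by
          rw [Matrix.SpecialLinearGroup.coe_transpose, SLMin.isDiag_hE n01 hg,
            Matrix.diagonal_transpose]), SLMin.hE_inv n01 hg]
      apply Subtype.ext
      rw [hσroot _ n01.symm, hw1]
      exact torus_property R h2 hq hodd hn2 hψ hQ hQc hdimc hline hγ hg' v.2 hup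
        (hw1 ▸ Submodule.coe_mem _) (-a)
  omega

end Main

end Cfsg.Agent.MinDeg.Orth
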