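import Cfsg.Agent.MinDeg.SLTop

/-!
Hecke operators of adjacent indices on the vectors fixed by the upper unitriangular group in a
unitary representation of `SL_m`.
-/

namespace Cfsg.Agent.MinDeg.SLMin

open Matrix

variable {k : ℕ} {F : Type*} [Field F] {m : ℕ}

/-- upper unitriangular elements -/
def Upper (g : SpecialLinearGroup (Fin m) F) : Prop :=
  (∀ i j : Fin m, j < i → g.1 i j = 0) ∧ ∀ i, g.1 i i = 1

/-- diagonal element with given entries -/
def IsDiag (g : SpecialLinearGroup (Fin m) F) (d : Fin m → F) : Prop :=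
  g.1 = Matrix.diagonal d

theorem root_apply {i j : Fin m} (hij : i ≠ j) (a : F) (p r : Fin m) :
    (root i j a).1 p r = (if p = r then 1 else 0) + (if p = i ∧ r = j then a else 0) := by
  have h := root_mulVec hij a (Pi.single r 1) p
  rw [Matrix.mulVec_single_one, Matrix.col_apply] at h
  rw [h]
  rcases eq_or_ne p i with rfl | hp
  · rcases eq_or_ne r j with rfl | hr
    · simp [hij]
    · rcases eq_or_ne r p with rfl | hrp
      · simp [hij, hij.symm]
      · simp [hrp, hrp.symm, hr, hr.symm]
  · rcases eq_or_ne p r with rfl | hpr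
    · simp [hp]
    · simp [hp, hpr]

theorem sE_apply {i j : Fin m} (hij : i ≠ j) (p r : Fin m) :
    (sE (F := F) i j).1 p r = if p = i then (if r = j then 1 else 0)
      else if p = j then -(if r = i then 1 else 0) else (if p = r then 1 else 0) := by
  have h := sE_mulVec (F := F) hij (Pi.single r 1) p
  rw [Matrix.mulVec_single_one, Matrix.col_apply] at h
  rw [h]
  simp only [Pi.single_apply, eq_comm]

theorem sE_mul_apply {i j : Fin m} (hij : i ≠ j) (M : Matrix (Fin m) (Fin m) F) (p r : Fin m) :
    ((sE (F := F) i j).1 * M) p r = if p = i then M j r else if p = j then -M i r else M p r := by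
  have h := sE_mulVec (F := F) hij (fun l => M l r) p
  exact h

theorem mul_sE_apply {i j : Fin m} (hij : i ≠ j) (M : Matrix (Fin m) (Fin m) F) (p r : Fin m) :
    (M * (sE (F := F) i j).1) p r = if r = i then -M p j else if r = j then M p i else M p r := by
  rw [Matrix.mul_apply]
  simp only [sE_apply hij]
  rcases eq_or_ne r i with rfl | hri
  · rw [if_pos rfl, Finset.sum_eq_single j]
    · simp [hij.symm]
    · intro l _ hl
      rcases eq_or_ne l r with rfl | h
      · simp [hij]
      · simp [h, hl]
    · simp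
  · rw [if_neg hri]
    rcases eq_or_ne r j with rfl | hrj
    · rw [if_pos rfl, Finset.sum_eq_single i]
      · simp [hri]
      · intro l _ hl
        rcases eq_or_ne l r with rfl | h
        · simp [hri, hl]
        · simp [h, hl]
      · simp
    · rw [if_neg hrj, Finset.sum_eq_single r]
      · simp [hri, hrj]
      · intro l _ hl
        rcases eq_or_ne l i with rfl | h
        · simp [hrj]
        · rcases eq_or_ne l j with rfl | h'
          · simp [h, hri]
          · simp [h, h', hl]
      · simp

theorem Upper.mul {g h : SpecialLinearGroup (Fin m) F} (hg : Upper g) (hh : Upper h) :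
    Upper (g * h) := by
  refine ⟨fun i j hji => ?_, fun i => ?_⟩
  · change (g.1 * h.1) i j = 0
    rw [Matrix.mul_apply]
    refine Finset.sum_eq_zero fun l _ => ?_
    rcases lt_or_ge l i with hl | hl
    · rw [hg.1 i l hl, zero_mul]
    · rw [hh.1 l j (lt_of_lt_of_le hji hl), mul_zero]
  · change (g.1 * h.1) i i = 1
    rw [Matrix.mul_apply, Finset.sum_eq_single i]
    · rw [hg.2, hh.2, one_mul]
    · intro l _ hl
      rcases lt_or_gt_of_ne hl with h' | h'
      · rw [hg.1 i l h', zero_mul]
      · rw [hh.1 l i h', mul_zero]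
    · simp

theorem upper_root {i j : Fin m} (hij : i < j) (a : F) : Upper (root i j a) := by
  refine ⟨fun p r h => ?_, fun p => ?_⟩
  · rw [root_apply hij.ne, if_neg h.ne', if_neg, add_zero]
    rintro ⟨rfl, rfl⟩
    exact absurd h (lt_asymm hij)
  · rw [root_apply hij.ne, if_pos rfl, if_neg, add_zero]
    rintro ⟨rfl, rfl⟩
    exact hij.ne rfl

theorem Upper.adj_mul {g h : SpecialLinearGroup (Fin m) F} (hg : Upper g) (hh : Upper h)
    {i j : Fin m} (hadj : j.1 = i.1 + 1) : (g * h).1 i j = g.1 i j + h.1 i j := by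
  have hij : i ≠ j := fun e => by rw [e] at hadj; omega
  change (g.1 * h.1) i j = _
  rw [Matrix.mul_apply, ← Finset.add_sum_erase _ _ (Finset.mem_univ i),
    ← Finset.add_sum_erase _ _ (show j ∈ Finset.univ.erase i by simp [hij.symm]),
    Finset.sum_eq_zero, add_zero, hg.2, hh.2, one_mul, mul_one, add_comm]
  intro l hl
  simp only [Finset.mem_erase] at hl
  rcases lt_or_gt_of_ne hl.2.1 with h' | h'
  · rw [hg.1 i l h', zero_mul]
  · rw [hh.1 l j (by
      rw [Fin.lt_def] at h' ⊢
      have : l.1 ≠ j.1 := fun e => hl.1 (Fin.ext e)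
      omega), mul_zero]

/-- an upper element with trivial entry at an adjacent position stays upper under the exchange -/
theorem Upper.exchange {g : SpecialLinearGroup (Fin m) F} (hg : Upper g) {i j : Fin m}
    (hadj : j.1 = i.1 + 1) (h0 : g.1 i j = 0) : Upper ((sE i j)⁻¹ * g * sE i j) := by
  have hij : i ≠ j := fun e => by rw [e] at hadj; omega
  set M := (sE i j)⁻¹ * g * sE i j
  have e : (sE (F := F) i j).1 * M.1 = g.1 * (sE (F := F) i j).1 := by
    change (sE i j * M).1 = (g * sE i j).1
    congr 1
    simp only [M, ← mul_assoc, mul_inv_cancel, one_mul]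
    try rfl
  have key : ∀ p r, (if p = i then M.1 j r else if p = j then -M.1 i r else M.1 p r) =
      if r = i then -g.1 p j else if r = j then g.1 p i else g.1 p r := fun p r => by
    rw [← sE_mul_apply hij, ← mul_sE_apply hij, e]
  have hlt : ∀ {p r : Fin m}, p < r ↔ p.1 < r.1 := fun {p r} => Fin.lt_def
  have hv : ∀ {p r : Fin m}, p ≠ r ↔ p.1 ≠ r.1 := fun {p r} => (Fin.val_ne_iff).symm
  refine ⟨fun l r hrl => ?_, fun l => ?_⟩
  · rcases eq_or_ne l j with rfl | hlj
    · have h := key i r
      rw [if_pos rfl] at h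
      rw [h]
      rcases eq_or_ne r i with rfl | hri
      · rw [if_pos rfl, h0, neg_zero]
      · rw [if_neg hri, if_neg hrl.ne]
        exact hg.1 i r (hlt.2 (by have := hlt.1 hrl; have := hv.1 hri; omega))
    · rcases eq_or_ne l i with rfl | hli
      · have h := key j r
        rw [if_neg hij.symm, if_pos rfl, if_neg hrl.ne,
          if_neg (hv.2 (by have := hlt.1 hrl; omega)),
          hg.1 j r (hlt.2 (by have := hlt.1 hrl; omega))] at h
        exact neg_eq_zero.1 h
      · have h := key l r
        rw [if_neg hli, if_neg hlj] at h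
        rw [h]
        have h1 := hv.1 hlj
        have h2 := hv.1 hli
        have h3 := hlt.1 hrl
        rcases eq_or_ne r i with rfl | hri
        · rw [if_pos rfl, hg.1 l j (hlt.2 (by omega)), neg_zero]
        · rw [if_neg hri]
          rcases eq_or_ne r j with rfl | hrj
          · rw [if_pos rfl, hg.1 l i (hlt.2 (by omega))]
          · rw [if_neg hrj]; exact hg.1 l r hrl
  · rcases eq_or_ne l j with rfl | hlj
    · have h := key i l
      rw [if_pos rfl, if_neg hij.symm, if_pos rfl] at h
      rw [h, hg.2]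
    · rcases eq_or_ne l i with rfl | hli
      · have h := key j l
        rw [if_neg hij.symm, if_pos rfl, if_pos rfl, hg.2] at h
        exact neg_injective h
      · have h := key l l
        rw [if_neg hli, if_neg hlj, if_neg hli, if_neg hlj] at h
        rw [h, hg.2]

/-! ### diagonal elements -/

theorem IsDiag.ext {g g' : SpecialLinearGroup (Fin m) F} {d : Fin m → F} (h : IsDiag g d)
    (h' : IsDiag g' d) : g = g' := Subtype.ext (h.trans h'.symm)

theorem IsDiag.mul {g g' : SpecialLinearGroup (Fin m) F} {d d' : Fin m → F} (h : IsDiag g d)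
    (h' : IsDiag g' d') : IsDiag (g * g') (fun l => d l * d' l) := by
  change g.1 * g'.1 = _
  rw [h, h', Matrix.diagonal_mul_diagonal]

theorem isDiag_one : IsDiag (1 : SpecialLinearGroup (Fin m) F) (fun _ => 1) :=
  Matrix.diagonal_one.symm

/-- entries of `hE` -/
def hd (i j : Fin m) (c : F) : Fin m → F := fun l => if l = i then c else if l = j then c⁻¹ else 1

theorem isDiag_hE {i j : Fin m} (hij : i ≠ j) {c : F} (hc : c ≠ 0) : IsDiag (hE i j c) (hd i j c) := by
  refine Matrix.ext_of_mulVec_single fun r => ?_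
  funext p
  rw [hE_mulVec hij hc, Matrix.diagonal_mulVec_single, mul_one, hd]
  rcases eq_or_ne p i with rfl | hp
  · rcases eq_or_ne r p with rfl | hr
    · simp
    · simp [hr, hr.symm]
  · rcases eq_or_ne p j with rfl | hp'
    · rcases eq_or_ne r p with rfl | hr
      · simp [hij.symm]
      · simp [hij.symm, hr, hr.symm]
    · rcases eq_or_ne r p with rfl | hr
      · simp [hp, hp']
      · simp [hp, hp', hr, hr.symm]

theorem IsDiag.comm {g g' : SpecialLinearGroup (Fin m) F} {d d' : Fin m → F} (h : IsDiag g d)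
    (h' : IsDiag g' d') : g * g' = g' * g :=
  (h.mul h').ext (by simpa only [mul_comm] using h'.mul h)

theorem hE_swap {i j : Fin m} (hij : i ≠ j) {c : F} (hc : c ≠ 0) : (hE i j c)⁻¹ = hE j i c := by
  refine inv_eq_of_mul_eq_one_right (IsDiag.ext ((isDiag_hE hij hc).mul (isDiag_hE hij.symm hc)) ?_)
  convert isDiag_one using 1
  funext l
  simp only [hd]
  rcases eq_or_ne l i with rfl | h1
  · simp [hij, hc]
  · rcases eq_or_ne l j with rfl | h2
    · simp [h1, hc]
    · simp [h1, h2]

theorem IsDiag.mul_sE {g : SpecialLinearGroup (Fin m) F} {d : Fin m → F} (h : IsDiag g d)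
    {i j : Fin m} (hij : i ≠ j) : IsDiag ((sE i j)⁻¹ * g * sE i j) (fun l => d (Equiv.swap i j l)) := by
  set M := (sE i j)⁻¹ * g * sE i j
  have e : (sE (F := F) i j).1 * M.1 = g.1 * (sE (F := F) i j).1 := by
    change (sE i j * M).1 = (g * sE i j).1
    congr 1
    simp only [M, ← mul_assoc, mul_inv_cancel, one_mul]
    try rfl
  have key : ∀ p r, (if p = i then M.1 j r else if p = j then -M.1 i r else M.1 p r) =
      if r = i then -g.1 p j else if r = j then g.1 p i else g.1 p r := fun p r => by
    rw [← sE_mul_apply hij, ← mul_sE_apply hij, e]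
  refine Matrix.ext fun l r => ?_
  have hg : ∀ p q, g.1 p q = if p = q then d p else 0 := fun p q => by
    rw [h, Matrix.diagonal_apply]
  rw [Matrix.diagonal_apply]
  rcases eq_or_ne l j with rfl | hlj
  · have h' := key i r
    rw [if_pos rfl] at h'
    rw [h']
    rcases eq_or_ne r i with rfl | hri
    · simp [hg, hij, hij.symm]
    · rcases eq_or_ne r l with rfl | hrl
      · simp [hg, hri, Equiv.swap_apply_right]
      · simp [hg, hri, hrl, hri.symm, hrl.symm]
  · rcases eq_or_ne l i with rfl | hli
    · have h' := key j r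
      rw [if_neg hij.symm, if_pos rfl] at h'
      rw [neg_eq_iff_eq_neg.1 h']
      rcases eq_or_ne r l with rfl | hrl
      · simp [hg, Equiv.swap_apply_left]
      · rcases eq_or_ne r j with rfl | hrj
        · simp [hg, hrl, hij, hij.symm]
        · simp [hg, hrl, hrj, hrl.symm, hrj.symm]
    · have h' := key l r
      rw [if_neg hli, if_neg hlj] at h'
      rw [h']
      rcases eq_or_ne r i with rfl | hri
      · simp [hg, hli, hlj]
      · rcases eq_or_ne r j with rfl | hrj
        · simp [hg, hli, hlj, hri]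
        · simp [hg, hri, hrj, Equiv.swap_apply_of_ne_of_ne hli hlj]

/-! ### fixed vectors -/

/-- fixed by the upper unitriangular group -/
def UFix (R : SpecialLinearGroup (Fin m) F →* Matrix (Fin k) (Fin k) ℂ) (v : Fin k → ℂ) : Prop :=
  ∀ g, Upper g → R g *ᵥ v = v

variable {R : SpecialLinearGroup (Fin m) F →* Matrix (Fin k) (Fin k) ℂ} {v : Fin k → ℂ}

theorem UFix.rfix (hv : UFix R v) {i j : Fin m} (hij : i < j) : RFix R i j v := fun a =>
  hv _ (upper_root hij a)

theorem UFix.smul (hv : UFix R v) (c : ℂ) : UFix R (c • v) := fun g hg => by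
  rw [Matrix.mulVec_smul, hv g hg]

theorem UFix.add {w : Fin k → ℂ} (hv : UFix R v) (hw : UFix R w) : UFix R (v + w) :=
  fun g hg => by rw [Matrix.mulVec_add, hv g hg, hw g hg]

theorem UFix.sub {w : Fin k → ℂ} (hv : UFix R v) (hw : UFix R w) : UFix R (v - w) :=
  fun g hg => by rw [Matrix.mulVec_sub, hv g hg, hw g hg]

theorem UFix.diag (hv : UFix R v) {t : SpecialLinearGroup (Fin m) F} {d : Fin m → F}
    (ht : IsDiag t d) : UFix R (R t *ᵥ v) := fun g hg => by
  set M := t⁻¹ * g * t
  have e : t.1 * M.1 = g.1 * t.1 := by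
    change (t * M).1 = (g * t).1
    congr 1
    simp only [M, ← mul_assoc, mul_inv_cancel, one_mul]
    try rfl
  have hd0 : ∀ l, d l ≠ 0 := fun l h0 => by
    have h2 := t.2
    rw [ht, Matrix.det_diagonal, Finset.prod_eq_zero (Finset.mem_univ l) h0] at h2
    exact zero_ne_one h2
  have key : ∀ p r, d p * M.1 p r = g.1 p r * d r := fun p r => by
    have := congrFun (congrFun e p) r
    rwa [ht, Matrix.diagonal_mul, Matrix.mul_diagonal] at this
  have hM : Upper M := ⟨fun p r h => by
      have := key p r
      rw [hg.1 p r h, zero_mul] at this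
      exact (mul_eq_zero.1 this).resolve_left (hd0 p),
    fun p => by
      have := key p p
      rw [hg.2, one_mul] at this
      exact mul_left_cancel₀ (hd0 p) (by rw [this, mul_one])⟩
  rw [Matrix.mulVec_mulVec, ← map_mul, show g * t = t * M by
    simp only [M, ← mul_assoc, mul_inv_cancel, one_mul]; try rfl, map_mul, ← Matrix.mulVec_mulVec, hv M hM]

variable [Fintype F]

/-- Hecke operator -/
noncomputable def Tw (R : SpecialLinearGroup (Fin m) F →* Matrix (Fin k) (Fin k) ℂ) (i j : Fin m)
    (v : Fin k → ℂ) : Fin k → ℂ :=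
  ∑ a, R (root i j a * sE i j) *ᵥ v

theorem Tw_add (i j : Fin m) (v w : Fin k → ℂ) : Tw R i j (v + w) = Tw R i j v + Tw R i j w := by
  simp only [Tw, Matrix.mulVec_add, Finset.sum_add_distrib]

theorem Tw_sub (i j : Fin m) (v w : Fin k → ℂ) : Tw R i j (v - w) = Tw R i j v - Tw R i j w := by
  simp only [Tw, Matrix.mulVec_sub, Finset.sum_sub_distrib]

theorem Tw_smul (i j : Fin m) (c : ℂ) (v : Fin k → ℂ) : Tw R i j (c • v) = c • Tw R i j v := by
  simp only [Tw, Matrix.mulVec_smul, ← Finset.smul_sum]

theorem UFix.tw {i j : Fin m} (hadj : j.1 = i.1 + 1) (hv : UFix R v) : UFix R (Tw R i j v) := by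
  intro g hg
  have hij : i < j := by rw [Fin.lt_def]; omega
  rw [Tw, Matrix.mulVec_sum]
  refine Fintype.sum_equiv (Equiv.addRight (g.1 i j)) _ _ fun a => ?_
  set h := root i j (-(a + g.1 i j)) * g * root i j a with hh
  have h1 : Upper h := ((upper_root hij _).mul hg).mul (upper_root hij _)
  have h2 : h.1 i j = 0 := by
    rw [hh, Upper.adj_mul ((upper_root hij _).mul hg) (upper_root hij _) hadj,
      Upper.adj_mul (upper_root hij _) hg hadj, root_apply hij.ne, root_apply hij.ne]
    simp [hij.ne]
  rw [← map_mulVec_mul, show g * (root i j a * sE i j) =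
      (root i j (a + g.1 i j) * sE i j) * ((sE i j)⁻¹ * h * sE i j) by
    simp only [hh, mul_assoc, mul_inv_cancel_left]
    rw [← mul_assoc (root i j _) (root i j _), ← root_add hij.ne, add_neg_cancel, root_zero hij.ne,
      one_mul], map_mulVec_mul, hv _ (h1.exchange hadj h2)]
  rfl

theorem diag_Tw {i j : Fin m} (hij : i ≠ j) {t : SpecialLinearGroup (Fin m) F} {d : Fin m → F}
    (ht : IsDiag t d) (v : Fin k → ℂ) :
    R t *ᵥ Tw R i j v = Tw R i j (R ((sE i j)⁻¹ * t * sE i j) *ᵥ v) := by
  have hd0 : ∀ l, d l ≠ 0 := fun l h0 => by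
    have h2 := t.2
    rw [ht, Matrix.det_diagonal, Finset.prod_eq_zero (Finset.mem_univ l) h0] at h2
    exact zero_ne_one h2
  rw [Tw, Tw, Matrix.mulVec_sum]
  refine Fintype.sum_equiv (Equiv.mulLeft₀ (d i / d j) (div_ne_zero (hd0 i) (hd0 j))) _ _
    fun a => ?_
  rw [← map_mulVec_mul, ← map_mulVec_mul]
  congr 2
  rw [Equiv.mulLeft₀_apply, mul_assoc, mul_assoc ((sE i j)⁻¹) t, mul_inv_cancel_left, ← mul_assoc,
    ← mul_assoc]
  congr 1
  apply Subtype.ext
  change t.1 * (root i j a).1 = (root i j (d i / d j * a)).1 * t.1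
  ext p r
  rw [ht, Matrix.diagonal_mul, Matrix.mul_diagonal, root_apply hij, root_apply hij]
  rcases eq_or_ne p r with rfl | hpr
  · rcases eq_or_ne p i with rfl | hp
    · simp [hij]
    · simp [hp]
  · by_cases h : p = i ∧ r = j
    · obtain ⟨rfl, rfl⟩ := h
      have := hd0 r
      simp [hpr]
      field_simp
    · simp [hpr, h]

theorem hE_Tw {i j p r : Fin m} (hij : i ≠ j) (hpr : p ≠ r) {c : F} (hc : c ≠ 0) (v : Fin k → ℂ) :
    R (hE p r c) *ᵥ Tw R i j v =
      Tw R i j (R (hE (Equiv.swap i j p) (Equiv.swap i j r) c) *ᵥ v) := by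
  rw [diag_Tw hij (isDiag_hE hpr hc)]
  congr 3
  refine ((isDiag_hE hpr hc).mul_sE hij).ext ?_
  have e : hd (Equiv.swap i j p) (Equiv.swap i j r) c = fun l => hd p r c (Equiv.swap i j l) := by
    funext l
    simp only [hd, Equiv.swap_apply_eq_iff, Equiv.symm_swap]
  rw [← e]
  exact isDiag_hE (fun h => hpr ((Equiv.swap i j).injective h)) hc

/-- the operator is injective -/
theorem eq_zero_of_Tw (hR : IsU R) {i j : Fin m} (hij : i ≠ j) (hv : RFix R i j v)
    (h : Tw R i j v = 0) : v = 0 := by
  classical
  apply eq_zero_of_dot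
  have hdot : ∀ w, RFix R i j w →
      (Fintype.card F : ℂ) * (star w ⬝ᵥ R (sE i j) *ᵥ v) = 0 := fun w hw => by
    have h' := congrArg (star w ⬝ᵥ ·) h
    simp only [Tw, dotProduct_sum, map_mulVec_mul, dot_fix hR _ (hw _), Finset.sum_const,
      Finset.card_univ, nsmul_eq_mul, dotProduct_zero] at h'
    exact h'
  have htor : RFix R i j (torusSum R i j v) := fun b => by
    rw [torusSum, Matrix.mulVec_sum]
    refine Finset.sum_congr rfl fun c _ => ?_
    have hc := Units.ne_zero c
    have e := hE_mul_root hij hc (((c : F) * c)⁻¹ * b)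
    rw [← mul_assoc, mul_inv_cancel₀ (mul_ne_zero hc hc), one_mul] at e
    rw [← map_mulVec_mul, ← e, map_mulVec_mul, hv]
  have ht : star (torusSum R i j v) ⬝ᵥ R (sE i j) *ᵥ v = 0 :=
    (mul_eq_zero.1 (hdot _ htor)).resolve_left (Nat.cast_ne_zero.2 Fintype.card_ne_zero)
  have h' := congrArg (star (R (sE i j) *ᵥ v) ⬝ᵥ ·) h
  simp only [Tw, dotProduct_sum, dotProduct_zero] at h'
  rw [sum_units_eq, root_zero hij, one_mul] at h'
  have h0 : star (R (sE i j) *ᵥ v) ⬝ᵥ R (sE i j) *ᵥ v = star v ⬝ᵥ v := by
    rw [hR.dot, ← map_mulVec_mul, inv_mul_cancel, map_one, Matrix.one_mulVec]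
  have hterm : ∀ c : Fˣ, star (R (sE i j) *ᵥ v) ⬝ᵥ R (root i j (c : F) * sE i j) *ᵥ v =
      star (R (hE i j (c : F)) *ᵥ v) ⬝ᵥ R (sE i j) *ᵥ v := fun c => by
    have hc := Units.ne_zero c
    have e : (sE i j)⁻¹ * (root i j (c : F) * sE i j) = root j i (-(c : F)) := by
      rw [inv_mul_eq_iff_eq_mul]
      have e1 := sE_mul_root hij (c : F)
      have e2 : sE i j * root j i (-(c : F)) = root i j (c : F) * sE i j := by
        apply sl_ext
        intro x
        funext l
        simp only [sl_mul_mulVec]
        by_cases hi : l = i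
        · subst hi
          simp [-Matrix.mulVec_mulVec, root_mulVec hij, root_mulVec hij.symm, sE_mulVec hij, hij.symm]
          try ring
        · by_cases hj : l = j
          · subst hj
            simp [-Matrix.mulVec_mulVec, root_mulVec hij, root_mulVec hij.symm, sE_mulVec hij, hij,
              hij.symm]
          · simp [-Matrix.mulVec_mulVec, root_mulVec hij, root_mulVec hij.symm, sE_mulVec hij, hi, hj]
      exact e2.symm
    rw [hR.dot, ← map_mulVec_mul, e, root_opp hij (neg_ne_zero.2 hc), map_mulVec_mul, map_mulVec_mul,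
      hv, dot_fix hR _ (hv _), map_mulVec_mul, hR.dot, hE_inv hij hc]
    congr 4
    simp [inv_neg]
  simp only [hterm, ← sum_dotProduct, ← star_sum] at h'
  rw [h0] at h'
  simp only [torusSum] at ht
  rwa [ht, add_zero] at h'

theorem Tw_of_fix {i j : Fin m} (hv : RFix R i j v) (hv' : RFix R j i v) :
    Tw R i j v = (Fintype.card F : ℂ) • v := by
  have e : ∀ a, R (root i j a * sE i j) *ᵥ v = v := fun a => by
    rw [map_mulVec_mul, sE, wE_fix hv hv', hv]
  simp only [Tw, e, Finset.sum_const, Finset.card_univ, ← Nat.cast_smul_eq_nsmul ℂ]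

theorem rfix_opp_of_Tw (hR : IsU R) {i j : Fin m} (hij : i ≠ j) (hv : RFix R i j v)
    (h : Tw R i j v = (Fintype.card F : ℂ) • v) : RFix R j i v := by
  refine rfix_opp_of_sE hij hv ?_
  have h1 : star v ⬝ᵥ R (sE i j) *ᵥ v = star v ⬝ᵥ v := by
    have h' := congrArg (star v ⬝ᵥ ·) h
    simp only [Tw, dotProduct_sum, map_mulVec_mul, dot_fix hR _ (hv _), Finset.sum_const,
      Finset.card_univ, nsmul_eq_mul, dotProduct_smul, smul_eq_mul] at h'
    exact mul_left_cancel₀ (Nat.cast_ne_zero.2 Fintype.card_ne_zero) h'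
  set w := R (sE i j) *ᵥ v
  have h2 : star w ⬝ᵥ w = star v ⬝ᵥ v := by
    rw [hR.dot, ← map_mulVec_mul, inv_mul_cancel, map_one, Matrix.one_mulVec]
  have h3 : star w ⬝ᵥ v = star v ⬝ᵥ v := by
    rw [star_dotProduct, h1, ← star_dotProduct]
  apply sub_eq_zero.1
  apply eq_zero_of_dot
  rw [star_sub, sub_dotProduct, dotProduct_sub, dotProduct_sub, h1, h2, h3]
  ring

theorem Tw_braid {i j l : Fin m} (hij : i ≠ j) (hjl : j ≠ l) (hil : i ≠ l) (v : Fin k → ℂ) :
    Tw R i j (Tw R j l (Tw R i j v)) = Tw R j l (Tw R i j (Tw R j l v)) := by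
  have c1 : ∀ b : F, sE i j * root j l b = root i l b * sE i j := fun b => by
    apply sl_ext; intro x; funext p
    simp only [sl_mul_mulVec]
    by_cases h1 : p = i
    · subst h1; simp [-Matrix.mulVec_mulVec, root_mulVec hjl, root_mulVec hil, sE_mulVec hij, hij, hij.symm, hil.symm, hjl.symm]
    · by_cases h2 : p = j
      · subst h2; simp [-Matrix.mulVec_mulVec, root_mulVec hjl, root_mulVec hil, sE_mulVec hij, hij, hij.symm, hil.symm, hjl.symm]
      · simp [-Matrix.mulVec_mulVec, root_mulVec hjl, root_mulVec hil, sE_mulVec hij, h1, h2]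
  have c2 : ∀ b : F, sE j l * root i j b = root i l (-b) * sE j l := fun b => by
    apply sl_ext; intro x; funext p
    simp only [sl_mul_mulVec]
    by_cases h1 : p = i
    · subst h1; simp [-Matrix.mulVec_mulVec, root_mulVec hij, root_mulVec hil, sE_mulVec hjl, hij, hij.symm, hil, hjl.symm]
    · by_cases h2 : p = j
      · subst h2; simp [-Matrix.mulVec_mulVec, root_mulVec hij, root_mulVec hil, sE_mulVec hjl, hij.symm, hil.symm, hjl, hjl.symm]
      · by_cases h3 : p = l
        · subst h3; simp [-Matrix.mulVec_mulVec, root_mulVec hij, root_mulVec hil, sE_mulVec hjl, hij.symm, hil.symm, hjl, hjl.symm]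
        · simp [-Matrix.mulVec_mulVec, root_mulVec hij, root_mulVec hil, sE_mulVec hjl, h1, h2, h3]
  have c3 : ∀ b : F, sE j l * root i l b = root i j b * sE j l := fun b => by
    apply sl_ext; intro x; funext p
    simp only [sl_mul_mulVec]
    by_cases h1 : p = i
    · subst h1; simp [-Matrix.mulVec_mulVec, root_mulVec hij, root_mulVec hil, sE_mulVec hjl, hij, hij.symm, hil, hjl.symm]
    · by_cases h2 : p = j
      · subst h2; simp [-Matrix.mulVec_mulVec, root_mulVec hij, root_mulVec hil, sE_mulVec hjl, hij.symm, hil.symm, hjl, hjl.symm]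
      · by_cases h3 : p = l
        · subst h3; simp [-Matrix.mulVec_mulVec, root_mulVec hij, root_mulVec hil, sE_mulVec hjl, hij.symm, hil.symm, hjl, hjl.symm]
        · simp [-Matrix.mulVec_mulVec, root_mulVec hij, root_mulVec hil, sE_mulVec hjl, h1, h2, h3]
  have c4 : ∀ a b : F, root j l a * root i j b = root i j b * root i l (-(b * a)) * root j l a :=
    fun a b => by
    apply sl_ext; intro x; funext p
    simp only [sl_mul_mulVec]
    by_cases h1 : p = i
    · subst h1; simp [-Matrix.mulVec_mulVec, root_mulVec hij, root_mulVec hil, root_mulVec hjl, hij, hil, hij.symm, hil.symm, hjl.symm]; ring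
    · simp [-Matrix.mulVec_mulVec, root_mulVec hij, root_mulVec hil, root_mulVec hjl, h1, hij.symm, hil.symm, hjl.symm]
  set w0 := sE (F := F) i j * sE j l * sE i j with hw0
  have e1 : ∀ a b c : F, root i j a * sE i j * (root j l b * sE j l * (root i j c * sE i j)) =
      root i j a * root i l b * root j l c * w0 := fun a b c => by
    have h := sigma_mul_root hij hjl hil c
    calc _ = root i j a * (sE i j * root j l b) * sE j l * root i j c * sE i j := by
          simp only [mul_assoc]
      _ = root i j a * root i l b * (sE i j * sE j l * root i j c) * sE i j := by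
          rw [c1]; simp only [mul_assoc]
      _ = _ := by rw [h, hw0]; simp only [mul_assoc]
  have e2 : ∀ a b c : F, root j l a * sE j l * (root i j b * sE i j * (root j l c * sE j l)) =
      root i j c * root i l (-b - c * a) * root j l a * w0 := fun a b c => by
    calc _ = root j l a * (sE j l * root i j b) * (sE i j * root j l c) * sE j l := by
          simp only [mul_assoc]
      _ = root j l a * root i l (-b) * (sE j l * root i l c) * (sE i j * sE j l) := by
          rw [c2, c1]; simp only [mul_assoc]
      _ = root j l a * root i l (-b) * root i j c * (sE j l * sE i j * sE j l) := by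
          rw [c3]; simp only [mul_assoc]
      _ = root j l a * root i j c * root i l (-b) * w0 := by
          rw [hw0, sE_braid hij hjl hil]
          congr 1
          rw [mul_assoc, mul_assoc]
          congr 1
          apply sl_ext; intro x; funext p
          simp only [sl_mul_mulVec]
          by_cases h1 : p = i
          · subst h1; simp [-Matrix.mulVec_mulVec, root_mulVec hij, root_mulVec hil, hij.symm, hil.symm]; ring
          · simp [-Matrix.mulVec_mulVec, root_mulVec hij, root_mulVec hil, h1]
      _ = root i j c * root i l (-(c * a)) * (root j l a * root i l (-b)) * w0 := by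
          rw [c4]; simp only [mul_assoc]
      _ = root i j c * (root i l (-(c * a)) * root i l (-b)) * root j l a * w0 := by
          have e : root j l a * root i l (-b) = root i l (-b) * root j l a := by
            apply sl_ext; intro x; funext p
            simp only [sl_mul_mulVec]
            by_cases h1 : p = i
            · subst h1; simp [-Matrix.mulVec_mulVec, root_mulVec hjl, root_mulVec hil, hij, hjl.symm]
            · simp [-Matrix.mulVec_mulVec, root_mulVec hjl, root_mulVec hil, h1, hil.symm, hij.symm]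
          rw [e]; simp only [mul_assoc]
      _ = _ := by
          rw [← root_add hil]
          congr 4
          ring
  simp only [Tw, Matrix.mulVec_sum, ← map_mulVec_mul, e1, e2]
  have flat : ∀ g : F → F → F → Fin k → ℂ,
      ∑ a, ∑ b, ∑ c, g a b c = ∑ p : F × F × F, g p.1 p.2.1 p.2.2 := fun g => by
    simp only [Fintype.sum_prod_type]
  rw [flat, flat]
  let f : F × F × F ≃ F × F × F :=
    { toFun := fun p => (p.2.2, -p.2.1 - p.2.2 * p.1, p.1)
      invFun := fun p => (p.2.2, -p.2.1 - p.1 * p.2.2, p.1)
      left_inv := fun p => by simp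
      right_inv := fun p => by simp }
  refine (Fintype.sum_equiv f _ _ fun p => ?_).symm
  rfl

end Cfsg.Agent.MinDeg.SLMin
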