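import Cfsg.Agent.MinDeg.OrthMinus
import Cfsg.Agent.MinDeg.SLHecke

/-!
Scaling arguments on the lines of rank two weights, the basis of a weight space by translates of the
line, and determinants on a weight space, over fields with more than three elements.
-/

set_option autoImplicit false
set_option linter.unusedSectionVars false

namespace Cfsg.Agent.MinDeg.Orth

open QuadraticMap Cfsg.Agent.Classical Matrix Cfsg.Agent.Weights Module

universe u w v

variable {F : Type u} [Field F] [Fintype F] {n : ℕ} {W : Type w} [AddCommGroup W] [Module F W]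
  [FiniteDimensional F W] {Q₀ : QuadraticForm F W} {ψ : AddChar F ℂ}
  {V : Type v} [AddCommGroup V] [Module ℂ V] [FiniteDimensional ℂ V]
  (R : Om Q₀ n →* Module.End ℂ V) (hn : 3 ≤ n) (hB : BNondeg Q₀)

theorem exists_sq_ne_one (hq : 4 ≤ Fintype.card F) : ∃ c : F, c ≠ 0 ∧ c * c ≠ 1 := by
  classical
  obtain ⟨c, -, hc⟩ := Finset.exists_mem_notMem_of_card_lt_card (s := ({0, 1, -1} : Finset F))
    (t := Finset.univ) (lt_of_le_of_lt Finset.card_le_three (by rw [Finset.card_univ]; omega))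
  simp only [Finset.mem_insert, Finset.mem_singleton, not_or] at hc
  refine ⟨c, hc.1, fun h => ?_⟩
  rcases mul_self_eq_one_iff.1 h with h' | h'
  exacts [hc.2.1 h', hc.2.2 h']

theorem char_eq_one_of_scale {A : Type*} [AddCommGroup A] [Module F A] (φ : AddChar A ℂ) {c : F}
    (hc : c ≠ 1) (h : ∀ a, φ (c • a) = φ a) (x : A) : φ x = 1 := by
  have hy : c • (c - 1)⁻¹ • x = x + (c - 1)⁻¹ • x := by
    have h1 : (c - 1) • (c - 1)⁻¹ • x = x := smul_inv_smul₀ (sub_ne_zero.2 hc) x
    rw [sub_smul, one_smul, sub_eq_iff_eq_add] at h1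
    exact h1
  have h2 := h ((c - 1)⁻¹ • x)
  rw [hy, AddChar.map_add_eq_mul] at h2
  exact (mul_eq_right₀ (AddChar.val_isUnit φ _).ne_zero).1 h2

theorem slE_mul_shE (hn : 2 ≤ n) (g : SpecialLinearGroup (Fin n) F) {i : Fin n} {c : F}
    (he : g.1 *ᵥ ev i = c • ev i) (k : W) :
    slE Q₀ hn g * shE Q₀ i k = shE Q₀ i (c • k) * slE Q₀ hn g :=
  Subtype.ext (levHom_mul_sh Q₀ (SpecialLinearGroup.toGL g) he k)

theorem diag_mulVec_ev {g : SpecialLinearGroup (Fin n) F} {d : Fin n → F}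
    (hg : SLMin.IsDiag g d) (i : Fin n) : g.1 *ᵥ ev i = d i • ev i := by
  rw [hg, ev, Matrix.diagonal_mulVec_single, mul_one, ← Pi.single_smul, smul_eq_mul, mul_one]

include hn hB

/-- the Levi elements preserve the weight space of a weight they preserve -/
theorem slE_mem_ws {g : SpecialLinearGroup (Fin n) F} {B : Matrix (Fin n) (Fin n) F}
    (hg : g.1ᵀ * B * g.1 = B) {v : V} (hv : v ∈ ws R ψ B) :
    R (slE Q₀ (show 2 ≤ n by omega) g) v ∈ ws R ψ B := by
  rw [slE_eq_lvE hn hB g]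
  exact lvE_mem_ws R hn hB _ (by
    rwa [show (SpecialLinearGroup.toGL g).1 = g.1 from rfl, hg])

omit hn hB in
theorem hE_stab {B : Matrix (Fin n) (Fin n) F} {p s : Fin n} (hb : Blk B p s) {c : F} (hc : c ≠ 0) :
    ((SLMin.hE p s c).1)ᵀ * B * (SLMin.hE p s c).1 = B := by
  rw [SLMin.isDiag_hE hb.1 hc, Matrix.diagonal_transpose]
  obtain ⟨hps, μ, -, rfl⟩ := hb
  ext i j
  rw [Matrix.mul_diagonal, Matrix.diagonal_mul]
  simp only [Matrix.smul_apply, std, wedge_apply, smul_eq_mul, SLMin.hd, Pi.single_apply]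
  rcases eq_or_ne i p with rfl | hip
  · rcases eq_or_ne j s with rfl | hjs
    · simp [hps, hps.symm]
      field_simp
    · simp [hjs, hps]
  · rcases eq_or_ne i s with rfl | his
    · rcases eq_or_ne j p with rfl | hjp
      · simp [hps, hps.symm]
        field_simp
      · simp [hjp, hip]
    · simp [hip, his]

/-- the scaling of the two indices acts on the line by a scalar -/
theorem IsLine.hE_scal {B : Matrix (Fin n) (Fin n) F} {p s : Fin n} {e : V} (hb : Blk B p s)
    (he : IsLine R ψ B p e) {c : F} (hc : c ≠ 0) :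
    ∃ γ : ℂ, γ ≠ 0 ∧ R (slE Q₀ (show 2 ≤ n by omega) (SLMin.hE p s c)) e = γ • e := by
  set h := SLMin.hE p s c
  have hev : h.1 *ᵥ ev p = c • ev p := by
    rw [diag_mulVec_ev (SLMin.isDiag_hE hb.1 hc)]; simp [SLMin.hd]
  obtain ⟨γ, hγ⟩ := he.2.2.2 (R (slE Q₀ (show 2 ≤ n by omega) h) e)
    (slE_mem_ws R hn hB (hE_stab hb hc) he.1) fun k => by
      have e1 := slE_mul_shE (Q₀ := Q₀) (show 2 ≤ n by omega) h hev (c⁻¹ • k)
      rw [smul_inv_smul₀ hc] at e1
      rw [← apply_mul, ← e1, apply_mul, he.2.2.1]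
  exact ⟨γ, fun h0 => he.2.1 (R_injective R _ (by rw [hγ, h0, zero_smul, map_zero])), hγ⟩

/-- the short radical groups off the weight fix the line -/
theorem lineFix_of_card (hq : 4 ≤ Fintype.card F) : LineFix R ψ := by
  intro B p s e hb he l hlp hls x
  classical
  obtain ⟨hm, he0, hfix, huniq⟩ := he
  have hscal : ∀ y, ∃ γ : ℂ, R (shE Q₀ l y) e = γ • e := fun y => by
    refine huniq _ (shE_mem_ws R l y hm) fun k => ?_
    rw [← apply_mul, shE_mul_shE Q₀ hlp.symm, apply_mul, apply_mul,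
      zE_single_apply R (shE_mem_ws R _ _ (shE_mem_ws R _ _ hm)), hfix, (hb.off hlp hls p).1,
      zero_mul, AddChar.map_zero_eq_one, one_smul]
  obtain ⟨ω, hω⟩ := exists_scalar_char R (fun y => shE Q₀ l y) he0 (fun a b => shE_add Q₀ l a b) hscal
  obtain ⟨c, hc0, hc⟩ := exists_sq_ne_one (F := F) hq
  set u : Fˣ := Units.mk0 c hc0
  have hdet : ∃ d : Fˣ, (dgi l (u * u)).1.det = d * d := ⟨u, by rw [det_dgi, Units.val_mul]⟩
  set t := lvE (Q₀ := Q₀) hn hB (dgi l (u * u)) hdet
  have hst : ((dgi l (u * u)).1)ᵀ * B * (dgi l (u * u)).1 = B := by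
    rw [dgi_val, Matrix.diagonal_transpose]
    ext i j
    rw [Matrix.mul_diagonal, Matrix.diagonal_mul]
    rcases eq_or_ne i l with rfl | hi
    · rw [(hb.off hlp hls j).1]; simp
    · rcases eq_or_ne j l with rfl | hj
      · rw [(hb.off hlp hls i).2]; simp
      · simp [hi, hj]
  have hev : ∀ r, (dgi l (u * u)).1 *ᵥ ev r = (if r = l then c * c else 1) • ev r := fun r => by
    rw [dgi_val, ev, Matrix.diagonal_mulVec_single, mul_one, ← Pi.single_smul, smul_eq_mul, mul_one]
    congr 1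
    rcases eq_or_ne r l with rfl | hr
    · simp [u]
    · simp [hr]
  obtain ⟨γ, hγ⟩ := huniq (R t e) (lvE_mem_ws R hn hB hdet (by rwa [hst])) fun k => by
    have h1 := levHom_mul_sh_lvE (Q₀ := Q₀) hB hn _ hdet (i := p) one_ne_zero
      (by rw [hev, if_neg hlp.symm]) k
    rw [inv_one, one_smul] at h1
    rw [← apply_mul, h1, apply_mul, hfix]
  have hγ0 : γ ≠ 0 := fun h0 => he0 (R_injective R t (by rw [hγ, h0, zero_smul, map_zero]))
  rw [hω, char_eq_one_of_scale ω hc (fun d => ?_) x, one_smul]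
  have h1 := levHom_mul_sh_lvE (Q₀ := Q₀) hB hn _ hdet (i := l) (mul_ne_zero hc0 hc0)
    (by rw [hev, if_pos rfl]) ((c * c) • d)
  rw [inv_smul_smul₀ (mul_ne_zero hc0 hc0)] at h1
  have h2 := congrArg (fun g => R g e) h1
  simp only [apply_mul, hω, map_smul] at h2
  rw [show R t e = γ • e from hγ, map_smul, hω] at h2
  simp only [smul_smul] at h2
  have h3 := smul_left_injective ℂ he0 h2
  exact mul_right_cancel₀ hγ0 (by linear_combination h3)

/-- transvections from the first index into the second fix the line -/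
theorem IsLine.x_ps_fix (hq : 4 ≤ Fintype.card F) {B : Matrix (Fin n) (Fin n) F} {p s : Fin n}
    {e : V} (hb : Blk B p s) (he : IsLine R ψ B p e) (a : F) :
    R (xE Q₀ (show 2 ≤ n by omega) hb.1 a) e = e := by
  obtain ⟨ω, hω⟩ := he.x_scal_right R hn hB hb hb.1 (Or.inr ⟨rfl, rfl⟩) hb.1.symm
  obtain ⟨c, hc0, hc⟩ := exists_sq_ne_one (F := F) hq
  obtain ⟨γ, hγ0, hγ⟩ := he.hE_scal R hn hB hb hc0
  rw [hω, char_eq_one_of_scale ω hc (fun b => ?_) a, one_smul]
  have e1 : slE Q₀ (show 2 ≤ n by omega) (SLMin.hE p s c) * xE Q₀ (show 2 ≤ n by omega) hb.1 b =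
      xE Q₀ (show 2 ≤ n by omega) hb.1 (c * c * b) * slE Q₀ (show 2 ≤ n by omega) (SLMin.hE p s c) := by
    simp only [xE, ← map_mul, SLMin.transvection_eq_root, SLMin.hE_mul_root hb.1 hc0]
  have h2 := congrArg (fun g => R g e) e1
  simp only [apply_mul, hω, hγ, map_smul, smul_smul] at h2
  exact mul_left_cancel₀ hγ0 ((smul_left_injective ℂ he.2.1 h2).symm.trans (mul_comm _ _))

omit hn in
/-- the translates of the line form a basis of the weight space -/
theorem IsLine.exists_basis [Fintype W] (hψ : ψ.IsPrimitive) {B : Matrix (Fin n) (Fin n) F}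
    {p s : Fin n} {e : V} (hb : Blk B p s) (he : IsLine R ψ B p e)
    (hdim : finrank ℂ (ws R ψ B) = Nat.card W) :
    ∃ b : Basis W ℂ (ws R ψ B), ∀ d, (b d).1 = R (shE Q₀ s d) e := by
  classical
  set f : W → ws R ψ B := fun d => ⟨R (shE Q₀ s d) e, shE_mem_ws R s d he.1⟩
  have hli : LinearIndependent ℂ f := by
    rw [Fintype.linearIndependent_iff]
    intro g hg d₀
    have h0 : ∑ d, g d • R (shE Q₀ s d) e = 0 := by
      simpa [f] using congrArg Subtype.val hg
    have h1 : ∑ y : W, ψ (B s p * polar Q₀ y (-d₀)) •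
        R (shE Q₀ p y) (∑ d, g d • R (shE Q₀ s d) e) = 0 := by simp [h0]
    have h2 : ∀ d, ∑ y : W, ψ (B s p * polar Q₀ y (-d₀)) * (g d * ψ (B s p * polar Q₀ y d)) =
        if d = d₀ then (Fintype.card W : ℂ) * g d else 0 := fun d => by
      simp only [← mul_assoc, mul_right_comm _ (g d), ← Finset.sum_mul, ← AddChar.map_add_eq_mul,
        ← mul_add, ← polar_add_right, neg_add_eq_sub]
      split_ifs with hd
      · subst hd; simp
      · let φ : AddChar W ℂ :=
          { toFun := fun y => ψ (B s p * polar Q₀ y (d - d₀))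
            map_zero_eq_one' := by simp
            map_add_eq_mul' := fun a b => by rw [polar_add_left, mul_add, AddChar.map_add_eq_mul] }
        rw [show ∑ y : W, ψ (B s p * polar Q₀ y (d - d₀)) = 0 from
          AddChar.sum_eq_zero_of_ne_one (ψ := φ) fun h => hd (sub_eq_zero.1 ?_), zero_mul]
        refine shOp_eigen_injective hB hψ hb.sp_ne ?_
        funext y
        dsimp only
        rw [polar_zero_right, mul_zero, AddChar.map_zero_eq_one]
        exact DFunLike.congr_fun h y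
    simp only [map_sum, map_smul, Finset.smul_sum, (shE_two R hB hψ hb he _).2.1] at h1
    rw [Finset.sum_comm] at h1
    simp only [smul_smul, ← Finset.sum_smul] at h1
    simp only [h2, ite_smul, zero_smul, Finset.sum_ite_eq', Finset.mem_univ, if_true] at h1
    have h3 := (smul_eq_zero.1 h1).resolve_right fun h => he.2.1
      (R_injective R _ (h.trans (map_zero _).symm))
    exact (mul_eq_zero.1 h3).resolve_left (Nat.cast_ne_zero.2 Fintype.card_ne_zero)
  refine ⟨basisOfLinearIndependentOfCardEqFinrank hli (by rw [hdim, Nat.card_eq_fintype_card]),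
    fun d => ?_⟩
  rw [coe_basisOfLinearIndependentOfCardEqFinrank]

/-- the Levi elements of the two indices have determinant one on the weight space -/
theorem det_hE (hq : 4 ≤ Fintype.card F) {B : Matrix (Fin n) (Fin n) F} {p s : Fin n}
    (hb : Blk B p s) {c : F} (hc : c ≠ 0) :
    LinearMap.det ((R (slE Q₀ (show 2 ≤ n by omega) (SLMin.hE p s c))).restrict
      fun _ hv => slE_mem_ws R hn hB (hE_stab hb hc) hv : ws R ψ B →ₗ[ℂ] ws R ψ B) = 1 := by
  have h2 : 2 ≤ n := by omega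
  let K : Submonoid (SpecialLinearGroup (Fin n) F) :=
    { carrier := {g | ∀ v ∈ ws R ψ B, R (slE Q₀ h2 g) v ∈ ws R ψ B}
      one_mem' := fun v hv => by rwa [map_one, map_one]
      mul_mem' := fun {a b} ha hb' v hv => by rw [map_mul, apply_mul]; exact ha _ (hb' v hv) }
  let ρ : K →* Module.End ℂ (ws R ψ B) :=
    { toFun := fun g => (R (slE Q₀ h2 g.1)).restrict g.2
      map_one' := LinearMap.ext fun v => Subtype.ext (by simp)
      map_mul' := fun g g' => LinearMap.ext fun v => Subtype.ext (by simp [Module.End.mul_apply]) }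
  let Δ : K →* ℂ := LinearMap.det.comp ρ
  have hH : ∀ {x : F}, x ≠ 0 → SLMin.hE p s x ∈ K := fun hx v hv =>
    slE_mem_ws R hn hB (hE_stab hb hx) hv
  have hP : ∀ a, SLMin.root p s a ∈ K := fun a v hv => by
    rw [← SLMin.transvection_eq_root hb.1]
    exact xE_mem_ws R hn hB hb hb.1 (Or.inr ⟨rfl, rfl⟩) a hv
  have hS : ∀ a, SLMin.root s p a ∈ K := fun a v hv => by
    rw [← SLMin.transvection_eq_root hb.1.symm]
    exact xE_mem_ws R hn hB hb.symm hb.1.symm (Or.inr ⟨rfl, rfl⟩) a hv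
  obtain ⟨x, hx0, hx⟩ := exists_sq_ne_one (F := F) hq
  have hroot : ∀ (r : F → K) (k : F), k ≠ 1 → (∀ a b, r (a + b) = r a * r b) →
      (∀ a, (⟨_, hH hx0⟩ : K) * r a = r (k * a) * ⟨_, hH hx0⟩) → ∀ a, Δ (r a) = 1 := by
    intro r k hk hadd hconj
    have h0 : r 0 = 1 := by
      have h := congrArg Subtype.val (hadd 0 0)
      rw [add_zero, Submonoid.coe_mul] at h
      exact Subtype.ext (left_eq_mul.1 h)
    let φ : AddChar F ℂ :=
      { toFun := fun a => Δ (r a)
        map_zero_eq_one' := by rw [h0, map_one]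
        map_add_eq_mul' := fun a b => by rw [hadd, map_mul] }
    refine fun a => char_eq_one_of_scale φ hk (fun b => ?_) a
    have h := congrArg Δ (hconj b)
    rw [map_mul, map_mul, mul_comm] at h
    have hne : Δ ⟨_, hH hx0⟩ ≠ 0 := by
      have e : (⟨_, hH hx0⟩ : K) * ⟨_, hH (inv_ne_zero hx0)⟩ = 1 := Subtype.ext (by
        change SLMin.hE p s x * SLMin.hE p s x⁻¹ = 1
        rw [SLMin.hE_mul hb.1 hx0 (inv_ne_zero hx0), mul_inv_cancel₀ hx0, SLMin.hE_one hb.1])
      intro h0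
      have h' := congrArg Δ e
      rw [map_mul, h0, zero_mul, map_one] at h'
      exact zero_ne_one h'
    exact (mul_right_cancel₀ hne h).symm
  have hP1 : ∀ a, Δ ⟨_, hP a⟩ = 1 := hroot (fun a => ⟨_, hP a⟩) (x * x) hx
    (fun a b => Subtype.ext (SLMin.root_add hb.1 a b))
    fun a => Subtype.ext (SLMin.hE_mul_root hb.1 hx0 a)
  have hS1 : ∀ a, Δ ⟨_, hS a⟩ = 1 := hroot (fun a => ⟨_, hS a⟩) (x * x)⁻¹
    (fun h => hx (inv_eq_one.1 h))
    (fun a b => Subtype.ext (SLMin.root_add hb.1.symm a b)) fun a => Subtype.ext (by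
      change SLMin.hE p s x * SLMin.root s p a = SLMin.root s p _ * SLMin.hE p s x
      have e : SLMin.hE p s x = SLMin.hE s p x⁻¹ := by
        rw [← SLMin.hE_swap hb.1 (inv_ne_zero hx0), SLMin.hE_inv hb.1 (inv_ne_zero hx0),
          inv_inv]
      rw [e, SLMin.hE_mul_root hb.1.symm (inv_ne_zero hx0), mul_inv])
  have e : (⟨_, hH hc⟩ : K) = ⟨_, hP c⟩ * ⟨_, hS (-c⁻¹)⟩ * ⟨_, hP c⟩ *
      (⟨_, hP (-1)⟩ * ⟨_, hS (-(-1)⁻¹)⟩ * ⟨_, hP (-1)⟩) := Subtype.ext rfl
  change Δ ⟨_, hH hc⟩ = 1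
  rw [e]
  simp only [map_mul, hP1, hS1, one_mul]

end Cfsg.Agent.MinDeg.Orth
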