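import Cfsg.Agent.Classical.OrthFinal

/-!
Pairs spanning a totally singular plane: transitivity of the isometry group and their number.
-/

set_option autoImplicit false
set_option linter.unusedSectionVars false

namespace Cfsg.Agent.MinDeg.Orth

open QuadraticMap Cfsg.Agent.Classical

universe u w w'

variable {F : Type u} [Field F] {V : Type w} [AddCommGroup V] [Module F V]

/-- ordered bases of totally singular planes -/
def IsTS (Q : QuadraticForm F V) (p : V × V) : Prop :=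
  Q p.1 = 0 ∧ Q p.2 = 0 ∧ polar Q p.1 p.2 = 0 ∧ p.1 ≠ 0 ∧ ∀ c : F, p.2 ≠ c • p.1

theorem IsTS.map {Q : QuadraticForm F V} {p : V × V} (h : IsTS Q p) (g : OQ Q) :
    IsTS Q (g.1 p.1, g.1 p.2) := by
  obtain ⟨h1, h2, h3, h4, h5⟩ := h
  refine ⟨by simp [h1], by simp [h2], by rw [OQ_polar, h3],
    fun h => h4 (g.1.map_eq_zero_iff.1 h), fun c hc => h5 c (g.1.injective ?_)⟩
  rw [map_smul]
  exact hc

theorem IsTS.map_iff {Q : QuadraticForm F V} {p : V × V} (g : OQ Q) :
    IsTS Q (g.1 p.1, g.1 p.2) ↔ IsTS Q p := by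
  refine ⟨fun h => ?_, fun h => h.map g⟩
  have := h.map g⁻¹
  simpa using this

section HypAdd

variable {R : QuadraticForm F V}

/-- the standard pair is moved to any other -/
theorem exists_map_std (hR : QNondeg R) {z : V} (hz : R z = 0) (hz0 : z ≠ 0)
    {p : ((F × F) × V) × ((F × F) × V)} (hp : IsTS (hypAdd R) p) :
    ∃ g : OQ (hypAdd R), g.1 p.1 = hE F V ∧ g.1 p.2 = (((0, 0), z) : (F × F) × V) := by
  obtain ⟨g₁, hg₁⟩ := OQ_transitive_singular (qNondeg_hypAdd hR) hp.2.2.2.1 hp.1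
    (isPair_hypAdd R).ne_zero (isPair_hypAdd R).1
  obtain ⟨h1, h2, h3, -, h5⟩ := hp.map g₁
  dsimp only at h1 h2 h3 h5
  rw [hg₁] at h1 h3 h5
  generalize ha : g₁.1 p.2 = a at h2 h3 h5
  obtain ⟨⟨α, β⟩, a'⟩ := a
  obtain rfl : β = 0 := by simpa using h3
  have ha' : a' ≠ 0 := by
    rintro rfl
    exact h5 α (by simp)
  have ha'0 : R a' = 0 := by simpa using h2
  obtain ⟨h, hh⟩ := OQ_transitive_singular hR ha' ha'0 hz0 hz
  obtain ⟨f, hf⟩ := exists_polar_one hR hz0 hz
  have hb : polar (hypAdd R) (hE F V) (((0, 0), α • f) : (F × F) × V) = 0 := by simp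
  refine ⟨siegel (hypAdd R) (isPair_hypAdd R).1 hb * (hypLift R h * g₁), ?_, ?_⟩
  · simp only [Subgroup.coe_mul, LinearEquiv.mul_apply, hg₁]
    simp
  · simp only [Subgroup.coe_mul, LinearEquiv.mul_apply, ha]
    simp [hh, hz, polar_comm R f z, hf, Prod.mk_zero_zero]

variable [Finite F] [Finite V]

theorem card_isTS_hypAdd (hR : QNondeg R) :
    Nat.card {p // IsTS (hypAdd R) p} =
      (Nat.card {x // hypAdd R x = 0} - 1) * (Nat.card F * (Nat.card {x // R x = 0} - 1)) := by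
  classical
  set V' := (F × F) × V
  have e1 : {p // IsTS (hypAdd R) p} ≃
      Σ u : {u : V' // hypAdd R u = 0 ∧ u ≠ 0}, {a : V' // IsTS (hypAdd R) (u.1, a)} :=
    { toFun := fun p => ⟨⟨p.1.1, p.2.1, p.2.2.2.2.1⟩, ⟨p.1.2, p.2⟩⟩
      invFun := fun x => ⟨(x.1.1, x.2.1), x.2.2⟩
      left_inv := fun p => rfl
      right_inv := fun x => rfl }
  have e2 : ∀ u : {u : V' // hypAdd R u = 0 ∧ u ≠ 0},
      Nat.card {a : V' // IsTS (hypAdd R) (u.1, a)} =
        Nat.card (F × {z : V // R z = 0 ∧ z ≠ 0}) := by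
    intro u
    obtain ⟨g, hg⟩ := OQ_transitive_singular (qNondeg_hypAdd hR) u.2.2 u.2.1
      (isPair_hypAdd R).ne_zero (isPair_hypAdd R).1
    refine (Nat.card_congr (g.1.toEquiv.subtypeEquiv (q := fun a => IsTS (hypAdd R) (hE F V, a))
      fun a => ?_)).trans (Nat.card_congr ?_)
    · conv_lhs => rw [← IsTS.map_iff g, hg]
      rfl
    · exact
      { toFun := fun a => (a.1.1.1, ⟨a.1.2, by
          obtain ⟨⟨⟨α, β⟩, a'⟩, -, h2, h3, -, h5⟩ := a
          obtain rfl : β = 0 := by simpa using h3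
          refine ⟨by simpa using h2, fun h => h5 α ?_⟩
          dsimp only at h
          subst h
          simp⟩)
        invFun := fun x => ⟨((x.1, 0), x.2.1), by
          refine ⟨(isPair_hypAdd R).1, by simp [x.2.2.1], by simp, (isPair_hypAdd R).ne_zero,
            fun c hc => x.2.2.2 ?_⟩
          have := congrArg Prod.snd hc
          simpa using this⟩
        left_inv := fun a => by
          obtain ⟨⟨⟨α, β⟩, a'⟩, -, -, h3, -, -⟩ := a
          obtain rfl : β = 0 := by simpa using h3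
          rfl
        right_inv := fun x => rfl }
  have hcntV : Nat.card {x : V' // hypAdd R x = 0 ∧ x ≠ 0} =
      Nat.card {x : V' // hypAdd R x = 0} - 1 := by
    letI := Fintype.ofFinite V'
    simp only [Nat.card_eq_fintype_card, Fintype.card_subtype]
    rw [← Finset.card_erase_of_mem (s := Finset.univ.filter fun x : V' => hypAdd R x = 0) (a := 0) (by simp)]
    congr 1
    ext x
    simp [and_comm]
  have hcnt : Nat.card {x : V // R x = 0 ∧ x ≠ 0} = Nat.card {x : V // R x = 0} - 1 := by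
    letI := Fintype.ofFinite V
    simp only [Nat.card_eq_fintype_card, Fintype.card_subtype]
    rw [← Finset.card_erase_of_mem (s := Finset.univ.filter fun x : V => R x = 0) (a := 0) (by simp)]
    congr 1
    ext x
    simp [and_comm]
  letI : Fintype {u : V' // hypAdd R u = 0 ∧ u ≠ 0} := Fintype.ofFinite _
  rw [Nat.card_congr e1, Nat.card_sigma, Finset.sum_congr rfl fun u _ => e2 u, Finset.sum_const,
    Finset.card_univ, smul_eq_mul, ← Nat.card_eq_fintype_card, Nat.card_prod]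
  congr 1
  rw [hcnt]

end HypAdd

section Congr

variable {X : Type w'} [AddCommGroup X] [Module F X] {Q : QuadraticForm F X}
  {R : QuadraticForm F V} (e : X ≃ₗ[F] V) (h : ∀ v, R (e v) = Q v)

include h

theorem isTS_congr (p : X × X) : IsTS R (e p.1, e p.2) ↔ IsTS Q p := by
  have hp : polar R (e p.1) (e p.2) = polar Q p.1 p.2 := by simp [polar, ← map_add, h]
  simp only [IsTS, h, hp, ne_eq, LinearEquiv.map_eq_zero_iff, ← map_smul, e.injective.eq_iff]

theorem card_isTS_congr : Nat.card {p // IsTS Q p} = Nat.card {p // IsTS R p} :=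
  Nat.card_congr ((Equiv.prodCongr e.toEquiv e.toEquiv).subtypeEquiv fun p =>
    (isTS_congr e h p).symm)

end Congr

variable {W : Type w} [AddCommGroup W] [Module F W] {Q₀ : QuadraticForm F W}

/-- the isometry group is transitive on these pairs -/
theorem exists_map_pair (m : ℕ) (hQ : QNondeg Q₀)
    {p p' : HypSpace F (m + 1) W × HypSpace F (m + 1) W}
    (hp : IsTS (hypExt (m + 1) Q₀) p) (hp' : IsTS (hypExt (m + 1) Q₀) p')
    (hz : ∃ z, hypExt m Q₀ z = 0 ∧ z ≠ 0) :
    ∃ g : OQ (hypExt (m + 1) Q₀), g.1 p.1 = p'.1 ∧ g.1 p.2 = p'.2 := by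
  obtain ⟨z, hz1, hz2⟩ := hz
  have hs := hypSplit_spec (F := F) m Q₀
  have hR : QNondeg (hypExt m Q₀) := qNondeg_hypExt m hQ
  obtain ⟨g, g1, g2⟩ := exists_map_std hR hz1 hz2 ((isTS_congr (hypSplit m) hs p).2 hp)
  obtain ⟨g', g1', g2'⟩ := exists_map_std hR hz1 hz2 ((isTS_congr (hypSplit m) hs p').2 hp')
  refine ⟨(OQCongr (hypSplit m) hs).symm (g'⁻¹ * g), ?_, ?_⟩
  · change (hypSplit m).symm ((g'⁻¹ * g).1 (hypSplit m p.1)) = p'.1
    rw [Subgroup.coe_mul, LinearEquiv.mul_apply, g1, ← g1']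
    simp
  · change (hypSplit m).symm ((g'⁻¹ * g).1 (hypSplit m p.2)) = p'.2
    rw [Subgroup.coe_mul, LinearEquiv.mul_apply, g2, ← g2']
    simp

theorem card_isTS (m : ℕ) (hQ : QNondeg Q₀) [Finite F] [Finite W] :
    Nat.card {p // IsTS (hypExt (m + 1) Q₀) p} =
      (Nat.card {x // hypExt (m + 1) Q₀ x = 0} - 1) *
        (Nat.card F * (Nat.card {x // hypExt m Q₀ x = 0} - 1)) := by
  rw [card_isTS_congr (hypSplit m) (hypSplit_spec m Q₀), card_isTS_hypAdd (qNondeg_hypExt m hQ),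
    ← card_zeros_congr (hypSplit m) (hypSplit_spec m Q₀)]

end Cfsg.Agent.MinDeg.Orth
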