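import Cfsg.Agent.MinDeg.OrthTrace
import Cfsg.Agent.MinDeg.OrthPairs
import Cfsg.Agent.Char.Integrality

/-!
The case of equality does not occur for the plus type: the class of a long root element would give
a forbidden divisibility.
-/

set_option autoImplicit false
set_option linter.unusedSectionVars false

namespace Cfsg.Agent.MinDeg.Orth

open QuadraticMap Cfsg.Agent.Classical Matrix Cfsg.Agent.Weights Module

universe u w v

variable {F : Type u} [Field F] [Fintype F]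

/-- `K ∣ (K - x) · y` from `K ∣ x · y` -/
theorem dvd_sub_trade {K x y : ℤ} (h : K ∣ x * y) : K ∣ (K - x) * y := by
  rw [sub_mul]
  exact dvd_sub (dvd_mul_right _ _) h

theorem plus_arith {q : ℤ} (hq : 4 ≤ q) {n : ℕ} (hn : 4 ≤ n) {k : ℤ}
    (hk : k * (q ^ 2 - 1) = (q ^ (n - 1) - 1) * (q ^ n + q ^ 2 + q - 1))
    (hdvd : k ∣ ((q ^ n - 1) * (q ^ (n - 1) + 1)) *
      (q * ((q ^ (n - 1) - 1) * (q ^ (n - 2) + 1))) * q ^ (2 * n - 3)) : False := by
  obtain ⟨m, rfl⟩ : ∃ m, n = m + 4 := ⟨n - 4, by omega⟩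
  rw [show m + 4 - 1 = m + 3 from rfl] at hk hdvd
  rw [show m + 4 - 2 = m + 2 from rfl] at hdvd
  set K := q ^ (m + 4) + q ^ 2 + q - 1 with hK
  set A := q ^ (m + 4) - 1 with hA
  set B := q ^ (m + 3) + 1 with hB
  set C := q ^ (m + 2) + 1 with hC
  have h1 : (q ^ (m + 3) - 1) ≠ 0 := by
    have : q ^ 1 ≤ q ^ (m + 3) := pow_le_pow_right₀ (by omega) (by omega)
    rw [pow_one] at this
    omega
  have h2 : K ∣ (q ^ 2 - 1) * A * B * C * q ^ (2 * (m + 4) - 2) := by
    obtain ⟨t, ht⟩ := hdvd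
    refine ⟨t, mul_left_cancel₀ h1 ?_⟩
    rw [show 2 * (m + 4) - 3 = 2 * m + 5 by omega] at ht
    rw [show 2 * (m + 4) - 2 = (2 * m + 5) + 1 by omega, pow_succ]
    linear_combination (q ^ 2 - 1) * ht + t * hk
  have hco : IsCoprime K q := ⟨-1, q ^ (m + 3) + q + 1, by rw [hK]; ring⟩
  have h3 : K ∣ (q ^ 2 - 1) * A * B * C := hco.pow_right.dvd_of_dvd_mul_right h2
  have h4 : K ∣ (q + 1) * ((q ^ 2 - 1) * B * C) := by
    have := dvd_sub_trade (show K ∣ A * ((q ^ 2 - 1) * B * C) from by convert h3 using 1; ring)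
    rw [show K - A = q * (q + 1) by rw [hK, hA]; ring, mul_assoc] at this
    exact hco.dvd_of_dvd_mul_left this
  have h5 : K ∣ (q ^ 2 - 1) * ((q + 1) * ((q ^ 2 - 1) * C)) := by
    have := dvd_sub_trade (show K ∣ (q * B) * ((q + 1) * ((q ^ 2 - 1) * C)) from by
      rw [show q * B * ((q + 1) * ((q ^ 2 - 1) * C)) = q * ((q + 1) * ((q ^ 2 - 1) * B * C)) by ring]
      exact dvd_mul_of_dvd_right h4 q)
    rwa [show K - q * B = q ^ 2 - 1 by rw [hK, hB]; ring] at this
  have h6 : K ∣ (q - 1) * ((q ^ 2 - 1) * ((q + 1) * (q ^ 2 - 1))) := by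
    have := dvd_sub_trade (show K ∣ (q ^ 2 * C) * ((q ^ 2 - 1) * ((q + 1) * (q ^ 2 - 1))) from by
      rw [show q ^ 2 * C * ((q ^ 2 - 1) * ((q + 1) * (q ^ 2 - 1))) =
        q ^ 2 * ((q ^ 2 - 1) * ((q + 1) * ((q ^ 2 - 1) * C))) by ring]
      exact dvd_mul_of_dvd_right h5 (q ^ 2))
    rwa [show K - q ^ 2 * C = q - 1 by rw [hK, hC]; ring] at this
  have h7 : K ∣ (q ^ 2 - 1) ^ 3 := by convert h6 using 1; ring
  have hq2 : 16 ≤ q ^ 2 := by nlinarith
  rcases (show m = 0 ∨ m = 1 ∨ 2 ≤ m by omega) with rfl | rfl | hm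
  · have h8 : K ∣ q ^ 3 - 8 * q ^ 2 - 4 * q + 5 := by
      have := dvd_sub (dvd_mul_left K (q ^ 2 - 4)) h7
      have e : (q ^ 2 - 4) * K - (q ^ 2 - 1) ^ 3 = q ^ 3 - 8 * q ^ 2 - 4 * q + 5 := by
        rw [hK]; ring
      rwa [e] at this
    have hne : q ^ 3 - 8 * q ^ 2 - 4 * q + 5 ≠ 0 := by
      intro h0
      have h5' : q ∣ 5 := ⟨-(q ^ 2 - 8 * q - 4), by linear_combination h0⟩
      have : q ≤ 5 := Int.le_of_dvd (by norm_num) h5'
      interval_cases q <;> norm_num at h0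
    have h9 := Int.le_of_dvd (abs_pos.2 hne) ((dvd_abs _ _).2 h8)
    rcases abs_choice (q ^ 3 - 8 * q ^ 2 - 4 * q + 5) with h | h <;>
      · rw [h, hK] at h9
        norm_num at h9
        nlinarith [mul_le_mul_of_nonneg_left hq (show 0 ≤ q ^ 3 by positivity)]
  · obtain ⟨t, ht⟩ := h7
    rw [hK] at ht
    norm_num at ht
    have ht1 : 0 < t := by
      by_contra hneg
      nlinarith [pow_pos (show 0 < q ^ 2 - 1 by omega) 3, pow_pos (show 0 < q by omega) 5]
    have ht2 : t < q := by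
      by_contra hge
      rw [not_lt] at hge
      have hKpos : 0 ≤ q ^ 5 + q ^ 2 + q - 1 := by nlinarith [pow_pos (show 0 < q by omega) 5]
      nlinarith [mul_le_mul_of_nonneg_right hge hKpos, pow_pos (show 0 < q by omega) 4,
        pow_pos (show 0 < q by omega) 3]
    have hdq : q ∣ t - 1 := ⟨(q ^ 4 + q + 1) * t - (q ^ 5 - 3 * q ^ 3 + 3 * q), by linear_combination ht⟩
    obtain rfl : t = 1 := by
      by_contra hne
      have := Int.le_of_dvd (by omega) hdq
      omega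
    nlinarith [mul_le_mul_of_nonneg_left hq2 (show 0 ≤ q ^ 4 by positivity),
      pow_pos (show 0 < q by omega) 4, mul_le_mul_of_nonneg_left hq (show 0 ≤ q ^ 5 by positivity)]
  · have h9 := Int.le_of_dvd (pow_pos (by omega) 3) h7
    have h10 : q ^ 6 ≤ q ^ (m + 4) := pow_le_pow_right₀ (by omega) (by omega)
    rw [hK] at h9
    nlinarith [mul_le_mul_of_nonneg_left hq2 (show 0 ≤ q ^ 2 by positivity)]

variable {n : ℕ} {k : ℕ}

set_option maxHeartbeats 1000000 in
/-- an irreducible representation has more than the degree of equality -/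
theorem plus_not_tight (hn : 4 ≤ n) (hq : 4 ≤ Fintype.card F) (Q₀ : QuadraticForm F (Fin 0 → F))
    (σ : Representation ℂ (Om Q₀ n) (Fin k → ℂ))
    (hσ : Representation.IsIrreducible σ) (hnt : ∃ g, σ g ≠ 1)
    (heq : k + 1 = (wedges F n).card + geo (Fintype.card F) n) : False := by
  classical
  have hQ₀ : Q₀ = 0 := QuadraticMap.ext fun v => by rw [Subsingleton.elim v 0, QuadraticMap.map_zero, QuadraticMap.map_zero]
  have hB : BNondeg Q₀ := hQ₀ ▸ goodCore_zero.nondeg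
  have hW : Nat.card (Fin 0 → F) = 1 := by simp
  obtain ⟨ψ, hψ⟩ := SLMin.exists_primitive F
  have hex : (n, Fintype.card F) ≠ (3, 4) := fun h => by simp only [Prod.mk.injEq] at h; omega
  have hdim : ∀ R : Om Q₀ n →* Module.End ℂ (Fin k → ℂ),
      finrank ℂ (Fin k → ℂ) + 1 = Nat.card (Fin 0 → F) * (wedges F n).card + geo (Fintype.card F) n := by
    intro R
    rw [Module.finrank_fin_fun, hW, one_mul, heq]
  -- the trace at every element of the class
  set q := Fintype.card F with hqdef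
  set i : Fin n := ⟨0, by omega⟩
  set j : Fin n := ⟨1, by omega⟩
  have hij : i ≠ j := by simp [i, j, Fin.ext_iff]
  have htr : ∀ t : OQ (hypExt n Q₀),
      σ.character (conjE Q₀ t (zE Q₀ (Matrix.single j i 1))) = (k : ℂ) - (q : ℂ) ^ (2 * n - 3) := by
    intro t
    set R : Om Q₀ n →* Module.End ℂ (Fin k → ℂ) := conjRep σ t
    have hnt' : ∃ g, R g ≠ 1 := by
      obtain ⟨g, hg⟩ := hnt
      exact ⟨(conjE Q₀ t).symm g, fun h => hg (by simpa [R, conjRep] using h)⟩
    obtain ⟨-, -, hm, hfull⟩ := tight R (by omega) hB hq hex hnt' hψ (hdim R)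
    have h := trace_zE R hψ hm hfull (Matrix.single j i 1)
    rw [sum_one_sub_chiM hψ (by omega) hij one_ne_zero, hW, Module.finrank_fin_fun, Nat.cast_one,
      one_mul] at h
    exact h
  -- the weight function: pairs over an element
  have : Finite (HypSpace F n (Fin 0 → F)) := inferInstance
  haveI : Finite (OQ (hypExt n Q₀)) :=
    Finite.of_injective (fun g : OQ (hypExt n Q₀) => (g.1 : HypSpace F n (Fin 0 → F) → HypSpace F n (Fin 0 → F)))
      fun a b h => Subtype.ext (LinearEquiv.ext (congrFun h))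
  letI := Fintype.ofFinite {p // IsTS (hypExt n Q₀) p}
  letI := Fintype.ofFinite (Om Q₀ n)
  set sE : {p // IsTS (hypExt n Q₀) p} → Om Q₀ n := fun p =>
    ⟨siegel _ p.2.1 p.2.2.2.1, siegel_mem_EQ _ p.2.1 p.2.2.2.1⟩
  let act : OQ (hypExt n Q₀) → {p // IsTS (hypExt n Q₀) p} ≃ {p // IsTS (hypExt n Q₀) p} := fun g =>
    (Equiv.prodCongr g.1.toEquiv g.1.toEquiv).subtypeEquiv fun p => (IsTS.map_iff g).symm
  have hact : ∀ (g : Om Q₀ n) p, sE (act g.1 p) = g * sE p * g⁻¹ := fun g p =>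
    Subtype.ext (siegel_conj (hypExt n Q₀) g.1 p.2.1 p.2.2.2.1).symm
  let w : Om Q₀ n → ℤ := fun g => ((Finset.univ.filter fun p => sE p = g).card : ℤ)
  have hw : ∀ g h : Om Q₀ n, w (h * g * h⁻¹) = w g := by
    intro g h
    simp only [w, Nat.cast_inj]
    refine Finset.card_equiv (act h.1).symm fun p => ?_
    simp only [Finset.mem_filter, Finset.mem_univ, true_and]
    have e := hact h ((act h.1).symm p)
    rw [Equiv.apply_symm_apply] at e
    rw [e]
    exact ⟨fun h' => mul_left_cancel (mul_right_cancel h'), fun h' => by rw [h']⟩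
  -- transitivity
  obtain ⟨m, rfl⟩ : ∃ m, n = m + 1 := ⟨n - 1, by omega⟩
  have hp₀ : IsTS (hypExt (m + 1) Q₀) (mk (ev i) 0 0, mk ((1 : F) • ev j) 0 0) := by
    refine ⟨sh_singular Q₀ i, by simp [hypExt_eq, hQ₀], by rw [polar_hypExt, hQ₀]; simp [polar],
      fun h => by simpa using congrArg (fun v => cx v i) h, fun c hc => ?_⟩
    have := congrArg (fun v => cx v j) hc
    simp [hij.symm] at this
  have hz : ∃ z, hypExt m Q₀ z = 0 ∧ z ≠ 0 :=
    ⟨mk (ev ⟨0, by omega⟩) 0 0, sh_singular Q₀ _, fun h => by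
      simpa using congrArg (fun v => cx v (⟨0, by omega⟩ : Fin m)) h⟩
  have hchar : ∀ p, σ.character (sE p) = (k : ℂ) - (q : ℂ) ^ (2 * (m + 1) - 3) := by
    intro p
    obtain ⟨g, g1, g2⟩ := exists_map_pair m hB.qNondeg hp₀ p.2 hz
    have e : sE p = conjE Q₀ g (zE Q₀ (Matrix.single j i 1)) := Subtype.ext (by
      rw [conjE_coe, zE_coe, siegel_ee Q₀ i j hij, siegel_conj]
      show siegel _ p.2.1 p.2.2.2.1 = _
      exact siegel_congr _ _ _ _ _ g1.symm g2.symm)
    rw [e, htr g]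
  have hsum : ∑ g : Om Q₀ (m + 1), (w g : ℂ) * σ.character g =
      (Fintype.card {p // IsTS (hypExt (m + 1) Q₀) p} : ℂ) *
        ((k : ℂ) - (q : ℂ) ^ (2 * (m + 1) - 3)) := by
    calc ∑ g : Om Q₀ (m + 1), (w g : ℂ) * σ.character g
        = ∑ g : Om Q₀ (m + 1), ∑ p ∈ Finset.univ.filter (fun p => sE p = g), σ.character (sE p) :=
          Finset.sum_congr rfl fun g _ => by
            rw [Finset.sum_congr rfl fun p hp => by rw [(Finset.mem_filter.1 hp).2], Finset.sum_const,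
              nsmul_eq_mul]
            simp [w]
      _ = ∑ p, σ.character (sE p) := Finset.sum_fiberwise _ _ _
      _ = _ := by
        rw [Finset.sum_congr rfl fun p _ => hchar p, Finset.sum_const, Finset.card_univ, nsmul_eq_mul]
  have hint := @Char.isIntegral_sum_mul_character_div _ _ _ _ _ _ _ σ hσ w hw
  rw [hsum, Module.finrank_fin_fun] at hint
  set P := Fintype.card {p // IsTS (hypExt (m + 1) Q₀) p} with hP
  have hk : k ≠ 0 := by
    have := geo_le_card_wedges (F := F) (show 3 ≤ m + 1 by omega)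
    have hg : 2 ≤ geo q (m + 1) := by
      refine le_trans ?_ (Finset.sum_le_sum_of_subset (show Finset.range 2 ⊆ Finset.range (m + 1) from
        Finset.range_subset_range.2 (by omega)))
      simp [Finset.sum_range_succ]
      omega
    omega
  have hdvd : k ∣ P * q ^ (2 * (m + 1) - 3) := by
    apply Char.dvd_of_isIntegral_div hk
    have h2 := (Char.isIntegral_of_nat P).sub hint
    have hk' : (k : ℂ) ≠ 0 := Nat.cast_ne_zero.2 hk
    have e : ((P * q ^ (2 * (m + 1) - 3) : ℕ) : ℂ) / k =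
        (P : ℂ) - (P : ℂ) * ((k : ℂ) - (q : ℂ) ^ (2 * (m + 1) - 3)) / k := by
      push_cast
      field_simp
      ring
    rw [e]
    exact h2
  -- the count
  have hPc : P = (Nat.card {x // hypExt (m + 1) Q₀ x = 0} - 1) *
      (Nat.card F * (Nat.card {x // hypExt m Q₀ x = 0} - 1)) := by
    rw [hP, ← Nat.card_eq_fintype_card]
    exact card_isTS m hB.qNondeg
  obtain ⟨l, rfl⟩ : ∃ l, m = l + 1 := ⟨m - 1, by omega⟩
  rw [hQ₀] at hPc
  have hz1 := card_zeros_hypExt_plus (F := F) (l + 1)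
  have hz2 := card_zeros_hypExt_plus (F := F) l
  rw [Nat.card_eq_fintype_card (α := F), ← hqdef] at hz1 hz2 hPc
  set Z1 := Nat.card {x // hypExt (l + 1 + 1) (0 : QuadraticForm F (Fin 0 → F)) x = 0}
  set Z2 := Nat.card {x // hypExt (l + 1) (0 : QuadraticForm F (Fin 0 → F)) x = 0}
  have hq0 : 1 ≤ q := by omega
  have a1 : 1 ≤ Z1 := Nat.one_le_iff_ne_zero.2 (Nat.card_ne_zero.2 ⟨⟨0, map_zero _⟩, inferInstance⟩)
  have a2 : 1 ≤ Z2 := Nat.one_le_iff_ne_zero.2 (Nat.card_ne_zero.2 ⟨⟨0, map_zero _⟩, inferInstance⟩)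
  zify [a1, a2] at hPc
  zify at hz1 hz2
  have hN := card_wedges_sq (F := F) (show 1 ≤ l + 1 + 1 by omega)
  have hg := geo_mul q (l + 1 + 1) hq0
  zify [hq0] at hg
  zify at heq
  rw [← hqdef] at hN
  set Q : ℤ := (q : ℤ) with hQdef
  refine plus_arith (q := Q) (by simp only [hQdef]; exact_mod_cast hq) hn (k := (k : ℤ)) ?_ ?_
  · simp only [show l + 1 + 1 - 1 = l + 1 from rfl] at hN ⊢
    linear_combination (Q ^ 2 - 1) * heq + hN + (Q + 1) * hg
  · have hd : (k : ℤ) ∣ (P : ℤ) * Q ^ (2 * (l + 1 + 1) - 3) := by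
      simpa [hQdef] using Int.natCast_dvd_natCast.2 hdvd
    convert hd using 2
    rw [hPc]
    have e1 : (Z1 : ℤ) - 1 = (Q ^ (l + 1 + 1) - 1) * (Q ^ (l + 1) + 1) := by
      linear_combination hz1
    have e2 : (Z2 : ℤ) - 1 = (Q ^ (l + 1) - 1) * (Q ^ l + 1) := by
      linear_combination hz2
    rw [e1, e2]
    simp

end Cfsg.Agent.MinDeg.Orth
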