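import Cfsg.Agent.MinDeg.OrthSub

/-!
Relations between transvections of the Levi part and short radical elements; short radical elements
at an arbitrary vector; isometries of the anisotropic part.
-/

set_option autoImplicit false
set_option linter.unusedSectionVars false

namespace Cfsg.Agent.MinDeg.Orth

open QuadraticMap Cfsg.Agent.Classical Matrix

universe u w

variable {F : Type u} [Field F] {n : ℕ} {W : Type w} [AddCommGroup W] [Module F W]
  (Q₀ : QuadraticForm F W)

theorem slHom_mul_sh {i j : Fin n} (hij : i ≠ j) (a : F) (d : W) :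
    slHom Q₀ (SpecialLinearGroup.transvection hij a) * sh Q₀ j d =
      zS Q₀ (Matrix.single j i (a * Q₀ d)) *
        (sh Q₀ j d * (sh Q₀ i (a • d) * slHom Q₀ (SpecialLinearGroup.transvection hij a))) :=
  oq_ext Q₀ fun v => by
  simp only [Subgroup.coe_mul, LinearEquiv.mul_apply]
  simp only [slHom_apply, SpecialLinearGroup.transvection_inv hij a,
    SpecialLinearGroup.transvection_coe, zS_apply, sh_apply, cx_mk, cy_mk, snd_mk,
    Matrix.sub_mulVec, Matrix.add_mulVec, Matrix.one_mulVec, Matrix.transpose_add,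
    Matrix.transpose_one, Matrix.transpose_single, Matrix.single_mulVec, polar_add_right,
    polar_smul_right, polar_smul_left, polar_self, QuadraticMap.map_smul, smul_eq_mul, smul_smul]
  ext x
  · simp [Pi.single_apply, Function.update_apply]
    rcases eq_or_ne x i with rfl | hxi
    · simp [hij, hij.symm]; ring
    · rcases eq_or_ne x j with rfl | hxj
      · simp [hxi, hij, hij.symm]; ring
      · simp [hxi, hxj]
  · simp [Pi.single_apply, Function.update_apply]
  · simp [Pi.single_apply, Function.update_apply, hij, hij.symm]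
    module

theorem slHom_mul_sh_comm {i j r : Fin n} (hij : i ≠ j) (hr : r ≠ j) (a : F) (d : W) :
    slHom Q₀ (SpecialLinearGroup.transvection hij a) * sh Q₀ r d =
      sh Q₀ r d * slHom Q₀ (SpecialLinearGroup.transvection hij a) := by
  have h := levHom_mul_sh Q₀ (SpecialLinearGroup.toGL (SpecialLinearGroup.transvection hij a))
    (i := r) (c := 1) (by
      rw [one_smul]
      ext x
      simp [SpecialLinearGroup.transvection_coe, Matrix.add_mulVec, Matrix.single_mulVec, ev,
        Pi.single_apply, Matrix.one_apply, hr.symm]) d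
  rwa [one_smul] at h

theorem transvection_comm {i l j : Fin n} (hil : i ≠ l) (hlj : l ≠ j) (hij : i ≠ j) (a b : F) :
    SpecialLinearGroup.transvection hil a * SpecialLinearGroup.transvection hlj b =
      SpecialLinearGroup.transvection hij (a * b) *
        (SpecialLinearGroup.transvection hlj b * SpecialLinearGroup.transvection hil a :
          SpecialLinearGroup (Fin n) F) := by
  apply Subtype.ext
  change (SpecialLinearGroup.transvection hil a).1 * (SpecialLinearGroup.transvection hlj b).1 =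
    (SpecialLinearGroup.transvection hij (a * b)).1 *
      ((SpecialLinearGroup.transvection hlj b).1 * (SpecialLinearGroup.transvection hil a).1)
  simp only [SpecialLinearGroup.transvection_coe, add_mul, mul_add,
    one_mul, mul_one, Matrix.single_mul_single_same,
    Matrix.single_mul_single_of_ne _ _ _ _ hij.symm, Matrix.single_mul_single_of_ne _ _ _ _ hil.symm,
    Matrix.single_mul_single_of_ne _ _ _ _ hlj.symm, add_zero, zero_add]
  abel

theorem transvection_add {i j : Fin n} (hij : i ≠ j) (a b : F) :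
    SpecialLinearGroup.transvection hij (a + b) =
      (SpecialLinearGroup.transvection hij a * SpecialLinearGroup.transvection hij b :
        SpecialLinearGroup (Fin n) F) := by
  apply Subtype.ext
  change (SpecialLinearGroup.transvection hij (a + b)).1 =
    (SpecialLinearGroup.transvection hij a).1 * (SpecialLinearGroup.transvection hij b).1
  simp only [SpecialLinearGroup.transvection_coe, add_mul, mul_add,
    one_mul, mul_one, Matrix.single_mul_single_of_ne _ _ _ _ hij.symm, add_zero, Matrix.single_add]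
  abel

theorem transvection_zero {i j : Fin n} (hij : i ≠ j) :
    (SpecialLinearGroup.transvection hij (0 : F) : SpecialLinearGroup (Fin n) F) = 1 := by
  apply Subtype.ext
  simp [SpecialLinearGroup.transvection_coe]

/-! ### exchanging one pair and Levi transvections away from it -/

theorem conj_sw_slHom_off {s i j : Fin n} (hij : i ≠ j) (hi : i ≠ s) (hj : j ≠ s) (a : F) :
    sw Q₀ {s} * slHom Q₀ (SpecialLinearGroup.transvection hij a) * (sw Q₀ {s})⁻¹ =
      slHom Q₀ (SpecialLinearGroup.transvection hij a) := by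
  rw [sw_inv]
  refine oq_ext Q₀ fun v => ?_
  simp only [Subgroup.coe_mul, LinearEquiv.mul_apply]
  simp only [slHom_apply, SpecialLinearGroup.transvection_inv hij a,
    SpecialLinearGroup.transvection_coe, sw_apply, cx_mk, cy_mk, snd_mk, Finset.mem_singleton,
    Matrix.add_mulVec, Matrix.one_mulVec, Matrix.transpose_add, Matrix.transpose_one,
    Matrix.transpose_single, Matrix.single_mulVec]
  ext x
  · rcases eq_or_ne x s with rfl | hx
    · simp [hi, hj, hi.symm, hj.symm]
    · simp [hx, hi, hj]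
  · rcases eq_or_ne x s with rfl | hx
    · simp [hi, hj, hi.symm, hj.symm]
    · simp [hx, hi, hj]
  · simp

theorem conj_sw_sh_off {s r : Fin n} (hr : r ≠ s) (k : W) :
    sw Q₀ {s} * sh Q₀ r k * (sw Q₀ {s})⁻¹ = sh Q₀ r k := by
  rw [sw_inv]
  refine oq_ext Q₀ fun v => ?_
  simp only [Subgroup.coe_mul, LinearEquiv.mul_apply]
  simp only [sw_apply, sh_apply, cx_mk, cy_mk, snd_mk, Finset.mem_singleton]
  ext x
  · rcases eq_or_ne x s with rfl | hx
    · simp [hr, hr.symm]
    · simp [hx, hr]
  · rcases eq_or_ne x s with rfl | hx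
    · simp [hr, hr.symm]
    · simp [hx, hr]
  · simp [hr]

/-! ### short radical elements at a vector -/

theorem shv_singular (a : Fin n → F) : hypExt n Q₀ (mk a 0 0) = 0 := by simp [hypExt_eq]

theorem shv_orth (a : Fin n → F) (k : W) :
    polar (hypExt n Q₀) (mk a 0 0) (mk 0 0 k) = 0 := by simp [polar_hypExt]

/-- short radical element at a vector -/
noncomputable def shv (k : W) (a : Fin n → F) : OQ (hypExt n Q₀) :=
  siegel (hypExt n Q₀) (shv_singular Q₀ a) (shv_orth Q₀ a k)

theorem shv_apply (k : W) (a : Fin n → F) (v : HypSpace F n W) :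
    (shv Q₀ k a).1 v =
      mk (cx v - (polar Q₀ k v.2 + Q₀ k * (a ⬝ᵥ cy v)) • a) (cy v) (v.2 + (a ⬝ᵥ cy v) • k) := by
  rw [shv, siegel_apply]
  simp only [polar_hypExt, hypExt_eq, cx_mk, cy_mk, snd_mk, dotProduct_zero, zero_dotProduct,
    add_zero, zero_add, map_zero, polar_zero_left]
  ext <;> simp [sub_sub, add_mul] <;> ring

theorem shv_ev (k : W) (i : Fin n) : shv Q₀ k (ev i) = sh Q₀ i k := rfl

theorem shv_mem (k : W) (a : Fin n → F) : shv Q₀ k a ∈ Om Q₀ n := siegel_mem_EQ _ _ _

theorem shv_mul (k : W) (a b : Fin n → F) :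
    shv Q₀ k a * shv Q₀ k b = zS Q₀ (Q₀ k • Matrix.vecMulVec b a) * shv Q₀ k (a + b) :=
  oq_ext Q₀ fun v => by
  simp only [Subgroup.coe_mul, LinearEquiv.mul_apply]
  simp only [zS_apply, shv_apply, cx_mk, cy_mk, snd_mk, polar_add_right, polar_smul_right,
    polar_self, smul_eq_mul, Matrix.sub_mulVec, Matrix.smul_mulVec, Matrix.transpose_smul,
    Matrix.transpose_vecMulVec, Matrix.vecMulVec_mulVec, add_dotProduct]
  ext x
  · simp
    ring
  · simp
  · simp
    module

theorem slHom_mul_shv (g : SpecialLinearGroup (Fin n) F) (k : W) (a : Fin n → F) :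
    slHom Q₀ g * shv Q₀ k a = shv Q₀ k (g.1 *ᵥ a) * slHom Q₀ g := by
  rw [← mul_inv_eq_iff_eq_mul, shv, siegel_conj, shv]
  refine siegel_congr _ _ _ _ _ ?_ ?_
  · rw [slHom_apply]; ext <;> simp
  · rw [slHom_apply]; ext <;> simp

/-! ### isometries of the anisotropic part -/

/-- extension of an isometry of the anisotropic part by the identity -/
noncomputable def levW (n : ℕ) : OQ Q₀ →* OQ (hypExt n Q₀) where
  toFun f := ⟨(LinearEquiv.refl F _).prodCongr f.1, fun v => by
    rw [hypExt_apply, hypExt_apply]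
    simp only [LinearEquiv.prodCongr_apply, LinearEquiv.refl_apply]
    rw [f.2]⟩
  map_one' := oq_ext Q₀ fun v => rfl
  map_mul' f g := oq_ext Q₀ fun v => rfl

theorem levW_apply (f : OQ Q₀) (v : HypSpace F n W) :
    (levW Q₀ n f).1 v = mk (cx v) (cy v) (f.1 v.2) := by
  ext <;> rfl

theorem levW_mul_zS (f : OQ Q₀) (M : Matrix (Fin n) (Fin n) F) :
    levW Q₀ n f * zS Q₀ M = zS Q₀ M * levW Q₀ n f := oq_ext Q₀ fun v => by
  simp only [Subgroup.coe_mul, LinearEquiv.mul_apply, levW_apply, zS_apply, cx_mk, cy_mk, snd_mk]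

theorem levW_mul_sh (f : OQ Q₀) (i : Fin n) (d : W) :
    levW Q₀ n f * sh Q₀ i d = sh Q₀ i (f.1 d) * levW Q₀ n f := oq_ext Q₀ fun v => by
  simp only [Subgroup.coe_mul, LinearEquiv.mul_apply, levW_apply, sh_apply, cx_mk, cy_mk, snd_mk,
    map_add, map_smul]
  have hp : polar Q₀ (f.1 d) (f.1 v.2) = polar Q₀ d v.2 := by
    simp only [polar]
    rw [← map_add, f.2, f.2, f.2]
  rw [hp, f.2]

/-! ### elements of `Ω` -/

variable (hn : 2 ≤ n)

/-- Levi transvection -/
noncomputable def xE {i j : Fin n} (hij : i ≠ j) (a : F) : Om Q₀ n :=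
  slE Q₀ hn (SpecialLinearGroup.transvection hij a)

theorem xE_add {i j : Fin n} (hij : i ≠ j) (a b : F) :
    xE Q₀ hn hij (a + b) = xE Q₀ hn hij a * xE Q₀ hn hij b := by
  rw [xE, transvection_add, map_mul]; rfl

theorem xE_zero {i j : Fin n} (hij : i ≠ j) : xE Q₀ hn hij (0 : F) = 1 := by
  rw [xE, transvection_zero, map_one]

theorem xE_comm {i l j : Fin n} (hil : i ≠ l) (hlj : l ≠ j) (hij : i ≠ j) (a b : F) :
    xE Q₀ hn hil a * xE Q₀ hn hlj b =
      xE Q₀ hn hij (a * b) * (xE Q₀ hn hlj b * xE Q₀ hn hil a) := by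
  simp only [xE, ← map_mul, transvection_comm hil hlj hij]

theorem xE_mul_shE {i j : Fin n} (hij : i ≠ j) (a : F) (d : W) :
    xE Q₀ hn hij a * shE Q₀ j d =
      zE Q₀ (Matrix.single j i (a * Q₀ d)) *
        (shE Q₀ j d * (shE Q₀ i (a • d) * xE Q₀ hn hij a)) :=
  Subtype.ext (slHom_mul_sh Q₀ hij a d)

theorem xE_mul_shE_comm {i j r : Fin n} (hij : i ≠ j) (hr : r ≠ j) (a : F) (d : W) :
    xE Q₀ hn hij a * shE Q₀ r d = shE Q₀ r d * xE Q₀ hn hij a :=
  Subtype.ext (slHom_mul_sh_comm Q₀ hij hr a d)

variable [Finite F] [FiniteDimensional F W]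

theorem conjE_sw_xE_off {s i j : Fin n} (hij : i ≠ j) (hi : i ≠ s) (hj : j ≠ s) (a : F) :
    conjE Q₀ (sw Q₀ {s}) (xE Q₀ hn hij a) = xE Q₀ hn hij a :=
  Subtype.ext (conj_sw_slHom_off Q₀ hij hi hj a)

theorem conjE_sw_shE_off {s r : Fin n} (hr : r ≠ s) (k : W) :
    conjE Q₀ (sw Q₀ {s}) (shE Q₀ r k) = shE Q₀ r k :=
  Subtype.ext (conj_sw_sh_off Q₀ hr k)

end Cfsg.Agent.MinDeg.Orth
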