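import Cfsg.Agent.MinDeg.OrthStab

/-!
An anisotropic plane takes every value and has a rotation in `Ω` without fixed vectors.
-/

set_option autoImplicit false
set_option linter.unusedSectionVars false

namespace Cfsg.Agent.MinDeg.Orth

open QuadraticMap Cfsg.Agent.Classical Matrix
open scoped commutatorElement

universe u

variable {F : Type u} [Field F] [Finite F] {a b : F} (hA : (binQF a b).Anisotropic)
include hA

theorem binQF_surjective : Function.Surjective fun k => binQF a b k := fun c => by
  obtain ⟨z, h | ⟨h1, h2⟩⟩ := exists_binQF_eq a b c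
  exacts [⟨z, h⟩, absurd (hA z h1) h2]

theorem rot_binQF {n : ℕ} (hn : 2 ≤ n) : Rot (binQF a b) n := by
  have hB : BNondeg (binQF a b) := (goodCore_binQF hA).nondeg
  set Q := binQF a b with hQ
  obtain ⟨x, hx⟩ : ∃ x : F, 2 * x + a ≠ 0 := by
    by_contra! h
    have h0 := h 0
    have h1 := h 1
    rw [mul_zero, zero_add] at h0
    rw [h0, mul_one, add_zero] at h1
    exact binDisc_ne_zero hA (by rw [h0]; linear_combination (-2 * b) * h1)
  set u : Fin 2 → F := ![1, 0] with hu
  set v : Fin 2 → F := ![x, 1] with hv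
  have hu0 : Q u ≠ 0 := fun h => by simpa [hu] using congrFun (hA u h) 0
  have hv0 : Q v ≠ 0 := fun h => by simpa [hv] using congrFun (hA v h) 1
  have huv : polar Q u v ≠ 0 := by
    simpa [hQ, hu, hv, polar_binQF, add_comm] using hx
  set f : OQ Q := ⁅reflQ Q u hu0, reflQ Q v hv0⁆ with hf
  have hmem : levW Q n f ∈ Om Q n := by
    rw [hf, map_commutatorElement]
    exact commutator_mem Q hB (by simp; omega) _ _
  refine ⟨f, hmem, ?_⟩
  have hker : ∀ z, f.1 z = z → z = 0 := by
    intro z hz
    have h2 : reflQ Q v hv0 * reflQ Q u hu0 * f = reflQ Q u hu0 * reflQ Q v hv0 := by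
      rw [hf, commutatorElement_def, reflQ_inv, reflQ_inv,
        show reflQ Q v hv0 * reflQ Q u hu0 *
          (reflQ Q u hu0 * reflQ Q v hv0 * reflQ Q u hu0 * reflQ Q v hv0) =
          reflQ Q v hv0 * (reflQ Q u hu0 * reflQ Q u hu0) *
            (reflQ Q v hv0 * reflQ Q u hu0 * reflQ Q v hv0) by group, reflQ_mul_self, mul_one]
      rw [show reflQ Q v hv0 * (reflQ Q v hv0 * reflQ Q u hu0 * reflQ Q v hv0) =
          (reflQ Q v hv0 * reflQ Q v hv0) * (reflQ Q u hu0 * reflQ Q v hv0) by group,
        reflQ_mul_self, one_mul]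
    have h1 : (reflQ Q v hv0).1 ((reflQ Q u hu0).1 z) = (reflQ Q u hu0).1 ((reflQ Q v hv0).1 z) := by
      have := congrArg (fun g : OQ Q => g.1 z) h2
      simp only [Subgroup.coe_mul, LinearEquiv.mul_apply, hz] at this
      exact this
    simp only [reflQ_apply, polar_sub_right, polar_smul_right, smul_eq_mul, polar_comm Q v u] at h1
    have e0 : (polar Q u v * (Q u)⁻¹ * (Q v)⁻¹) • (polar Q u z • v - polar Q v z • u) = 0 := by
      rw [← sub_eq_zero] at h1
      rw [← h1]
      module
    rw [smul_eq_zero] at e0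
    have e1 := e0.resolve_left (mul_ne_zero (mul_ne_zero huv (inv_ne_zero hu0)) (inv_ne_zero hv0))
    have c0 := congrFun e1 0
    have c1 := congrFun e1 1
    simp [hu, hv] at c0 c1
    rw [← hu] at c1
    have pu : polar Q u z = 0 := c1
    have pv : polar Q v z = 0 := by
      rw [hu] at pu
      rw [hv]
      rw [pu, zero_mul, zero_sub, neg_eq_zero] at c0
      exact c0
    refine hB z fun y => ?_
    have hy : y = (y 0 - y 1 * x) • u + y 1 • v := by
      ext i; fin_cases i <;> simp [hu, hv]
    rw [hy, polar_comm Q z, polar_add_left, polar_smul_left, polar_smul_left, pu, pv]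
    simp
  intro w
  obtain ⟨d, hd⟩ := (LinearMap.injective_iff_surjective (f := f.1.toLinearMap - LinearMap.id)).1
    (fun z z' h => sub_eq_zero.1 (hker _ (by
      simp only [LinearMap.sub_apply, LinearEquiv.coe_coe, LinearMap.id_apply] at h
      rw [map_sub, sub_eq_sub_iff_sub_eq_sub]
      exact h))) w
  exact ⟨d, by simpa using hd⟩

end Cfsg.Agent.MinDeg.Orth
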