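import Cfsg.Agent.MinDeg.OrthWeights

/-!
The weights of the centre of the Siegel radical are wedges also over the two smallest fields, when
the anisotropic part is a plane.
-/

set_option autoImplicit false
set_option linter.unusedSectionVars false

namespace Cfsg.Agent.MinDeg.Orth

open QuadraticMap Cfsg.Agent.Classical Matrix Cfsg.Agent.Weights Module

universe u w v

variable {F : Type u} [Field F] [Fintype F] {n : ℕ} {W : Type w} [AddCommGroup W] [Module F W]
  [FiniteDimensional F W] {Q₀ : QuadraticForm F W} {ψ : AddChar F ℂ}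
  {V : Type v} [AddCommGroup V] [Module ℂ V] [FiniteDimensional ℂ V]
  (R : Om Q₀ n →* Module.End ℂ V)

/-- all weights of the centre of the Siegel radical are wedges -/
def Wedgy (R : Om Q₀ n →* Module.End ℂ V) (ψ : AddChar F ℂ) : Prop :=
  ∀ B : Matrix (Fin n) (Fin n) F, IsAlt B → ws R ψ B ≠ ⊥ → ∃ a b, B = wedge a b

variable (hn : 3 ≤ n) (hB : BNondeg Q₀)

set_option maxHeartbeats 1000000 in
include hB in
/-- a weight with two orthogonal blocks has multiplicity at least `|W|²` -/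
theorem card_W_sq_le_ws (hψ : ψ.IsPrimitive) {B : Matrix (Fin n) (Fin n) F} {p s i j : Fin n}
    (hps : p ≠ s) (hpi : p ≠ i) (hpj : p ≠ j) (hsi : s ≠ i) (hij : i ≠ j)
    (h1 : B s p ≠ 0) (h2 : B j i ≠ 0) (h3 : B i p = 0) (h4 : B s i = 0) (h5 : B j p = 0)
    (hne : ws R ψ B ≠ ⊥) :
    Nat.card W * Nat.card W ≤ finrank ℂ (ws R ψ B) := by
  classical
  haveI : Finite W := Module.finite_of_finite F
  letI := Fintype.ofFinite W
  set g : W × W → Om Q₀ n := fun lm => shE Q₀ p lm.1 * shE Q₀ i lm.2 with hg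
  have hmem : ∀ lm, ∀ v ∈ ws R ψ B, R (g lm) v ∈ ws R ψ B := fun lm v hv => by
    rw [hg, apply_mul]; exact shE_mem_ws R p _ (shE_mem_ws R i _ hv)
  have hz : ∀ (x y : Fin n) (c : F) (v : V), v ∈ ws R ψ B →
      R (zE Q₀ (Matrix.single x y c)) v = ψ (B x y * c) • v := fun x y c v hv => by
    rw [(mem_ws R).1 hv, chiM_single]
  have hpi' : ∀ k l, ∀ v ∈ ws R ψ B, R (shE Q₀ i k) (R (shE Q₀ p l) v) =
      R (shE Q₀ p l) (R (shE Q₀ i k) v) := fun k l v hv => by
    symm
    rw [← apply_mul, shE_mul_shE Q₀ hpi, apply_mul, hz _ _ _ _ (by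
      rw [apply_mul]; exact shE_mem_ws R _ _ (shE_mem_ws R _ _ hv)), h3, zero_mul,
      AddChar.map_zero_eq_one, one_smul, apply_mul]
  have hadd : ∀ a b, ∀ v ∈ ws R ψ B, R (g (a + b)) v = R (g a) (R (g b) v) := fun a b v hv => by
    simp only [hg, Prod.fst_add, Prod.snd_add, shE_add, apply_mul]
    rw [hpi' a.2 b.1 _ (shE_mem_ws R i _ hv)]
  set A := fun lm : W × W => (R (g lm)).restrict fun v hv => hmem lm v hv with hA
  have hcomm : ∀ a b, A a * A b = A b * A a := fun a b => LinearMap.ext fun v => Subtype.ext <| by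
    change R (g a) (R (g b) v.1) = R (g b) (R (g a) v.1)
    rw [← hadd a b _ v.2, ← hadd b a _ v.2, add_comm]
  haveI : Nontrivial (ws R ψ B) := Submodule.nontrivial_iff_ne_bot.2 hne
  obtain ⟨W', -, hne', -, hsc⟩ := exists_common_eigen A hcomm ⊤ top_ne_bot
    (fun _ _ _ => Submodule.mem_top) (Finset.univ : Finset (W × W)).toList
  choose χ hχ using fun a => hsc a (Finset.mem_toList.2 (Finset.mem_univ a))
  obtain ⟨x, hx, hx0⟩ := (Submodule.ne_bot_iff _).1 hne'
  have hx' : ∀ a, R (g a) x.1 = χ a • x.1 := fun a => congrArg Subtype.val (hχ a x hx)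
  set ev2 : W × W → W × W → ℂ := fun kk lm =>
    χ lm * (ψ (B s p * polar Q₀ lm.1 kk.1) * ψ (B j i * polar Q₀ lm.2 kk.2)) with hev
  have hχ0 : ∀ a, χ a ≠ 0 := fun a h0 => hx0 (Subtype.ext (R_injective R (g a)
    (by rw [hx', h0, zero_smul]; simp)))
  have hinj : Function.Injective ev2 := by
    intro k k' h
    have key : ∀ l m, ψ (B s p * polar Q₀ l k.1) * ψ (B j i * polar Q₀ m k.2) =
        ψ (B s p * polar Q₀ l k'.1) * ψ (B j i * polar Q₀ m k'.2) := fun l m =>
      mul_left_cancel₀ (hχ0 (l, m)) (congrFun h (l, m))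
    refine Prod.ext (shOp_eigen_injective hB hψ h1 ?_) (shOp_eigen_injective hB hψ h2 ?_)
    · funext l; simpa [polar_zero_left] using key l 0
    · funext m; simpa [polar_zero_left] using key 0 m
  have := mul_card_le_finrank A (Finset.univ.image ev2) 1 fun e he => by
    obtain ⟨kk, -, rfl⟩ := Finset.mem_image.1 he
    set y : V := R (shE Q₀ s kk.1) (R (shE Q₀ j kk.2) x.1) with hy
    have hym : y ∈ ws R ψ B := shE_mem_ws R s _ (shE_mem_ws R j _ x.2)
    have hpush : ∀ {a b : Fin n}, a ≠ b → ∀ l k, ∀ v ∈ ws R ψ B,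
        R (shE Q₀ a l) (R (shE Q₀ b k) v) =
          ψ (B b a * polar Q₀ l k) • R (shE Q₀ b k) (R (shE Q₀ a l) v) := fun {a b} hab l k v hv => by
      rw [← apply_mul, shE_mul_shE Q₀ hab, apply_mul, hz _ _ _ _ (by
        rw [apply_mul]; exact shE_mem_ws R _ _ (shE_mem_ws R _ _ hv)), apply_mul]
    have hy' : ∀ lm, R (g lm) y = ev2 kk lm • y := fun lm => by
      have m1 : ∀ (r : Fin n) (k : W), ∀ v ∈ ws R ψ B, R (shE Q₀ r k) v ∈ ws R ψ B :=
        fun r k v hv => shE_mem_ws R r k hv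
      have e1 := hx' lm
      rw [hg, apply_mul] at e1
      rw [hy, hg, apply_mul, hpush hsi.symm lm.2 kk.1 _ (m1 j _ _ x.2), h4, zero_mul,
        AddChar.map_zero_eq_one, one_smul, hpush hij lm.2 kk.2 _ x.2, map_smul, map_smul,
        hpush hps lm.1 kk.1 _ (m1 j _ _ (m1 i _ _ x.2)),
        hpush hpj lm.1 kk.2 _ (m1 i _ _ x.2), h5, zero_mul, AddChar.map_zero_eq_one, one_smul,
        e1, map_smul, map_smul, smul_smul, smul_smul, hev]
      congr 1
      ring
    have hm : (⟨y, hym⟩ : ws R ψ B) ∈ weightSpace A (ev2 kk) :=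
      mem_weightSpace.2 fun lm => Subtype.ext (hy' lm)
    exact Module.finrank_pos_iff_exists_ne_zero.2 ⟨⟨_, hm⟩, fun h => hx0 (Subtype.ext
      (R_injective R _ (R_injective R _ (by
        have h' := congrArg (fun z : weightSpace A (ev2 kk) => z.1.1) h
        simpa [hy] using h'))))⟩
  rw [Finset.card_image_of_injective _ hinj, Finset.card_univ, Fintype.card_prod, mul_one] at this
  simpa [Nat.card_eq_fintype_card] using this

include hn hB

theorem wedgy_of_small (hψ : ψ.IsPrimitive) (hs : Small R)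
    (hW : Fintype.card F ^ 2 ≤ Nat.card W) : Wedgy R ψ := by
  intro B hA hne
  rcases eq_or_ne n 4 with rfl | hn4
  swap
  · exact wedge_of_ws R hn hB hψ hs (fun h => absurd h hn4) hA hne
  classical
  by_contra! hw
  haveI : Finite W := Module.finite_of_finite F
  obtain ⟨S, hScard, hS⟩ := hA.exists_many hw ({1} : Finset Fˣ)
  obtain ⟨H₀, p, s, i, j, hd₀, ⟨hps, hpi, hpj, hsi, hsj, hij⟩, hA₀, ha, hc, epi, epj, esi, esj, -⟩ :=
    hA.exists_four hw
  have hne' : ws R ψ (H₀ᵀ * B * H₀) ≠ ⊥ := fun h0 => hne (by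
    have h := finrank_ws_congr_mat R hn hB (ψ := ψ) (H := H₀) ⟨1, by simp [hd₀]⟩ B
    rw [h0, finrank_bot] at h
    exact Submodule.finrank_eq_zero.1 h.symm)
  have hge : ∀ B' ∈ S, Nat.card W * Nat.card W ≤ finrank ℂ (ws R ψ B') := by
    intro B' hB'
    obtain ⟨H, ⟨δ, hδ, hdet⟩, rfl⟩ := hS B' hB'
    rw [Finset.mem_singleton] at hδ
    rw [finrank_ws_congr_mat R hn hB ⟨1, by rw [hdet, hδ]; simp⟩,
      ← finrank_ws_congr_mat R hn hB (H := H₀) ⟨1, by simp [hd₀]⟩ B]
    exact card_W_sq_le_ws R hB hψ hps hpi hpj hsi hij (by rw [hA₀.anti]; simpa using ha)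
      (by rw [hA₀.anti]; simpa using hc) (by rw [hA₀.anti, epi]; simp) esi
      (by rw [hA₀.anti, epj]; simp) hne'
  have h1 : S.card * (Nat.card W * Nat.card W) ≤ finrank ℂ V := by
    refine le_trans ?_ (sum_ws_le R hψ S)
    rw [← smul_eq_mul, ← Finset.sum_const]
    exact Finset.sum_le_sum hge
  have hN := card_wedges_sq (F := F) (show 1 ≤ 4 by omega)
  set q := Fintype.card F with hq
  have hq2 : 2 ≤ q := Fintype.one_lt_card
  have hg : geo q 4 = 1 + q + q ^ 2 + q ^ 3 := by simp [geo, Finset.sum_range_succ]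
  rw [Finset.card_singleton, one_mul, Nat.sub_self, mul_zero, pow_zero, one_mul] at hScard
  have e1 : ((wedges F 4).card : ℤ) = ((q : ℤ) ^ 2 + 1) * ((q : ℤ) ^ 3 - 1) :=
    mul_right_cancel₀ (show (q : ℤ) ^ 2 - 1 ≠ 0 by
      have : (2 : ℤ) ≤ q := by exact_mod_cast hq2
      nlinarith) (by rw [hN]; ring)
  have key : (wedges F 4).card + geo q 4 ≤ (q - 1) * q ^ 4 * q ^ 2 := by
    rw [hg]
    zify [show 1 ≤ q by omega]
    rw [e1]
    have h2 : (2 : ℤ) ≤ q := by exact_mod_cast hq2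
    nlinarith [mul_nonneg (sub_nonneg.2 h2) (pow_nonneg (show (0 : ℤ) ≤ q by omega) 6),
      mul_nonneg (sub_nonneg.2 h2) (pow_nonneg (show (0 : ℤ) ≤ q by omega) 5),
      mul_nonneg (sub_nonneg.2 h2) (pow_nonneg (show (0 : ℤ) ≤ q by omega) 4),
      mul_nonneg (sub_nonneg.2 h2) (pow_nonneg (show (0 : ℤ) ≤ q by omega) 3),
      mul_nonneg (sub_nonneg.2 h2) (pow_nonneg (show (0 : ℤ) ≤ q by omega) 2)]
  have h3 : ((wedges F 4).card + geo q 4) * Nat.card W ≤
      S.card * (Nat.card W * Nat.card W) :=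
    calc _ ≤ (q - 1) * q ^ 4 * q ^ 2 * Nat.card W := Nat.mul_le_mul_right _ key
      _ ≤ S.card * Nat.card W * Nat.card W := Nat.mul_le_mul_right _ (Nat.mul_le_mul hScard hW)
      _ = _ := mul_assoc _ _ _
  have h4 : geo q 4 ≤ geo q 4 * Nat.card W := Nat.le_mul_of_pos_right _ Nat.card_pos
  unfold Small at hs
  rw [← hq] at hs
  rw [Nat.add_mul, mul_comm (wedges F 4).card] at h3
  omega

/-- all wedges are weights, when all weights are wedges -/
theorem card_W_le_ws_of_wedgy (hψ : ψ.IsPrimitive) (hwd : Wedgy R ψ)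
    (hnt : ∃ g, R g ≠ 1) {a b : Fin n → F} (h : wedge a b ≠ 0) :
    Nat.card W ≤ finrank ℂ (ws R ψ (wedge a b)) := by
  have hnt' : ∃ M, R (zE Q₀ M) ≠ 1 := by
    by_contra! hall
    obtain ⟨g, hg⟩ := hnt
    exact hg (eq_one_of_zE Q₀ hB hn R hall g)
  obtain ⟨B, hA, hB0, hne⟩ := exists_weight R hψ hnt'
  obtain ⟨a', b', rfl⟩ := hwd B hA hne
  rw [finrank_ws_wedge R hn hB h hB0]
  exact card_W_le_finrank_ws R hB hψ hA hB0 hne

end Cfsg.Agent.MinDeg.Orth
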