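import Cfsg.Agent.MinDeg.OrthRel
import Cfsg.Agent.MinDeg.OrthSmallW
import Cfsg.Agent.MinDeg.OrthLine

/-!
The line of a rank two weight cut out by a short radical group is fixed by the stabiliser of the
weight inside the Levi part, over every finite field.
-/

set_option autoImplicit false
set_option linter.unusedSectionVars false

namespace Cfsg.Agent.MinDeg.Orth

open QuadraticMap Cfsg.Agent.Classical Matrix Cfsg.Agent.Weights Module

universe u w v

variable {F : Type u} [Field F] [Fintype F] {n : ℕ} {W : Type w} [AddCommGroup W] [Module F W]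
  [FiniteDimensional F W] {Q₀ : QuadraticForm F W} {ψ : AddChar F ℂ}
  {V : Type v} [AddCommGroup V] [Module ℂ V] [FiniteDimensional ℂ V]
  (R : Om Q₀ n →* Module.End ℂ V) (hn : 3 ≤ n) (hB : BNondeg Q₀)

/-- an isometry of the anisotropic part lying in `Ω` and without fixed vectors -/
def Rot (Q₀ : QuadraticForm F W) (n : ℕ) : Prop :=
  ∃ f : OQ Q₀, levW Q₀ n f ∈ Om Q₀ n ∧ ∀ w, ∃ d, f.1 d - d = w

/-- multiple of the standard wedge -/
def Blk (B : Matrix (Fin n) (Fin n) F) (p s : Fin n) : Prop :=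
  p ≠ s ∧ ∃ c : F, c ≠ 0 ∧ B = c • std p s

theorem Blk.symm {B : Matrix (Fin n) (Fin n) F} {p s : Fin n} (h : Blk B p s) : Blk B s p := by
  obtain ⟨hne, c, hc, rfl⟩ := h
  refine ⟨hne.symm, -c, neg_ne_zero.2 hc, ?_⟩
  ext x y
  simp [std]
  ring

theorem Blk.off {B : Matrix (Fin n) (Fin n) F} {p s : Fin n} (h : Blk B p s) {i : Fin n}
    (hp : i ≠ p) (hs : i ≠ s) (j : Fin n) : B i j = 0 ∧ B j i = 0 := by
  obtain ⟨-, c, -, rfl⟩ := h
  simp [std, hp, hs]

theorem Blk.sp_ne {B : Matrix (Fin n) (Fin n) F} {p s : Fin n} (h : Blk B p s) : B s p ≠ 0 := by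
  obtain ⟨hne, c, hc, rfl⟩ := h
  simp [(std_apply hne).2, hc]

theorem Blk.wedge_eq {B : Matrix (Fin n) (Fin n) F} {p s : Fin n} (h : Blk B p s) :
    ∃ a b, wedge a b ≠ 0 ∧ B = wedge a b := by
  have hsp := h.sp_ne
  obtain ⟨hne, c, hc, rfl⟩ := h
  have e : (c • std p s : Matrix (Fin n) (Fin n) F) = wedge (c • Pi.single p (1 : F)) (Pi.single s 1) := by
    ext x y; simp [std]; ring
  exact ⟨_, _, fun h0 => hsp (by rw [e, h0]; rfl), e⟩

theorem std_blk {p s : Fin n} (hps : p ≠ s) : Blk (std p s : Matrix (Fin n) (Fin n) F) p s :=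
  ⟨hps, 1, one_ne_zero, (one_smul F _).symm⟩

/-- the line cut out in a weight space by a short radical group -/
def IsLine (R : Om Q₀ n →* Module.End ℂ V) (ψ : AddChar F ℂ) (B : Matrix (Fin n) (Fin n) F)
    (p : Fin n) (e : V) : Prop :=
  e ∈ ws R ψ B ∧ e ≠ 0 ∧ (∀ l, R (shE Q₀ p l) e = e) ∧
    ∀ v ∈ ws R ψ B, (∀ l, R (shE Q₀ p l) v = v) → ∃ c : ℂ, v = c • e

theorem exists_scalar_char {A : Type*} [AddCommGroup A] (X : A → Om Q₀ n) {e : V} (he0 : e ≠ 0)
    (hadd : ∀ a b, X (a + b) = X a * X b) (h : ∀ a, ∃ γ : ℂ, R (X a) e = γ • e) :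
    ∃ ω : AddChar A ℂ, ∀ a, R (X a) e = ω a • e := by
  choose f hf using h
  have hX0 : X 0 = 1 := by simpa using hadd 0 0
  refine ⟨⟨f, smul_left_injective ℂ he0 (by simpa [hX0] using (hf 0).symm), fun a b =>
    smul_left_injective ℂ he0 ?_⟩, hf⟩
  have h1 := hf (a + b)
  rw [hadd, apply_mul, hf, map_smul, hf, smul_smul] at h1
  dsimp only
  rw [← h1, mul_comm]

theorem zE_single_apply {B : Matrix (Fin n) (Fin n) F} {v : V} (hv : v ∈ ws R ψ B) (i j : Fin n)
    (c : F) : R (zE Q₀ (Matrix.single i j c)) v = ψ (B i j * c) • v := by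
  rw [(mem_ws R).1 hv, chiM_single]

include hB in
theorem Blk.exists_line (hψ : ψ.IsPrimitive) {B : Matrix (Fin n) (Fin n) F} {p s : Fin n}
    (hb : Blk B p s) (hlt : finrank ℂ (ws R ψ B) < 2 * Nat.card W) (hpos : ws R ψ B ≠ ⊥) :
    ∃ e, IsLine R ψ B p e := by
  classical
  obtain ⟨heq, h0, hsum⟩ := shOp_eigen R hB hψ (B := B) hb.1 hb.sp_ne
  set E := weightSpace (shOp R ψ p B) fun l => ψ (B s p * polar Q₀ l (0 : W)) with hE
  have hmem : ∀ v : ws R ψ B, v ∈ E ↔ ∀ l, R (shE Q₀ p l) v.1 = v.1 := fun v => by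
    rw [hE, mem_weightSpace]
    refine forall_congr' fun l => ?_
    rw [polar_zero_right, mul_zero, AddChar.map_zero_eq_one, one_smul]
    exact ⟨fun h => congrArg Subtype.val h, fun h => Subtype.ext h⟩
  have h1 : finrank ℂ E = 1 := by
    have ha := h0 hpos 0
    have hb' : ¬ 2 ≤ finrank ℂ E := fun h2 => by
      have := hsum 2 fun k => by rw [heq k 0]; exact h2
      omega
    change finrank ℂ E = 1
    change 0 < finrank ℂ E at ha
    omega
  obtain ⟨e, he0, he⟩ := finrank_eq_one_iff'.1 h1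
  refine ⟨e.1.1, e.1.2, fun h => he0 (Subtype.ext (Subtype.ext h)), (hmem e.1).1 e.2, ?_⟩
  intro v hv hfix
  obtain ⟨c, hc⟩ := he ⟨⟨v, hv⟩, (hmem ⟨v, hv⟩).2 hfix⟩
  exact ⟨c, (congrArg (fun z : E => z.1.1) hc).symm⟩

variable {B : Matrix (Fin n) (Fin n) F} {p s : Fin n} {e : V}

/-- the short radical groups off a rank two weight fix its lines -/
def LineFix (R : Om Q₀ n →* Module.End ℂ V) (ψ : AddChar F ℂ) : Prop :=
  ∀ (B : Matrix (Fin n) (Fin n) F) (p s : Fin n) (e : V), Blk B p s → IsLine R ψ B p e →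
    ∀ l, l ≠ p → l ≠ s → ∀ x, R (shE Q₀ l x) e = e

include hn hB

/-- transvections preserving a weight -/
theorem xE_mem_ws (hb : Blk B p s) {i j : Fin n} (hij : i ≠ j)
    (h : (i ≠ p ∧ i ≠ s) ∨ (i = p ∧ j = s)) (a : F) {v : V} (hv : v ∈ ws R ψ B) :
    R (xE Q₀ (show 2 ≤ n by omega) hij a) v ∈ ws R ψ B := by
  rw [xE, slE_eq_lvE hn hB]
  refine lvE_mem_ws R hn hB _ ?_
  suffices e : ((SpecialLinearGroup.transvection hij a).1)ᵀ * B *
      (SpecialLinearGroup.transvection hij a).1 = B by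
    rwa [show (SpecialLinearGroup.toGL (SpecialLinearGroup.transvection hij a)).1 =
      (SpecialLinearGroup.transvection hij a).1 from rfl, e]
  obtain ⟨hne, c, -, rfl⟩ := hb
  rw [Matrix.mul_smul, Matrix.smul_mul, std, congr_wedge]
  congr 1
  have e1 : ∀ r, ((SpecialLinearGroup.transvection hij a).1)ᵀ *ᵥ Pi.single r (1 : F) =
      Pi.single r 1 + (if i = r then a else 0) • Pi.single j 1 := fun r => by
    ext x
    simp [SpecialLinearGroup.transvection_coe, Matrix.one_apply, Matrix.single_apply,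
      Pi.single_apply, eq_comm]
    split_ifs <;> simp_all [eq_comm]
  rw [e1, e1]
  ext x y
  rcases h with ⟨hp, hs⟩ | ⟨rfl, rfl⟩
  · simp [hp, hs]
  · simp [hne, Pi.single_apply]
    split_ifs <;> ring

omit hn hB in
/-- the short radical groups off the weight act trivially on the line -/
theorem IsLine.sh_fix (hr : Rot Q₀ n) (hb : Blk B p s) (he : IsLine R ψ B p e) {l : Fin n}
    (hlp : l ≠ p) (hls : l ≠ s) (x : W) : R (shE Q₀ l x) e = e := by
  classical
  obtain ⟨hm, he0, hfix, huniq⟩ := he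
  obtain ⟨f, hfm, hsurj⟩ := hr
  have hscal : ∀ y, ∃ γ : ℂ, R (shE Q₀ l y) e = γ • e := fun y => by
    refine huniq _ (shE_mem_ws R l y hm) fun k => ?_
    rw [← apply_mul, shE_mul_shE Q₀ hlp.symm, apply_mul, apply_mul,
      zE_single_apply R (shE_mem_ws R _ _ (shE_mem_ws R _ _ hm)), hfix, (hb.off hlp hls p).1,
      zero_mul, AddChar.map_zero_eq_one, one_smul]
  obtain ⟨ω, hω⟩ := exists_scalar_char R (fun y => shE Q₀ l y) he0 (fun a b => shE_add Q₀ l a b) hscal
  set τ : Om Q₀ n := ⟨levW Q₀ n f, hfm⟩ with hτ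
  have hsh : ∀ i d, τ * shE Q₀ i d = shE Q₀ i (f.1 d) * τ := fun i d =>
    Subtype.ext (levW_mul_sh Q₀ f i d)
  obtain ⟨γ, hγ⟩ : ∃ γ : ℂ, R τ e = γ • e := by
    refine huniq _ ((mem_ws R).2 fun M => ?_) fun k => ?_
    · rw [← apply_mul, show zE Q₀ M * τ = τ * zE Q₀ M from Subtype.ext (levW_mul_zS Q₀ f M).symm,
        apply_mul, (mem_ws R).1 hm, map_smul]
    · obtain ⟨k', rfl⟩ := f.1.surjective k
      rw [← apply_mul, ← hsh, apply_mul, hfix]
  have hγ0 : γ ≠ 0 := fun h0 => he0 (R_injective R τ (by rw [hγ, h0, zero_smul, map_zero]))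
  have hinv : ∀ d, ω (f.1 d) = ω d := fun d => by
    have h1 := congrArg (fun g => R g e) (hsh l d)
    simp only [apply_mul, hω, hγ, map_smul, smul_smul] at h1
    exact mul_left_cancel₀ hγ0 ((smul_left_injective ℂ he0 h1).symm.trans (mul_comm _ _))
  obtain ⟨d, hd⟩ := hsurj x
  have h2 : ω (f.1 d) = ω x * ω d := by rw [← AddChar.map_add_eq_mul, ← hd, sub_add_cancel]
  rw [hinv] at h2
  rw [hω, (mul_eq_right₀ (AddChar.val_isUnit ω d).ne_zero).1 h2.symm, one_smul]

/-- Levi transvections into the second index act on the line by scalars -/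
theorem IsLine.x_scal_right (hb : Blk B p s) (he : IsLine R ψ B p e) {i j : Fin n} (hij : i ≠ j)
    (h : (i ≠ p ∧ i ≠ s) ∨ (i = p ∧ j = s)) (hj : j ≠ p) :
    ∃ ω : AddChar F ℂ, ∀ a, R (xE Q₀ (show 2 ≤ n by omega) hij a) e = ω a • e :=
  exists_scalar_char R (fun a => xE Q₀ (show 2 ≤ n by omega) hij a) he.2.1
    (xE_add Q₀ (show 2 ≤ n by omega) hij) fun a => he.2.2.2 _ (xE_mem_ws R hn hB hb hij h a he.1) fun k => by
      rw [← apply_mul, ← xE_mul_shE_comm Q₀ (show 2 ≤ n by omega) hij hj.symm, apply_mul, he.2.2.1]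

/-- transvections into the first index act on the line by scalars -/
theorem IsLine.x_scal_left (hr : LineFix R ψ) (hb : Blk B p s) (he : IsLine R ψ B p e) {l : Fin n}
    (hlp : l ≠ p) (hls : l ≠ s) :
    ∃ ω : AddChar F ℂ, ∀ a, R (xE Q₀ (show 2 ≤ n by omega) hlp a) e = ω a • e := by
  refine exists_scalar_char R (fun a => xE Q₀ (show 2 ≤ n by omega) hlp a) he.2.1
    (xE_add Q₀ (show 2 ≤ n by omega) hlp) fun a => ?_
  set v := R (xE Q₀ (show 2 ≤ n by omega) hlp a) e with hv
  have hvm : v ∈ ws R ψ B := xE_mem_ws R hn hB hb hlp (Or.inl ⟨hlp, hls⟩) a he.1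
  refine he.2.2.2 v hvm fun k => ?_
  have h1 := congrArg (fun g => R g e) (xE_mul_shE Q₀ (show 2 ≤ n by omega) hlp a k)
  simp only [apply_mul, he.2.2.1] at h1
  have h2 : R (shE Q₀ l (a • k)) v = v := by
    rw [hv, ← apply_mul, ← xE_mul_shE_comm Q₀ (show 2 ≤ n by omega) hlp hlp, apply_mul, hr B p s e hb he l hlp hls]
  rw [← hv, h2, zE_single_apply R (shE_mem_ws R _ _ hvm), (hb.off hlp hls p).2, zero_mul,
    AddChar.map_zero_eq_one, one_smul] at h1
  exact h1.symm

/-- transvections into the second index from outside fix the line -/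
theorem IsLine.x_fix_right (hr : LineFix R ψ) (hb : Blk B p s) (he : IsLine R ψ B p e) {l : Fin n}
    (hlp : l ≠ p) (hls : l ≠ s) (a : F) :
    R (xE Q₀ (show 2 ≤ n by omega) hls a) e = e := by
  obtain ⟨α, hα⟩ := he.x_scal_left R hn hB hr hb hlp hls
  obtain ⟨β, hβ⟩ := he.x_scal_right R hn hB hb hb.1 (Or.inr ⟨rfl, rfl⟩) hb.1.symm
  obtain ⟨γ, hγ⟩ := he.x_scal_right R hn hB hb hls (Or.inl ⟨hlp, hls⟩) hb.1.symm
  have h := congrArg (fun g => R g e) (xE_comm Q₀ (show 2 ≤ n by omega) hlp hb.1 hls a 1)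
  simp only [apply_mul, hα, hβ, hγ, map_smul, smul_smul, mul_one] at h
  have h1 := smul_left_injective ℂ he.2.1 h
  have hne : β 1 * α a ≠ 0 := mul_ne_zero (AddChar.val_isUnit β _).ne_zero
    (AddChar.val_isUnit α _).ne_zero
  have h2 : γ a = 1 := mul_left_cancel₀ hne (by linear_combination -h1)
  rw [hγ, h2, one_smul]

omit hn in
theorem shE_two (hψ : ψ.IsPrimitive) (hb : Blk B p s) (he : IsLine R ψ B p e) (d : W) :
    R (shE Q₀ s d) e ∈ ws R ψ B ∧
      (∀ y, R (shE Q₀ p y) (R (shE Q₀ s d) e) = ψ (B s p * polar Q₀ y d) • R (shE Q₀ s d) e) ∧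
      ((∀ y, ψ (B s p * polar Q₀ y d) = 1) → d = 0) := by
  have hm := shE_mem_ws R s d he.1
  refine ⟨hm, fun y => ?_, fun h => shOp_eigen_injective hB hψ hb.sp_ne ?_⟩
  · rw [← apply_mul, shE_mul_shE Q₀ hb.1, apply_mul, apply_mul, he.2.2.1, zE_single_apply R hm]
  · funext y
    dsimp only
    rw [h y, polar_zero_right, mul_zero, AddChar.map_zero_eq_one]

/-- transvections into the first index from outside fix the line -/
theorem IsLine.x_fix_left (hψ : ψ.IsPrimitive) (hr : LineFix R ψ) (hb : Blk B p s)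
    (he : IsLine R ψ B p e) {e₂ : V} (he₂ : IsLine R ψ B s e₂) {l : Fin n}
    (hlp : l ≠ p) (hls : l ≠ s) (a : F) :
    R (xE Q₀ (show 2 ≤ n by omega) hlp a) e = e := by
  classical
  haveI : Finite W := Module.finite_of_finite F
  letI := Fintype.ofFinite W
  obtain ⟨ω, hω⟩ := he.x_scal_left R hn hB hr hb hlp hls
  set e' : V := ∑ d : W, R (shE Q₀ s d) e with he'
  have hm' : e' ∈ ws R ψ B := Submodule.sum_mem _ fun d _ => shE_mem_ws R s d he.1
  have hfix' : ∀ k, R (shE Q₀ s k) e' = e' := fun k => by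
    rw [he', map_sum]
    exact Fintype.sum_equiv (Equiv.addLeft k) _ _ fun d => by
      rw [← apply_mul, ← shE_add]; rfl
  have hxe' : R (xE Q₀ (show 2 ≤ n by omega) hlp a) e' = ω a • e' := by
    rw [he', map_sum, Finset.smul_sum]
    refine Finset.sum_congr rfl fun d _ => ?_
    rw [← apply_mul, xE_mul_shE_comm Q₀ (show 2 ≤ n by omega) hlp hb.1.symm, apply_mul, hω, map_smul]
  have hne' : e' ≠ 0 := by
    intro h0
    have h1 : ∑ y : W, R (shE Q₀ p y) e' = 0 := by simp [h0]
    rw [he'] at h1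
    simp only [map_sum] at h1
    rw [Finset.sum_comm] at h1
    have h2 : ∀ d : W, ∑ y : W, R (shE Q₀ p y) (R (shE Q₀ s d) e) =
        (if d = 0 then (Fintype.card W : ℂ) else 0) • R (shE Q₀ s d) e := fun d => by
      obtain ⟨-, h3, h4⟩ := shE_two R hB hψ hb he d
      simp only [h3, ← Finset.sum_smul]
      congr 1
      split_ifs with hd
      · subst hd; simp
      · let φ : AddChar W ℂ :=
          { toFun := fun y => ψ (B s p * polar Q₀ y d)
            map_zero_eq_one' := by simp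
            map_add_eq_mul' := fun a b => by rw [polar_add_left, mul_add, AddChar.map_add_eq_mul] }
        exact AddChar.sum_eq_zero_of_ne_one (ψ := φ) fun h => hd (h4 fun y => DFunLike.congr_fun h y)
    simp only [h2, ite_smul, zero_smul, Finset.sum_ite_eq', Finset.mem_univ, if_true, shE_zero,
      map_one, Module.End.one_apply] at h1
    exact he.2.1 ((smul_eq_zero.1 h1).resolve_left (Nat.cast_ne_zero.2 Fintype.card_ne_zero))
  obtain ⟨c, hc⟩ := he₂.2.2.2 e' hm' hfix'
  have h5 : R (xE Q₀ (show 2 ≤ n by omega) hlp a) e' = e' := by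
    rw [hc, map_smul, he₂.x_fix_right R hn hB hr hb.symm hls hlp]
  rw [hxe'] at h5
  rw [hω, (smul_left_injective ℂ hne' (h5.trans (one_smul ℂ e').symm) : ω a = 1), one_smul]

omit hn hB in
theorem exists_mulShift_eq (hψ : ψ.IsPrimitive) (ω : AddChar F ℂ) : ∃ β : F, ∀ a, ω a = ψ (β * a) := by
  classical
  have hinj : Function.Injective fun β : F => AddChar.mulShift ψ β := by
    intro b b' h
    by_contra hne
    refine hψ (sub_ne_zero.2 hne) (DFunLike.ext _ _ fun x => ?_)
    have h1 := DFunLike.congr_fun h x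
    simp only [AddChar.mulShift_apply] at h1
    rw [AddChar.mulShift_apply, sub_mul, AddChar.map_sub_eq_div, h1,
      div_self (AddChar.val_isUnit ψ _).ne_zero, AddChar.one_apply]
  obtain ⟨β, hβ⟩ := ((Fintype.bijective_iff_injective_and_card _).2
    ⟨hinj, AddChar.card_eq.symm⟩).2 ω
  exact ⟨β, fun a => by rw [← hβ]; rfl⟩

/-- a translate of the line fixed by all transvections into the second index -/
theorem IsLine.exists_shift (hψ : ψ.IsPrimitive) (hr : LineFix R ψ)
    (hS : Function.Surjective fun k => Q₀ k) (hb : Blk B p s) (he : IsLine R ψ B p e) :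
    ∃ d : W, ∀ (i : Fin n) (hi : i ≠ s) (a : F),
      R (xE Q₀ (show 2 ≤ n by omega) hi a) (R (shE Q₀ s d) e) = R (shE Q₀ s d) e := by
  obtain ⟨ω, hω⟩ := he.x_scal_right R hn hB hb hb.1 (Or.inr ⟨rfl, rfl⟩) hb.1.symm
  obtain ⟨β, hβ⟩ := exists_mulShift_eq hψ ω
  obtain ⟨d, hd⟩ := hS (-(β / B s p))
  replace hd : Q₀ d = -(β / B s p) := hd
  refine ⟨d, fun i hi a => ?_⟩
  rw [← apply_mul, xE_mul_shE]
  simp only [apply_mul]
  rcases eq_or_ne i p with rfl | hip
  · rw [hω, map_smul, map_smul, map_smul, he.2.2.1, zE_single_apply R (shE_mem_ws R s d he.1),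
      smul_smul, hβ, ← AddChar.map_add_eq_mul, hd]
    have := hb.sp_ne
    rw [show β * a + B s i * (a * -(β / B s i)) = 0 by field_simp; ring, AddChar.map_zero_eq_one,
      one_smul]
  · rw [he.x_fix_right R hn hB hr hb hip hi, hr B p s e hb he i hip hi,
      zE_single_apply R (shE_mem_ws R s d he.1), (hb.off hip hi s).2, zero_mul,
      AddChar.map_zero_eq_one, one_smul]

set_option maxHeartbeats 2000000 in
/-- transvections between outside indices fix the line -/
theorem IsLine.x_fix_out (hψ : ψ.IsPrimitive) (hb : Blk B p s) (he : IsLine R ψ B p e)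
    (hxs : ∀ a, R (xE Q₀ (show 2 ≤ n by omega) hb.1 a) e = e)
    {l l' : Fin n} (hlp : l ≠ p) (hls : l ≠ s) (hlp' : l' ≠ p) (hls' : l' ≠ s) (hll : l ≠ l')
    (hwd : Wedgy (conjRep R (sw Q₀ {l'})) ψ) (a : F) :
    R (xE Q₀ (show 2 ≤ n by omega) hll a) e = e := by
  classical
  have h2 : 2 ≤ n := by omega
  obtain ⟨ω, hω⟩ := he.x_scal_right R hn hB hb hll (Or.inl ⟨hlp, hls⟩) hlp'
  let xp : F → Om Q₀ n := fun c => xE Q₀ h2 hlp'.symm c
  let xs : F → Om Q₀ n := fun c => xE Q₀ h2 hls'.symm c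
  set X : F × F → SpecialLinearGroup (Fin n) F := fun ab =>
    SpecialLinearGroup.transvection hlp'.symm ab.1 * SpecialLinearGroup.transvection hls'.symm ab.2
    with hX
  have hXcoe : ∀ ab, (X ab).1 = 1 + Matrix.single p l' ab.1 + Matrix.single s l' ab.2 := fun ab => by
    change (SpecialLinearGroup.transvection hlp'.symm ab.1).1 *
      (SpecialLinearGroup.transvection hls'.symm ab.2).1 = _
    simp only [SpecialLinearGroup.transvection_coe, add_mul, mul_add, one_mul, mul_one,
      Matrix.single_mul_single_of_ne _ _ _ _ hls', add_zero]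
  have hXadd : ∀ x y, X (x + y) = X x * X y := fun x y => by
    apply Subtype.ext
    change (X (x + y)).1 = (X x).1 * (X y).1
    simp only [hXcoe, add_mul, mul_add, one_mul, mul_one, Prod.fst_add, Prod.snd_add,
      Matrix.single_add, Matrix.single_mul_single_of_ne _ _ _ _ hlp',
      Matrix.single_mul_single_of_ne _ _ _ _ hls', add_zero]
    abel
  set XE : F × F → Om Q₀ n := fun ab => slE Q₀ h2 (X ab) with hXE
  have hXEadd : ∀ x y, XE (x + y) = XE x * XE y := fun x y => by simp [hXE, hXadd]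
  set v : V := ∑ ab : F × F, R (XE ab) e with hv
  have hvfix : ∀ x, R (XE x) v = v := fun x => by
    rw [hv, map_sum]
    exact Fintype.sum_equiv (Equiv.addLeft x) _ _ fun d => by
      rw [← apply_mul, ← hXEadd]; rfl
  -- the centre moved past a translate
  have hmove : ∀ (M : Matrix (Fin n) (Fin n) F) (ab : F × F),
      R (zE Q₀ M) (R (XE ab) e) =
        chiM ψ B ((X (-ab)).1 * M * ((X (-ab)).1)ᵀ) • R (XE ab) e := fun M ab => by
    have hinv : (SpecialLinearGroup.toGL (X ab))⁻¹ = SpecialLinearGroup.toGL (X (-ab)) := by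
      rw [← map_inv]
      congr 1
      refine inv_eq_of_mul_eq_one_right ?_
      rw [← hXadd, add_neg_cancel]
      apply Subtype.ext
      change (X 0).1 = 1
      simp [hXcoe]
    have h : zE Q₀ M * XE ab = XE ab * zE Q₀ ((X (-ab)).1 * M * ((X (-ab)).1)ᵀ) :=
      Subtype.ext (by
        have := levHom_mul_zS' Q₀ (SpecialLinearGroup.toGL (X ab)) M
        rw [hinv] at this
        exact this)
    rw [← apply_mul, h, apply_mul, (mem_ws R).1 he.1, map_smul]
  have hoffc : ∀ (i j : Fin n) (c : F), i ≠ l' → j ≠ l' →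
      R (zE Q₀ (Matrix.single i j c)) v = ψ (B i j * c) • v := fun i j c hi hj => by
    rw [hv, map_sum, Finset.smul_sum]
    refine Finset.sum_congr rfl fun ab _ => ?_
    rw [hmove, show (X (-ab)).1 * Matrix.single i j c * ((X (-ab)).1)ᵀ = Matrix.single i j c by
      simp [hXcoe, add_mul, mul_add, Matrix.transpose_single, hi, hj, hi.symm, hj.symm],
      chiM_single]
  have hne : v ≠ 0 := by
    intro h0
    have h1 : ∑ tu : F × F, R (zE Q₀ (Matrix.single s l' tu.1 + Matrix.single p l' tu.2)) v = 0 := by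
      simp [h0]
    rw [hv] at h1
    simp only [map_sum] at h1
    rw [Finset.sum_comm] at h1
    have h3 : ∀ ab : F × F, ∑ tu : F × F,
        R (zE Q₀ (Matrix.single s l' tu.1 + Matrix.single p l' tu.2)) (R (XE ab) e) =
          (if ab = 0 then ((Fintype.card F : ℂ) * Fintype.card F) else 0) • R (XE ab) e := fun ab => by
      have e1 : ∀ tu : F × F,
          R (zE Q₀ (Matrix.single s l' tu.1 + Matrix.single p l' tu.2)) (R (XE ab) e) =
            (ψ (tu.1 * -(ab.1 * B s p)) * ψ (tu.2 * -(ab.2 * B p s))) •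
              R (XE ab) e := fun tu => by
        rw [zE_add, apply_mul, hmove, map_smul, hmove, smul_smul]
        congr 1
        simp only [hXcoe, Prod.fst_neg, Prod.snd_neg, Matrix.transpose_add, Matrix.transpose_one,
          Matrix.transpose_single, add_mul, mul_add, one_mul, mul_one,
          Matrix.single_mul_single_same, Matrix.single_mul_single_of_ne _ _ _ _ hlp',
          Matrix.single_mul_single_of_ne _ _ _ _ hls',
          Matrix.single_mul_single_of_ne _ _ _ _ hlp'.symm,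
          Matrix.single_mul_single_of_ne _ _ _ _ hls'.symm, add_zero, zero_mul, mul_zero]
        simp only [AddChar.map_add_eq_mul, chiM_single, (hb.off hlp' hls' _).2,
          zero_mul, AddChar.map_zero_eq_one, one_mul, mul_one]
        have hd1 : B s s = 0 := by obtain ⟨-, c, -, rfl⟩ := hb; simp [std]
        have hd2 : B p p = 0 := by obtain ⟨-, c, -, rfl⟩ := hb; simp [std]
        rw [hd1, hd2]
        simp only [zero_mul, AddChar.map_zero_eq_one, mul_one, one_mul]
        rw [mul_comm]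
        congr 2 <;> ring
      rw [Finset.sum_congr rfl fun tu _ => e1 tu, ← Finset.sum_smul]
      congr 1
      rw [Fintype.sum_prod_type]
      dsimp only
      rw [← Fintype.sum_mul_sum, AddChar.sum_mulShift _ hψ,
        AddChar.sum_mulShift _ hψ]
      have hb1 : B s p ≠ 0 := hb.sp_ne
      have hb2 : B p s ≠ 0 := hb.symm.sp_ne
      simp only [neg_eq_zero, mul_eq_zero, hb1, hb2, or_false]
      rcases eq_or_ne ab.1 0 with hA | hA <;> rcases eq_or_ne ab.2 0 with hB' | hB' <;>
        simp [hA, hB', Prod.ext_iff]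
    simp only [h3, ite_smul, zero_smul, Finset.sum_ite_eq', Finset.mem_univ, if_true] at h1
    have h0' : XE 0 = 1 := by simpa using hXEadd 0 0
    rw [h0', map_one, Module.End.one_apply] at h1
    exact he.2.1 ((smul_eq_zero.1 h1).resolve_left
      (mul_ne_zero (Nat.cast_ne_zero.2 Fintype.card_ne_zero) (Nat.cast_ne_zero.2 Fintype.card_ne_zero)))
  -- `v` is a weight vector after exchanging the pair at `l'`
  set R' := conjRep R (sw Q₀ {l'}) with hR'
  have hcase : ∀ (i : Fin n) (hi : i ≠ l') (c : F), ∃ γ : ℂ, R (xE Q₀ h2 hi c) v = γ • v ∧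
      (i = p ∨ i = s → γ = 1) ∧ (i = l → γ = ω c) := by
    intro i hi c
    rcases eq_or_ne i p with rfl | hip
    · refine ⟨1, ?_, fun _ => rfl, fun h => absurd h hlp.symm⟩
      rw [one_smul]
      have := hvfix (c, 0)
      simpa [hXE, hX, xE, transvection_zero] using this
    rcases eq_or_ne i s with rfl | his
    · refine ⟨1, ?_, fun _ => rfl, fun h => absurd h hls.symm⟩
      rw [one_smul]
      have := hvfix (0, c)
      simpa [hXE, hX, xE, transvection_zero] using this
    obtain ⟨ω', hω'⟩ := he.x_scal_right R hn hB hb hi (Or.inl ⟨hip, his⟩) hlp'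
    refine ⟨ω' c, ?_, fun h => (h.elim hip his).elim, fun h => ?_⟩
    · rw [hv, map_sum, Finset.smul_sum]
      refine Finset.sum_congr rfl fun ab _ => ?_
      have hcm : xE Q₀ h2 hi c * XE ab = XE ab * xE Q₀ h2 hi c := by
        simp only [hXE, xE, ← map_mul]
        congr 1
        apply Subtype.ext
        change (SpecialLinearGroup.transvection hi c).1 * (X ab).1 =
          (X ab).1 * (SpecialLinearGroup.transvection hi c).1
        simp only [hXcoe, SpecialLinearGroup.transvection_coe, add_mul, mul_add, one_mul, mul_one,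
          Matrix.single_mul_single_of_ne _ _ _ _ hlp', Matrix.single_mul_single_of_ne _ _ _ _ hls',
          Matrix.single_mul_single_of_ne _ _ _ _ hi.symm, add_zero]
        abel
      rw [← apply_mul, hcm, apply_mul, hω', map_smul]
    · subst h
      exact smul_left_injective ℂ he.2.1 ((hω' c).symm.trans (hω c))
  have hweight : ∀ M, ∃ γ : ℂ, R' (zE Q₀ M) v = γ • v := by
    intro M
    induction M using Matrix.induction_on' with
    | h_zero => exact ⟨1, by rw [zE_zero, map_one, one_smul]; rfl⟩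
    | h_add A B hA hB' =>
      obtain ⟨g1, hg1⟩ := hA
      obtain ⟨g2, hg2⟩ := hB'
      exact ⟨g2 * g1, by rw [zE_add, apply_mul, hg2, map_smul, hg1, smul_smul]⟩
    | h_std_basis i j c =>
      rcases eq_or_ne j l' with rfl | hj
      · rcases eq_or_ne i j with rfl | hi
        · exact ⟨1, by rw [zE_congr_symm Q₀ (Matrix.transpose_single _ _ _), map_one, one_smul]; rfl⟩
        · obtain ⟨γ, hγ, -⟩ := hcase i hi c
          refine ⟨γ, ?_⟩
          change R (conjE Q₀ _ _) v = _
          rw [conjE_sw_zE Q₀ h2 hi]; exact hγ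
      · rcases eq_or_ne i l' with rfl | hi
        · obtain ⟨γ, hγ, -⟩ := hcase j hj (-c)
          refine ⟨γ, ?_⟩
          change R (conjE Q₀ _ _) v = _
          rw [zE_congr Q₀ (N := Matrix.single j i (-c))
            (by rw [Matrix.transpose_single, Matrix.transpose_single, ← Matrix.single_neg,
              ← Matrix.single_neg]; abel), conjE_sw_zE Q₀ h2 hj]
          exact hγ
        · refine ⟨ψ (B i j * c), ?_⟩
          change R (conjE Q₀ _ _) v = _
          rw [conjE_sw_zE_off Q₀ hi hj, hoffc i j c hi hj]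
  choose χ hχ using hweight
  obtain ⟨φ, hφ⟩ := weight_addChar R' (zE Q₀) (zE_add Q₀) χ ⟨v, hne, hχ⟩
  obtain ⟨B₂, hB₂⟩ := exists_chiM hψ φ
  have hχB : ∀ M, chiM ψ B₂ M = χ M := fun M => by rw [← hφ, ← hB₂]
  have hA₂ : IsAlt B₂ := isAlt_of_chiM hψ fun M hM => by
    rw [hχB]
    have h := hχ M
    rw [zE_congr_symm Q₀ hM, map_one, Module.End.one_apply] at h
    exact (smul_left_injective ℂ hne (h.symm.trans (one_smul ℂ v).symm) :)
  have hval : ∀ i j c (γ : ℂ), R (conjE Q₀ (sw Q₀ {l'}) (zE Q₀ (Matrix.single i j c))) v = γ • v →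
      ψ (B₂ i j * c) = γ := fun i j c γ h => by
    rw [← chiM_single, hχB]
    exact smul_left_injective ℂ hne ((hχ _).symm.trans h)
  have hentry : ∀ (i j : Fin n) (x : F), (∀ c, ψ (B₂ i j * c) = ψ (x * c)) → B₂ i j = x := fun i j x h => by
    by_contra hx
    refine hψ (sub_ne_zero.2 hx) (DFunLike.ext _ _ fun c => ?_)
    rw [AddChar.mulShift_apply, sub_mul, AddChar.map_sub_eq_div, h,
      div_self (AddChar.val_isUnit ψ _).ne_zero, AddChar.one_apply]
  have hoff2 : ∀ i j, i ≠ l' → j ≠ l' → B₂ i j = B i j := fun i j hi hj => hentry _ _ _ fun c =>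
    hval i j c _ (by rw [conjE_sw_zE_off Q₀ hi hj, hoffc i j c hi hj])
  have hcol : ∀ i, (hi : i ≠ l') → (i = p ∨ i = s) → B₂ i l' = 0 := fun i hi hor =>
    hentry _ _ _ fun c => by
      obtain ⟨γ, hγ, h1, -⟩ := hcase i hi c
      rw [zero_mul, AddChar.map_zero_eq_one]
      refine hval i l' c 1 ?_
      rw [conjE_sw_zE Q₀ h2 hi]
      exact hγ.trans (by rw [h1 hor])
  obtain ⟨a', b', hab⟩ := hwd B₂ hA₂ ((Submodule.ne_bot_iff _).2 ⟨v, (mem_ws R').2 fun M => by
    rw [hχB]; exact hχ M, hne⟩)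
  have hpl : B₂ p s * B₂ l l' = B₂ p l * B₂ s l' - B₂ p l' * B₂ s l := by
    simp only [hab, wedge_apply]; ring
  rw [hcol s hls'.symm (Or.inr rfl), hcol p hlp'.symm (Or.inl rfl), hoff2 p s hlp'.symm hls'.symm,
    hoff2 p l hlp'.symm hll, (hb.off hlp hls p).2] at hpl
  have hll0 : B₂ l l' = 0 := (mul_eq_zero.1 (hpl.trans (by ring))).resolve_left hb.symm.sp_ne
  obtain ⟨γ, hγ, -, h1⟩ := hcase l hll a
  have h3 := hval l l' a γ (by rw [conjE_sw_zE Q₀ h2 hll]; exact hγ)
  rw [hll0, zero_mul, AddChar.map_zero_eq_one, h1 rfl] at h3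
  rw [hω, ← h3, one_smul]

omit hn hB in
theorem Rot.lineFix (hr : Rot Q₀ n) : LineFix R ψ :=
  fun _ _ _ _ hb he _ hlp hls x => he.sh_fix R hr hb hlp hls x

end Cfsg.Agent.MinDeg.Orth
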