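import Cfsg.Agent.MinDeg.OrthGroup
import Cfsg.Agent.MinDeg.OrthForms

/-!
Relations between the elements of the Siegel parabolic, and their behaviour under the exchange of
one hyperbolic pair.
-/

set_option autoImplicit false
set_option linter.unusedSectionVars false

namespace Cfsg.Agent.MinDeg.Orth

open QuadraticMap Cfsg.Agent.Classical Matrix

universe u w

variable {F : Type u} [Field F] {n : ℕ} {W : Type w} [AddCommGroup W] [Module F W]
  (Q₀ : QuadraticForm F W)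

theorem zE_comm (M N : Matrix (Fin n) (Fin n) F) : zE Q₀ M * zE Q₀ N = zE Q₀ N * zE Q₀ M := by
  rw [← zE_add, ← zE_add, add_comm]

theorem zS_mul_sh (M : Matrix (Fin n) (Fin n) F) (i : Fin n) (k : W) :
    zS Q₀ M * sh Q₀ i k = sh Q₀ i k * zS Q₀ M := oq_ext Q₀ fun v => by
  change (zS Q₀ M).1 ((sh Q₀ i k).1 v) = (sh Q₀ i k).1 ((zS Q₀ M).1 v)
  simp only [zS_apply, sh_apply, cx_mk, cy_mk, snd_mk]
  ext <;> simp <;> ring

theorem zE_mul_shE (M : Matrix (Fin n) (Fin n) F) (i : Fin n) (k : W) :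
    zE Q₀ M * shE Q₀ i k = shE Q₀ i k * zE Q₀ M := Subtype.ext (zS_mul_sh Q₀ M i k)

theorem sh_comm_same (i : Fin n) (k l : W) : shE Q₀ i k * shE Q₀ i l = shE Q₀ i l * shE Q₀ i k := by
  rw [← shE_add, ← shE_add, add_comm]

theorem sh_mul_sh {i j : Fin n} (hij : i ≠ j) (k l : W) :
    sh Q₀ i k * sh Q₀ j l =
      zS Q₀ (Matrix.single j i (polar Q₀ k l)) * (sh Q₀ j l * sh Q₀ i k) := oq_ext Q₀ fun v => by
  change (sh Q₀ i k).1 ((sh Q₀ j l).1 v) = (zS Q₀ _).1 ((sh Q₀ j l).1 ((sh Q₀ i k).1 v))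
  simp only [zS_apply, sh_apply, cx_mk, cy_mk, snd_mk, polar_add_right, polar_smul_right,
    Matrix.sub_mulVec, Matrix.transpose_single, Matrix.single_mulVec, polar_comm Q₀ l k,
    smul_eq_mul]
  ext x
  · simp [Pi.single_apply, Function.update_apply]
    rcases eq_or_ne x i with rfl | hxi
    · simp [hij]; ring
    · rcases eq_or_ne x j with rfl | hxj
      · simp [hxi]; ring
      · simp [hxi, hxj]
  · simp
  · simp; abel

theorem shE_mul_shE {i j : Fin n} (hij : i ≠ j) (k l : W) :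
    shE Q₀ i k * shE Q₀ j l =
      zE Q₀ (Matrix.single j i (polar Q₀ k l)) * (shE Q₀ j l * shE Q₀ i k) :=
  Subtype.ext (sh_mul_sh Q₀ hij k l)

/-- a Levi element moves a short radical element -/
theorem levHom_mul_sh (g : GL (Fin n) F) {i : Fin n} {c : F}
    (hg : g.1 *ᵥ ev i = c • ev i) (k : W) :
    levHom Q₀ g * sh Q₀ i k = sh Q₀ i (c • k) * levHom Q₀ g := by
  rw [← mul_inv_eq_iff_eq_mul, sh, sh, siegel_conj]
  have h1 : (levHom Q₀ g).1 (mk (ev i) 0 0) = c • mk (ev i) 0 0 := by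
    rw [levHom_apply, cx_mk, cy_mk, snd_mk, hg]
    ext <;> simp
  have h2 : (levHom Q₀ g).1 (mk 0 0 k) = mk 0 0 k := by
    rw [levHom_apply]
    ext <;> simp
  have h3 : polar (hypExt n Q₀) (mk (ev i) 0 0) (c • mk 0 0 k) = 0 := by
    rw [polar_smul_right, sh_orth, smul_zero]
  rw [siegel_congr _ _ _ (show hypExt n Q₀ (c • mk (ev i) 0 0) = 0 by
      rw [QuadraticMap.map_smul, sh_singular, smul_zero])
    (show polar (hypExt n Q₀) (c • mk (ev i) 0 0) (mk 0 0 k) = 0 by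
      rw [polar_smul_left, sh_orth, smul_zero]) h1 h2,
    siegel_smul_left _ c (sh_singular Q₀ i) (sh_orth Q₀ i k) _ h3 _]
  exact siegel_congr _ _ _ _ _ rfl (by ext <;> simp)

theorem levHom_mul_zS' (g : GL (Fin n) F) (M : Matrix (Fin n) (Fin n) F) :
    zS Q₀ M * levHom Q₀ g =
      levHom Q₀ g * zS Q₀ ((g⁻¹ : GL (Fin n) F).1 * M * ((g⁻¹ : GL (Fin n) F).1)ᵀ) := by
  rw [levHom_mul_zS]
  congr 2
  simp only [← Matrix.mul_assoc, g.mul_inv, Matrix.one_mul]
  rw [Matrix.mul_assoc, ← Matrix.transpose_mul, g.mul_inv, Matrix.transpose_one, Matrix.mul_one]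

theorem zE_congr_symm {M : Matrix (Fin n) (Fin n) F} (h : Mᵀ = M) : zE Q₀ M = 1 := by
  rw [zE_congr Q₀ (N := 0) (by rw [h, sub_self]; simp), zE_zero]

/-! ### exchanging one pair -/

theorem conj_sw_zS_off {s i j : Fin n} (hi : i ≠ s) (hj : j ≠ s) (a : F) :
    sw Q₀ {s} * zS Q₀ (Matrix.single i j a) * (sw Q₀ {s})⁻¹ = zS Q₀ (Matrix.single i j a) := by
  rw [sw_inv]
  refine oq_ext Q₀ fun v => ?_
  change (sw Q₀ {s}).1 ((zS Q₀ _).1 ((sw Q₀ {s}).1 v)) = _
  simp only [zS_apply, sw_apply, cx_mk, cy_mk, snd_mk, Finset.mem_singleton, Matrix.sub_mulVec,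
    Matrix.transpose_single, Matrix.single_mulVec]
  ext x
  · rcases eq_or_ne x s with rfl | hx
    · simp [hi.symm, hj.symm]
    · simp [hx, hi, hj]
  · rcases eq_or_ne x s with rfl | hx
    · simp [hi.symm, hj.symm]
    · simp [hx]
  · simp

theorem conj_sw_zS {s j : Fin n} (hj : j ≠ s) (a : F) :
    sw Q₀ {s} * zS Q₀ (Matrix.single j s a) * (sw Q₀ {s})⁻¹ =
      slHom Q₀ (SpecialLinearGroup.transvection hj a) := by
  rw [sw_inv]
  refine oq_ext Q₀ fun v => ?_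
  change (sw Q₀ {s}).1 ((zS Q₀ _).1 ((sw Q₀ {s}).1 v)) = _
  simp only [zS_apply, slHom_apply, SpecialLinearGroup.transvection_inv hj a,
    SpecialLinearGroup.transvection_coe, sw_apply, cx_mk, cy_mk, snd_mk, Finset.mem_singleton,
    Matrix.sub_mulVec, Matrix.add_mulVec, Matrix.one_mulVec, Matrix.transpose_add,
    Matrix.transpose_one, Matrix.transpose_single, Matrix.single_mulVec]
  ext x
  · rcases eq_or_ne x s with rfl | hx
    · simp [hj, hj.symm]
    · rcases eq_or_ne x j with rfl | hxj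
      · simp [hx]
      · simp [hx, hxj]
  · rcases eq_or_ne x s with rfl | hx
    · simp [hj, hj.symm]
    · rcases eq_or_ne x j with rfl | hxj
      · simp [hx]
      · simp [hx, hxj]
  · simp

theorem conjE_sw_sw (s : Finset (Fin n)) (g : Om Q₀ n) :
    conjE Q₀ (sw Q₀ s) (conjE Q₀ (sw Q₀ s) g) = g := by
  have := sw_mul_self Q₀ s
  apply Subtype.ext
  simp only [conjE_coe, sw_inv]
  rw [show sw Q₀ s * (sw Q₀ s * g.1 * sw Q₀ s) * sw Q₀ s =
    (sw Q₀ s * sw Q₀ s) * g.1 * (sw Q₀ s * sw Q₀ s) by group, this, one_mul, mul_one]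

variable [Finite F] [FiniteDimensional F W]

theorem conjE_sw_zE_off {s i j : Fin n} (hi : i ≠ s) (hj : j ≠ s) (a : F) :
    conjE Q₀ (sw Q₀ {s}) (zE Q₀ (Matrix.single i j a)) = zE Q₀ (Matrix.single i j a) :=
  Subtype.ext (conj_sw_zS_off Q₀ hi hj a)

theorem conjE_sw_zE {s j : Fin n} (hn : 2 ≤ n) (hj : j ≠ s) (a : F) :
    conjE Q₀ (sw Q₀ {s}) (zE Q₀ (Matrix.single j s a)) =
      slE Q₀ hn (SpecialLinearGroup.transvection hj a) :=
  Subtype.ext (conj_sw_zS Q₀ hj a)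

end Cfsg.Agent.MinDeg.Orth
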