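import Cfsg.Agent.MinDeg.OrthBound

/-!
The trace of an element of the centre of the Siegel radical when the weights fill the space.
-/

set_option autoImplicit false
set_option linter.unusedSectionVars false

namespace Cfsg.Agent.MinDeg.Orth

open QuadraticMap Cfsg.Agent.Classical Matrix Cfsg.Agent.Weights Module

universe u w v

section General

variable {L : Type*} [Field L] {A : Type*} {V : Type v} [AddCommGroup V] [Module L V]
  [FiniteDimensional L V]

/-- if weight spaces fill the space, each operator has trace the sum of its values with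
multiplicities -/
theorem trace_of_full (R : A → End L V) (S : Finset (A → L))
    (hfull : ∑ χ ∈ S, finrank L (weightSpace R χ) = finrank L V) (a : A) :
    LinearMap.trace L V (R a) = ∑ χ ∈ S, χ a * (finrank L (weightSpace R χ) : L) := by
  classical
  let f : ((χ : S) → weightSpace R χ.1) →ₗ[L] V :=
    ∑ χ : S, (weightSpace R χ.1).subtype ∘ₗ LinearMap.proj χ
  have hfapp : ∀ x, f x = ∑ χ : S, (x χ : V) := fun x => by
    simp [f, LinearMap.sum_apply]
  have hf : Function.Injective f := by
    rw [← LinearMap.ker_eq_bot, LinearMap.ker_eq_bot']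
    intro x hx
    by_contra hne
    obtain ⟨χ₀, hχ₀⟩ := Function.ne_iff.1 hne
    let ι := {χ : S // x χ ≠ 0}
    have hli := linearIndependent_weightVec (ι := ι) R (fun i => i.1.1)
      (fun i j h => Subtype.ext (Subtype.ext h))
      (fun i => ((x i.1 : weightSpace R i.1.1) : V))
      (fun i => ⟨fun h => i.2 (Subtype.ext h), mem_weightSpace.1 (x i.1).2⟩)
    have hsum : ∑ i : ι, (1 : L) • ((x i.1 : weightSpace R i.1.1) : V) = 0 := by
      simp only [one_smul]
      rw [← hx, hfapp]
      rw [← Finset.sum_subtype (Finset.univ.filter fun χ : S => x χ ≠ 0) (by simp)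
        (fun χ : S => ((x χ : weightSpace R χ.1) : V)), Finset.sum_filter_of_ne]
      intro c _ h h0
      exact h (by rw [h0]; rfl)
    exact one_ne_zero (Fintype.linearIndependent_iff.1 hli (fun _ => 1) hsum ⟨χ₀, hχ₀⟩)
  have hdim : finrank L ((χ : S) → weightSpace R χ.1) = finrank L V := by
    rw [Module.finrank_pi_fintype, ← hfull, ← Finset.sum_coe_sort S]
  let e := LinearEquiv.ofBijective f
    ⟨hf, (LinearMap.injective_iff_surjective_of_finrank_eq_finrank hdim).1 hf⟩
  let D : End L ((χ : S) → weightSpace R χ.1) :=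
    ∑ χ : S, χ.1 a • (LinearMap.single L (fun ξ : S => weightSpace R ξ.1) χ ∘ₗ LinearMap.proj χ)
  have hD : R a = e.conj D := by
    refine LinearMap.ext fun v => ?_
    obtain ⟨x, rfl⟩ := e.surjective v
    rw [LinearEquiv.conj_apply_apply, LinearEquiv.symm_apply_apply]
    change R a (f x) = f (D x)
    have hDx : ∀ χ : S, D x χ = χ.1 a • x χ := fun χ => by
      simp only [D, LinearMap.sum_apply, Finset.sum_apply, LinearMap.smul_apply, LinearMap.comp_apply,
        LinearMap.proj_apply, LinearMap.coe_single, Pi.smul_apply]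
      rw [Finset.sum_eq_single χ (fun b _ hb => by rw [Pi.single_eq_of_ne hb.symm, smul_zero])
        (fun h => absurd (Finset.mem_univ χ) h), Pi.single_eq_same]
    rw [hfapp, hfapp, map_sum]
    exact Finset.sum_congr rfl fun χ _ => by
      rw [hDx, Submodule.coe_smul]
      exact mem_weightSpace.1 (x χ).2 a
  rw [hD, LinearMap.trace_conj', map_sum]
  conv_rhs => rw [← Finset.sum_coe_sort]
  refine Finset.sum_congr rfl fun χ _ => ?_
  rw [map_smul, smul_eq_mul, LinearMap.trace_comp_comm',
    show LinearMap.proj χ ∘ₗ LinearMap.single L (fun ξ : S => weightSpace R ξ.1) χ = LinearMap.id by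
      refine LinearMap.ext fun y => ?_
      simp, LinearMap.trace_id]

end General

variable {F : Type u} [Field F] [Fintype F] {n : ℕ} {W : Type w} [AddCommGroup W] [Module F W]
  [FiniteDimensional F W] {Q₀ : QuadraticForm F W} {ψ : AddChar F ℂ}
  {V : Type v} [AddCommGroup V] [Module ℂ V] [FiniteDimensional ℂ V]
  (R : Om Q₀ n →* Module.End ℂ V)

/-- the trace in the case of equality -/
theorem trace_zE (hψ : ψ.IsPrimitive)
    (hmult : ∀ B ∈ wedges F n, finrank ℂ (ws R ψ B) = Nat.card W)
    (hfull : finrank ℂ (fixZ R) + ∑ B ∈ wedges F n, finrank ℂ (ws R ψ B) = finrank ℂ V)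
    (M : Matrix (Fin n) (Fin n) F) :
    LinearMap.trace ℂ V (R (zE Q₀ M)) =
      (finrank ℂ V : ℂ) - (Nat.card W : ℂ) * ∑ B ∈ wedges F n, (1 - chiM ψ B M) := by
  classical
  have hinj : Function.Injective fun B => (⇑(chiM (n := n) ψ B) : _ → ℂ) :=
    fun a b h => chiM_injective hψ (DFunLike.coe_injective h)
  have h := trace_of_full (fun M => R (zE Q₀ M))
    ((insert (0 : Matrix (Fin n) (Fin n) F) (wedges F n)).image fun B => (⇑(chiM ψ B) : _ → ℂ))
    (by
      rw [Finset.sum_image hinj.injOn, Finset.sum_insert zero_not_mem_wedges]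
      change finrank ℂ (ws R ψ 0) + _ = _
      rw [ws_zero]
      exact hfull) M
  rw [h, Finset.sum_image hinj.injOn, Finset.sum_insert zero_not_mem_wedges]
  change chiM ψ 0 M * (finrank ℂ (ws R ψ 0) : ℂ) +
    ∑ B ∈ wedges F n, chiM ψ B M * (finrank ℂ (ws R ψ B) : ℂ) = _
  rw [Finset.sum_congr rfl fun B hB => by rw [hmult B hB], ← Finset.sum_mul, ws_zero,
    show chiM ψ 0 M = 1 by simp [chiM_apply]]
  rw [← hfull, Finset.sum_congr rfl hmult, Finset.sum_sub_distrib, Finset.sum_const, Finset.sum_const]
  push_cast [smul_eq_mul, nsmul_eq_mul]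
  ring

/-- the deviation of the values of the wedge characters at a root element -/
theorem sum_one_sub_chiM (hψ : ψ.IsPrimitive) (hn : 2 ≤ n) {i j : Fin n} (hij : i ≠ j) {c : F}
    (hc : c ≠ 0) :
    ∑ B ∈ wedges F n, (1 - chiM ψ B (Matrix.single j i c)) =
      (Fintype.card F : ℂ) ^ (2 * n - 3) := by
  classical
  obtain ⟨m, rfl⟩ : ∃ m, n = m + 2 := ⟨n - 2, by omega⟩
  set q := Fintype.card F with hqdef
  set g : (Fin (m + 2) → F) × (Fin (m + 2) → F) → ℂ := fun ab =>
    1 - chiM ψ (wedge ab.1 ab.2) (Matrix.single j i c) with hg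
  set P := Finset.univ.filter fun ab : (Fin (m + 2) → F) × (Fin (m + 2) → F) =>
    wedge ab.1 ab.2 ≠ 0 with hP
  have h1 : ∑ ab ∈ P, g ab = ∑ ab, g ab := by
    refine Finset.sum_filter_of_ne fun ab _ h => ?_
    intro h0
    exact h (by simp only [hg, h0]; simp [chiM_apply])
  have h2 : ∑ ab ∈ P, g ab = ∑ B ∈ wedges F (m + 2),
      ((q * (q ^ 2 - 1) : ℕ) : ℂ) * (1 - chiM ψ B (Matrix.single j i c)) := by
    rw [← Finset.sum_fiberwise_of_maps_to (t := wedges F (m + 2))
      (g := fun ab => wedge ab.1 ab.2) (fun ab hab => Finset.mem_image_of_mem _ hab)]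
    refine Finset.sum_congr rfl fun B hB => ?_
    obtain ⟨a, b, h, rfl⟩ := mem_wedges.1 hB
    rw [Finset.sum_congr rfl fun ab hab => show g ab = 1 - chiM ψ (wedge a b) (Matrix.single j i c) by
      simp only [hg, (Finset.mem_filter.1 hab).2], Finset.sum_const, nsmul_eq_mul]
    congr 2
    rw [← card_wedge_fibre h, hP, Finset.filter_filter]
    congr 1
    refine Finset.filter_congr fun x _ => ?_
    exact ⟨fun h' => h'.2, fun h' => ⟨by rw [h']; exact h, h'⟩⟩
  have hzero : ∀ a : Fin (m + 2) → F, ∑ b, chiM ψ (wedge a b) (Matrix.single j i c) =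
      if a i = 0 ∧ a j = 0 then (q : ℂ) ^ (m + 2) else 0 := by
    intro a
    set w : Fin (m + 2) → F := (c * a j) • Pi.single i 1 - (c * a i) • Pi.single j 1 with hw
    have hval : ∀ b, chiM ψ (wedge a b) (Matrix.single j i c) = ψ (b ⬝ᵥ w) := fun b => by
      rw [chiM_single, hw]
      congr 1
      simp [dotProduct_sub, dotProduct_smul]
      ring
    have hw0 : w = 0 ↔ a i = 0 ∧ a j = 0 := by
      constructor
      · intro h
        have e1 := congrFun h i
        have e2 := congrFun h j
        simp [hw, hij, hij.symm, hc] at e1 e2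
        exact ⟨e2, e1⟩
      · rintro ⟨h1, h2⟩
        simp [hw, h1, h2]
    simp only [hval, SLMin.sum_psi hψ, hw0, hqdef]
  have hcount : (Finset.univ.filter fun a : Fin (m + 2) → F => a i = 0 ∧ a j = 0).card = q ^ m := by
    have he : (Finset.univ.filter fun a : Fin (m + 2) → F => a i = 0 ∧ a j = 0) =
        Fintype.piFinset fun l => if l = i ∨ l = j then {0} else Finset.univ := by
      ext a
      simp only [Finset.mem_filter, Finset.mem_univ, true_and, Fintype.mem_piFinset]
      refine ⟨fun h l => ?_, fun h => ⟨by simpa using h i, by simpa using h j⟩⟩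
      split_ifs with hl
      · rcases hl with rfl | rfl <;> simp [h]
      · exact Finset.mem_univ _
    rw [he, Fintype.card_piFinset, ← Finset.mul_prod_erase _ _ (Finset.mem_univ i),
      ← Finset.mul_prod_erase _ _ (show j ∈ Finset.univ.erase i by simp [hij.symm])]
    rw [Finset.prod_congr rfl fun l hl => by
      simp only [Finset.mem_erase] at hl
      rw [if_neg (by tauto), Finset.card_univ], Finset.prod_const,
      Finset.card_erase_of_mem (by simp [hij.symm]), Finset.card_erase_of_mem (Finset.mem_univ _),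
      Finset.card_univ, Fintype.card_fin]
    simp [hqdef]
  have h3 : ∑ ab, g ab = (q : ℂ) ^ (2 * m + 4) - (q : ℂ) ^ (2 * m + 2) := by
    simp only [hg, Fintype.sum_prod_type, Finset.sum_sub_distrib, hzero, Finset.sum_const,
      Finset.card_univ, nsmul_eq_mul, mul_one, ← Finset.sum_filter]
    rw [hcount, Fintype.card_prod, Fintype.card_fun, Fintype.card_fin]
    push_cast
    rw [← hqdef]
    ring
  have hq : 2 ≤ q := Fintype.one_lt_card
  have hne : ((q * (q ^ 2 - 1) : ℕ) : ℂ) ≠ 0 := by
    have : 4 ≤ q ^ 2 := by nlinarith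
    exact Nat.cast_ne_zero.2 (Nat.mul_ne_zero (by omega) (by omega))
  apply mul_left_cancel₀ hne
  rw [Finset.mul_sum, ← h2, h1, h3, show 2 * (m + 2) - 3 = 2 * m + 1 by omega,
    Nat.cast_mul, Nat.cast_sub (Nat.one_le_pow _ _ (by omega)), Nat.cast_pow, Nat.cast_one]
  ring

end Cfsg.Agent.MinDeg.Orth
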