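import Cfsg.Agent.MinDeg.SUModel
import Cfsg.Agent.MinDeg.Orbit
import Cfsg.Agent.Classical.UBasic
import Cfsg.Agent.Weights.Over

/-!
The minimal degree of `SU_(2m+r)(q)`: the weights of the Siegel subgroup.
-/

namespace Cfsg.Agent.MinDeg.SUni

open Matrix Cfsg.Agent.Weights Cfsg.Agent.Classical.U

variable {F : Type*} [Field F] {m r n q : ℕ} {φ : F →+* F}

/-- `a ⊗ φ b` -/
def outer (φ : F →+* F) (a b : Fin m → F) : Matrix (Fin m) (Fin m) F := vecMulVec a (φ ∘ b)

theorem outer_add_left (a a' b : Fin m → F) : outer φ (a + a') b = outer φ a b + outer φ a' b :=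
  Matrix.add_vecMulVec ..

theorem outer_add_right (a b b' : Fin m → F) : outer φ a (b + b') = outer φ a b + outer φ a b' := by
  rw [outer, outer, outer, ← Matrix.vecMulVec_add]
  congr 1
  ext i
  simp

theorem outer_smul_left (c : F) (a b : Fin m → F) : outer φ (c • a) b = c • outer φ a b :=
  Matrix.smul_vecMulVec ..

theorem outer_smul_right (c : F) (a b : Fin m → F) : outer φ a (c • b) = φ c • outer φ a b := by
  rw [outer, outer, ← Matrix.vecMulVec_smul]
  congr 1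
  ext i
  simp

theorem conj_outer (A : Matrix (Fin m) (Fin m) F) (s : F) (a b : Fin m → F) :
    A * (s • outer φ a b) * (A.map φ)ᵀ = s • outer φ (A *ᵥ a) (A *ᵥ b) := by
  rw [Matrix.mul_smul, Matrix.smul_mul, outer, outer, Matrix.mul_vecMulVec, Matrix.vecMulVec_mul,
    Matrix.vecMul_transpose]
  congr 2
  exact funext fun i => (RingHom.map_mulVec φ A b i).symm

theorem outer_conjTranspose (hφ2 : ∀ x, φ (φ x) = x) (s : F) (a b : Fin m → F) :
    ((s • outer φ a b).map φ)ᵀ = φ s • outer φ b a := by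
  ext i j
  simp only [outer, vecMulVec_apply, Matrix.map_apply, Matrix.transpose_apply, Matrix.smul_apply,
    smul_eq_mul, Function.comp_apply, map_mul, hφ2]
  ring

/-- matrices that occur as the Levi part of an element of `SU` -/
def LeviOK (φ : F →+* F) (r : ℕ) (A : Matrix (Fin m) (Fin m) F) : Prop :=
  ∃ (Ai : Matrix (Fin m) (Fin m) F) (Δ : Matrix (Fin r) (Fin r) F),
    A * Ai = 1 ∧ Δᵀ * Δ.map φ = 1 ∧ A.det * φ Ai.det * Δ.det = 1

theorem LeviOK.inv (hφ2 : ∀ x, φ (φ x) = x) {A : Matrix (Fin m) (Fin m) F} (h : LeviOK φ r A) :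
    ∃ Ai, A * Ai = 1 ∧ LeviOK φ r Ai := by
  obtain ⟨Ai, Δ, hA, hΔ, hdet⟩ := h
  have hmm : (Δ.map φ).map φ = Δ := by ext i j; simp [hφ2]
  refine ⟨Ai, hA, A, (Δ.map φ)ᵀ, mul_eq_one_comm.1 hA, ?_, ?_⟩
  · rw [Matrix.transpose_transpose, Matrix.transpose_map, hmm]
    exact mul_eq_one_comm.1 hΔ
  · have h1 : A.det * Ai.det = 1 := by rw [← det_mul, hA, det_one]
    have h2 : φ A.det * φ Ai.det = 1 := by rw [← map_mul, h1, map_one]
    have h3 : Δ.det * φ Δ.det = 1 := by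
      have := congrArg Matrix.det hΔ
      rwa [det_mul, det_transpose, det_one, ← RingHom.mapMatrix_apply, ← RingHom.map_det] at this
    rw [det_transpose, ← RingHom.mapMatrix_apply, ← RingHom.map_det]
    calc Ai.det * φ A.det * φ Δ.det
        = Ai.det * φ A.det * φ Δ.det * (A.det * φ Ai.det * Δ.det) := by rw [hdet, mul_one]
      _ = (A.det * Ai.det) * (φ A.det * φ Ai.det) * (Δ.det * φ Δ.det) := by ring
      _ = 1 := by rw [h1, h2, h3]; ring

theorem LeviOK.mul {A B : Matrix (Fin m) (Fin m) F} (hA : LeviOK φ r A) (hB : LeviOK φ r B) :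
    LeviOK φ r (A * B) := by
  obtain ⟨Ai, Δ, h1, h2, h3⟩ := hA
  obtain ⟨Bi, Γ, k1, k2, k3⟩ := hB
  refine ⟨Bi * Ai, Δ * Γ, ?_, ?_, ?_⟩
  · rw [show A * B * (Bi * Ai) = A * (B * Bi) * Ai by simp only [Matrix.mul_assoc], k1,
      Matrix.mul_one, h1]
  · rw [Matrix.transpose_mul, Matrix.map_mul, show Γᵀ * Δᵀ * (Δ.map φ * Γ.map φ) =
      Γᵀ * (Δᵀ * Δ.map φ) * Γ.map φ by simp only [Matrix.mul_assoc], h2, Matrix.mul_one, k2]
  · rw [det_mul, det_mul, det_mul, map_mul]
    linear_combination (B.det * φ Bi.det * Γ.det) * h3 + k3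

variable (D : Model φ m r n q)

/-- Siegel elements of `SU` -/
noncomputable def Model.siegel (hφ2 : ∀ x, φ (φ x) = x) (M : Matrix (Fin m) (Fin m) F) :
    Cfsg.SU n F q :=
  D.lift (siegelMat φ M) (Good.siegelMat hφ2 M)

theorem Model.siegel_add (hφ2 : ∀ x, φ (φ x) = x) (M N : Matrix (Fin m) (Fin m) F) :
    D.siegel hφ2 (M + N) = D.siegel hφ2 M * D.siegel hφ2 N := by
  rw [Model.siegel, Model.siegel, Model.siegel, D.lift_mul]
  exact D.lift_congr _ _ (siegelMat_add φ M N)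

theorem Model.siegel_conjTranspose (hφ2 : ∀ x, φ (φ x) = x) (M : Matrix (Fin m) (Fin m) F) :
    D.siegel hφ2 (M.map φ)ᵀ = D.siegel hφ2 (-M) :=
  D.lift_congr _ _ (siegelMat_conjTranspose φ hφ2 M)

theorem Model.levi_conj (hφ2 : ∀ x, φ (φ x) = x) {A : Matrix (Fin m) (Fin m) F}
    (hA : LeviOK φ r A) : ∃ g : Cfsg.SU n F q, ∀ M,
      D.siegel hφ2 M * g⁻¹ = g⁻¹ * D.siegel hφ2 (A * M * (A.map φ)ᵀ) := by
  obtain ⟨Ai, Δ, h1, h2, h3⟩ := hA
  refine ⟨D.lift _ (Good.levi hφ2 h1 h2 h3), fun M => ?_⟩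
  have key : D.lift _ (Good.levi hφ2 h1 h2 h3) * D.siegel hφ2 M =
      D.siegel hφ2 (A * M * (A.map φ)ᵀ) * D.lift _ (Good.levi hφ2 h1 h2 h3) := by
    rw [Model.siegel, Model.siegel, D.lift_mul, D.lift_mul]
    exact D.lift_congr _ _ (levi_mul_siegelMat h1 M hφ2)
  rw [eq_inv_mul_iff_mul_eq, ← mul_assoc, key, mul_inv_cancel_right]

theorem eq_zero_of_char_mul (ψ : AddChar F ℂ) (s : F) (hs : ψ s ≠ 1) (d : F)
    (h : ∀ t, ψ (t * d) = 1) : d = 0 := by
  by_contra hd
  exact hs (by rw [show s = s / d * d from (div_mul_cancel₀ s hd).symm]; exact h _)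

/-- every weight is trivial on hermitian matrices -/
theorem Model.weight_conjTranspose (hφ2 : ∀ x, φ (φ x) = x) {V : Type*} [AddCommGroup V]
    [Module ℂ V] (R : Cfsg.SU n F q →* Module.End ℂ V) (Φ : AddChar (Matrix (Fin m) (Fin m) F) ℂ)
    (hΦ : IsWeight (fun M => R (D.siegel hφ2 M)) ⇑Φ) (M : Matrix (Fin m) (Fin m) F) :
    Φ (M.map φ)ᵀ = (Φ M)⁻¹ := by
  obtain ⟨v, hv0, hv⟩ := hΦ
  dsimp only at hv
  rw [← AddChar.map_neg_eq_inv]
  apply smul_left_injective ℂ hv0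
  dsimp only
  rw [← hv, ← hv, D.siegel_conjTranspose]

variable [Fintype F]

theorem Model.phi_phi (D : Model φ m r n q) (hF : Fintype.card F = q ^ 2) (x : F) : φ (φ x) = x := by
  rw [D.hφ, D.hφ, (sqField_of_fintype hF).pow_pow]

theorem exists_phi_ne (hF : Fintype.card F = q ^ 2) (hφ : ∀ x, φ x = x ^ q) : ∃ s, φ s ≠ s := by
  classical
  by_contra! h
  have h1 := (sqField_of_fintype hF).card_fixed_units
  have h2 := (sqField_of_fintype hF).card_units
  have : Nat.card Fˣ ≤ q - 1 := by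
    rw [← h1]
    exact Nat.card_le_card_of_injective
      (fun x : Fˣ => (⟨(x : F), ((sqField_of_fintype hF).fixed_iff x.ne_zero).1 ((hφ _).symm.trans (h _))⟩ :
        {c : F // c ^ (q - 1) = 1})) (fun a b hab => Units.ext (congrArg Subtype.val hab))
  rw [h2] at this
  have := (sqField_of_fintype hF).one_lt
  have : (q - 1) * 2 ≤ (q - 1) * (q + 1) := Nat.mul_le_mul_left _ (by omega)
  omega

/-- if a representation is non-trivial on the Siegel subgroup, many weights follow -/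
theorem su_weights {k : ℕ} (D : Model φ (k + 1) r n q) (hF : Fintype.card F = q ^ 2)
    (hmove : ∀ x : Fin (k + 1) → F, x ≠ 0 → ∃ B, LeviOK φ r B ∧ B *ᵥ x = Pi.single 0 1)
    (hfam : ∀ s : Fˣ, ∃ c : Fin k → F, (∀ j, c j ≠ 0) ∧ ∀ w : Fin k → F, ∃ S,
      LeviOK φ r S ∧ S *ᵥ Pi.single 0 1 = (s : F) • Pi.single 0 1 ∧
        ∀ j : Fin k, S *ᵥ Pi.single j.succ 1 = c j • (w j • Pi.single 0 1 + Pi.single j.succ 1))
    {V : Type*} [AddCommGroup V] [Module ℂ V] [FiniteDimensional ℂ V]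
    (R : Cfsg.SU n F q →* Module.End ℂ V) (M₀ : Matrix (Fin (k + 1)) (Fin (k + 1)) F)
    (hM₀ : R (D.siegel (D.phi_phi hF) M₀) ≠ 1) (d : ℕ)
    (hd : ∀ (Φ : AddChar (Matrix (Fin (k + 1)) (Fin (k + 1)) F) ℂ) (x : Fin (k + 1) → F) (s : F),
      IsWeight (fun M => R (D.siegel (D.phi_phi hF) M)) ⇑Φ → Φ (s • outer φ x x) ≠ 1 →
        d ≤ Module.finrank ℂ (weightSpace (fun M => R (D.siegel (D.phi_phi hF) M)) ⇑Φ)) :
    (q ^ (2 * (k + 1)) - 1) * d ≤ Module.finrank ℂ V * (q + 1) := by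
  classical
  have hφ2 := D.phi_phi hF
  have hq := sqField_of_fintype hF
  have hq1 := hq.one_lt
  let t : Matrix (Fin (k + 1)) (Fin (k + 1)) F → Cfsg.SU n F q := D.siegel (D.phi_phi hF)
  have ht : ∀ a b, t (a + b) = t a * t b := D.siegel_add _
  have hinj : ∀ g, Function.Injective (R g) := fun g x y h => by
    have := congrArg (R g⁻¹) h
    rwa [← Module.End.mul_apply, ← Module.End.mul_apply, ← map_mul, inv_mul_cancel, map_one,
      Module.End.one_apply, Module.End.one_apply] at this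
  have ht0 : t 0 = 1 := by simpa using ht 0 0
  have hpow : ∀ l : ℕ, t M₀ ^ l = t (l • M₀) := by
    intro l
    induction l with
    | zero => rw [pow_zero, zero_nsmul, ht0]
    | succ l ih => rw [pow_succ, ih, succ_nsmul, ht]
  have hp : ringChar F • M₀ = 0 := by
    rw [← Nat.cast_smul_eq_nsmul F, ringChar.Nat.cast_ringChar, zero_smul]
  obtain ⟨χ₀, hχ₀, hχ₀1⟩ := exists_weight_ne_one (fun M => R (t M))
    (fun a b => by rw [← map_mul, ← map_mul, ← ht, ← ht, add_comm a b]) M₀ (ringChar F)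
    (Nat.cast_ne_zero.2 (CharP.char_is_prime F (ringChar F)).ne_zero)
    (by rw [← map_pow, hpow, hp, ht0, map_one]) hM₀
  obtain ⟨φ₀, rfl⟩ := weight_addChar R t ht χ₀ hχ₀
  have hskew : ∀ (Φ : AddChar (Matrix (Fin (k + 1)) (Fin (k + 1)) F) ℂ),
      IsWeight (fun M => R (t M)) ⇑Φ → ∀ (a b : Fin (k + 1) → F) (s : F),
        Φ (φ s • outer φ b a) = (Φ (s • outer φ a b))⁻¹ := fun Φ hΦ a b s => by
    rw [← outer_conjTranspose hφ2 s a b]
    exact D.weight_conjTranspose _ R Φ hΦ _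
  obtain ⟨s₂, hs₂⟩ := exists_phi_ne hF D.hφ
  obtain ⟨x₁, s₁, hx₁⟩ : ∃ (x : Fin (k + 1) → F) (s : F), φ₀ (s • outer φ x x) ≠ 1 := by
    by_contra! hall
    have hxy : ∀ (x y : Fin (k + 1) → F) (s : F), φ₀ (s • outer φ x y) = 1 := by
      intro x y
      have key : ∀ s c : F, φ₀ ((s * φ c) • outer φ x y) = φ₀ ((φ s * φ c) • outer φ x y) := by
        intro s c
        have h1 := hall (x + c • y) s
        rw [outer_add_left, outer_add_right, outer_add_right, outer_smul_left, outer_smul_left,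
          outer_smul_right, outer_smul_right, smul_add, smul_add, smul_add, smul_smul, smul_smul,
          smul_smul, smul_smul, AddChar.map_add_eq_mul, AddChar.map_add_eq_mul,
          AddChar.map_add_eq_mul, hall, hall, one_mul, mul_one] at h1
        have h2 := hskew φ₀ hχ₀ x y (φ s * φ c)
        rw [map_mul, hφ2, hφ2] at h2
        rw [h2] at h1
        exact mul_inv_eq_one₀ (AddChar.val_isUnit φ₀ _).ne_zero |>.1 h1
      have e1 : ∀ u : F, φ₀ (((s₂ - φ s₂) * u) • outer φ x y) = 1 := fun u => by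
        have := key s₂ (φ u)
        rw [hφ2] at this
        rw [sub_mul, sub_smul, AddChar.map_sub_eq_div, this,
          div_self (AddChar.val_isUnit φ₀ _).ne_zero]
      intro s
      have h := e1 ((s₂ - φ s₂)⁻¹ * s)
      rwa [← mul_assoc, mul_inv_cancel₀ (sub_ne_zero.2 (Ne.symm hs₂)), one_mul] at h
    apply hχ₀1
    rw [Matrix.matrix_eq_sum_single M₀]
    have hs : ∀ i j, φ₀ (Matrix.single i j (M₀ i j)) = 1 := fun i j => by
      rw [show Matrix.single i j (M₀ i j) = M₀ i j • outer φ (Pi.single i 1) (Pi.single j 1) by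
        ext a b
        by_cases ha : i = a <;> by_cases hb : j = b <;>
          simp [Matrix.single_apply, outer, vecMulVec_apply, ha, hb, Ne.symm]]
      exact hxy _ _ _
    exact Finset.sum_induction _ (fun M => φ₀ M = 1)
      (fun a b ha hb => by rw [AddChar.map_add_eq_mul, ha, hb, one_mul]) φ₀.map_zero_eq_one
      (fun i _ => Finset.sum_induction _ (fun M => φ₀ M = 1)
        (fun a b ha hb => by rw [AddChar.map_add_eq_mul, ha, hb, one_mul]) φ₀.map_zero_eq_one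
        (fun j _ => hs i j))
  have hx₁0 : x₁ ≠ 0 := by
    rintro rfl
    simp [outer] at hx₁
  have hconj : ∀ (Φ : AddChar (Matrix (Fin (k + 1)) (Fin (k + 1)) F) ℂ),
      IsWeight (fun M => R (t M)) ⇑Φ → ∀ A, LeviOK φ r A →
        IsWeight (fun M => R (t M)) (fun M => Φ (A * M * (A.map φ)ᵀ)) := fun Φ hΦ A hA => by
    obtain ⟨g, hg⟩ := D.levi_conj (D.phi_phi hF) hA
    exact hΦ.transport (R g⁻¹) (hinj _) (fun M => A * M * (A.map φ)ᵀ)
      (fun M => by rw [← map_mul, ← map_mul, hg])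
  obtain ⟨B₁, hB₁, hB₁x⟩ := hmove x₁ hx₁0
  obtain ⟨C₁, hBC, hC₁⟩ := hB₁.inv hφ2
  obtain ⟨Φ, hΦeq⟩ := weight_addChar R t ht _ (hconj φ₀ hχ₀ C₁ hC₁)
  have hΦ : IsWeight (fun M => R (t M)) ⇑Φ := hΦeq ▸ hconj φ₀ hχ₀ C₁ hC₁
  let e₀ : Fin (k + 1) → F := Pi.single 0 1
  let ψ : AddChar F ℂ := Φ.compAddMonoidHom
    ((LinearMap.toSpanSingleton F (Matrix (Fin (k + 1)) (Fin (k + 1)) F)
      (outer φ e₀ e₀)).toAddMonoidHom)
  have hψ : ∀ s, ψ s = Φ (s • outer φ e₀ e₀) := fun s => by simp [ψ]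
  have hψ1 : ψ s₁ ≠ 1 := by
    have : C₁ *ᵥ e₀ = x₁ := by
      change C₁ *ᵥ Pi.single 0 1 = x₁
      rw [← hB₁x, Matrix.mulVec_mulVec, mul_eq_one_comm.1 hBC, Matrix.one_mulVec]
    rw [hψ, congrFun hΦeq, conj_outer, this]
    exact hx₁
  obtain ⟨W, hW⟩ := exists_weightFinset (fun M => R (t M))
  let P : (Matrix (Fin (k + 1)) (Fin (k + 1)) F → ℂ) → (Fin (k + 1) → F) → Prop := fun χ x =>
    ∃ s : F, χ (s • outer φ x x) ≠ 1
  obtain ⟨γ, hγ⟩ := IsCyclic.exists_generator (α := Fˣ)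
  have hord : orderOf γ = (q - 1) * (q + 1) := by
    rw [orderOf_eq_card_of_forall_mem_zpowers hγ, hq.card_units]
  choose c hc S hSok hS0 hSj using hfam
  -- many weights are large at a given vector
  have hlow : ∀ x : {x : Fin (k + 1) → F // x ≠ 0},
      (q - 1) * (q ^ 2) ^ k ≤ (W.filter fun χ => P χ x.1).card := by
    intro x
    obtain ⟨B, hB, hBx⟩ := hmove x.1 x.2
    obtain ⟨Bi, hBBi, -⟩ := hB.inv hφ2
    let A : Fin (q - 1) × (Fin k → F) → Matrix (Fin (k + 1)) (Fin (k + 1)) F := fun p =>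
      S (γ ^ (p.1 : ℕ)) p.2 * B
    let f : Fin (q - 1) × (Fin k → F) → (Matrix (Fin (k + 1)) (Fin (k + 1)) F → ℂ) := fun p M =>
      Φ (A p * M * ((A p).map φ)ᵀ)
    have hx : ∀ p, A p *ᵥ x.1 = ((γ ^ (p.1 : ℕ) : Fˣ) : F) • e₀ := fun p => by
      simp only [A]
      rw [← Matrix.mulVec_mulVec, hBx, hS0]
    have hev : ∀ p (s : F) (a b : Fin (k + 1) → F), f p (s • outer φ (Bi *ᵥ a) (Bi *ᵥ b)) =
        Φ (s • outer φ (S (γ ^ (p.1 : ℕ)) p.2 *ᵥ a) (S (γ ^ (p.1 : ℕ)) p.2 *ᵥ b)) := by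
      intro p s a b
      simp only [f, A]
      rw [conj_outer, Matrix.mulVec_mulVec, Matrix.mulVec_mulVec, Matrix.mul_assoc, hBBi,
        Matrix.mul_one]
    have hinjf : Function.Injective f := by
      rintro ⟨i, w⟩ ⟨i', w'⟩ heq
      have hN := fun s a b => (hev (i, w) s a b).symm.trans
        ((congrFun heq _).trans (hev (i', w') s a b))
      have hi : i = i' := by
        apply Fin.ext
        have h0 := fun z : F => hN z e₀ e₀
        simp only [e₀, hS0, outer_smul_left, outer_smul_right, smul_smul, ← hψ] at h0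
        have hd0 : ((γ ^ (i : ℕ) : Fˣ) : F) * φ ((γ ^ (i : ℕ) : Fˣ) : F) =
            ((γ ^ (i' : ℕ) : Fˣ) : F) * φ ((γ ^ (i' : ℕ) : Fˣ) : F) := by
          refine sub_eq_zero.1 (eq_zero_of_char_mul ψ s₁ hψ1 _ fun z => ?_)
          rw [mul_sub, AddChar.map_sub_eq_div, mul_comm ((γ ^ (i : ℕ) : Fˣ) : F) (φ _),
            mul_comm ((γ ^ (i' : ℕ) : Fˣ) : F) (φ _), h0, div_self (AddChar.val_isUnit ψ _).ne_zero]
        rw [D.hφ, D.hφ] at hd0
        have h1 : γ ^ ((i : ℕ) * (q + 1)) = γ ^ ((i' : ℕ) * (q + 1)) := by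
          apply Units.ext
          rw [pow_mul, pow_mul, Units.val_pow_eq_pow_val, Units.val_pow_eq_pow_val]
          rw [pow_succ', pow_succ']
          exact hd0
        have hb : ∀ l : Fin (q - 1), (l : ℕ) * (q + 1) ∈ Set.Iio (orderOf γ) := fun l => by
          rw [Set.mem_Iio, hord]
          exact Nat.mul_lt_mul_of_pos_right l.2 (by omega)
        exact Nat.eq_of_mul_eq_mul_right (by omega) (pow_injOn_Iio_orderOf (hb i) (hb i') h1)
      subst hi
      refine Prod.ext rfl (funext fun j => ?_)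
      set s : Fˣ := γ ^ (i : ℕ)
      have hne : (s : F) * φ (c s j) ≠ 0 :=
        mul_ne_zero s.ne_zero ((map_ne_zero φ).2 (hc s j))
      apply φ.injective
      refine mul_left_cancel₀ hne (sub_eq_zero.1 (eq_zero_of_char_mul ψ s₁ hψ1 _ fun z => ?_))
      have hz := hN z e₀ (Pi.single j.succ 1)
      simp only [e₀, hS0, hSj, outer_smul_left, outer_smul_right, outer_add_right, smul_add,
        smul_smul, AddChar.map_add_eq_mul] at hz
      have hz' := mul_right_cancel₀ (AddChar.val_isUnit Φ _).ne_zero hz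
      have hz'' : ψ (z * (φ (c s j * w j) * (s : F))) = ψ (z * (φ (c s j * w' j) * (s : F))) := by
        rw [hψ, hψ]; exact hz'
      rw [map_mul φ, map_mul φ] at hz''
      dsimp only
      rw [mul_sub, AddChar.map_sub_eq_div,
        show z * ((s : F) * φ (c s j) * φ (w j)) = z * (φ (c s j) * φ (w j) * (s : F)) by ring,
        show z * ((s : F) * φ (c s j) * φ (w' j)) = z * (φ (c s j) * φ (w' j) * (s : F)) by ring,
        hz'', div_self (AddChar.val_isUnit ψ _).ne_zero]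
    have := card_filter_ge_of_injective W (fun χ => P χ x.1) f hinjf
      (fun p => (hW _).2 (hconj Φ hΦ _ ((hSok _ _).mul hB)))
      (fun p => by
        refine ⟨(((γ ^ (p.1 : ℕ) : Fˣ) : F) * φ ((γ ^ (p.1 : ℕ) : Fˣ) : F))⁻¹ * s₁, ?_⟩
        simp only [f]
        rw [conj_outer, hx, outer_smul_left, outer_smul_right, smul_smul, smul_smul, ← hψ]
        convert hψ1 using 3
        field_simp [(map_ne_zero φ).2 (γ ^ (p.1 : ℕ) : Fˣ).ne_zero])
    simpa [Fintype.card_prod, Fintype.card_fun, hF] using this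
  -- each weight is large at few vectors
  have hup : ∀ χ ∈ W, (Finset.univ.filter fun x : {x : Fin (k + 1) → F // x ≠ 0} => P χ x.1).card ≤
      (q ^ 2 - 1) * (q ^ 2) ^ k := by
    intro χ hχW
    obtain ⟨Ψ, rfl⟩ := weight_addChar R t ht χ ((hW χ).1 hχW)
    have hΨ := (hW _).1 hχW
    refine le_trans (le_of_eq (Finset.card_map ⟨Subtype.val, Subtype.val_injective⟩).symm)
      ((Finset.card_le_card (t := Finset.univ.filter (P ⇑Ψ)) fun x hx => ?_).trans ?_)
    · obtain ⟨y, hy, rfl⟩ := Finset.mem_map.1 hx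
      exact Finset.mem_filter.2 ⟨Finset.mem_univ _, (Finset.mem_filter.1 hy).2⟩
    by_cases hex : ∃ x₀, P ⇑Ψ x₀
    swap
    · push Not at hex
      rw [Finset.filter_false_of_mem fun x _ => hex x]
      simp
    obtain ⟨x₀, u₀, hu₀⟩ := hex
    have hx₀ : x₀ ≠ 0 := by
      rintro rfl
      simp [outer] at hu₀
    obtain ⟨i₀, hi₀⟩ := Function.ne_iff.1 hx₀
    rw [Pi.zero_apply] at hi₀
    have hcard := card_filter_le_of_lines x₀ i₀ hi₀ (P ⇑Ψ) (q ^ 2 - 1) (fun x _ => ?_)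
    · rwa [Fintype.card_fin, Nat.add_sub_cancel, hF] at hcard
    let ψ₀ : AddChar F ℂ := Ψ.compAddMonoidHom
      ((LinearMap.toSpanSingleton F (Matrix (Fin (k + 1)) (Fin (k + 1)) F)
        (outer φ x₀ x₀)).toAddMonoidHom)
    have hψ₀ : ∀ s, ψ₀ s = Ψ (s • outer φ x₀ x₀) := fun s => by simp [ψ₀]
    have hψ₀s : ∀ s, ψ₀ (φ s) = (ψ₀ s)⁻¹ := fun s => by
      rw [hψ₀, hψ₀]
      exact hskew Ψ hΨ x₀ x₀ s
    have hu₀' : ψ₀ u₀ ≠ 1 := by rw [hψ₀]; exact hu₀
    have hrep : ∀ M : Matrix (Fin (k + 1)) (Fin (k + 1)) F, ∃ c : F, ∀ s,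
        Ψ (s • M) = ψ₀ (c * s) := fun M => by
      obtain ⟨c, hc⟩ := character_eq_comp (fun c => ψ₀.mulShift c)
        (fun x y hxy => sub_eq_zero.1 (eq_zero_of_char_mul ψ₀ u₀ hu₀' _ fun z => by
          have := DFunLike.congr_fun hxy z
          simp only [AddChar.mulShift_apply] at this
          rw [mul_comm z, sub_mul, AddChar.map_sub_eq_div, this,
            div_self (AddChar.val_isUnit ψ₀ _).ne_zero]))
        (Ψ.compAddMonoidHom ((LinearMap.toSpanSingleton F _ M).toAddMonoidHom))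
      exact ⟨c, fun s => by
        have := DFunLike.congr_fun hc s
        simp only [AddChar.mulShift_apply] at this
        rw [this]; simp⟩
    obtain ⟨a, ha⟩ := hrep (outer φ x x)
    obtain ⟨b, hb⟩ := hrep (outer φ x x₀)
    have hb' : ∀ u, Ψ (u • outer φ x₀ x) = ψ₀ (φ b * u) := fun u => by
      have h1 := hskew Ψ hΨ x x₀ (φ u)
      rw [hφ2, hb, ← hψ₀s, map_mul φ, hφ2] at h1
      exact h1
    have ha' : φ a = a := by
      refine sub_eq_zero.1 (eq_zero_of_char_mul ψ₀ u₀ hu₀' _ fun z => ?_)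
      have h1 := hskew Ψ hΨ x x (φ z)
      rw [hφ2, ha, ha, ← hψ₀s, map_mul φ, hφ2] at h1
      rw [mul_comm z, sub_mul, AddChar.map_sub_eq_div, ← h1,
        div_self (AddChar.val_isUnit ψ₀ _).ne_zero]
    obtain ⟨y, hy⟩ := hq.exists_norm (c := b * φ b - a) (by
      rw [← D.hφ, map_sub, map_mul, hφ2, ha', mul_comm])
    rw [pow_succ', ← D.hφ] at hy
    have hbad : ¬ P ⇑Ψ (x + (y - b) • x₀) := by
      rintro ⟨s, hs⟩
      apply hs
      rw [outer_add_left, outer_add_right, outer_add_right, outer_smul_left, outer_smul_left,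
        outer_smul_right, outer_smul_right, smul_add, smul_add, smul_add, smul_smul, smul_smul,
        smul_smul, smul_smul, AddChar.map_add_eq_mul, AddChar.map_add_eq_mul,
        AddChar.map_add_eq_mul, ha, hb, hb', ← hψ₀, ← AddChar.map_add_eq_mul,
        ← AddChar.map_add_eq_mul, ← AddChar.map_add_eq_mul]
      convert ψ₀.map_zero_eq_one using 2
      rw [map_sub]
      linear_combination s * hy
    refine Nat.le_sub_one_of_lt ?_
    rw [← hF]
    exact Finset.card_lt_univ_of_notMem (x := y - b) (fun h => hbad (Finset.mem_filter.1 h).2)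
  set W' := W.filter fun χ => ∃ x, P χ x with hW'
  have hlow' : ∀ x : {x : Fin (k + 1) → F // x ≠ 0},
      (q - 1) * (q ^ 2) ^ k ≤ (W'.filter fun χ => P χ x.1).card := fun x => by
    refine (hlow x).trans (Finset.card_le_card fun χ hχ => ?_)
    obtain ⟨h1, h2⟩ := Finset.mem_filter.1 hχ
    exact Finset.mem_filter.2 ⟨Finset.mem_filter.2 ⟨h1, x.1, h2⟩, h2⟩
  have hmain := double_count W' (fun χ (x : {x : Fin (k + 1) → F // x ≠ 0}) => P χ x.1) _ _ hlow'
    (fun χ hχ => hup χ (Finset.mem_filter.1 hχ).1)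
  have hWle : W'.card * d ≤ Module.finrank ℂ V :=
    mul_card_le_finrank (fun M => R (t M)) W' d fun χ hχ => by
      obtain ⟨h1, x, s, hs⟩ := Finset.mem_filter.1 hχ
      obtain ⟨Ψ, rfl⟩ := weight_addChar R t ht χ ((hW χ).1 h1)
      exact hd Ψ x s ((hW _).1 h1) hs
  have hcard : Fintype.card {x : Fin (k + 1) → F // x ≠ 0} = q ^ (2 * (k + 1)) - 1 := by
    simp [Fintype.card_subtype_compl, hF, ← pow_mul]
  rw [hcard] at hmain
  have hpos : 0 < (q - 1) * (q ^ 2) ^ k := Nat.mul_pos (by omega) (pow_pos (by positivity) _)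
  have hcount : q ^ (2 * (k + 1)) - 1 ≤ W'.card * (q + 1) := by
    refine Nat.le_of_mul_le_mul_right ?_ hpos
    calc (q ^ (2 * (k + 1)) - 1) * ((q - 1) * (q ^ 2) ^ k)
        ≤ W'.card * ((q ^ 2 - 1) * (q ^ 2) ^ k) := hmain
      _ = W'.card * (q + 1) * ((q - 1) * (q ^ 2) ^ k) := by
        rw [show q ^ 2 - 1 = (q + 1) * (q - 1) from by simpa using Nat.sq_sub_sq q 1]
        ring
  calc (q ^ (2 * (k + 1)) - 1) * d ≤ W'.card * (q + 1) * d := Nat.mul_le_mul_right _ hcount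
    _ = W'.card * d * (q + 1) := by ring
    _ ≤ _ := Nat.mul_le_mul_right _ hWle

end Cfsg.Agent.MinDeg.SUni
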