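import Cfsg.Agent.MinDeg.SUBound
import Cfsg.Agent.Classical.UGen

/-!
`SU_n(q)`: weight spaces in odd dimension, and triviality once the Siegel subgroup is killed.
-/

namespace Cfsg.Agent.MinDeg.SUni

open Matrix Cfsg.Agent.Weights Cfsg.Agent.Classical.U

variable {F : Type*} [Field F] [Fintype F] {m n q : ℕ} {φ : F →+* F}

/-- with one orthonormal vector, the weight spaces have dimension at least `q` -/
theorem su_weightSpace_ge (D : Model φ m 1 n q) (hF : Fintype.card F = q ^ 2) {V : Type*}
    [AddCommGroup V] [Module ℂ V] [FiniteDimensional ℂ V]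
    (R : Cfsg.SU n F q →* Module.End ℂ V) (Φ : AddChar (Matrix (Fin m) (Fin m) F) ℂ)
    (x : Fin m → F) (s₀ : F) (hΦ : IsWeight (fun M => R (D.siegel (D.phi_phi hF) M)) ⇑Φ)
    (hx : Φ (s₀ • outer φ x x) ≠ 1) :
    q ≤ Module.finrank ℂ (weightSpace (fun M => R (D.siegel (D.phi_phi hF) M)) ⇑Φ) := by
  classical
  have hφ2 := D.phi_phi hF
  have hq := sqField_of_fintype hF
  obtain ⟨k₀, hk₀⟩ := hq.exists_trace (c := (1 : F)) (one_pow q)
  rw [← D.hφ] at hk₀
  set E := weightSpace (fun M => R (D.siegel (D.phi_phi hF) M)) ⇑Φ with hE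
  let col : F → Matrix (Fin m) (Fin 1) F := fun s => Matrix.of fun i _ => s * x i
  have hU : ∀ s, Good φ (radical φ (-k₀ • (col s * ((col s).map φ)ᵀ)) (col s)) := fun s => by
    refine Good.radical hφ2 ?_
    ext i j
    simp only [Matrix.add_apply, Matrix.zero_apply, Matrix.transpose_apply, Matrix.map_apply,
      Matrix.smul_apply, Matrix.mul_apply, Finset.univ_unique, Finset.sum_singleton, smul_eq_mul,
      col, Matrix.of_apply, map_mul, map_neg, hφ2]
    linear_combination (-(s * x i * (φ s * φ (x j)))) * hk₀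
  let U : F → Cfsg.SU n F q := fun s => D.lift _ (hU s)
  have hcomm : ∀ s M, U s * D.siegel (D.phi_phi hF) M = D.siegel (D.phi_phi hF) M * U s := by
    intro s M
    simp only [U, Model.siegel, D.lift_mul]
    exact D.lift_congr _ _ (radical_mul_siegelMat _ _ _)
  have hrel : ∀ s t, U s * U t = D.siegel (D.phi_phi hF) ((t * φ s) • outer φ x x) * (U t * U s) := by
    intro s t
    simp only [U, Model.siegel, D.lift_mul]
    refine D.lift_congr _ _ ?_
    rw [radical_comm hφ2]
    congr 2
    ext i j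
    simp only [Matrix.mul_apply, Finset.univ_unique, Finset.sum_singleton, Matrix.transpose_apply,
      Matrix.map_apply, col, Matrix.of_apply, map_mul, outer, Matrix.smul_apply, vecMulVec_apply,
      Function.comp_apply, smul_eq_mul]
    ring
  have hmem : ∀ g, (∀ M, g * D.siegel (D.phi_phi hF) M = D.siegel (D.phi_phi hF) M * g) →
      ∀ v ∈ E, R g v ∈ E := by
    intro g hg v hv
    rw [hE, mem_weightSpace] at hv ⊢
    intro M
    rw [← Module.End.mul_apply, ← map_mul, ← hg, map_mul, Module.End.mul_apply, hv, map_smul]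
  let u : F → Module.End ℂ E := fun s => (R (U s)).restrict (hmem _ (hcomm s))
  have hcomm' : ∀ s M, (U s)⁻¹ * D.siegel (D.phi_phi hF) M =
      D.siegel (D.phi_phi hF) M * (U s)⁻¹ := fun s M => by
    rw [inv_mul_eq_iff_eq_mul, ← mul_assoc, hcomm, mul_inv_cancel_right]
  let ui : F → Module.End ℂ E := fun s => (R (U s)⁻¹).restrict (hmem _ (hcomm' s))
  have hui : ∀ s, u s * ui s = 1 ∧ ui s * u s = 1 := fun s => by
    constructor <;> refine LinearMap.ext fun v => Subtype.ext ?_
    · change R (U s) (R (U s)⁻¹ v.1) = v.1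
      rw [← Module.End.mul_apply, ← map_mul, mul_inv_cancel, map_one, Module.End.one_apply]
    · change R (U s)⁻¹ (R (U s) v.1) = v.1
      rw [← Module.End.mul_apply, ← map_mul, inv_mul_cancel, map_one, Module.End.one_apply]
  have hsc : ∀ s t, u s * u t = Φ ((t * φ s) • outer φ x x) • (u t * u s) := by
    intro s t
    refine LinearMap.ext fun v => Subtype.ext ?_
    change R (U s) (R (U t) v.1) = Φ _ • R (U t) (R (U s) v.1)
    rw [← Module.End.mul_apply, ← map_mul, hrel, map_mul, Module.End.mul_apply, map_mul,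
      Module.End.mul_apply]
    exact mem_weightSpace.1 (hmem _ (hcomm t) _ (hmem _ (hcomm s) _ v.2)) _
  let T : F → Module.End ℂ (Module.End ℂ E) := fun t =>
    LinearMap.mulLeft ℂ (u t) ∘ₗ LinearMap.mulRight ℂ (ui t)
  have hne : ∀ s, u s ≠ 0 := by
    intro s h
    have h1 := (hui s).1
    rw [h, zero_mul] at h1
    obtain ⟨v, hv⟩ := hΦ
    have hvE : v ∈ E := mem_weightSpace.2 hv.2
    exact hv.1 (congrArg Subtype.val (LinearMap.congr_fun h1.symm ⟨v, hvE⟩))
  let χ : F → F → ℂ := fun s t => Φ ((s * φ t) • outer φ x x)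
  have hχ : Function.Injective χ := by
    intro s s' h
    let ψ : AddChar F ℂ := Φ.compAddMonoidHom
      ((LinearMap.toSpanSingleton F (Matrix (Fin m) (Fin m) F) (outer φ x x)).toAddMonoidHom)
    have hψ : ∀ s, ψ s = Φ (s • outer φ x x) := fun s => by simp [ψ]
    refine sub_eq_zero.1 (eq_zero_of_char_mul ψ s₀ (by rw [hψ]; exact hx) _ fun z => ?_)
    have := congrFun h (φ z)
    simp only [χ, hφ2, ← hψ] at this
    rw [mul_comm z, sub_mul, AddChar.map_sub_eq_div, this,
      div_self (AddChar.val_isUnit ψ _).ne_zero]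
  have hvec : ∀ s, IsWeightVec T (χ s) (u s) := fun s => by
    refine ⟨hne s, fun t => ?_⟩
    change u t * (u s * ui t) = _
    rw [← mul_assoc, hsc t s, smul_mul_assoc, mul_assoc, (hui t).1, mul_one]
  have hcard := (linearIndependent_weightVec T χ hχ u hvec).fintype_card_le_finrank
  rw [hF, Module.finrank_linearMap] at hcard
  exact Nat.pow_le_pow_iff_left two_ne_zero |>.1 (by rw [sq, sq] at *; exact hcard)

/-- if the Siegel subgroup is killed then so is everything -/
theorem su_trivial {r : ℕ} (D : Model φ m r n q) (hm : 1 ≤ m) (hn : 2 ≤ n)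
    (hex : ¬ (n = 3 ∧ q = 2)) (hF : Fintype.card F = q ^ 2) {H : Type*} [Monoid H]
    (R : Cfsg.SU n F q →* H) (hR : ∀ M, R (D.siegel (D.phi_phi hF) M) = 1) (g : Cfsg.SU n F q) :
    R g = 1 := by
  classical
  have hφ2 := D.phi_phi hF
  have hq := sqField_of_fintype hF
  let eI : Idx m r := Sum.inl (Sum.inl ⟨0, hm⟩)
  let fI : Idx m r := Sum.inl (Sum.inr ⟨0, hm⟩)
  let e : Fin n → F := fun i => D.P (D.e.symm i) eI
  have hQ : D.Q = (gram F m r * D.Pᵀ).map φ := by
    have h1 : (gram F m r * D.Pᵀ).map φ * D.P = 1 := by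
      have := congrArg (fun A => (gram F m r * A).map φ) D.hgram
      rw [gram_mul_gram, Matrix.map_one φ φ.map_zero φ.map_one, ← Matrix.mul_assoc,
        Matrix.map_mul] at this
      have hPP : (D.P.map φ).map φ = D.P := by ext i j; simp [hφ2]
      rwa [hPP] at this
    rw [← Matrix.one_mul D.Q, ← h1, Matrix.mul_assoc, D.hPQ, Matrix.mul_one]
  have hfrow : ∀ j, D.Q fI j = φ (D.P j eI) := by
    intro j
    rw [hQ, Matrix.map_apply, Matrix.mul_apply, Finset.sum_eq_single eI]
    · simp [gram, eI, fI]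
    · intro l _ hl
      have : gram F m r fI l = 0 := by
        rcases l with (l | l) | l
        · have : (⟨0, hm⟩ : Fin m) ≠ l := fun h => hl (by rw [← h])
          simp [gram, fI, this]
        · simp [gram, fI]
        · simp [gram, fI]
      rw [this, zero_mul]
    · exact fun h => absurd (Finset.mem_univ _) h
  have he : e ≠ 0 := by
    intro h
    have hcol : ∀ l, D.P l eI = 0 := fun l => by
      have := congrFun h (D.e l)
      simpa [e] using this
    have hQP : D.Q * D.P = 1 := mul_eq_one_comm.1 D.hPQ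
    have := congrFun (congrFun hQP eI) eI
    simp [Matrix.mul_apply, hcol] at this
  have heiso : herm q e e = 0 := by
    have := congrFun (congrFun D.hgram eI) eI
    simp only [gram, eI, Matrix.mul_apply, Matrix.transpose_apply, Matrix.map_apply,
      fromBlocks_apply₁₁, Matrix.zero_apply] at this
    rw [herm_def, ← this, ← D.e.sum_comp]
    exact Finset.sum_congr rfl fun l _ => by simp [e, eI, D.hφ]
  obtain ⟨t₀, ht₀⟩ := hq.exists_trace (c := (1 : F)) (one_pow q)
  rw [← D.hφ] at ht₀
  let K : Subgroup (UG n F q) := R.ker.map (suToUG n F q)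
  have hbase : ∀ a, ∀ h : TrvCond q e a, trv (sqField_of_fintype hF) h ∈ K := by
    intro a h
    set M : Matrix (Fin m) (Fin m) F := (a * t₀) • single ⟨0, hm⟩ ⟨0, hm⟩ 1 with hM
    refine ⟨D.siegel (D.phi_phi hF) M, MonoidHom.mem_ker.2 (hR M), ?_⟩
    refine mem_TG_generator hq h fun w => ?_
    have ha : φ a = -a := by rw [D.hφ]; exact h.2
    have hT : (siegelMat φ M : Matrix (Idx m r) (Idx m r) F) = 1 + single eI fI a := by
      have hX : M - (M.map φ)ᵀ = single ⟨0, hm⟩ ⟨0, hm⟩ a := by
        ext i j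
        by_cases hi : i = (⟨0, hm⟩ : Fin m)
        · by_cases hj : j = (⟨0, hm⟩ : Fin m)
          · subst hi hj
            simp [hM]
            simp only [ha]
            linear_combination a * ht₀
          · simp [hM, Matrix.single_apply, hi, Ne.symm hj]
        · simp [hM, Matrix.single_apply, Ne.symm hi]
      rw [siegelMat, hX, radical, Matrix.map_zero φ φ.map_zero, Matrix.transpose_zero, neg_zero]
      ext (( i | i) | i) ((j | j) | j) <;>
        simp [eI, fI, Matrix.one_apply, Matrix.single_apply]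
    change (D.siegel (D.phi_phi hF) M).1.1 *ᵥ w = _
    rw [Model.siegel, D.lift_val, hT, Matrix.mul_add, Matrix.mul_one, Matrix.add_mul, D.hPQ,
      reindex_apply, Matrix.submatrix_add, Pi.add_apply, Pi.add_apply, submatrix_one_equiv,
      Matrix.add_mulVec, Matrix.one_mulVec]
    congr 1
    ext i
    simp only [Matrix.mulVec, dotProduct, Pi.smul_apply, smul_eq_mul, Matrix.submatrix_apply]
    have : ∀ j, (D.P * single eI fI a * D.Q) (D.e.symm i) j =
        D.P (D.e.symm i) eI * a * φ (D.P j eI) := by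
      intro j
      rw [Matrix.mul_apply, Finset.sum_eq_single fI, Matrix.mul_single_apply_same, hfrow]
      · intro l _ hl; rw [Matrix.mul_single_apply_of_ne _ _ _ _ _ hl, zero_mul]
      · exact fun h => absurd (Finset.mem_univ _) h
    simp only [this, herm_def, e, Finset.mul_sum, Finset.sum_mul, D.hφ]
    exact Finset.sum_congr rfl fun l _ => by ring
  have hTG : TG n F q ≤ K := by
    rw [TG, Subgroup.closure_le]
    rintro y ⟨e', a, h, hy⟩
    rw [mem_TG_generator hq h hy]
    rcases eq_or_ne e' 0 with rfl | he'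
    · rw [show trv hq h = 1 from Subtype.ext (LinearEquiv.ext fun w => by simp [trv_apply hq h w])]
      exact K.one_mem
    obtain ⟨p, hp, c, hc, hpe⟩ := TG_transitive_lines hq he heiso he' h.1
    obtain ⟨p', rfl⟩ : p ∈ (suToUG n F q).range := by
      rw [range_suToUG]; exact TG_le_SUG hq hp
    have hb : TrvCond q e (a / (c * c ^ q)) := by
      refine ⟨heiso, ?_⟩
      rw [div_pow, mul_pow, hq.pow_pow, h.2, neg_div, mul_comm (c ^ q)]
    obtain ⟨y', hy', hyy⟩ := hbase _ hb
    refine ⟨p' * y' * p'⁻¹, ?_, ?_⟩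
    · exact (inferInstance : R.ker.Normal).conj_mem y' hy' p'
    rw [map_mul, map_mul, map_inv, hyy]
    refine mem_TG_generator hq h fun w => ?_
    set P' := suToUG n F q p'
    rw [Subgroup.coe_mul, Subgroup.coe_mul, LinearEquiv.mul_apply, LinearEquiv.mul_apply,
      trv_apply, map_add, map_smul, hpe]
    have h1 : P'.1 ((P'⁻¹).1 w) = w := by
      rw [← LinearEquiv.mul_apply, ← Subgroup.coe_mul, mul_inv_cancel]
      rfl
    have h2 : herm q ((P'⁻¹).1 w) e = c ^ q * herm q w e' := by
      rw [← UG_app P', h1, hpe, herm_smul_right]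
    rw [h1, h2, smul_smul]
    congr 2
    field_simp [hc]
  have hall : suToUG n F q g ∈ K := by
    refine hTG ?_
    rw [← SUG_eq_TG hq hn hex, ← range_suToUG]
    exact ⟨g, rfl⟩
  obtain ⟨g', hg', hgg⟩ := hall
  rw [← suToUG_injective hgg]
  exact MonoidHom.mem_ker.1 hg'

end Cfsg.Agent.MinDeg.SUni
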