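import Cfsg.Agent.MinDeg.Orbit
import Cfsg.Agent.Weights.SL

/-!
Weights of the Siegel subgroup of `Sp_2n(q)`, `q` even, read as quadratic forms.
-/

namespace Cfsg.Agent.MinDeg.SpEven

open Matrix Cfsg.Agent.Weights

variable {F : Type*} [Field F] {n : ℕ}

/-- symmetric matrices -/
def symMat (F : Type*) [Field F] (n : ℕ) : Submodule F (Matrix (Fin n) (Fin n) F) where
  carrier := {S | Sᵀ = S}
  add_mem' {a b} ha hb := by simp only [Set.mem_ofPred_eq] at *; rw [Matrix.transpose_add, ha, hb]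
  zero_mem' := Matrix.transpose_zero
  smul_mem' c a ha := by simp only [Set.mem_ofPred_eq] at *; rw [Matrix.transpose_smul, ha]

/-- `x xᵀ` -/
def sq (x : Fin n → F) : symMat F n := ⟨vecMulVec x x, Matrix.transpose_vecMulVec x x⟩

/-- `x yᵀ + y xᵀ` -/
def cross (x y : Fin n → F) : symMat F n :=
  ⟨vecMulVec x y + vecMulVec y x, by
    change (_ + _)ᵀ = _
    rw [Matrix.transpose_add, Matrix.transpose_vecMulVec, Matrix.transpose_vecMulVec, add_comm]⟩

theorem sq_add (x y : Fin n → F) : sq (x + y) = sq x + cross x y + sq y := by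
  apply Subtype.ext
  change vecMulVec (x + y) (x + y) = vecMulVec x x + (vecMulVec x y + vecMulVec y x) + vecMulVec y y
  rw [Matrix.add_vecMulVec, Matrix.vecMulVec_add, Matrix.vecMulVec_add]
  abel

theorem sq_smul (t : F) (x : Fin n → F) : sq (t • x) = (t * t) • sq x := by
  apply Subtype.ext
  change vecMulVec (t • x) (t • x) = (t * t) • vecMulVec x x
  rw [Matrix.smul_vecMulVec, Matrix.vecMulVec_smul, smul_smul]

theorem cross_add (x y z : Fin n → F) : cross x (y + z) = cross x y + cross x z := by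
  apply Subtype.ext
  change vecMulVec x (y + z) + vecMulVec (y + z) x =
    vecMulVec x y + vecMulVec y x + (vecMulVec x z + vecMulVec z x)
  rw [Matrix.add_vecMulVec, Matrix.vecMulVec_add]
  abel

theorem cross_smul (t : F) (x y : Fin n → F) : cross x (t • y) = t • cross x y := by
  apply Subtype.ext
  change vecMulVec x (t • y) + vecMulVec (t • y) x = t • (vecMulVec x y + vecMulVec y x)
  rw [Matrix.smul_vecMulVec, Matrix.vecMulVec_smul, smul_add]

/-- congruence by a matrix -/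
def conjS (g : Matrix (Fin n) (Fin n) F) : symMat F n →ₗ[F] symMat F n where
  toFun S := ⟨g * S.1 * gᵀ, by
    change (g * S.1 * gᵀ)ᵀ = _
    rw [Matrix.transpose_mul, Matrix.transpose_mul, Matrix.transpose_transpose, S.2, Matrix.mul_assoc]⟩
  map_add' a b := Subtype.ext (by simp [Matrix.mul_add, Matrix.add_mul])
  map_smul' c a := Subtype.ext (by simp)

theorem conjS_sq (g : Matrix (Fin n) (Fin n) F) (x : Fin n → F) : conjS g (sq x) = sq (g *ᵥ x) := by
  apply Subtype.ext
  change g * vecMulVec x x * gᵀ = vecMulVec (g *ᵥ x) (g *ᵥ x)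
  rw [Matrix.mul_vecMulVec, Matrix.vecMulVec_mul, Matrix.vecMul_transpose]

variable (ψ : AddChar F ℂ)

/-- the quadratic form of a character -/
noncomputable def qf (Φ : AddChar (symMat F n) ℂ) (x : Fin n → F) : F :=
  Classical.epsilon fun c => ∀ s, Φ (s • sq x) = ψ (c * s)

/-- its polar form -/
noncomputable def bf (Φ : AddChar (symMat F n) ℂ) (x y : Fin n → F) : F :=
  qf ψ Φ (x + y) - qf ψ Φ x - qf ψ Φ y

/-- a character moved by a matrix -/
def act (g : Matrix (Fin n) (Fin n) F) (Φ : AddChar (symMat F n) ℂ) : AddChar (symMat F n) ℂ :=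
  Φ.compAddMonoidHom (conjS g).toAddMonoidHom

variable [Fintype F] {ψ}
variable (hψ : ψ.IsPrimitive)
include hψ

theorem char_inj {a b : F} (h : ∀ s, ψ (a * s) = ψ (b * s)) : a = b :=
  AddChar.to_mulShift_inj_of_isPrimitive hψ (DFunLike.ext _ _ fun s => by
    simp only [AddChar.mulShift_apply]; exact h s)

theorem qf_spec (Φ : AddChar (symMat F n) ℂ) (x : Fin n → F) (s : F) :
    Φ (s • sq x) = ψ (qf ψ Φ x * s) := by
  refine Classical.epsilon_spec (p := fun c => ∀ s, Φ (s • sq x) = ψ (c * s)) ?_ s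
  obtain ⟨c, hc⟩ := character_eq_comp (fun c => ψ.mulShift c)
    (AddChar.to_mulShift_inj_of_isPrimitive hψ)
    (Φ.compAddMonoidHom (LinearMap.toSpanSingleton F _ (sq x)).toAddMonoidHom)
  exact ⟨c, fun s => by
    have := DFunLike.congr_fun hc s
    simp only [AddChar.mulShift_apply] at this
    rw [this]; simp⟩

theorem qf_eq {Φ : AddChar (symMat F n) ℂ} {x : Fin n → F} {c : F}
    (h : ∀ s, Φ (s • sq x) = ψ (c * s)) : qf ψ Φ x = c :=
  char_inj hψ fun s => (qf_spec hψ Φ x s).symm.trans (h s)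

theorem qf_smul (Φ : AddChar (symMat F n) ℂ) (t : F) (x : Fin n → F) :
    qf ψ Φ (t • x) = t * t * qf ψ Φ x :=
  qf_eq hψ fun s => by
    rw [sq_smul, smul_smul, qf_spec hψ]
    congr 1
    ring

theorem qf_zero (Φ : AddChar (symMat F n) ℂ) : qf ψ Φ 0 = 0 := by
  have := qf_smul hψ Φ 0 (0 : Fin n → F)
  simpa using this

theorem bf_spec (Φ : AddChar (symMat F n) ℂ) (x y : Fin n → F) (s : F) :
    Φ (s • cross x y) = ψ (bf ψ Φ x y * s) := by
  have h := qf_spec hψ Φ (x + y) s
  rw [sq_add, smul_add, smul_add, AddChar.map_add_eq_mul, AddChar.map_add_eq_mul, qf_spec hψ,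
    qf_spec hψ] at h
  rw [bf, sub_mul, sub_mul, AddChar.map_sub_eq_div, AddChar.map_sub_eq_div, ← h]
  have h1 := (AddChar.val_isUnit ψ (qf ψ Φ x * s)).ne_zero
  have h3 := (AddChar.val_isUnit ψ (qf ψ Φ y * s)).ne_zero
  field_simp
  rw [mul_div_assoc, mul_comm s, div_self h3, mul_one]

omit hψ in
theorem bf_comm (Φ : AddChar (symMat F n) ℂ) (x y : Fin n → F) : bf ψ Φ x y = bf ψ Φ y x := by
  rw [bf, bf, add_comm x y]; ring

theorem bf_add_right (Φ : AddChar (symMat F n) ℂ) (x y z : Fin n → F) :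
    bf ψ Φ x (y + z) = bf ψ Φ x y + bf ψ Φ x z :=
  char_inj hψ fun s => by
    rw [← bf_spec hψ, cross_add, smul_add, AddChar.map_add_eq_mul, bf_spec hψ, bf_spec hψ, add_mul,
      AddChar.map_add_eq_mul]

theorem bf_smul_right (Φ : AddChar (symMat F n) ℂ) (t : F) (x y : Fin n → F) :
    bf ψ Φ x (t • y) = t * bf ψ Φ x y :=
  char_inj hψ fun s => by
    rw [← bf_spec hψ, cross_smul, smul_smul, bf_spec hψ]
    congr 1
    ring

theorem bf_add_left (Φ : AddChar (symMat F n) ℂ) (x y z : Fin n → F) :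
    bf ψ Φ (x + y) z = bf ψ Φ x z + bf ψ Φ y z := by
  rw [bf_comm, bf_add_right hψ, bf_comm Φ z, bf_comm Φ z]

theorem bf_smul_left (Φ : AddChar (symMat F n) ℂ) (t : F) (x y : Fin n → F) :
    bf ψ Φ (t • x) y = t * bf ψ Φ x y := by
  rw [bf_comm, bf_smul_right hψ, bf_comm]

theorem bf_self (h2 : (2 : F) = 0) (Φ : AddChar (symMat F n) ℂ) (x : Fin n → F) :
    bf ψ Φ x x = 0 := by
  rw [bf, ← two_smul F x, h2, zero_smul, qf_zero hψ]
  linear_combination -qf ψ Φ x * h2

/-- coefficients of `x ↦ bf x y` -/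
theorem exists_coeff (Φ : AddChar (symMat F n) ℂ) (y : Fin n → F) :
    ∃ β : Fin n → F, ∀ x, bf ψ Φ x y = β ⬝ᵥ x := by
  classical
  let L : (Fin n → F) →ₗ[F] F :=
    { toFun := fun x => bf ψ Φ x y
      map_add' := fun a b => bf_add_left hψ Φ a b y
      map_smul' := fun c a => bf_smul_left hψ Φ c a y }
  refine ⟨fun i => L fun j => if i = j then 1 else 0, fun x => ?_⟩
  change L x = _
  rw [LinearMap.pi_apply_eq_sum_univ L x, dotProduct]
  exact Finset.sum_congr rfl fun i _ => by rw [smul_eq_mul, mul_comm]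

theorem qf_act (g : Matrix (Fin n) (Fin n) F) (Φ : AddChar (symMat F n) ℂ) (x : Fin n → F) :
    qf ψ (act g Φ) x = qf ψ Φ (g *ᵥ x) :=
  qf_eq hψ fun s => by
    change Φ (conjS g (s • sq x)) = _
    rw [map_smul, conjS_sq, qf_spec hψ]

theorem bf_act (g : Matrix (Fin n) (Fin n) F) (Φ : AddChar (symMat F n) ℂ) (x y : Fin n → F) :
    bf ψ (act g Φ) x y = bf ψ Φ (g *ᵥ x) (g *ᵥ y) := by
  rw [bf, bf, qf_act hψ, qf_act hψ, qf_act hψ, Matrix.mulVec_add]

omit hψ in
/-- `1 + v fᵀ` is invertible -/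
theorem exists_inv_transvection (v f : Fin n → F) (h : 1 + f ⬝ᵥ v ≠ 0) :
    ∃ gi, (1 + vecMulVec v f) * gi = 1 := by
  refine ⟨1 + (-(1 + f ⬝ᵥ v)⁻¹) • vecMulVec v f, ?_⟩
  rw [Matrix.mul_add, Matrix.mul_one, Matrix.mul_smul, Matrix.add_mul, Matrix.one_mul,
    Matrix.vecMulVec_mul_vecMulVec, Matrix.vecMulVec_smul]
  ext i j
  simp only [Matrix.add_apply, Matrix.smul_apply, smul_eq_mul, MulOpposite.smul_eq_mul_unop,
    MulOpposite.unop_op]
  field_simp
  ring

omit hψ in
theorem transvection_mulVec (v f x : Fin n → F) :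
    (1 + vecMulVec v f) *ᵥ x = x + (f ⬝ᵥ x) • v := by
  rw [Matrix.add_mulVec, Matrix.one_mulVec, Matrix.vecMulVec_mulVec, op_smul_eq_smul]

omit hψ in
/-- counting by fibres -/
theorem card_mul_le_of_fibres {α β : Type*} [DecidableEq β] (s : Finset α) (f : α → β)
    (T : Finset β) (d : ℕ) (h : ∀ t ∈ T, d ≤ (s.filter fun a => f a = t).card) :
    T.card * d ≤ s.card := by
  classical
  refine le_trans ?_ (Finset.card_le_card (Finset.filter_subset (fun a => f a ∈ T) s))
  rw [Finset.card_eq_sum_card_fiberwise (f := f) (s := s.filter fun a => f a ∈ T) (t := T)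
    (fun a ha => (Finset.mem_filter.1 ha).2), ← smul_eq_mul, ← Finset.sum_const]
  refine Finset.sum_le_sum fun t ht => (h t ht).trans (Finset.card_le_card fun a ha => ?_)
  obtain ⟨h1, h3⟩ := Finset.mem_filter.1 ha
  exact Finset.mem_filter.2 ⟨Finset.mem_filter.2 ⟨h1, h3 ▸ ht⟩, h3⟩

omit hψ in
theorem card_kernel_two (a b : Fin n → F) [DecidableEq F] :
    Fintype.card F ^ n ≤
      (Finset.univ.filter fun z : Fin n → F => a ⬝ᵥ z = 0 ∧ b ⬝ᵥ z = 0).card *
        Fintype.card F ^ 2 := by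
  classical
  have h := Finset.card_le_mul_card_image (s := (Finset.univ : Finset (Fin n → F)))
    (f := fun z => (a ⬝ᵥ z, b ⬝ᵥ z))
    (Finset.univ.filter fun z : Fin n → F => a ⬝ᵥ z = 0 ∧ b ⬝ᵥ z = 0).card (fun t ht => ?_)
  · rw [Finset.card_univ, Fintype.card_fun, Fintype.card_fin] at h
    refine h.trans (Nat.mul_le_mul_left _ ((Finset.card_le_univ _).trans ?_))
    rw [Fintype.card_prod, pow_two]
  · obtain ⟨z₀, -, rfl⟩ := Finset.mem_image.1 ht
    refine Finset.card_le_card_of_injOn (fun z => z - z₀) (fun z hz => ?_)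
      (fun z _ z' _ h => sub_left_injective h)
    simp only [Finset.coe_filter, Set.mem_ofPred_eq, Finset.mem_univ, true_and, Prod.mk.injEq] at hz ⊢
    rw [dotProduct_sub, dotProduct_sub, hz.1, hz.2, sub_self, sub_self]
    exact ⟨rfl, rfl⟩

omit hψ in
theorem card_kernel_one (a : Fin n → F) [DecidableEq F] :
    Fintype.card F ^ n ≤
      (Finset.univ.filter fun z : Fin n → F => a ⬝ᵥ z = 0).card * Fintype.card F := by
  classical
  have h := Finset.card_le_mul_card_image (s := (Finset.univ : Finset (Fin n → F)))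
    (f := fun z => a ⬝ᵥ z)
    (Finset.univ.filter fun z : Fin n → F => a ⬝ᵥ z = 0).card (fun t ht => ?_)
  · rw [Finset.card_univ, Fintype.card_fun, Fintype.card_fin] at h
    exact h.trans (Nat.mul_le_mul_left _ (Finset.card_le_univ _))
  · obtain ⟨z₀, -, rfl⟩ := Finset.mem_image.1 ht
    refine Finset.card_le_card_of_injOn (fun z => z - z₀) (fun z hz => ?_)
      (fun z _ z' _ h => sub_left_injective h)
    simp only [Finset.coe_filter, Set.mem_ofPred_eq, Finset.mem_univ, true_and] at hz ⊢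
    rw [dotProduct_sub, hz, sub_self]

end Cfsg.Agent.MinDeg.SpEven
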