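import Cfsg.Agent.MinDeg.SpEven

/-!
Orbit sizes of quadratic forms with non-zero polar form, `q` even.
-/

namespace Cfsg.Agent.MinDeg.SpEven

open Matrix Cfsg.Agent.Weights

variable {F : Type*} [Field F] [Fintype F] [DecidableEq F] {n : ℕ} {ψ : AddChar F ℂ}

/-- no plane carries the whole polar form -/
def Rank4 (ψ : AddChar F ℂ) (Φ : AddChar (symMat F n) ℂ) : Prop :=
  ∀ x y, bf ψ Φ x y = 1 → ∃ z, bf ψ Φ x z = 0 ∧ bf ψ Φ y z = 0 ∧ ∃ w, bf ψ Φ z w ≠ 0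

variable (hψ : ψ.IsPrimitive)
include hψ

theorem rank4_of_act {g gi : Matrix (Fin n) (Fin n) F} (hg : g * gi = 1)
    {Φ : AddChar (symMat F n) ℂ} (h : Rank4 ψ (act g Φ)) : Rank4 ψ Φ := by
  have hval : ∀ a, g *ᵥ (gi *ᵥ a) = a := fun a => by
    rw [Matrix.mulVec_mulVec, hg, Matrix.one_mulVec]
  intro x y hxy
  obtain ⟨z, h1, h3, w, h4⟩ := h (gi *ᵥ x) (gi *ᵥ y) (by rw [bf_act hψ, hval, hval, hxy])
  refine ⟨g *ᵥ z, ?_, ?_, g *ᵥ w, ?_⟩
  · rw [bf_act hψ, hval] at h1; exact h1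
  · rw [bf_act hψ, hval] at h3; exact h3
  · rw [bf_act hψ] at h4; exact h4

variable (h2 : (2 : F) = 0)
include h2

/-- transvections fix the polar form -/
theorem exists_trv_act {W : Finset (AddChar (symMat F n) ℂ)}
    (hW : ∀ Φ ∈ W, ∀ g gi : Matrix (Fin n) (Fin n) F, g * gi = 1 → act g Φ ∈ W)
    {Φ : AddChar (symMat F n) ℂ} (hΦ : Φ ∈ W) (v : Fin n → F) (c : F) :
    ∃ Φ' ∈ W, bf ψ Φ' = bf ψ Φ ∧ ∀ z, qf ψ Φ' z = qf ψ Φ (z + (c * bf ψ Φ z v) • v) := by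
  obtain ⟨β, hβ⟩ := exists_coeff hψ Φ v
  have hg : ∀ z, (1 + vecMulVec v (c • β)) *ᵥ z = z + (c * bf ψ Φ z v) • v := fun z => by
    rw [transvection_mulVec, smul_dotProduct, smul_eq_mul, hβ]
  obtain ⟨gi, hgi⟩ := exists_inv_transvection v (c • β) (by
    rw [smul_dotProduct, ← hβ, bf_self hψ h2, smul_zero, add_zero]
    exact one_ne_zero)
  refine ⟨_, hW Φ hΦ _ gi hgi, funext fun a => funext fun b => ?_,
    fun z => by rw [qf_act hψ, hg]⟩
  rw [bf_act hψ, hg, hg]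
  simp only [bf_add_left hψ, bf_add_right hψ, bf_smul_left hψ, bf_smul_right hψ, bf_self hψ h2,
    bf_comm Φ v b]
  linear_combination (c * bf ψ Φ a v * bf ψ Φ b v) * h2

/-- the value at `u` can be made the value at `v` -/
theorem exists_move {W : Finset (AddChar (symMat F n) ℂ)}
    (hW : ∀ Φ ∈ W, ∀ g gi : Matrix (Fin n) (Fin n) F, g * gi = 1 → act g Φ ∈ W)
    {Φ : AddChar (symMat F n) ℂ} (hΦ : Φ ∈ W) {u v : Fin n → F} (huv : bf ψ Φ u v ≠ 0) :
    ∃ Φ' ∈ W, bf ψ Φ' = bf ψ Φ ∧ qf ψ Φ' u = qf ψ Φ v := by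
  obtain ⟨Φ', h1, h3, h4⟩ := exists_trv_act hψ h2 hW hΦ (u + v) (bf ψ Φ u v)⁻¹
  refine ⟨Φ', h1, h3, ?_⟩
  rw [h4, bf_add_right hψ, bf_self hψ h2, zero_add, inv_mul_cancel₀ huv, one_smul]
  congr 1
  rw [← add_assoc, ← two_smul F u, h2, zero_smul, zero_add]

/-- the fibre over a polar form -/
theorem fibre_card {W : Finset (AddChar (symMat F n) ℂ)}
    (hW : ∀ Φ ∈ W, ∀ g gi : Matrix (Fin n) (Fin n) F, g * gi = 1 → act g Φ ∈ W)
    {Φ : AddChar (symMat F n) ℂ} (hΦ : Φ ∈ W) {x y : Fin n → F} (hxy : bf ψ Φ x y = 1) :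
    Fintype.card F * (Fintype.card F - 1) +
        2 * ((W.filter fun χ => bf ψ χ = bf ψ Φ).filter fun χ => qf ψ χ x = 0).card ≤
      2 * (W.filter fun χ => bf ψ χ = bf ψ Φ).card := by
  classical
  set S := W.filter fun χ => bf ψ χ = bf ψ Φ with hS
  have hmem : ∀ χ, χ ∈ S ↔ χ ∈ W ∧ bf ψ χ = bf ψ Φ := fun χ => by simp [S]
  have hchar : CharP F 2 := (CharP.charP_iff_prime_eq_zero Nat.prime_two).2 h2
  have key : ∀ a ∈ (Finset.univ : Finset F).erase 0,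
      Fintype.card F ≤ 2 * (S.filter fun χ => qf ψ χ x = a).card := by
    intro a ha
    have ha0 : a ≠ 0 := Finset.ne_of_mem_erase ha
    obtain ⟨v₀, hv₀, hcase⟩ : ∃ v₀, qf ψ Φ v₀ ≠ 0 ∧ (bf ψ Φ x v₀ ≠ 0 ∨ v₀ = x) := by
      by_cases h1 : qf ψ Φ x = 0
      · by_cases h3 : qf ψ Φ y = 0
        · refine ⟨x + y, ?_, Or.inl ?_⟩
          · have h := hxy
            rw [bf, h1, h3, sub_zero, sub_zero] at h
            rw [h]; exact one_ne_zero
          · rw [bf_add_right hψ, bf_self hψ h2, hxy, zero_add]; exact one_ne_zero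
        · exact ⟨y, h3, Or.inl (by rw [hxy]; exact one_ne_zero)⟩
      · exact ⟨x, h1, Or.inr rfl⟩
    obtain ⟨t, ht⟩ := FiniteField.isSquare_of_char_two (ringChar.eq F 2) (a / qf ψ Φ v₀)
    have htv : qf ψ Φ (t • v₀) = a := by rw [qf_smul hψ, ← ht, div_mul_cancel₀ _ hv₀]
    have ht0 : t ≠ 0 := by
      rintro rfl
      rw [mul_zero] at ht
      exact ha0 (((div_eq_zero_iff).1 ht).resolve_right hv₀)
    obtain ⟨Φ₁, hΦ₁, hb₁, hq₁⟩ : ∃ Φ₁ ∈ W, bf ψ Φ₁ = bf ψ Φ ∧ qf ψ Φ₁ x = a := by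
      rcases hcase with hne | rfl
      · obtain ⟨Φ₁, h1, h3, h4⟩ := exists_move hψ h2 hW hΦ
          (u := x) (v := t • v₀) (by rw [bf_smul_right hψ]; exact mul_ne_zero ht0 hne)
        exact ⟨Φ₁, h1, h3, h4.trans htv⟩
      · obtain ⟨Φ₁, h1, h3, h4⟩ := exists_move hψ h2 hW hΦ
          (u := y) (v := t • v₀) (by
            rw [bf_smul_right hψ, bf_comm, hxy, mul_one]; exact ht0)
        obtain ⟨Φ₂, h5, h6, h7⟩ := exists_move hψ h2 hW h1 (u := v₀) (v := y)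
          (by rw [h3, hxy]; exact one_ne_zero)
        exact ⟨Φ₂, h5, h6.trans h3, h7.trans (h4.trans htv)⟩
    let b := qf ψ Φ₁ y
    let im := (Finset.univ : Finset F).image fun c => b + c + c * c * a
    have him : Fintype.card F ≤ 2 * im.card := by
      rw [← Finset.card_univ]
      refine Finset.card_le_mul_card_image _ 2 fun d hd => ?_
      obtain ⟨c₀, -, hc₀⟩ := Finset.mem_image.1 hd
      refine (Finset.card_le_card (t := {c₀, a⁻¹ - c₀}) fun c hc => ?_).trans Finset.card_le_two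
      have e : (c - c₀) * (1 + (c + c₀) * a) = 0 := by
        linear_combination (Finset.mem_filter.1 hc).2 - hc₀
      rw [Finset.mem_insert, Finset.mem_singleton]
      rcases mul_eq_zero.1 e with h | h
      · exact Or.inl (sub_eq_zero.1 h)
      · refine Or.inr ?_
        field_simp
        linear_combination h - h2
    refine him.trans (Nat.mul_le_mul_left 2 ?_)
    refine le_trans ?_ (Finset.card_image_le (f := fun χ => qf ψ χ y))
    refine Finset.card_le_card fun d hd => ?_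
    obtain ⟨c, -, rfl⟩ := Finset.mem_image.1 hd
    obtain ⟨Φ₂, h5, h6, h7⟩ := exists_trv_act hψ h2 hW hΦ₁ x c
    refine Finset.mem_image.2 ⟨Φ₂, Finset.mem_filter.2 ⟨(hmem _).2 ⟨h5, h6.trans hb₁⟩, ?_⟩, ?_⟩
    · rw [h7, bf_self hψ h2, mul_zero, zero_smul, add_zero, hq₁]
    · have hyx : bf ψ Φ₁ y x = 1 := by rw [hb₁, bf_comm, hxy]
      rw [h7, hyx, mul_one]
      have := bf_smul_right hψ Φ₁ c y x
      rw [hyx, mul_one, bf, qf_smul hψ, hq₁] at this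
      simp only [b]
      linear_combination this
  rw [Finset.card_eq_sum_card_fiberwise (s := S) (f := fun χ => qf ψ χ x) (t := Finset.univ)
    (fun χ _ => Finset.mem_univ _), ← Finset.add_sum_erase _ _ (Finset.mem_univ (0 : F)), mul_add,
    Finset.mul_sum, add_comm]
  refine Nat.add_le_add_left ?_ _
  refine le_trans ?_ (Finset.sum_le_sum key)
  rw [Finset.sum_const, smul_eq_mul, Finset.card_erase_of_mem (Finset.mem_univ _), Finset.card_univ,
    mul_comm]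

theorem rank4_fibre_zero {W : Finset (AddChar (symMat F n) ℂ)}
    (hW : ∀ Φ ∈ W, ∀ g gi : Matrix (Fin n) (Fin n) F, g * gi = 1 → act g Φ ∈ W)
    {Φ : AddChar (symMat F n) ℂ} (hΦ : Φ ∈ W) {x y : Fin n → F} (hxy : bf ψ Φ x y = 1)
    (h4 : Rank4 ψ Φ) : ∃ Φ' ∈ W, bf ψ Φ' = bf ψ Φ ∧ qf ψ Φ' x = 0 := by
  have hchar : CharP F 2 := (CharP.charP_iff_prime_eq_zero Nat.prime_two).2 h2
  by_cases hx : qf ψ Φ x = 0
  · exact ⟨Φ, hΦ, rfl, hx⟩
  obtain ⟨z, hz1, hz3, w, hw⟩ := h4 x y hxy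
  obtain ⟨u, v, hv, hxu, huv⟩ : ∃ u v, qf ψ Φ v = 0 ∧ bf ψ Φ x u ≠ 0 ∧ bf ψ Φ u v ≠ 0 := by
    by_cases hz : qf ψ Φ z = 0
    · by_cases hxw : bf ψ Φ x w = 0
      · refine ⟨w + y, z, hz, ?_, ?_⟩
        · rw [bf_add_right hψ, hxw, zero_add, hxy]; exact one_ne_zero
        · rw [bf_add_left hψ, hz3, add_zero, bf_comm]; exact hw
      · exact ⟨w, z, hz, hxw, by rw [bf_comm]; exact hw⟩
    · obtain ⟨t, ht⟩ := FiniteField.isSquare_of_char_two (ringChar.eq F 2)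
        (qf ψ Φ x / qf ψ Φ z)
      refine ⟨y, x + t • z, ?_, by rw [hxy]; exact one_ne_zero, ?_⟩
      · have h5 := bf_smul_right hψ Φ t x z
        rw [hz1, mul_zero, bf, qf_smul hψ, ← ht, div_mul_cancel₀ _ hz] at h5
        linear_combination h5 + qf ψ Φ x * h2
      · rw [bf_add_right hψ, bf_smul_right hψ, hz3, mul_zero, add_zero, bf_comm, hxy]
        exact one_ne_zero
  obtain ⟨Φ₁, h1, h3, h5⟩ := exists_move hψ h2 hW hΦ huv
  obtain ⟨Φ₂, h6, h7, h8⟩ := exists_move hψ h2 hW h1 (u := x) (v := u) (by rw [h3]; exact hxu)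
  exact ⟨Φ₂, h6, h7.trans h3, h8.trans (h5.trans hv)⟩

/-- the size of an invariant set of characters -/
theorem orbit_card (hn : 2 ≤ n) {W : Finset (AddChar (symMat F n) ℂ)}
    (hW : ∀ Φ ∈ W, ∀ g gi : Matrix (Fin n) (Fin n) F, g * gi = 1 → act g Φ ∈ W)
    (hne : ∀ Φ ∈ W, ∃ x y, bf ψ Φ x y = 1) (hW0 : W.Nonempty) (Fib M : ℕ)
    (hFib : ∀ Φ ∈ W, Fib ≤ (W.filter fun χ => bf ψ χ = bf ψ Φ).card)
    (hM : ∀ Φ ∈ W, (Finset.univ.filter fun y : Fin n → F => ∃ z, bf ψ Φ z y ≠ 0).card ≤ M) :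
    (Fintype.card F ^ n - 1) *
        ((Fintype.card F ^ (n - 1) - 1) * (Fintype.card F ^ (n - 2) * Fib)) ≤ W.card * M := by
  classical
  have hq := Fintype.one_lt_card (α := F)
  have hlow : ∀ y : {y : Fin n → F // y ≠ 0},
      (Fintype.card F ^ (n - 1) - 1) * (Fintype.card F ^ (n - 2) * Fib) ≤
        (W.filter fun Φ => ∃ z, bf ψ Φ z y.1 ≠ 0).card := by
    intro y
    obtain ⟨Φ₁, hΦ₁⟩ := hW0
    obtain ⟨z₁, y₁, h1⟩ := hne Φ₁ hΦ₁
    have hy₁ : y₁ ≠ 0 := by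
      rintro rfl
      have := bf_smul_right hψ Φ₁ 0 z₁ 0
      rw [zero_smul, zero_mul, h1] at this
      exact one_ne_zero this
    obtain ⟨a, ha⟩ := exists_sl_apply_single hn y.1 y.2
    obtain ⟨b, hb⟩ := exists_sl_apply_single hn y₁ hy₁
    have hba : (b * a⁻¹).1 *ᵥ y.1 = y₁ := by
      rw [← ha, Matrix.mulVec_mulVec]
      change ((b * a⁻¹) * a).1 *ᵥ _ = _
      rw [inv_mul_cancel_right, hb]
    have hgg : ∀ g : SpecialLinearGroup (Fin n) F, g.1 * (g⁻¹).1 = 1 := fun g => by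
      change (g * g⁻¹).1 = 1
      rw [mul_inv_cancel]; rfl
    set Φ₀ := act (b * a⁻¹).1 Φ₁ with hΦ₀def
    have hΦ₀ : Φ₀ ∈ W := hW Φ₁ hΦ₁ _ _ (hgg _)
    obtain ⟨z₀, hz₀⟩ : ∃ z, bf ψ Φ₀ z y.1 = 1 := ⟨((b * a⁻¹)⁻¹).1 *ᵥ z₁, by
      rw [hΦ₀def, bf_act hψ, hba, Matrix.mulVec_mulVec, hgg, Matrix.one_mulVec, h1]⟩
    choose β hβ using fun Φ => exists_coeff hψ Φ y.1
    have hβy : ∀ Φ, β Φ ⬝ᵥ y.1 = 0 := fun Φ => by rw [← hβ, bf_self hψ h2]
    set s := W.filter fun Φ => ∃ z, bf ψ Φ z y.1 ≠ 0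
    set T := ((Finset.univ : Finset (Fin n → F)).filter fun c => y.1 ⬝ᵥ c = 0).erase 0
    have hT : Fintype.card F ^ (n - 1) - 1 ≤ T.card := by
      rw [Finset.card_erase_of_mem (by simp)]
      refine Nat.sub_le_sub_right (Nat.le_of_mul_le_mul_right ?_ (by omega : 0 < Fintype.card F)) 1
      rw [← pow_succ, Nat.sub_add_cancel (by omega)]
      exact card_kernel_one y.1
    refine (Nat.mul_le_mul_right _ hT).trans (card_mul_le_of_fibres s β T _ fun c hc => ?_)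
    obtain ⟨hc0, hc'⟩ := Finset.mem_erase.1 hc
    have hcy : c ⬝ᵥ y.1 = 0 := by rw [dotProduct_comm]; exact (Finset.mem_filter.1 hc').2
    -- move the functional to `c`
    obtain ⟨v, hv0, hvc⟩ : ∃ v, β Φ₀ ⬝ᵥ v = 1 ∧ c ⬝ᵥ v ≠ 0 := by
      have h0 : β Φ₀ ⬝ᵥ z₀ = 1 := by rw [← hβ, hz₀]
      by_cases hcz : c ⬝ᵥ z₀ = 0
      · obtain ⟨i, hi⟩ := Function.ne_iff.1 hc0
        have hw : c ⬝ᵥ (Pi.single i 1) ≠ 0 := by simpa using hi
        by_cases hb0 : β Φ₀ ⬝ᵥ Pi.single i 1 = 0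
        · exact ⟨z₀ + Pi.single i 1, by rw [dotProduct_add, h0, hb0, add_zero],
            by rw [dotProduct_add, hcz, zero_add]; exact hw⟩
        · exact ⟨(β Φ₀ ⬝ᵥ Pi.single i 1)⁻¹ • Pi.single i 1,
            by rw [dotProduct_smul, smul_eq_mul, inv_mul_cancel₀ hb0],
            by rw [dotProduct_smul, smul_eq_mul]; exact mul_ne_zero (inv_ne_zero hb0) hw⟩
      · exact ⟨z₀, h0, hcz⟩
    obtain ⟨gi, hgi⟩ := exists_inv_transvection v (c - β Φ₀) (by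
      rw [sub_dotProduct, hv0, add_sub_cancel]; exact hvc)
    set Φc := act (1 + vecMulVec v (c - β Φ₀)) Φ₀ with hΦcdef
    have hΦc : Φc ∈ W := hW Φ₀ hΦ₀ _ gi hgi
    have hgy : (1 + vecMulVec v (c - β Φ₀)) *ᵥ y.1 = y.1 := by
      rw [transvection_mulVec, sub_dotProduct, hcy, hβy, sub_zero, zero_smul, add_zero]
    have hbc : ∀ x, bf ψ Φc x y.1 = c ⬝ᵥ x := fun x => by
      rw [hΦcdef, bf_act hψ, hgy, transvection_mulVec, bf_add_left hψ, bf_smul_left hψ, hβ, hβ, hv0,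
        mul_one, sub_dotProduct, add_sub_cancel]
    obtain ⟨v₁, hv₁⟩ : ∃ v₁, bf ψ Φc v₁ y.1 = 1 := by
      refine ⟨(c ⬝ᵥ v)⁻¹ • v, ?_⟩
      rw [hbc, dotProduct_smul, smul_eq_mul, inv_mul_cancel₀ hvc]
    -- vary the polar form with fixed functional
    set K := Finset.univ.filter fun f : Fin n → F => y.1 ⬝ᵥ f = 0 ∧ v₁ ⬝ᵥ f = 0
    let ΔB : (Fin n → F) → (Fin n → F) → (Fin n → F) → F := fun f x z =>
      bf ψ Φc x z + (f ⬝ᵥ x) * bf ψ Φc z y.1 + (f ⬝ᵥ z) * bf ψ Φc x y.1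
    have hK : Fintype.card F ^ (n - 2) ≤ (K.image ΔB).card := by
      rw [Finset.card_image_of_injOn]
      · refine Nat.le_of_mul_le_mul_right ?_ (by positivity : 0 < Fintype.card F ^ 2)
        rw [← pow_add, Nat.sub_add_cancel hn]
        exact card_kernel_two y.1 v₁
      · intro f hf f' hf' he
        simp only [K, Finset.coe_filter, Finset.mem_univ, true_and, Set.mem_ofPred_eq] at hf hf'
        funext i
        have h3 := congrFun (congrFun he (Pi.single i 1)) v₁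
        simp only [ΔB, hv₁, mul_one, dotProduct_comm f v₁, dotProduct_comm f' v₁, hf.2, hf'.2,
          zero_mul, add_zero, dotProduct_single, add_right_inj] at h3
        exact h3
    refine (Nat.mul_le_mul_right _ hK).trans (card_mul_le_of_fibres _ (bf ψ) _ _ fun B hB => ?_)
    obtain ⟨f, hf, rfl⟩ := Finset.mem_image.1 hB
    obtain ⟨hfy, -⟩ := (Finset.mem_filter.1 hf).2
    rw [dotProduct_comm] at hfy
    obtain ⟨gi', hgi'⟩ := exists_inv_transvection y.1 f (by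
      rw [hfy, add_zero]; exact one_ne_zero)
    have hΦf := hW Φc hΦc _ gi' hgi'
    have hB : bf ψ (act (1 + vecMulVec y.1 f) Φc) = ΔB f := by
      funext x z
      rw [bf_act hψ, transvection_mulVec, transvection_mulVec]
      simp only [bf_add_left hψ, bf_add_right hψ, bf_smul_left hψ, bf_smul_right hψ,
        bf_self hψ h2, bf_comm Φc y.1 z, mul_zero, add_zero, ΔB]
      ring
    refine (hFib _ hΦf).trans (Finset.card_le_card fun χ hχ => ?_)
    obtain ⟨hχW, hχb⟩ := Finset.mem_filter.1 hχ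
    rw [hB] at hχb
    have hΔy : ∀ x, ΔB f x y.1 = c ⬝ᵥ x := fun x => by
      simp only [ΔB, hfy, bf_self hψ h2, mul_zero, zero_mul, add_zero, hbc, hcy]
    refine Finset.mem_filter.2 ⟨Finset.mem_filter.2 ⟨Finset.mem_filter.2 ⟨hχW, ?_⟩, ?_⟩, hχb⟩
    · exact ⟨v, by rw [hχb, hΔy]; exact hvc⟩
    · funext i
      have h3 := hβ χ (Pi.single i 1)
      rw [hχb, hΔy, dotProduct_single, dotProduct_single, mul_one, mul_one] at h3
      exact h3.symm
  have hup : ∀ Φ ∈ W, (Finset.univ.filter fun y : {y : Fin n → F // y ≠ 0} =>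
      ∃ z, bf ψ Φ z y.1 ≠ 0).card ≤ M := fun Φ hΦ => by
    refine le_trans (le_of_eq (Finset.card_map ⟨Subtype.val, Subtype.val_injective⟩).symm)
      ((Finset.card_le_card fun x hx => ?_).trans (hM Φ hΦ))
    obtain ⟨a, ha, rfl⟩ := Finset.mem_map.1 hx
    exact Finset.mem_filter.2 ⟨Finset.mem_univ _, (Finset.mem_filter.1 ha).2⟩
  have h := double_count W (fun Φ (y : {y : Fin n → F // y ≠ 0}) => ∃ z, bf ψ Φ z y.1 ≠ 0) _ _
    hlow hup
  have hcard : Fintype.card {y : Fin n → F // y ≠ 0} = Fintype.card F ^ n - 1 := by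
    simp [Fintype.card_subtype_compl]
  rwa [hcard] at h

/-- combining the two cases -/
theorem invariant_card (hn : 2 ≤ n) {W : Finset (AddChar (symMat F n) ℂ)}
    (hW : ∀ Φ ∈ W, ∀ g gi : Matrix (Fin n) (Fin n) F, g * gi = 1 → act g Φ ∈ W)
    (hne : ∀ Φ ∈ W, ∃ x y, bf ψ Φ x y = 1) (hW0 : W.Nonempty) :
    (Fintype.card F ^ n - 1) * (Fintype.card F ^ n - Fintype.card F) ≤
      W.card * (2 * (Fintype.card F + 1)) := by
  classical
  set q := Fintype.card F with hq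
  have hq1 : 2 ≤ q := Fintype.one_lt_card
  obtain ⟨r, rfl⟩ : ∃ r, n = r + 2 := ⟨n - 2, by omega⟩
  have e1 : q ^ (r + 2) - q = q * (q ^ (r + 1) - 1) := by
    rw [Nat.mul_sub, mul_one, ← pow_succ']
  by_cases hall : ∀ Φ ∈ W, Rank4 ψ Φ
  · have key : ∀ Φ ∈ W, (q * (q - 1) / 2 + 1) ≤ (W.filter fun χ => bf ψ χ = bf ψ Φ).card := by
      intro Φ hΦ
      obtain ⟨x, y, hxy⟩ := hne Φ hΦ
      have h := fibre_card hψ h2 hW hΦ hxy
      obtain ⟨Φ', h1, h3, h4⟩ := rank4_fibre_zero hψ h2 hW hΦ hxy (hall Φ hΦ)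
      have : 0 < ((W.filter fun χ => bf ψ χ = bf ψ Φ).filter fun χ => qf ψ χ x = 0).card :=
        Finset.card_pos.2 ⟨Φ', Finset.mem_filter.2 ⟨Finset.mem_filter.2 ⟨h1, h3⟩, h4⟩⟩
      rw [← hq] at h
      omega
    have h := orbit_card hψ h2 hn hW hne hW0 _ (q ^ (r + 2) - 1) key (fun Φ hΦ => by
      refine (Finset.card_le_card (t := (Finset.univ : Finset (Fin (r + 2) → F)).erase 0)
        fun y hy => ?_).trans (le_of_eq ?_)
      · obtain ⟨z, hz⟩ := (Finset.mem_filter.1 hy).2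
        refine Finset.mem_erase.2 ⟨?_, Finset.mem_univ _⟩
        rintro rfl
        apply hz
        have := bf_smul_right hψ Φ 0 z 0
        rwa [zero_smul, zero_mul] at this
      · rw [Finset.card_erase_of_mem (Finset.mem_univ _), Finset.card_univ, Fintype.card_fun,
          Fintype.card_fin])
    rw [← hq, Nat.add_sub_cancel, show r + 2 - 1 = r + 1 from rfl] at h
    have hpos : 0 < q ^ (r + 2) - 1 := Nat.sub_pos_of_lt (Nat.one_lt_pow (by omega) hq1)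
    rw [mul_comm W.card] at h
    have h' := Nat.le_of_mul_le_mul_left h hpos
    obtain ⟨l, hl⟩ : 2 ∣ q * (q - 1) := (Nat.even_mul_pred_self q).two_dvd
    rw [hl, Nat.mul_div_cancel_left _ two_pos] at h'
    have hbig : q ^ (r + 2) * q ≤ q ^ r * (l + 1) * (2 * (q + 1)) := by
      have : q * q * q ≤ (l + 1) * (2 * (q + 1)) := by
        have e2 : (l + 1) * (2 * (q + 1)) = (2 * l + 2) * (q + 1) := by ring
        rw [e2, ← hl]
        obtain ⟨p, hp⟩ : ∃ p, q = p + 1 := ⟨q - 1, by omega⟩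
        rw [hp, Nat.add_sub_cancel]
        nlinarith
      calc q ^ (r + 2) * q = q ^ r * (q * q * q) := by ring
        _ ≤ q ^ r * ((l + 1) * (2 * (q + 1))) := Nat.mul_le_mul_left _ this
        _ = _ := by ring
    calc (q ^ (r + 2) - 1) * (q ^ (r + 2) - q)
        ≤ q ^ (r + 2) * (q * (q ^ (r + 1) - 1)) := by
          rw [e1]; exact Nat.mul_le_mul_right _ (Nat.sub_le _ _)
      _ = (q ^ (r + 1) - 1) * (q ^ (r + 2) * q) := by ring
      _ ≤ (q ^ (r + 1) - 1) * (q ^ r * (l + 1) * (2 * (q + 1))) := Nat.mul_le_mul_left _ hbig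
      _ = (q ^ (r + 1) - 1) * (q ^ r * (l + 1)) * (2 * (q + 1)) := by ring
      _ ≤ _ := Nat.mul_le_mul_right _ h'
  · push Not at hall
    set W₂ := W.filter fun Φ => ¬ Rank4 ψ Φ with hW₂
    have hW₂' : ∀ Φ ∈ W₂, ∀ g gi : Matrix (Fin (r + 2)) (Fin (r + 2)) F, g * gi = 1 →
        act g Φ ∈ W₂ := fun Φ hΦ g gi hg => by
      obtain ⟨h1, h3⟩ := Finset.mem_filter.1 hΦ
      exact Finset.mem_filter.2 ⟨hW Φ h1 g gi hg, fun h4 => h3 (rank4_of_act hψ hg h4)⟩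
    have key : ∀ Φ ∈ W₂, q * (q - 1) / 2 ≤ (W₂.filter fun χ => bf ψ χ = bf ψ Φ).card := by
      intro Φ hΦ
      obtain ⟨x, y, hxy⟩ := hne Φ (Finset.mem_filter.1 hΦ).1
      have h := fibre_card hψ h2 hW₂' hΦ hxy
      rw [← hq] at h
      omega
    have hM : ∀ Φ ∈ W₂, (Finset.univ.filter fun y : Fin (r + 2) → F => ∃ z, bf ψ Φ z y ≠ 0).card ≤
        q ^ (r + 2) - q ^ r := by
      intro Φ hΦ
      obtain ⟨-, h3⟩ := Finset.mem_filter.1 hΦ
      unfold Rank4 at h3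
      push Not at h3
      obtain ⟨x, y, -, hxy⟩ := h3
      obtain ⟨a, ha⟩ := exists_coeff hψ Φ x
      obtain ⟨b, hb⟩ := exists_coeff hψ Φ y
      refine (Finset.card_le_card (t := (Finset.univ : Finset (Fin (r + 2) → F)) \
        Finset.univ.filter fun z => a ⬝ᵥ z = 0 ∧ b ⬝ᵥ z = 0) fun z hz => ?_).trans ?_
      · refine Finset.mem_sdiff.2 ⟨Finset.mem_univ _, fun hz' => ?_⟩
        obtain ⟨w, hw⟩ := (Finset.mem_filter.1 hz).2
        obtain ⟨h5, h6⟩ := (Finset.mem_filter.1 hz').2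
        rw [← ha, bf_comm] at h5
        rw [← hb, bf_comm] at h6
        rw [bf_comm] at hw
        exact hw (hxy z h5 h6 w)
      · rw [Finset.card_sdiff, Finset.inter_univ, Finset.card_univ, Fintype.card_fun,
          Fintype.card_fin]
        refine Nat.sub_le_sub_left (Nat.le_of_mul_le_mul_right ?_ (by positivity : 0 < q ^ 2)) _
        rw [← pow_add]
        exact card_kernel_two a b
    obtain ⟨Φ₀, hΦ₀, hΦ₀'⟩ := hall
    have h := orbit_card hψ h2 hn hW₂' (fun Φ hΦ => hne Φ (Finset.mem_filter.1 hΦ).1)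
      ⟨Φ₀, Finset.mem_filter.2 ⟨hΦ₀, hΦ₀'⟩⟩ _ _ key hM
    rw [← hq, Nat.add_sub_cancel, show r + 2 - 1 = r + 1 from rfl] at h
    obtain ⟨l, hl⟩ : 2 ∣ q * (q - 1) := (Nat.even_mul_pred_self q).two_dvd
    rw [hl, Nat.mul_div_cancel_left _ two_pos] at h
    have e3 : q ^ (r + 2) - q ^ r = q ^ r * ((q - 1) * (q + 1)) := by
      rw [mul_comm (q - 1), ← Nat.sq_sub_sq, one_pow, Nat.mul_sub, mul_one, ← pow_add]
    rw [e3] at h
    refine le_trans ?_ (Nat.mul_le_mul_right _ (Finset.card_le_card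
      (show W₂ ⊆ W from fun Φ hΦ => (Finset.mem_filter.1 hΦ).1)))
    have hpos : 0 < q ^ r * (q - 1) := Nat.mul_pos (pow_pos (by omega) _) (by omega)
    refine Nat.le_of_mul_le_mul_right ?_ hpos
    rw [e1]
    calc (q ^ (r + 2) - 1) * (q * (q ^ (r + 1) - 1)) * (q ^ r * (q - 1))
        = (q ^ (r + 2) - 1) * ((q ^ (r + 1) - 1) * (q ^ r * (q * (q - 1)))) := by ring
      _ = 2 * ((q ^ (r + 2) - 1) * ((q ^ (r + 1) - 1) * (q ^ r * l))) := by rw [hl]; ring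
      _ ≤ 2 * (W₂.card * (q ^ r * ((q - 1) * (q + 1)))) := Nat.mul_le_mul_left _ h
      _ = W₂.card * (2 * (q + 1)) * (q ^ r * (q - 1)) := by ring

end Cfsg.Agent.MinDeg.SpEven
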