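import Cfsg.Agent.MinDeg.SpEvenBound
import Cfsg.Agent.Weights.Over
import Cfsg.Agent.Linear.Symplectic

/-!
The minimal degree of `Sp_2n(q)`, `q` even.
-/

namespace Cfsg.Agent.MinDeg.SpEven

open Matrix Cfsg.Agent.Weights

variable {F : Type*} [Field F] {n : ℕ}

/-- Siegel elements -/
def siegelS (S : symMat F n) : Matrix.symplecticGroup (Fin n) F :=
  ⟨fromBlocks 1 S.1 0 1, by
    rw [SymplecticGroup.mem_iff, Matrix.J, fromBlocks_transpose, fromBlocks_multiply,
      fromBlocks_multiply]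
    simp [show (S.1)ᵀ = S.1 from S.2]⟩

theorem siegelS_add (S T : symMat F n) : siegelS (S + T) = siegelS S * siegelS T := by
  apply Subtype.ext
  change fromBlocks 1 (S.1 + T.1) 0 1 = fromBlocks 1 S.1 0 1 * fromBlocks 1 T.1 0 1
  rw [fromBlocks_multiply]
  simp [add_comm]

theorem exists_levi (g gi : Matrix (Fin n) (Fin n) F) (hg : g * gi = 1) :
    ∃ L : Matrix.symplecticGroup (Fin n) F,
      ∀ S, siegelS S * L⁻¹ = L⁻¹ * siegelS (conjS g S) := by
  have h' : gi * g = 1 := mul_eq_one_comm.1 hg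
  refine ⟨⟨fromBlocks g 0 0 giᵀ, ?_⟩, fun S => ?_⟩
  · rw [SymplecticGroup.mem_iff, Matrix.J, fromBlocks_transpose, fromBlocks_multiply,
      fromBlocks_multiply]
    simp only [Matrix.transpose_zero, Matrix.transpose_transpose, Matrix.mul_zero, Matrix.zero_mul,
      add_zero, zero_add, Matrix.mul_neg, Matrix.mul_one, Matrix.neg_mul, hg, ← Matrix.transpose_mul,
      Matrix.transpose_one]
    rw [neg_zero]
  set L : Matrix.symplecticGroup (Fin n) F := ⟨fromBlocks g 0 0 giᵀ, _⟩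
  have key : L * siegelS S = siegelS (conjS g S) * L := by
    apply Subtype.ext
    change fromBlocks g 0 0 giᵀ * fromBlocks 1 S.1 0 1 =
      fromBlocks 1 (g * S.1 * gᵀ) 0 1 * fromBlocks g 0 0 giᵀ
    rw [fromBlocks_multiply, fromBlocks_multiply]
    congr 1 <;> simp [Matrix.mul_assoc, ← Matrix.transpose_mul, h']
  rw [eq_inv_mul_iff_mul_eq, ← mul_assoc, key, mul_inv_cancel_right]

theorem sp_even_bound [Fintype F] (hn : 2 ≤ n) (heven : Even (Fintype.card F))
    (hex : (n, Fintype.card F) ≠ (2, 2)) {V : Type*} [AddCommGroup V] [Module ℂ V]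
    [FiniteDimensional ℂ V] (R : Matrix.symplecticGroup (Fin n) F →* Module.End ℂ V)
    (hR : ∃ g, R g ≠ 1) :
    (Fintype.card F ^ n - 1) * (Fintype.card F ^ n - Fintype.card F) ≤
      Module.finrank ℂ V * (2 * (Fintype.card F + 1)) := by
  classical
  have hchar : ringChar F = 2 :=
    FiniteField.even_card_iff_char_two.2 (Nat.even_iff.1 heven)
  have : CharP F 2 := ringChar.of_eq hchar
  have h2 : (2 : F) = 0 := CharTwo.two_eq_zero
  obtain ⟨ψ, hψ0⟩ := (AddChar.exists_apply_ne_zero (α := F) (a := 1)).2 one_ne_zero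
  have hψ : ψ.IsPrimitive := AddChar.IsPrimitive.of_ne_one fun h => hψ0 (by rw [h]; rfl)
  have : NeZero n := ⟨by omega⟩
  have hq1 := Fintype.one_lt_card (α := F)
  have hsimple : IsSimpleGroup (Cfsg.PSp n F) := by
    refine Linear.Symp.isSimpleGroup_PSp_of_perfect (Linear.Symp.commutator_eq_top ?_)
    rcases hn.eq_or_lt with rfl | h3
    · refine Or.inr (Or.inl ⟨rfl, ?_⟩)
      by_contra hlt
      exact hex (Prod.ext rfl (by omega))
    · exact Or.inl h3
  have hfaith : ∀ g, R g = 1 → g = 1 := by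
    have hcard : Nat.card (Subgroup.center (Matrix.symplecticGroup (Fin n) F)) = 1 := by
      rw [Linear.Symp.card_center]
      obtain ⟨l, hl⟩ := heven
      rw [hl, show l + l - 1 = 2 * (l - 1) + 1 by omega]
      simp [Nat.gcd_mul_left_add_right]
    have hc : Subgroup.center (Matrix.symplecticGroup (Fin n) F) = ⊥ :=
      Subgroup.card_eq_one.1 hcard
    let e : Matrix.symplecticGroup (Fin n) F ≃* Cfsg.PSp n F :=
      ((QuotientGroup.quotientMulEquivOfEq hc).trans QuotientGroup.quotientBot).symm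
    haveI : IsSimpleGroup (Matrix.symplecticGroup (Fin n) F) :=
      MulEquiv.isSimpleGroup e
    rcases (inferInstance : R.ker.Normal).eq_bot_or_eq_top with h | h
    · intro g hg
      have : g ∈ R.ker := hg
      rwa [h, Subgroup.mem_bot] at this
    · obtain ⟨g, hg⟩ := hR
      exact absurd (MonoidHom.mem_ker.1 (show g ∈ R.ker by rw [h]; exact Subgroup.mem_top g)) hg
  let i₀ : Fin n := ⟨0, by omega⟩
  let i₁ : Fin n := ⟨1, by omega⟩
  set M₀ : symMat F n := cross (Pi.single i₀ 1) (Pi.single i₁ 1) with hM₀def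
  have hM₀ : R (siegelS M₀) ≠ 1 := by
    intro h
    have h1 := congrFun (congrFun (congrArg Subtype.val (hfaith _ h)) (Sum.inl i₀)) (Sum.inr i₁)
    simp [siegelS, hM₀def, cross, vecMulVec_apply, i₀, i₁] at h1
  have hinj : ∀ g, Function.Injective (R g) := fun g x y h => by
    have := congrArg (R g⁻¹) h
    rwa [← Module.End.mul_apply, ← Module.End.mul_apply, ← map_mul, inv_mul_cancel, map_one,
      Module.End.one_apply, Module.End.one_apply] at this
  have ht0 : siegelS (0 : symMat F n) = 1 := Subtype.ext (fromBlocks_one)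
  have hp : (2 : ℕ) • M₀ = 0 := by
    rw [← Nat.cast_smul_eq_nsmul F, Nat.cast_ofNat, h2, zero_smul]
  obtain ⟨χ₀, hχ₀, hχ₀1⟩ := exists_weight_ne_one (fun S => R (siegelS S))
    (fun a b => by rw [← map_mul, ← map_mul, ← siegelS_add, ← siegelS_add, add_comm a b]) M₀ 2
    (by norm_num)
    (by rw [← map_pow, pow_two, ← siegelS_add, ← two_nsmul, hp, ht0, map_one]) hM₀
  obtain ⟨Φ₀, rfl⟩ := weight_addChar R siegelS siegelS_add χ₀ hχ₀
  set W : Finset (AddChar (symMat F n) ℂ) := Finset.univ.filter fun Φ =>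
    IsWeight (fun S => R (siegelS S)) ⇑Φ ∧ ∃ x y, bf ψ Φ x y = 1 with hWdef
  have hW0 : W.Nonempty := by
    refine ⟨Φ₀, Finset.mem_filter.2 ⟨Finset.mem_univ _, hχ₀, Pi.single i₀ 1,
      (bf ψ Φ₀ (Pi.single i₀ 1) (Pi.single i₁ 1))⁻¹ • Pi.single i₁ 1, ?_⟩⟩
    rw [bf_smul_right hψ, inv_mul_cancel₀]
    intro h
    apply hχ₀1
    have := bf_spec hψ Φ₀ (Pi.single i₀ 1) (Pi.single i₁ 1) 1
    rwa [h, one_smul, zero_mul, AddChar.map_zero_eq_one] at this
  have hW : ∀ Φ ∈ W, ∀ g gi : Matrix (Fin n) (Fin n) F, g * gi = 1 → act g Φ ∈ W := by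
    intro Φ hΦ g gi hg
    obtain ⟨-, h1, x, y, hxy⟩ := Finset.mem_filter.1 hΦ
    refine Finset.mem_filter.2 ⟨Finset.mem_univ _, ?_, gi *ᵥ x, gi *ᵥ y, ?_⟩
    · obtain ⟨L, hL⟩ := exists_levi g gi hg
      exact h1.transport (R L⁻¹) (hinj _) (conjS g) (fun S => by rw [← map_mul, ← map_mul, hL])
    · rw [bf_act hψ, Matrix.mulVec_mulVec, Matrix.mulVec_mulVec, hg, Matrix.one_mulVec,
        Matrix.one_mulVec, hxy]
  have h := invariant_card hψ h2 hn hW (fun Φ hΦ => (Finset.mem_filter.1 hΦ).2.2) hW0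
  refine h.trans (Nat.mul_le_mul_right _ ?_)
  have := card_weights_le (ι := W) (fun S => R (siegelS S)) (fun Φ => ⇑Φ.1)
    (fun a b hab => Subtype.ext (DFunLike.coe_injective hab))
    (fun Φ => (Finset.mem_filter.1 Φ.2).2.1)
  simpa using this

end Cfsg.Agent.MinDeg.SpEven
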